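import Mathlib
import Cfsg.Prelude.Def_G2

/-!
# The automorphism group of the Zorn algebra as a group of linear equivalences

`AutO F` is the group of linear automorphisms of `Fin 8 → F` preserving `Cfsg.Lie.zornMul`;
`g2Equiv` identifies it with `Cfsg.Lie.G2 F`.
-/

set_option autoImplicit false

namespace Cfsg.Agent.Lib.Helper42.G2Base

open Matrix

variable (F : Type*) [Field F]

/-- The linear automorphisms of the Zorn vector-matrix algebra. -/
def AutO : Subgroup ((Fin 8 → F) ≃ₗ[F] (Fin 8 → F)) where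
  carrier := {φ | ∀ x y, φ (Cfsg.Lie.zornMul x y) = Cfsg.Lie.zornMul (φ x) (φ y)}
  mul_mem' := by
    intro a b ha hb x y
    rw [LinearEquiv.mul_apply, LinearEquiv.mul_apply, LinearEquiv.mul_apply, hb, ha]
  one_mem' := by
    intro x y
    rfl
  inv_mem' := by
    intro a ha x y
    apply a.injective
    rw [ha]
    change (a * a⁻¹) _ = Cfsg.Lie.zornMul ((a * a⁻¹) x) ((a * a⁻¹) y)
    rw [mul_inv_cancel]
    rfl

theorem mem_AutO {φ : (Fin 8 → F) ≃ₗ[F] (Fin 8 → F)} :
    φ ∈ AutO F ↔ ∀ x y, φ (Cfsg.Lie.zornMul x y) = Cfsg.Lie.zornMul (φ x) (φ y) := Iff.rfl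

/-- Invertible matrices as linear equivalences. -/
noncomputable def glEquiv :
    Matrix.GeneralLinearGroup (Fin 8) F ≃* ((Fin 8 → F) ≃ₗ[F] (Fin 8 → F)) :=
  Matrix.GeneralLinearGroup.toLin.trans
    (LinearMap.GeneralLinearGroup.generalLinearEquiv F (Fin 8 → F))

theorem glEquiv_apply (g : Matrix.GeneralLinearGroup (Fin 8) F) (x : Fin 8 → F) :
    glEquiv F g x = (g : Matrix (Fin 8) (Fin 8) F) *ᵥ x := by
  rfl

theorem mem_G2_iff (g : Matrix.GeneralLinearGroup (Fin 8) F) :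
    g ∈ Cfsg.Lie.G2 F ↔ glEquiv F g ∈ AutO F := by
  rfl

/-- `G₂(F)` as a group of linear equivalences. -/
noncomputable def g2Equiv : ↥(Cfsg.Lie.G2 F) ≃* ↥(AutO F) where
  toFun g := ⟨glEquiv F g.1, (mem_G2_iff F g.1).mp g.2⟩
  invFun φ := ⟨(glEquiv F).symm φ.1, by
    rw [mem_G2_iff, MulEquiv.apply_symm_apply]
    exact φ.2⟩
  left_inv g := by
    apply Subtype.ext
    exact (glEquiv F).symm_apply_apply g.1
  right_inv φ := by
    apply Subtype.ext
    exact (glEquiv F).apply_symm_apply φ.1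
  map_mul' a b := by
    apply Subtype.ext
    exact map_mul (glEquiv F) a.1 b.1

/-- The identity of the Zorn algebra. -/
def one8 : Fin 8 → F := ![1, 0, 0, 0, 0, 0, 0, 1]

/-- The standard primitive idempotent. -/
def e0 : Fin 8 → F := ![1, 0, 0, 0, 0, 0, 0, 0]

/-- The idempotents other than `0` and `1`. -/
def IsIdem (e : Fin 8 → F) : Prop :=
  Cfsg.Lie.zornMul e e = e ∧ e ≠ 0 ∧ e ≠ one8 F

end Cfsg.Agent.Lib.Helper42.G2Base
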