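import Mathlib

/-!
# Minimal degree of a complex representation of the small Ree group: statement file (S2343)

`q = 3^(2m+1)`.  A nontrivial irreducible complex representation of `R = ²G₂(q)` has degree at
least `q² - q + 1`.  Proof: restrict to the abelian subgroup `A = {x(0,u,v)}` of order `q²` of
the Sylow 3-subgroup `U = {x(t,u,v)}`; a simultaneous eigenvector with a character `μ`
nontrivial on the centre `Z = {x(0,0,v)}` has `q(q-1)` translates under `U/A × H` with pairwise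
distinct characters, so the degree is at least `q(q-1)`; in case of equality the involution
`t ∈ H` has trace `0`, hence every involution has trace `0`, and a Klein four-group forces
`4 ∣ q(q-1)`, which is false.
-/

set_option autoImplicit false

namespace Cfsg.Agent.Lib.Helper42.ReeDegStmt

universe u v

/-! ## the abstract group-theoretic axioms -/

/-- facts about `Z ≤ A ≤ U`: `A` abelian of index `q` in `U`, normalized by `U`; `Z` central in
`U`; for `x ∈ U ∖ A` the commutator map `a ↦ [x, a]` maps `A` onto `Z` -/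
structure UFacts (G : Type u) [Group G] (Z A U : Subgroup G) (q : ℕ) : Prop where
  ZA : Z ≤ A
  AU : A ≤ U
  commA : ∀ a ∈ A, ∀ b ∈ A, a * b = b * a
  normU : ∀ x ∈ U, ∀ a ∈ A, x * a * x⁻¹ ∈ A
  centZ : ∀ x ∈ U, ∀ z ∈ Z, x * z * x⁻¹ = z
  cardU : Nat.card U = q * Nat.card A
  stabU : ∀ x ∈ U, x ∉ A → ∀ z ∈ Z, ∃ a ∈ A, x * a * x⁻¹ * a⁻¹ = z
  exZ : ∃ z ∈ Z, z ≠ 1

/-- facts about `H` (of order `q - 1`, normalizing `A` and `Z`, with `w ↦ [h, w]` onto `Z` for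
`h ≠ 1`) and its involution `t` -/
structure HFacts (G : Type u) [Group G] (Z A H : Subgroup G) (t : G) (q : ℕ) : Prop where
  normHA : ∀ h ∈ H, ∀ a ∈ A, h * a * h⁻¹ ∈ A
  normHZ : ∀ h ∈ H, ∀ z ∈ Z, h * z * h⁻¹ ∈ Z
  cardH : Nat.card H = q - 1
  stabH : ∀ h ∈ H, h ≠ 1 → ∀ z ∈ Z, ∃ w ∈ Z, h * w * h⁻¹ * w⁻¹ = z
  tH : t ∈ H
  tInv : orderOf t = 2

/-- all the axioms -/
structure RAx (G : Type u) [Group G] (Z A U H : Subgroup G) (t : G) (q : ℕ) : Prop where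
  uf : UFacts G Z A U q
  hf : HFacts G Z A H t q
  invConj : ∀ s : G, orderOf s = 2 → ∃ x : G, x * t * x⁻¹ = s
  klein : ∃ a b : G, orderOf a = 2 ∧ orderOf b = 2 ∧ a ≠ b ∧ a * b = b * a
  simple : IsSimpleGroup G
  mod4 : q * (q - 1) % 4 = 2

/-! ## the representation-theoretic pieces (Mathlib only) -/

/-- KER: a nontrivial irreducible representation of a simple group is faithful -/
def KerP : Prop :=
  ∀ (G : Type u) [Group G], IsSimpleGroup G →
    ∀ (k : ℕ) (ρ : Representation ℂ G (Fin k → ℂ)), ρ.IsIrreducible → 2 ≤ k →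
      ∀ g : G, g ≠ 1 → ρ g ≠ 1

/-- EIG: a common eigenvector of an abelian subgroup whose character is nontrivial at `z` -/
def EigP : Prop :=
  ∀ (G : Type u) [Group G] [Finite G] (A : Subgroup G), (∀ a ∈ A, ∀ b ∈ A, a * b = b * a) →
    ∀ (k : ℕ) (ρ : Representation ℂ G (Fin k → ℂ)) (z : G), z ∈ A → ρ z ≠ 1 →
      ∃ (μ : G → ℂ) (w : Fin k → ℂ), w ≠ 0 ∧ (∀ a ∈ A, ρ a w = μ a • w) ∧ μ z ≠ 1

/-- INDEP: simultaneous eigenvectors with pairwise distinct characters are linearly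
independent -/
def IndepP : Prop :=
  ∀ (G : Type u) [Group G] (A : Subgroup G) (k n : ℕ) (ρ : Representation ℂ G (Fin k → ℂ))
    (μ : Fin n → G → ℂ) (w : Fin n → (Fin k → ℂ)),
    (∀ j, w j ≠ 0) → (∀ j, ∀ a ∈ A, ρ a (w j) = μ j a • w j) →
    (∀ i j, i ≠ j → ∃ a ∈ A, μ i a ≠ μ j a) → LinearIndependent ℂ w

/-- TRZ: if a basis of simultaneous eigenvectors of `A` has all its characters moved by `g`
(which normalizes `A`), then `ρ g` has trace `0` -/
def TrzP : Prop :=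
  ∀ (G : Type u) [Group G] (A : Subgroup G) (k : ℕ) (ρ : Representation ℂ G (Fin k → ℂ))
    (μ : Fin k → G → ℂ) (w : Fin k → (Fin k → ℂ)),
    LinearIndependent ℂ w → (∀ j, ∀ a ∈ A, ρ a (w j) = μ j a • w j) →
    ∀ g : G, (∀ a ∈ A, g⁻¹ * a * g ∈ A) → (∀ j, ∃ a ∈ A, μ j (g⁻¹ * a * g) ≠ μ j a) →
      LinearMap.trace ℂ (Fin k → ℂ) (ρ g) = 0

/-- K4: if the three involutions of a Klein four-group have trace `0` then `4 ∣ k` -/
def K4P : Prop :=
  ∀ (G : Type u) [Group G] (k : ℕ) (ρ : Representation ℂ G (Fin k → ℂ)) (a b : G),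
    a * a = 1 → b * b = 1 → a * b = b * a →
    LinearMap.trace ℂ (Fin k → ℂ) (ρ a) = 0 → LinearMap.trace ℂ (Fin k → ℂ) (ρ b) = 0 →
    LinearMap.trace ℂ (Fin k → ℂ) (ρ (a * b)) = 0 → 4 ∣ k

/-- ORB: `q(q-1)` elements `g j` (coset representatives of `A` in `U` times elements of `H`)
normalizing `A` and `Z` such that the conjugates `a ↦ μ((g j)⁻¹ a (g j))` of any character
`μ` of `A` nontrivial on `Z` are pairwise distinct -/
def OrbP : Prop :=
  ∀ (G : Type u) [Group G] [Finite G] (Z A U H : Subgroup G) (t : G) (q : ℕ),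
    UFacts G Z A U q → HFacts G Z A H t q →
    ∃ g : Fin (q * (q - 1)) → G,
      (∀ j, ∀ a ∈ A, (g j)⁻¹ * a * g j ∈ A ∧ g j * a * (g j)⁻¹ ∈ A) ∧
      (∀ j, ∀ z ∈ Z, (g j)⁻¹ * z * g j ∈ Z ∧ g j * z * (g j)⁻¹ ∈ Z) ∧
      ∀ μ : G → ℂ, (∀ a ∈ A, ∀ b ∈ A, μ (a * b) = μ a * μ b) → (∀ a ∈ A, μ a ≠ 0) →
        (∃ z ∈ Z, μ z ≠ 1) →
        ∀ i j, i ≠ j → ∃ a ∈ A, μ ((g i)⁻¹ * a * g i) ≠ μ ((g j)⁻¹ * a * g j)

/-! ## the parametrized pieces (Mathlib only): `x t u v` = elements of `U`, `e s` = torus -/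

/-- the parametrization: group law of the `x t u v`, action of the `e s` -/
structure Par {Γ : Type u} [Group Γ] (R : Subgroup Γ) (K : Type v) [Field K] [Fintype K]
    (φ : K →+* K) (x : K → K → K → Γ) (e : K → Γ) : Prop where
  x_mem : ∀ t u v, x t u v ∈ R
  x_inj : ∀ t u v t' u' v', x t u v = x t' u' v' → t = t' ∧ u = u' ∧ v = v'
  x_mul : ∀ t u v t' u' v', x t u v * x t' u' v' =
    x (t + t') (u + u' - t * φ t' ^ 3) (v + v' - u * t' - t ^ 2 * φ t' ^ 3 + t * t' * φ t' ^ 3)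
  e_mem : ∀ s, s ≠ 0 → e s ∈ R
  e_inj : ∀ s s', s ≠ 0 → s' ≠ 0 → e s = e s' → s = s'
  e_mul : ∀ s s', s ≠ 0 → s' ≠ 0 → e (s * s') = e s * e s'
  e_x : ∀ s, s ≠ 0 → ∀ t u v,
    e s * x t u v = x (s ^ 2 / φ s ^ 3 * t) (φ s ^ 3 / s * u) (s * v) * e s
  neg_one : (-1 : K) ≠ 1

/-- the subgroups `Z ≤ A ≤ U` of `↥R` by their elements -/
structure Mem {Γ : Type u} [Group Γ] (R : Subgroup Γ) {K : Type v} [Field K]
    (x : K → K → K → Γ) (Z A U : Subgroup ↥R) : Prop where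
  memU : ∀ g : ↥R, g ∈ U ↔ ∃ t u v, (g : Γ) = x t u v
  memA : ∀ g : ↥R, g ∈ A ↔ ∃ u v, (g : Γ) = x 0 u v
  memZ : ∀ g : ↥R, g ∈ Z ↔ ∃ v, (g : Γ) = x 0 0 v

/-- PARS: the three sets are subgroups -/
def ParSP : Prop :=
  ∀ {Γ : Type u} [Group Γ] (R : Subgroup Γ) (K : Type v) [Field K] [Fintype K]
    (φ : K →+* K) (x : K → K → K → Γ) (e : K → Γ), Par R K φ x e →
    ∃ Z A U : Subgroup ↥R, Mem R x Z A U

/-- PARU: the facts about `Z ≤ A ≤ U` -/
def ParUP : Prop :=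
  ∀ {Γ : Type u} [Group Γ] (R : Subgroup Γ) (K : Type v) [Field K] [Fintype K]
    (φ : K →+* K) (x : K → K → K → Γ) (e : K → Γ), Par R K φ x e →
    ∀ Z A U : Subgroup ↥R, Mem R x Z A U → UFacts ↥R Z A U (Fintype.card K)

/-- PARH: the torus `H = {e s}` and its involution `t = e (-1)` -/
def ParHP : Prop :=
  ∀ {Γ : Type u} [Group Γ] (R : Subgroup Γ) (K : Type v) [Field K] [Fintype K]
    (φ : K →+* K) (x : K → K → K → Γ) (e : K → Γ), Par R K φ x e →
    ∀ Z A U : Subgroup ↥R, Mem R x Z A U →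
      ∃ (H : Subgroup ↥R) (t : ↥R), HFacts ↥R Z A H t (Fintype.card K)

end Cfsg.Agent.Lib.Helper42.ReeDegStmt
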