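import Mathlib

set_option autoImplicit false

namespace Cfsg.Agent.Lib.Helper42.A6Comp

set_option maxRecDepth 100000 in
theorem perm6_even_pow : ∀ σ : Equiv.Perm (Fin 6), Equiv.Perm.sign σ = 1 →
    σ ^ 2 = 1 ∨ σ ^ 3 = 1 ∨ σ ^ 4 = 1 ∨ σ ^ 5 = 1 := by
  decide +kernel

set_option maxRecDepth 100000 in
theorem perm6_count3 :
    (Finset.univ.filter (fun σ : Equiv.Perm (Fin 6) => σ ^ 3 = 1)).card = 81 := by
  decide +kernel

set_option maxRecDepth 100000 in
theorem perm6_count5 :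
    (Finset.univ.filter (fun σ : Equiv.Perm (Fin 6) => σ ^ 5 = 1)).card = 145 := by
  decide +kernel

end Cfsg.Agent.Lib.Helper42.A6Comp
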