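import Mathlib
import Cfsg.Agent.Lib.Helper42.A6Comp

set_option autoImplicit false

namespace Cfsg.Agent.Lib.Helper42.A6Facts

open Cfsg.Agent.Lib.Helper42.A6Comp

/-- every element of `A₆` has order at most five -/
theorem alt6_pow (σ : alternatingGroup (Fin 6)) :
    σ ^ 2 = 1 ∨ σ ^ 3 = 1 ∨ σ ^ 4 = 1 ∨ σ ^ 5 = 1 := by
  rcases perm6_even_pow σ.1 (Equiv.Perm.mem_alternatingGroup.mp σ.2) with h | h | h | h
  · exact Or.inl (Subtype.ext h)
  · exact Or.inr (Or.inl (Subtype.ext h))
  · exact Or.inr (Or.inr (Or.inl (Subtype.ext h)))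
  · exact Or.inr (Or.inr (Or.inr (Subtype.ext h)))

theorem alt6_card_order_le (k : ℕ) (hk : 2 ≤ k) :
    Nat.card {σ : alternatingGroup (Fin 6) // orderOf σ = k} + 1 ≤
      (Finset.univ.filter (fun σ : Equiv.Perm (Fin 6) => σ ^ k = 1)).card := by
  classical
  set S : Finset (Equiv.Perm (Fin 6)) :=
    Finset.univ.filter (fun σ : Equiv.Perm (Fin 6) => σ ^ k = 1) with hS
  have h1 : (1 : Equiv.Perm (Fin 6)) ∈ S := by
    rw [hS, Finset.mem_filter]
    exact ⟨Finset.mem_univ _, one_pow k⟩
  have h2 : (S.erase 1).card + 1 = S.card := Finset.card_erase_add_one h1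
  have h3 : Nat.card {σ : alternatingGroup (Fin 6) // orderOf σ = k} ≤ Nat.card ↥(S.erase 1) := by
    apply Nat.card_le_card_of_injective
      (fun σ : {σ : alternatingGroup (Fin 6) // orderOf σ = k} =>
        (⟨σ.1.1, by
          rw [Finset.mem_erase, hS, Finset.mem_filter]
          refine ⟨?_, Finset.mem_univ _, ?_⟩
          · intro h
            have h' : σ.1 = 1 := Subtype.ext h
            have := σ.2
            rw [h', orderOf_one] at this
            omega
          · have := pow_orderOf_eq_one σ.1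
            rw [σ.2] at this
            exact congrArg Subtype.val this⟩ : ↥(S.erase 1)))
    intro σ τ h
    have h' : σ.1.1 = τ.1.1 := congrArg (fun z : ↥(S.erase 1) => (z : Equiv.Perm (Fin 6))) h
    exact Subtype.ext (Subtype.ext h')
  rw [Nat.card_eq_fintype_card (α := ↥(S.erase 1)), Fintype.card_coe] at h3
  omega

theorem alt6_card_order3 : Nat.card {σ : alternatingGroup (Fin 6) // orderOf σ = 3} ≤ 80 := by
  have := alt6_card_order_le 3 (by norm_num)
  rw [perm6_count3] at this
  omega

theorem alt6_card_order5 : Nat.card {σ : alternatingGroup (Fin 6) // orderOf σ = 5} ≤ 144 := by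
  have := alt6_card_order_le 5 (by norm_num)
  rw [perm6_count5] at this
  omega

theorem alt6_card : Nat.card (alternatingGroup (Fin 6)) = 360 := by
  have h := two_mul_nat_card_alternatingGroup (α := Fin 6)
  rw [Nat.card_eq_fintype_card (α := Equiv.Perm (Fin 6)), Fintype.card_perm, Fintype.card_fin] at h
  have : Nat.factorial 6 = 720 := by decide
  omega

end Cfsg.Agent.Lib.Helper42.A6Facts
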