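import Mathlib
import Cfsg.Agent.Lib.Helper25.ACStmt
import Cfsg.Agent.Lib.Helper25.ACOddStmt

set_option autoImplicit false

namespace Cfsg.Agent.Lib.Helper42.AOKEYODD

open Cfsg.Agent.Lib.Helper25.ACStmt Cfsg.Agent.Lib.Helper25.ACOddStmt

universe u

theorem main (hMin : MinCase.{u}) : KeyOdd.{u} := by
  intro G _ _ hB M hMn hM hodd hBelow
  by_cases h : ∃ N : Subgroup G, N.Normal ∧ N ≤ M ∧ N ≠ ⊥ ∧ N ≠ M
  · obtain ⟨N, hNn, hle, hne, hneM⟩ := h
    have hcard_le : Nat.card ↥N ≤ Nat.card ↥M := Subgroup.card_le_of_le hle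
    have hcard_ne : Nat.card ↥N ≠ Nat.card ↥M := by
      intro heq
      exact hneM (Subgroup.eq_of_le_of_card_ge hle heq.ge)
    have hlt : Nat.card ↥N < Nat.card ↥M := lt_of_le_of_ne hcard_le hcard_ne
    have hoddN : Odd (Nat.card ↥N) := Odd.of_dvd_nat hodd (Subgroup.card_dvd_of_le hle)
    haveI := hNn
    exact ⟨N, hNn, hne, hle, hBelow G hB N hoddN hlt⟩
  · have hmin : ∀ N : Subgroup G, N.Normal → N ≤ M → N = ⊥ ∨ N = M := by
      intro N hNn hle
      by_contra hcon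
      push_neg at hcon
      exact h ⟨N, hNn, hle, hcon.1, hcon.2⟩
    exact hMin G hB M hMn hM hodd hmin

end Cfsg.Agent.Lib.Helper42.AOKEYODD
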