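import Mathlib

set_option autoImplicit false

namespace Cfsg.Agent.Lib.Helper42.AbelPerm

/-! ### the numeric functions -/

/-- maximal product of a partition of `n` -/
def g : ℕ → ℕ
  | 0 => 1
  | 1 => 1
  | 2 => 2
  | 3 => 3
  | 4 => 4
  | (n + 5) => 3 * g (n + 2)

lemma g_add_five (n : ℕ) : g (n + 5) = 3 * g (n + 2) := by
  rw [g]

lemma g_add_three (n : ℕ) (hn : 2 ≤ n) : g (n + 3) = 3 * g n := by
  obtain ⟨m, rfl⟩ : ∃ m, n = m + 2 := ⟨n - 2, by omega⟩
  exact g_add_five m

lemma g_three_mul : ∀ k : ℕ, g (3 * k) = 3 ^ k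
  | 0 => rfl
  | 1 => rfl
  | (k + 2) => by
    have h := g_three_mul (k + 1)
    have : 3 * (k + 2) = 3 * (k + 1) + 3 := by ring
    rw [this, g_add_three _ (by omega), h]
    ring

lemma g_three_mul_add_one : ∀ k : ℕ, g (3 * (k + 1) + 1) = 4 * 3 ^ k
  | 0 => rfl
  | (k + 1) => by
    have h := g_three_mul_add_one k
    have : 3 * (k + 1 + 1) + 1 = 3 * (k + 1) + 1 + 3 := by ring
    rw [this, g_add_three _ (by omega), h]
    ring

lemma g_three_mul_add_two : ∀ k : ℕ, g (3 * k + 2) = 2 * 3 ^ k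
  | 0 => rfl
  | (k + 1) => by
    have h := g_three_mul_add_two k
    have : 3 * (k + 1) + 2 = 3 * k + 2 + 3 := by ring
    rw [this, g_add_three _ (by omega), h]
    ring

lemma g_steps : ∀ m : ℕ, g m ≤ g (m + 1) ∧ 2 * g m ≤ g (m + 2) ∧ 3 * g m ≤ g (m + 3) ∧
    4 * g m ≤ g (m + 4)
  | 0 => by decide
  | 1 => by decide
  | 2 => by decide
  | 3 => by decide
  | 4 => by decide
  | (m + 5) => by
    obtain ⟨h1, h2, h3, h4⟩ := g_steps (m + 2)
    have e0 := g_add_five m
    have e1 := g_add_five (m + 1)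
    have e2 := g_add_five (m + 2)
    have e3 := g_add_five (m + 3)
    have e4 := g_add_five (m + 4)
    have a1 : m + 5 + 1 = m + 1 + 5 := by ring
    have a2 : m + 5 + 2 = m + 2 + 5 := by ring
    have a3 : m + 5 + 3 = m + 3 + 5 := by ring
    have a4 : m + 5 + 4 = m + 4 + 5 := by ring
    rw [a1, a2, a3, a4, e0, e1, e2, e3, e4]
    have b1 : m + 1 + 2 = m + 2 + 1 := by ring
    have b2 : m + 3 + 2 = m + 2 + 3 := by ring
    have b3 : m + 4 + 2 = m + 2 + 4 := by ring
    rw [b1, b2, b3]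
    refine ⟨by omega, by omega, by omega, by omega⟩

lemma mul_g_le : ∀ (j m : ℕ), 1 ≤ j → j * g m ≤ g (m + j) := by
  intro j
  induction j using Nat.strong_induction_on with
  | _ j ih =>
    intro m hj
    obtain ⟨h1, h2, h3, h4⟩ := g_steps m
    by_cases hj5 : j < 5
    · interval_cases j
      · omega
      · exact h2
      · exact h3
      · exact h4
    · have h5 := ih (j - 3) (by omega) m (by omega)
      have h6 := (g_steps (m + (j - 3))).2.2.1
      have e : m + (j - 3) + 3 = m + j := by omega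
      rw [e] at h6
      have h7 : j * g m ≤ 3 * ((j - 3) * g m) := by
        rw [← mul_assoc]
        apply Nat.mul_le_mul_right
        omega
      omega

lemma g_pos (n : ℕ) : 1 ≤ g n := by
  rcases Nat.eq_zero_or_pos n with rfl | hn
  · decide
  · have := mul_g_le n 0 hn
    rw [zero_add] at this
    have h0 : g 0 = 1 := rfl
    rw [h0] at this
    omega

/-- maximal product of a partition of `n` into parts of size at least three -/
def g3 : ℕ → ℕ
  | 0 => 1
  | 1 => 0
  | 2 => 0
  | 3 => 3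
  | 4 => 4
  | 5 => 5
  | 6 => 9
  | 7 => 12
  | 8 => 16
  | (n + 9) => 3 * g3 (n + 6)

lemma g3_add_nine (n : ℕ) : g3 (n + 9) = 3 * g3 (n + 6) := by
  rw [g3]

lemma g3_add_three (n : ℕ) (hn : 6 ≤ n) : g3 (n + 3) = 3 * g3 n := by
  obtain ⟨m, rfl⟩ : ∃ m, n = m + 6 := ⟨n - 6, by omega⟩
  exact g3_add_nine m

lemma g3_three_mul_add_two : ∀ k : ℕ, g3 (3 * (k + 2) + 2) = 16 * 3 ^ k
  | 0 => rfl
  | (k + 1) => by
    have h := g3_three_mul_add_two k
    have : 3 * (k + 1 + 2) + 2 = 3 * (k + 2) + 2 + 3 := by ring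
    rw [this, g3_add_three _ (by omega), h]
    ring

lemma g3_steps : ∀ m : ℕ, 3 * g3 m ≤ g3 (m + 3) ∧ 4 * g3 m ≤ g3 (m + 4) ∧
    5 * g3 m ≤ g3 (m + 5)
  | 0 => by decide
  | 1 => by decide
  | 2 => by decide
  | 3 => by decide
  | 4 => by decide
  | 5 => by decide
  | 6 => by decide
  | 7 => by decide
  | 8 => by decide
  | (m + 9) => by
    obtain ⟨h3, h4, h5⟩ := g3_steps (m + 6)
    have e0 := g3_add_nine m
    have e3 := g3_add_nine (m + 3)
    have e4 := g3_add_nine (m + 4)
    have e5 := g3_add_nine (m + 5)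
    have a3 : m + 9 + 3 = m + 3 + 9 := by ring
    have a4 : m + 9 + 4 = m + 4 + 9 := by ring
    have a5 : m + 9 + 5 = m + 5 + 9 := by ring
    rw [a3, a4, a5, e0, e3, e4, e5]
    have b3 : m + 3 + 6 = m + 6 + 3 := by ring
    have b4 : m + 4 + 6 = m + 6 + 4 := by ring
    have b5 : m + 5 + 6 = m + 6 + 5 := by ring
    rw [b3, b4, b5]
    refine ⟨by omega, by omega, by omega⟩

lemma mul_g3_le : ∀ (j m : ℕ), 3 ≤ j → j * g3 m ≤ g3 (m + j) := by
  intro j
  induction j using Nat.strong_induction_on with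
  | _ j ih =>
    intro m hj
    obtain ⟨h3, h4, h5⟩ := g3_steps m
    by_cases hj6 : j < 6
    · interval_cases j
      · exact h3
      · exact h4
      · exact h5
    · have h5 := ih (j - 3) (by omega) m (by omega)
      have h6 := (g3_steps (m + (j - 3))).1
      have e : m + (j - 3) + 3 = m + j := by omega
      rw [e] at h6
      have h7 : j * g3 m ≤ 3 * ((j - 3) * g3 m) := by
        rw [← mul_assoc]
        apply Nat.mul_le_mul_right
        omega
      omega

/-! ### orbits and restriction -/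

universe u

section orbits
variable {α : Type u}

/-- the orbit of `x` under the permutation group `A` -/
def orb (A : Subgroup (Equiv.Perm α)) (x : α) : Set α := {y | ∃ a ∈ A, a x = y}

lemma mem_orb_self (A : Subgroup (Equiv.Perm α)) (x : α) : x ∈ orb A x :=
  ⟨1, A.one_mem, rfl⟩

lemma apply_mem_orb_iff (A : Subgroup (Equiv.Perm α)) (x : α) {a : Equiv.Perm α} (ha : a ∈ A)
    (y : α) : a y ∈ orb A x ↔ y ∈ orb A x := by
  constructor
  · rintro ⟨b, hb, hby⟩
    refine ⟨a⁻¹ * b, A.mul_mem (A.inv_mem ha) hb, ?_⟩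
    rw [Equiv.Perm.mul_apply, hby]
    exact a.symm_apply_apply y
  · rintro ⟨b, hb, rfl⟩
    exact ⟨a * b, A.mul_mem ha hb, rfl⟩

/-- restriction of a permutation group to an invariant set -/
def restr (A : Subgroup (Equiv.Perm α)) (s : Set α) (hs : ∀ a ∈ A, ∀ y, a y ∈ s ↔ y ∈ s) :
    A →* Equiv.Perm s where
  toFun a := (a : Equiv.Perm α).subtypePerm (fun y => hs a a.2 y)
  map_one' := by
    ext y
    simp
  map_mul' := by
    intro a b
    ext y
    rfl

lemma restr_apply (A : Subgroup (Equiv.Perm α)) (s : Set α)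
    (hs : ∀ a ∈ A, ∀ y, a y ∈ s ↔ y ∈ s) (a : A) (y : s) :
    ((restr A s hs a) y : α) = (a : Equiv.Perm α) y := rfl

/-- restriction to the complement of the orbit of `x` -/
def restrC (A : Subgroup (Equiv.Perm α)) (x : α) : A →* Equiv.Perm ↥(orb A x)ᶜ :=
  restr A (orb A x)ᶜ (fun _ ha y => not_congr (apply_mem_orb_iff A x ha y))

lemma restrC_apply (A : Subgroup (Equiv.Perm α)) (x : α) (a : A) (y : ↥(orb A x)ᶜ) :
    ((restrC A x a) y : α) = (a : Equiv.Perm α) y := rfl

lemma ker_fix_compl (A : Subgroup (Equiv.Perm α)) (x : α) (k : A) (hk : k ∈ (restrC A x).ker)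
    (y : α) (hy : y ∉ orb A x) : (k : Equiv.Perm α) y = y := by
  rw [MonoidHom.mem_ker] at hk
  have := restrC_apply A x k ⟨y, hy⟩
  rw [hk] at this
  exact this.symm

lemma eq_one_of_ker_of_fix (A : Subgroup (Equiv.Perm α)) [hA : IsMulCommutative A] (x : α) (k : A)
    (hk : k ∈ (restrC A x).ker) (hx : (k : Equiv.Perm α) x = x) : k = 1 := by
  apply Subtype.ext
  ext y
  by_cases hy : y ∈ orb A x
  · obtain ⟨b, hb, rfl⟩ := hy
    have hcomm : k * ⟨b, hb⟩ = ⟨b, hb⟩ * k := mul_comm' _ _
    have h1 : (k : Equiv.Perm α) * b = b * (k : Equiv.Perm α) := congrArg Subtype.val hcomm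
    have h2 : (k : Equiv.Perm α) (b x) = ((k : Equiv.Perm α) * b) x := rfl
    rw [h2, h1, Equiv.Perm.mul_apply, hx]
    rfl
  · rw [ker_fix_compl A x k hk y hy]
    rfl

lemma card_ker_le [Finite α] (A : Subgroup (Equiv.Perm α)) [hA : IsMulCommutative A] (x : α) :
    Nat.card (restrC A x).ker ≤ (orb A x).ncard := by
  rw [← Nat.card_coe_set_eq]
  apply Nat.card_le_card_of_injective
    (fun k : (restrC A x).ker => (⟨(k : A).1 x, ⟨(k : A).1, (k : A).2, rfl⟩⟩ : orb A x))
  intro k k' hkk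
  have h1 : ((k : A) : Equiv.Perm α) x = ((k' : A) : Equiv.Perm α) x := congrArg Subtype.val hkk
  have h2 : (k : A)⁻¹ * (k' : A) = 1 := by
    apply eq_one_of_ker_of_fix A x _ ((restrC A x).ker.mul_mem ((restrC A x).ker.inv_mem k.2) k'.2)
    show ((k : A) : Equiv.Perm α)⁻¹ (((k' : A) : Equiv.Perm α) x) = x
    rw [← h1]
    exact Equiv.symm_apply_apply _ _
  apply Subtype.ext
  exact (inv_mul_eq_one.mp h2)

lemma card_eq_ker_mul_range {G H : Type*} [Group G] [Group H] (f : G →* H) :
    Nat.card G = Nat.card f.ker * Nat.card f.range := by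
  rw [← Subgroup.index_ker, Subgroup.card_mul_index]

lemma orb_ncard_pos [Finite α] (A : Subgroup (Equiv.Perm α)) (x : α) : 1 ≤ (orb A x).ncard :=
  (Set.ncard_pos (Set.toFinite _)).mpr ⟨x, mem_orb_self A x⟩

lemma card_compl_orb [Finite α] (A : Subgroup (Equiv.Perm α)) (x : α) :
    Nat.card ↥(orb A x)ᶜ + (orb A x).ncard = Nat.card α := by
  rw [Nat.card_coe_set_eq, add_comm]
  exact Set.ncard_add_ncard_compl _

/-- the orbits of the restricted group -/
lemma orb_range (A : Subgroup (Equiv.Perm α)) (x : α) (y : ↥(orb A x)ᶜ) :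
    orb A (y : α) = Subtype.val '' (orb (restrC A x).range y) := by
  ext z
  constructor
  · rintro ⟨a, ha, rfl⟩
    refine ⟨(restrC A x ⟨a, ha⟩) y, ⟨restrC A x ⟨a, ha⟩, ⟨⟨a, ha⟩, rfl⟩, rfl⟩, rfl⟩
  · rintro ⟨z', ⟨b, ⟨a, rfl⟩, rfl⟩, rfl⟩
    exact ⟨a.1, a.2, rfl⟩

lemma orb_range_ncard (A : Subgroup (Equiv.Perm α)) (x : α) (y : ↥(orb A x)ᶜ) :
    (orb (restrC A x).range y).ncard = (orb A (y : α)).ncard := by
  rw [orb_range A x y, Set.ncard_image_of_injective _ Subtype.val_injective]

end orbits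

/-! ### upper bounds -/

theorem card_le_g : ∀ (n : ℕ) (α : Type u) [Finite α], Nat.card α = n →
    ∀ A : Subgroup (Equiv.Perm α), IsMulCommutative A → Nat.card A ≤ g n := by
  intro n
  induction n using Nat.strong_induction_on with
  | _ n ih =>
    intro α _ hcard A hA
    rcases isEmpty_or_nonempty α with hα | ⟨⟨x⟩⟩
    · have hsub : Subsingleton (Equiv.Perm α) := ⟨fun a b => by ext y; exact isEmptyElim y⟩
      have : Nat.card A ≤ 1 := Finite.card_le_one_iff_subsingleton.mpr inferInstance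
      exact le_trans this (g_pos n)
    · have h1 := card_eq_ker_mul_range (restrC A x)
      have h2 := card_ker_le A x
      have h3 := orb_ncard_pos A x
      have h4 := card_compl_orb A x
      have h5 : Nat.card (restrC A x).range ≤ g (Nat.card ↥(orb A x)ᶜ) :=
        ih _ (by omega) _ rfl _ inferInstance
      have h6 := mul_g_le (orb A x).ncard (Nat.card ↥(orb A x)ᶜ) h3
      rw [h4, hcard] at h6
      calc Nat.card A = Nat.card (restrC A x).ker * Nat.card (restrC A x).range := h1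
        _ ≤ (orb A x).ncard * g (Nat.card ↥(orb A x)ᶜ) := Nat.mul_le_mul h2 h5
        _ ≤ g n := h6

theorem card_le_g3 : ∀ (n : ℕ) (α : Type u) [Finite α], Nat.card α = n →
    ∀ A : Subgroup (Equiv.Perm α), IsMulCommutative A → (∀ x, 3 ≤ (orb A x).ncard) →
    Nat.card A ≤ g3 n := by
  intro n
  induction n using Nat.strong_induction_on with
  | _ n ih =>
    intro α _ hcard A hA horb
    rcases isEmpty_or_nonempty α with hα | ⟨⟨x⟩⟩
    · have hsub : Subsingleton (Equiv.Perm α) := ⟨fun a b => by ext y; exact isEmptyElim y⟩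
      have : Nat.card A ≤ 1 := Finite.card_le_one_iff_subsingleton.mpr inferInstance
      have hn : n = 0 := by rw [← hcard]; exact Nat.card_of_isEmpty
      rw [hn]
      exact this
    · have h1 := card_eq_ker_mul_range (restrC A x)
      have h2 := card_ker_le A x
      have h3 := horb x
      have h4 := card_compl_orb A x
      have h5 : Nat.card (restrC A x).range ≤ g3 (Nat.card ↥(orb A x)ᶜ) := by
        apply ih _ (by omega) _ rfl _ inferInstance
        intro y
        rw [orb_range_ncard]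
        exact horb _
      have h6 := mul_g3_le (orb A x).ncard (Nat.card ↥(orb A x)ᶜ) h3
      rw [h4, hcard] at h6
      calc Nat.card A = Nat.card (restrC A x).ker * Nat.card (restrC A x).range := h1
        _ ≤ (orb A x).ncard * g3 (Nat.card ↥(orb A x)ᶜ) := Nat.mul_le_mul h2 h5
        _ ≤ g3 n := h6

/-- an even abelian group with an orbit of size at most two -/
theorem card_le_of_small_orbit {α : Type u} [Fintype α] [DecidableEq α]
    (A : Subgroup (Equiv.Perm α)) [hA : IsMulCommutative A]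
    (heven : ∀ a ∈ A, Equiv.Perm.sign a = 1) (x : α) (h2 : (orb A x).ncard ≤ 2) :
    Nat.card A ≤ g (Nat.card α - (orb A x).ncard) := by
  classical
  have hker : (restrC A x).ker = ⊥ := by
    rw [eq_bot_iff]
    intro k hk
    rw [Subgroup.mem_bot]
    by_contra hne
    have hne' : (k : Equiv.Perm α) ≠ 1 := fun h => hne (Subtype.ext h)
    have hsupp : (k : Equiv.Perm α).support ⊆ (orb A x).toFinset := by
      intro y hy
      rw [Set.mem_toFinset]
      by_contra hy'
      rw [Equiv.Perm.mem_support] at hy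
      exact hy (ker_fix_compl A x k hk y hy')
    have hc1 := Finset.card_le_card hsupp
    rw [← Set.ncard_eq_toFinset_card'] at hc1
    have hc2 := Equiv.Perm.two_le_card_support_of_ne_one hne'
    have hc3 : (k : Equiv.Perm α).support.card = 2 := by omega
    have hswap := Equiv.Perm.card_support_eq_two.mp hc3
    have hsign := hswap.sign_eq
    rw [heven _ k.2] at hsign
    exact absurd hsign (by decide)
  have h1 := card_eq_ker_mul_range (restrC A x)
  rw [hker, Subgroup.card_bot, one_mul] at h1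
  have h4 := card_compl_orb A x
  have h5 : Nat.card (restrC A x).range ≤ g (Nat.card ↥(orb A x)ᶜ) :=
    card_le_g _ _ rfl _ inferInstance
  have e : Nat.card α - (orb A x).ncard = Nat.card ↥(orb A x)ᶜ := by omega
  rw [h1, e]
  exact h5

/-! ### constructions -/

/-- there is an abelian subgroup of `Perm α` of order `c` (of even permutations if `ev`) -/
def HasAb (ev : Prop) (α : Type*) [Fintype α] [DecidableEq α] (c : ℕ) : Prop :=
  ∃ A : Subgroup (Equiv.Perm α), IsMulCommutative A ∧
    (ev → ∀ a ∈ A, Equiv.Perm.sign a = 1) ∧ Nat.card A = c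

lemma hasAb_sum {ev : Prop} {α β : Type*} [Fintype α] [DecidableEq α] [Fintype β]
    [DecidableEq β] {a b : ℕ} (ha : HasAb ev α a) (hb : HasAb ev β b) :
    HasAb ev (α ⊕ β) (a * b) := by
  obtain ⟨A, hA, hAe, rfl⟩ := ha
  obtain ⟨B, hB, hBe, rfl⟩ := hb
  let ψ : ↥A × ↥B →* Equiv.Perm (α ⊕ β) :=
    (Equiv.Perm.sumCongrHom α β).comp (A.subtype.prodMap B.subtype)
  have hinj : Function.Injective ψ := by
    apply Equiv.Perm.sumCongrHom_injective.comp
    rintro ⟨p1, p2⟩ ⟨q1, q2⟩ h
    have h1 : (p1 : Equiv.Perm α) = q1 := congrArg Prod.fst h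
    have h2 : (p2 : Equiv.Perm β) = q2 := congrArg Prod.snd h
    exact Prod.ext (Subtype.ext h1) (Subtype.ext h2)
  refine ⟨ψ.range, inferInstance, ?_, ?_⟩
  · rintro hev _ ⟨⟨p, q⟩, rfl⟩
    show Equiv.Perm.sign (Equiv.Perm.sumCongr (p : Equiv.Perm α) (q : Equiv.Perm β)) = 1
    rw [Equiv.Perm.sign_sumCongr, hAe hev _ p.2, hBe hev _ q.2, mul_one]
  · rw [← Nat.card_congr (MonoidHom.ofInjective hinj).toEquiv, Nat.card_prod]

lemma hasAb_congr {ev : Prop} {α β : Type*} [Fintype α] [DecidableEq α] [Fintype β]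
    [DecidableEq β] {c : ℕ} (e : α ≃ β) (h : HasAb ev α c) : HasAb ev β c := by
  obtain ⟨A, hA, hAe, rfl⟩ := h
  refine ⟨A.map (e.permCongrHom : Equiv.Perm α →* Equiv.Perm β), inferInstance, ?_, ?_⟩
  · rintro hev _ ⟨a, ha, rfl⟩
    show Equiv.Perm.sign (e.permCongr a) = 1
    rw [Equiv.Perm.sign_permCongr, hAe hev a ha]
  · exact Subgroup.card_map_of_injective e.permCongrHom.injective

lemma hasAb_one (ev : Prop) (α : Type*) [Fintype α] [DecidableEq α] : HasAb ev α 1 := by
  refine ⟨⊥, ⟨⟨fun a b => Subsingleton.elim _ _⟩⟩, ?_, Subgroup.card_bot⟩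
  intro _ a ha
  rw [Subgroup.mem_bot] at ha
  rw [ha, map_one]

lemma hasAb_rotate (n : ℕ) (hn : 2 ≤ n) (ev : Prop) (hev : ev → Odd n) : HasAb ev (Fin n) n := by
  refine ⟨Subgroup.zpowers (finRotate n), inferInstance, ?_, ?_⟩
  · intro h a ha
    obtain ⟨k, rfl⟩ := Subgroup.mem_zpowers_iff.mp ha
    have hodd := hev h
    have heven : Even (n - 1) := by
      obtain ⟨m, rfl⟩ := hodd
      exact ⟨m, by omega⟩
    rw [map_zpow, sign_finRotate, heven.neg_one_pow, one_zpow]
  · rw [Nat.card_zpowers, ← Equiv.Perm.lcm_cycleType, cycleType_finRotate_of_le hn]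
    simp

lemma hasAb_klein (ev : Prop) : HasAb ev (Fin 4) 4 := by
  have h4 : Nat.card (Fin 4) = 4 := by simp
  have hK : IsKleinFour (alternatingGroup.kleinFour (Fin 4)) :=
    alternatingGroup.kleinFour_isKleinFour h4
  have hc : IsMulCommutative (alternatingGroup.kleinFour (Fin 4)) := IsKleinFour.isMulCommutative
  refine ⟨(alternatingGroup.kleinFour (Fin 4)).map (alternatingGroup (Fin 4)).subtype,
    inferInstance, ?_, ?_⟩
  · rintro - _ ⟨a, -, rfl⟩
    exact Equiv.Perm.mem_alternatingGroup.mp a.2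
  · rw [Subgroup.card_map_of_injective (Subgroup.subtype_injective _),
      alternatingGroup.kleinFour_card_of_card_eq_four h4]

lemma hasAb_fin_add {ev : Prop} {m n a b : ℕ} (ha : HasAb ev (Fin m) a)
    (hb : HasAb ev (Fin n) b) : HasAb ev (Fin (m + n)) (a * b) :=
  hasAb_congr finSumFinEquiv (hasAb_sum ha hb)

lemma hasAb_fin_cast {ev : Prop} {m n c d : ℕ} (h : m = n) (hc : c = d)
    (ha : HasAb ev (Fin m) c) : HasAb ev (Fin n) d := by
  subst h
  subst hc
  exact ha

lemma hasAb_three_pow (ev : Prop) : ∀ k : ℕ, HasAb ev (Fin (3 * k)) (3 ^ k)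
  | 0 => hasAb_one ev _
  | (k + 1) =>
    hasAb_fin_cast (by ring) (by ring)
      (hasAb_fin_add (hasAb_three_pow ev k) (hasAb_rotate 3 (by norm_num) ev (fun _ => by decide)))

lemma hasAb_three_mul_add_one (ev : Prop) (k : ℕ) :
    HasAb ev (Fin (3 * (k + 1) + 1)) (4 * 3 ^ k) :=
  hasAb_fin_cast (by ring) (by ring) (hasAb_fin_add (hasAb_three_pow ev k) (hasAb_klein ev))

lemma hasAb_three_mul_add_two (k : ℕ) : HasAb False (Fin (3 * k + 2)) (2 * 3 ^ k) :=
  hasAb_fin_cast (by ring) (by ring)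
    (hasAb_fin_add (hasAb_three_pow False k) (hasAb_rotate 2 (by norm_num) False (fun h => h.elim)))

lemma hasAb_even_three_mul_add_two (k : ℕ) :
    HasAb True (Fin (3 * (k + 2) + 2)) (16 * 3 ^ k) :=
  hasAb_fin_cast (by ring) (by ring)
    (hasAb_fin_add (hasAb_fin_add (hasAb_three_pow True k) (hasAb_klein True)) (hasAb_klein True))

/-- from an even abelian group of permutations to a subgroup of the alternating group -/
lemma exists_alt_of_hasAb {n c : ℕ} (h : HasAb True (Fin n) c) :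
    ∃ A : Subgroup (alternatingGroup (Fin n)), IsMulCommutative A ∧ Nat.card A = c := by
  obtain ⟨A, hA, hAe, rfl⟩ := h
  have hle : A ≤ alternatingGroup (Fin n) := fun a ha =>
    Equiv.Perm.mem_alternatingGroup.mpr (hAe trivial a ha)
  exact ⟨A.subgroupOf (alternatingGroup (Fin n)), inferInstance,
    Nat.card_congr (Subgroup.subgroupOfEquivOfLe hle).toEquiv⟩

/-- from an abelian subgroup of the alternating group to an even abelian permutation group -/
lemma exists_perm_of_alt {n : ℕ} (A : Subgroup (alternatingGroup (Fin n))) (hA : IsMulCommutative A) :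
    ∃ A' : Subgroup (Equiv.Perm (Fin n)), IsMulCommutative A' ∧
      (∀ a ∈ A', Equiv.Perm.sign a = 1) ∧ Nat.card A' = Nat.card A := by
  refine ⟨A.map (alternatingGroup (Fin n)).subtype, inferInstance, ?_,
    Subgroup.card_map_of_injective (Subgroup.subtype_injective _)⟩
  rintro _ ⟨a, -, rfl⟩
  exact Equiv.Perm.mem_alternatingGroup.mp a.2

/-- the bound for even abelian groups of degree `3k + 8` -/
theorem card_le_even (k : ℕ) (A : Subgroup (Equiv.Perm (Fin (3 * (k + 2) + 2))))
    (hA : IsMulCommutative A) (heven : ∀ a ∈ A, Equiv.Perm.sign a = 1) :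
    Nat.card A ≤ 16 * 3 ^ k := by
  by_cases h : ∃ x, (orb A x).ncard ≤ 2
  · obtain ⟨x, hx⟩ := h
    have h1 := card_le_of_small_orbit A heven x hx
    have h2 := orb_ncard_pos A x
    have hn : Nat.card (Fin (3 * (k + 2) + 2)) = 3 * (k + 2) + 2 := by simp
    rw [hn] at h1
    have h3 : (orb A x).ncard = 1 ∨ (orb A x).ncard = 2 := by omega
    rcases h3 with h3 | h3
    · rw [h3] at h1
      have e : 3 * (k + 2) + 2 - 1 = 3 * (k + 1 + 1) + 1 := by omega
      rw [e, g_three_mul_add_one] at h1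
      have : 4 * 3 ^ (k + 1) ≤ 16 * 3 ^ k := by
        rw [pow_succ]
        omega
      omega
    · rw [h3] at h1
      have e : 3 * (k + 2) + 2 - 2 = 3 * (k + 2) := by omega
      rw [e, g_three_mul] at h1
      have : 3 ^ (k + 2) ≤ 16 * 3 ^ k := by
        rw [pow_succ, pow_succ]
        omega
      omega
  · push Not at h
    have h1 := card_le_g3 (3 * (k + 2) + 2) (Fin (3 * (k + 2) + 2)) (by simp) A hA
      (fun x => by have := h x; omega)
    rw [g3_three_mul_add_two] at h1
    exact h1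

end Cfsg.Agent.Lib.Helper42.AbelPerm
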