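import Mathlib
import Cfsg.Agent.Lib.Helper42.AbelPerm

set_option autoImplicit false

namespace Cfsg.Agent.Lib.Helper42.AbelConj

open Cfsg.Agent.Lib.Helper42.AbelPerm

/-! ### more numerics -/

lemma lt_g : ∀ (j m : ℕ), 5 ≤ j → j * g m < g (m + j) := by
  intro j
  induction j using Nat.strong_induction_on with
  | _ j ih =>
    intro m hj
    have hpos := g_pos m
    obtain ⟨h1, h2, h3, h4⟩ := g_steps m
    by_cases hj8 : j < 8
    · interval_cases j
      · have := g_add_five m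
        omega
      · have h6 := (g_steps (m + 3)).2.2.1
        have e : m + 3 + 3 = m + 6 := by ring
        rw [e] at h6
        omega
      · have h6 := (g_steps (m + 4)).2.2.1
        have e : m + 4 + 3 = m + 7 := by ring
        rw [e] at h6
        omega
    · have h5 := ih (j - 3) (by omega) m (by omega)
      have h6 := (g_steps (m + (j - 3))).2.2.1
      have e : m + (j - 3) + 3 = m + j := by omega
      rw [e] at h6
      have h7 : j * g m ≤ 3 * ((j - 3) * g m) := by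
        rw [← mul_assoc]
        apply Nat.mul_le_mul_right
        omega
      omega

lemma lt_g3 : ∀ (j m : ℕ), 6 ≤ j → 1 ≤ g3 m → j * g3 m < g3 (m + j) := by
  intro j
  induction j using Nat.strong_induction_on with
  | _ j ih =>
    intro m hj hpos
    obtain ⟨h3, h4, h5⟩ := g3_steps m
    by_cases hj9 : j < 9
    · interval_cases j
      · have h6 := (g3_steps (m + 3)).1
        have e : m + 3 + 3 = m + 6 := by ring
        rw [e] at h6
        omega
      · have h6 := (g3_steps (m + 4)).1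
        have e : m + 4 + 3 = m + 7 := by ring
        rw [e] at h6
        omega
      · have h6 := (g3_steps (m + 5)).1
        have e : m + 5 + 3 = m + 8 := by ring
        rw [e] at h6
        omega
    · have h5 := ih (j - 3) (by omega) m (by omega) hpos
      have h6 := (g3_steps (m + (j - 3))).1
      have e : m + (j - 3) + 3 = m + j := by omega
      rw [e] at h6
      have h7 : j * g3 m ≤ 3 * ((j - 3) * g3 m) := by
        rw [← mul_assoc]
        apply Nat.mul_le_mul_right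
        omega
      omega

lemma g3_three_mul : ∀ k : ℕ, g3 (3 * k) = 3 ^ k
  | 0 => rfl
  | 1 => rfl
  | 2 => rfl
  | (k + 3) => by
    have h := g3_three_mul (k + 2)
    have : 3 * (k + 3) = 3 * (k + 2) + 3 := by ring
    rw [this, g3_add_three _ (by omega), h]
    ring

lemma g3_three_mul_add_one : ∀ k : ℕ, g3 (3 * (k + 1) + 1) = 4 * 3 ^ k
  | 0 => rfl
  | 1 => rfl
  | (k + 2) => by
    have h := g3_three_mul_add_one (k + 1)
    have : 3 * (k + 2 + 1) + 1 = 3 * (k + 1 + 1) + 1 + 3 := by ring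
    rw [this, g3_add_three _ (by omega), h]
    ring

/-- case `n = 3k`: small orbits -/
lemma num0_small (k j : ℕ) (hk : 1 ≤ k) (hj : 1 ≤ j) (hj2 : j ≤ 2) : g (3 * k - j) < 3 ^ k := by
  obtain ⟨k, rfl⟩ : ∃ k', k = k' + 1 := ⟨k - 1, by omega⟩
  have hj' : j = 1 ∨ j = 2 := by omega
  rcases hj' with rfl | rfl
  · have e : 3 * (k + 1) - 1 = 3 * k + 2 := by omega
    rw [e, g_three_mul_add_two, pow_succ]
    have := (pow_pos (show 0 < 3 by norm_num) k : 0 < 3 ^ k)
    omega
  · rcases Nat.eq_zero_or_pos k with rfl | hk'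
    · decide
    · obtain ⟨k, rfl⟩ : ∃ k', k = k' + 1 := ⟨k - 1, by omega⟩
      have e : 3 * (k + 1 + 1) - 2 = 3 * (k + 1) + 1 := by omega
      rw [e, g_three_mul_add_one, pow_succ, pow_succ]
      have := (pow_pos (show 0 < 3 by norm_num) k : 0 < 3 ^ k)
      omega

/-- case `n = 3k`: the orbit sizes -/
lemma num0 (k j c : ℕ) (hj : 3 ≤ j) (hjn : j ≤ 3 * k) (hc : c ≤ j)
    (h : 3 ^ k ≤ c * g (3 * k - j)) : (j = 3 ∨ j = 4) ∧ c = j := by
  have hpos := (pow_pos (show 0 < 3 by norm_num) k : 0 < 3 ^ k)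
  have h1 : c * g (3 * k - j) ≤ j * g (3 * k - j) := Nat.mul_le_mul_right _ hc
  have h2 := mul_g_le j (3 * k - j) (by omega)
  have e : 3 * k - j + j = 3 * k := by omega
  rw [e, g_three_mul] at h2
  have h3 : j * g (3 * k - j) = 3 ^ k := by omega
  have h4 : c * g (3 * k - j) = j * g (3 * k - j) := by omega
  have hgpos : 0 < g (3 * k - j) := g_pos _
  refine ⟨?_, Nat.eq_of_mul_eq_mul_right hgpos h4⟩
  by_contra hne
  have h5 : 5 ≤ j := by omega
  have h6 := lt_g j (3 * k - j) h5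
  rw [e, g_three_mul] at h6
  omega

/-- case `n = 3k + 4`: small orbits -/
lemma num1_small (k j : ℕ) (hj : 1 ≤ j) (hj2 : j ≤ 2) :
    g (3 * (k + 1) + 1 - j) < 4 * 3 ^ k := by
  have hpos := (pow_pos (show 0 < 3 by norm_num) k : 0 < 3 ^ k)
  have hj' : j = 1 ∨ j = 2 := by omega
  rcases hj' with rfl | rfl
  · have e : 3 * (k + 1) + 1 - 1 = 3 * (k + 1) := by omega
    rw [e, g_three_mul, pow_succ]
    omega
  · have e : 3 * (k + 1) + 1 - 2 = 3 * k + 2 := by omega
    rw [e, g_three_mul_add_two]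
    omega

/-- case `n = 3k + 4`: the orbit sizes -/
lemma num1 (k j c : ℕ) (hj : 3 ≤ j) (hjn : j ≤ 3 * (k + 1) + 1) (hc : c ≤ j)
    (h : 4 * 3 ^ k ≤ c * g (3 * (k + 1) + 1 - j)) : (j = 3 ∨ j = 4) ∧ c = j := by
  have hpos := (pow_pos (show 0 < 3 by norm_num) k : 0 < 3 ^ k)
  have h1 : c * g (3 * (k + 1) + 1 - j) ≤ j * g (3 * (k + 1) + 1 - j) := Nat.mul_le_mul_right _ hc
  have h2 := mul_g_le j (3 * (k + 1) + 1 - j) (by omega)
  have e : 3 * (k + 1) + 1 - j + j = 3 * (k + 1) + 1 := by omega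
  rw [e, g_three_mul_add_one] at h2
  have h3 : j * g (3 * (k + 1) + 1 - j) = 4 * 3 ^ k := by omega
  have h4 : c * g (3 * (k + 1) + 1 - j) = j * g (3 * (k + 1) + 1 - j) := by omega
  have hgpos : 0 < g (3 * (k + 1) + 1 - j) := g_pos _
  refine ⟨?_, Nat.eq_of_mul_eq_mul_right hgpos h4⟩
  by_contra hne
  have h5 : 5 ≤ j := by omega
  have h6 := lt_g j (3 * (k + 1) + 1 - j) h5
  rw [e, g_three_mul_add_one] at h6
  omega

/-- case `n = 3k + 8`: small orbits -/
lemma num2_small (k j : ℕ) (hj : 1 ≤ j) (hj2 : j ≤ 2) :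
    g (3 * (k + 2) + 2 - j) < 16 * 3 ^ k := by
  have hpos := (pow_pos (show 0 < 3 by norm_num) k : 0 < 3 ^ k)
  have hj' : j = 1 ∨ j = 2 := by omega
  rcases hj' with rfl | rfl
  · have e : 3 * (k + 2) + 2 - 1 = 3 * (k + 1 + 1) + 1 := by omega
    rw [e, g_three_mul_add_one, pow_succ]
    omega
  · have e : 3 * (k + 2) + 2 - 2 = 3 * (k + 2) := by omega
    rw [e, g_three_mul, pow_succ, pow_succ]
    omega

/-- case `n = 3k + 8`: the orbit sizes -/
lemma num2 (k j c : ℕ) (hj : 3 ≤ j) (hjn : j ≤ 3 * (k + 2) + 2) (hc : c ≤ j)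
    (h : 16 * 3 ^ k ≤ c * g3 (3 * (k + 2) + 2 - j)) : (j = 3 ∨ j = 4) ∧ c = j := by
  have hpos := (pow_pos (show 0 < 3 by norm_num) k : 0 < 3 ^ k)
  have h1 : c * g3 (3 * (k + 2) + 2 - j) ≤ j * g3 (3 * (k + 2) + 2 - j) :=
    Nat.mul_le_mul_right _ hc
  have h2 := mul_g3_le j (3 * (k + 2) + 2 - j) hj
  have e : 3 * (k + 2) + 2 - j + j = 3 * (k + 2) + 2 := by omega
  rw [e, g3_three_mul_add_two] at h2
  have h3 : j * g3 (3 * (k + 2) + 2 - j) = 16 * 3 ^ k := by omega
  have h4 : c * g3 (3 * (k + 2) + 2 - j) = j * g3 (3 * (k + 2) + 2 - j) := by omega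
  have hgpos : 0 < g3 (3 * (k + 2) + 2 - j) := by
    rcases Nat.eq_zero_or_pos (g3 (3 * (k + 2) + 2 - j)) with h0 | h0
    · rw [h0] at h3
      omega
    · exact h0
  refine ⟨?_, Nat.eq_of_mul_eq_mul_right hgpos h4⟩
  by_contra hne
  have h5 : 5 ≤ j := by omega
  rcases Nat.eq_or_lt_of_le h5 with h5' | h5'
  · subst h5'
    have e5 : 3 * (k + 2) + 2 - 5 = 3 * (k + 1) := by omega
    rw [e5, g3_three_mul, pow_succ] at h3
    omega
  · have h6 := lt_g3 j (3 * (k + 2) + 2 - j) h5' hgpos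
    rw [e, g3_three_mul_add_two] at h6
    omega

universe u

section basics
variable {α : Type u}

lemma mem_orb_symm (A : Subgroup (Equiv.Perm α)) {x y : α} (h : y ∈ orb A x) : x ∈ orb A y := by
  obtain ⟨a, ha, rfl⟩ := h
  exact ⟨a⁻¹, A.inv_mem ha, a.symm_apply_apply x⟩

lemma mem_orb_trans (A : Subgroup (Equiv.Perm α)) {x y z : α} (h1 : y ∈ orb A x)
    (h2 : z ∈ orb A y) : z ∈ orb A x := by
  obtain ⟨a, ha, rfl⟩ := h1
  obtain ⟨b, hb, rfl⟩ := h2
  exact ⟨b * a, A.mul_mem hb ha, rfl⟩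

lemma orb_eq_of_mem (A : Subgroup (Equiv.Perm α)) {x y : α} (h : y ∈ orb A x) :
    orb A y = orb A x := by
  ext z
  exact ⟨fun hz => mem_orb_trans A h hz, fun hz => mem_orb_trans A (mem_orb_symm A h) hz⟩

lemma comm_apply (A : Subgroup (Equiv.Perm α)) [hA : IsMulCommutative A] {a b : Equiv.Perm α}
    (ha : a ∈ A) (hb : b ∈ A) (x : α) : a (b x) = b (a x) := by
  have hcomm : (⟨a, ha⟩ : A) * ⟨b, hb⟩ = ⟨b, hb⟩ * ⟨a, ha⟩ := mul_comm' _ _
  have h1 : a * b = b * a := congrArg Subtype.val hcomm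
  have h2 : a (b x) = (a * b) x := rfl
  rw [h2, h1, Equiv.Perm.mul_apply]

/-- an element of an abelian group fixing a point fixes its orbit pointwise -/
lemma fix_orb (A : Subgroup (Equiv.Perm α)) [hA : IsMulCommutative A] {a : Equiv.Perm α}
    (ha : a ∈ A) {x y : α} (hx : a x = x) (hy : y ∈ orb A x) : a y = y := by
  obtain ⟨b, hb, rfl⟩ := hy
  rw [comm_apply A ha hb, hx]

/-- the power of an element by the size of an orbit fixes the orbit -/
lemma pow_ncard_fix (A : Subgroup (Equiv.Perm α)) [hA : IsMulCommutative A]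
    {a : Equiv.Perm α} (ha : a ∈ A) (x : α) : (a ^ (orb A x).ncard) x = x := by
  have horb : MulAction.orbit A x = orb A x := by
    ext y
    rw [MulAction.mem_orbit_iff]
    constructor
    · rintro ⟨b, rfl⟩
      exact ⟨b.1, b.2, rfl⟩
    · rintro ⟨b, hb, rfl⟩
      exact ⟨⟨b, hb⟩, rfl⟩
  have hnorm : (MulAction.stabilizer A x).Normal := by
    refine ⟨fun n hn g => ?_⟩
    have : g * n * g⁻¹ = n := by rw [mul_comm' g n, mul_inv_cancel_right]
    rw [this]
    exact hn
  have h1 := Subgroup.pow_index_mem (MulAction.stabilizer A x) (⟨a, ha⟩ : A)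
  rw [MulAction.index_stabilizer, horb] at h1
  exact MulAction.mem_stabilizer_iff.mp h1

/-- the elements of the kernel, concretely -/
lemma mem_ker_iff (A : Subgroup (Equiv.Perm α)) (x : α) (k : A) :
    k ∈ (restrC A x).ker ↔ ∀ y, y ∉ orb A x → (k : Equiv.Perm α) y = y := by
  constructor
  · intro hk y hy
    exact ker_fix_compl A x k hk y hy
  · intro h
    rw [MonoidHom.mem_ker]
    ext y
    rw [restrC_apply]
    exact h y y.2

/-- evaluation of the kernel at the base point -/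
def kerEval (A : Subgroup (Equiv.Perm α)) (x : α) : (restrC A x).ker → orb A x :=
  fun k => ⟨(k : A).1 x, ⟨(k : A).1, (k : A).2, rfl⟩⟩

lemma kerEval_injective (A : Subgroup (Equiv.Perm α)) [hA : IsMulCommutative A] (x : α) :
    Function.Injective (kerEval A x) := by
  intro k k' hkk
  have h1 : ((k : A) : Equiv.Perm α) x = ((k' : A) : Equiv.Perm α) x := congrArg Subtype.val hkk
  have h2 : (k : A)⁻¹ * (k' : A) = 1 := by
    apply eq_one_of_ker_of_fix A x _ ((restrC A x).ker.mul_mem ((restrC A x).ker.inv_mem k.2) k'.2)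
    show ((k : A) : Equiv.Perm α)⁻¹ (((k' : A) : Equiv.Perm α) x) = x
    rw [← h1]
    exact Equiv.symm_apply_apply _ _
  apply Subtype.ext
  exact (inv_mul_eq_one.mp h2)

/-- a kernel as large as the orbit is transitive on it -/
lemma ker_trans [Finite α] (A : Subgroup (Equiv.Perm α)) [hA : IsMulCommutative A] (x : α)
    (h : (orb A x).ncard ≤ Nat.card (restrC A x).ker) :
    ∀ z ∈ orb A x, ∃ k ∈ A, (∀ y, y ∉ orb A x → k y = y) ∧ k x = z := by
  have hbij := (kerEval_injective A x).bijective_of_nat_card_le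
    (by rw [Nat.card_coe_set_eq]; exact h)
  intro z hz
  obtain ⟨k, hk⟩ := hbij.2 ⟨z, hz⟩
  exact ⟨(k : A).1, (k : A).2, (mem_ker_iff A x k).mp k.2, congrArg Subtype.val hk⟩

lemma mem_orb_range_iff (A : Subgroup (Equiv.Perm α)) (x : α) (y z : ↥(orb A x)ᶜ) :
    z ∈ orb (restrC A x).range y ↔ (z : α) ∈ orb A (y : α) := by
  rw [orb_range A x y]
  constructor
  · intro h
    exact ⟨z, h, rfl⟩
  · rintro ⟨z', hz', e⟩
    rwa [← Subtype.val_injective e]

end basics

/-! ### the structure of the extremal groups -/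

/-- all orbits have size three or four, the elements supported on an orbit are transitive on
it, and the group has exponent two on the orbits of size four -/
def Good {α : Type u} (A : Subgroup (Equiv.Perm α)) : Prop :=
  ∀ x, ((orb A x).ncard = 3 ∨ ((orb A x).ncard = 4 ∧ ∀ a ∈ A, a (a x) = x)) ∧
    ∀ z ∈ orb A x, ∃ k ∈ A, (∀ y, y ∉ orb A x → k y = y) ∧ k x = z

section good
variable {α : Type u}

lemma card_ker_eq [Finite α] (A : Subgroup (Equiv.Perm α)) [hA : IsMulCommutative A]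
    (hG : Good A) (x : α) : Nat.card (restrC A x).ker = (orb A x).ncard := by
  apply le_antisymm (card_ker_le A x)
  rw [← Nat.card_coe_set_eq]
  apply Nat.card_le_card_of_surjective (kerEval A x)
  rintro ⟨z, hz⟩
  obtain ⟨k, hk, hk1, hk2⟩ := (hG x).2 z hz
  exact ⟨⟨⟨k, hk⟩, (mem_ker_iff A x ⟨k, hk⟩).mpr hk1⟩, Subtype.ext hk2⟩

theorem good_range (A : Subgroup (Equiv.Perm α)) (hG : Good A) (x : α) :
    Good (restrC A x).range := by
  intro y
  obtain ⟨h1, h2⟩ := hG (y : α)
  refine ⟨?_, ?_⟩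
  · rw [orb_range_ncard]
    rcases h1 with h1 | ⟨h1, h3⟩
    · exact Or.inl h1
    · refine Or.inr ⟨h1, ?_⟩
      rintro _ ⟨a, rfl⟩
      apply Subtype.ext
      rw [restrC_apply, restrC_apply]
      exact h3 a.1 a.2
  · intro z hz
    rw [mem_orb_range_iff] at hz
    obtain ⟨k, hk, hk1, hk2⟩ := h2 (z : α) hz
    refine ⟨restrC A x ⟨k, hk⟩, ⟨⟨k, hk⟩, rfl⟩, ?_, ?_⟩
    · intro w hw
      rw [mem_orb_range_iff] at hw
      apply Subtype.ext
      rw [restrC_apply]
      exact hk1 (w : α) hw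
    · apply Subtype.ext
      rw [restrC_apply]
      exact hk2

end good

/-! ### small cases by computation -/

lemma sharp_three : ∀ τ τ' : Equiv.Perm (Fin 3), (∀ y, τ y = y → ∀ z, τ z = z) →
    (∀ y, τ' y = y → ∀ z, τ' z = z) → ∀ i, τ i = τ' i → τ = τ' := by
  decide

set_option maxRecDepth 100000 in
lemma sharp_four : ∀ τ τ' : Equiv.Perm (Fin 4), (∀ y, τ (τ y) = y) → (∀ y, τ' (τ' y) = y) →
    (∀ y, τ y = y → ∀ z, τ z = z) → (∀ y, τ' y = y → ∀ z, τ' z = z) →
    ∀ i, τ i = τ' i → τ = τ' := by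
  decide +kernel

set_option maxRecDepth 100000 in
lemma sq_four : ∀ τ : Equiv.Perm (Fin 4), Equiv.Perm.sign τ = 1 → τ ^ 4 = 1 →
    ∀ y, τ (τ y) = y := by
  decide +kernel

/-- two semiregular permutations of three or four points (involutions in the latter case)
agreeing at a point are equal -/
lemma sharp_aux {γ : Type*} [Finite γ] (hγ : Nat.card γ = 3 ∨ Nat.card γ = 4)
    (τ τ' : Equiv.Perm γ)
    (h2 : Nat.card γ = 4 → (∀ y, τ (τ y) = y) ∧ (∀ y, τ' (τ' y) = y))
    (hs : ∀ y, τ y = y → ∀ z, τ z = z) (hs' : ∀ y, τ' y = y → ∀ z, τ' z = z)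
    (i : γ) (hi : τ i = τ' i) : τ = τ' := by
  have key : ∀ (m : ℕ) (e : γ ≃ Fin m) (ρ : Equiv.Perm γ), (∀ y, ρ y = y → ∀ z, ρ z = z) →
      ∀ y, (e.permCongr ρ) y = y → ∀ z, (e.permCongr ρ) z = z := by
    intro m e ρ hρ y hy z
    rw [Equiv.permCongr_apply] at hy ⊢
    have h1 : ρ (e.symm y) = e.symm y := by
      apply e.injective
      rw [hy, e.apply_symm_apply]
    rw [hρ _ h1 (e.symm z), e.apply_symm_apply]
  have key2 : ∀ (m : ℕ) (e : γ ≃ Fin m) (ρ : Equiv.Perm γ), (∀ y, ρ (ρ y) = y) →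
      ∀ y, (e.permCongr ρ) ((e.permCongr ρ) y) = y := by
    intro m e ρ hρ y
    rw [Equiv.permCongr_apply, Equiv.permCongr_apply, e.symm_apply_apply, hρ,
      e.apply_symm_apply]
  rcases hγ with h | h
  · let e : γ ≃ Fin 3 := Finite.equivFinOfCardEq h
    have := sharp_three (e.permCongr τ) (e.permCongr τ') (key 3 e τ hs) (key 3 e τ' hs') (e i)
      (by rw [Equiv.permCongr_apply, Equiv.permCongr_apply, e.symm_apply_apply, hi])
    exact e.permCongr.injective this
  · let e : γ ≃ Fin 4 := Finite.equivFinOfCardEq h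
    have := sharp_four (e.permCongr τ) (e.permCongr τ') (key2 4 e τ (h2 h).1)
      (key2 4 e τ' (h2 h).2) (key 4 e τ hs) (key 4 e τ' hs') (e i)
      (by rw [Equiv.permCongr_apply, Equiv.permCongr_apply, e.symm_apply_apply, hi])
    exact e.permCongr.injective this

/-- the same for permutations preserving a subset of three or four points -/
lemma sharp {α : Type u} [Finite α] (O : Set α) (σ σ' : Equiv.Perm α)
    (hσ : ∀ y, σ y ∈ O ↔ y ∈ O) (hσ' : ∀ y, σ' y ∈ O ↔ y ∈ O)
    (hc : O.ncard = 3 ∨ O.ncard = 4)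
    (h2 : O.ncard = 4 → (∀ y ∈ O, σ (σ y) = y) ∧ (∀ y ∈ O, σ' (σ' y) = y))
    (hs : ∀ y ∈ O, σ y = y → ∀ z ∈ O, σ z = z) (hs' : ∀ y ∈ O, σ' y = y → ∀ z ∈ O, σ' z = z)
    (x : α) (hx : x ∈ O) (hxx : σ x = σ' x) : ∀ y ∈ O, σ y = σ' y := by
  have hcard : Nat.card ↥O = O.ncard := Nat.card_coe_set_eq O
  have h := sharp_aux (γ := ↥O) (by rw [hcard]; exact hc) (σ.subtypePerm hσ) (σ'.subtypePerm hσ')
    (by
      intro h4
      rw [hcard] at h4
      exact ⟨fun y => Subtype.ext ((h2 h4).1 y y.2), fun y => Subtype.ext ((h2 h4).2 y y.2)⟩)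
    (fun y hy z => Subtype.ext (hs y y.2 (congrArg Subtype.val hy) z z.2))
    (fun y hy z => Subtype.ext (hs' y y.2 (congrArg Subtype.val hy) z z.2))
    ⟨x, hx⟩ (Subtype.ext hxx)
  intro y hy
  exact congrArg Subtype.val (DFunLike.congr_fun h ⟨y, hy⟩)

/-- an even permutation of order dividing four supported on four points is an involution -/
lemma sq_of_even_four {α : Type u} [Fintype α] [DecidableEq α] (O : Set α) (hO : O.ncard = 4)
    (k : Equiv.Perm α) (hsupp : ∀ y, y ∉ O → k y = y) (hsign : Equiv.Perm.sign k = 1)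
    (h4 : k ^ 4 = 1) : ∀ y, k (k y) = y := by
  classical
  have hk : ∀ y, k y ∈ O ↔ y ∈ O := by
    intro y
    constructor
    · intro h
      by_contra hy
      rw [hsupp y hy] at h
      exact hy h
    · intro h
      by_contra hy
      have h1 := hsupp _ hy
      have h2 := k.injective h1
      rw [h2] at hy
      exact hy h
  have hcard : Nat.card ↥O = 4 := by rw [Nat.card_coe_set_eq, hO]
  let e : ↥O ≃ Fin 4 := Finite.equivFinOfCardEq hcard
  have h1 : Equiv.Perm.sign (e.permCongr (k.subtypePerm hk)) = 1 := by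
    rw [Equiv.Perm.sign_permCongr, Equiv.Perm.sign_subtypePerm, hsign]
    intro y hy
    by_contra hy'
    exact hy (hsupp y hy')
  have h2 : (e.permCongr (k.subtypePerm hk)) ^ 4 = 1 := by
    have : (e.permCongr (k.subtypePerm hk)) ^ 4 = e.permCongrHom ((k.subtypePerm hk) ^ 4) := by
      rw [map_pow]
      rfl
    rw [this, Equiv.Perm.subtypePerm_pow]
    simp only [h4]
    ext y
    simp
  have h3 := sq_four _ h1 h2
  intro y
  by_cases hy : y ∈ O
  · have h5 := h3 (e ⟨y, hy⟩)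
    rw [Equiv.permCongr_apply, Equiv.permCongr_apply, e.symm_apply_apply, e.symm_apply_apply]
      at h5
    exact congrArg Subtype.val (e.injective h5)
  · rw [hsupp y hy, hsupp y hy]

end Cfsg.Agent.Lib.Helper42.AbelConj
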