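import Mathlib
import Cfsg.Agent.Lib.Helper42.AbelConj

set_option autoImplicit false

namespace Cfsg.Agent.Lib.Helper42.AbelConj2

open Cfsg.Agent.Lib.Helper42.AbelPerm Cfsg.Agent.Lib.Helper42.AbelConj

universe u

section max
variable {α : Type u}

/-- small orbits are impossible for a large even abelian group -/
lemma three_le_orb [Fintype α] [DecidableEq α] (A : Subgroup (Equiv.Perm α))
    [hA : IsMulCommutative A] (heven : ∀ a ∈ A, Equiv.Perm.sign a = 1) (M : ℕ)
    (hM : M ≤ Nat.card A) (hnum : ∀ j, 1 ≤ j → j ≤ 2 → g (Nat.card α - j) < M) (x : α) :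
    3 ≤ (orb A x).ncard := by
  by_contra h
  have h2 : (orb A x).ncard ≤ 2 := by omega
  have h1 := card_le_of_small_orbit A heven x h2
  have h3 := hnum _ (orb_ncard_pos A x) h2
  omega

/-- an even abelian group whose order is extremal has the structure `Good` -/
theorem good_of_max [Fintype α] [DecidableEq α] (A : Subgroup (Equiv.Perm α))
    [hA : IsMulCommutative A] (heven : ∀ a ∈ A, Equiv.Perm.sign a = 1) (f : ℕ → ℕ) (M : ℕ)
    (hM : M ≤ Nat.card A) (hsmall : ∀ x, 3 ≤ (orb A x).ncard)
    (hf : ∀ x, Nat.card (restrC A x).range ≤ f (Nat.card α - (orb A x).ncard))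
    (hnum : ∀ j c, 3 ≤ j → j ≤ Nat.card α → c ≤ j → M ≤ c * f (Nat.card α - j) →
      (j = 3 ∨ j = 4) ∧ c = j) :
    Good A := by
  intro x
  have h1 := card_eq_ker_mul_range (restrC A x)
  have h2 := card_ker_le A x
  have h4 := card_compl_orb A x
  have h5 : M ≤ Nat.card (restrC A x).ker * f (Nat.card α - (orb A x).ncard) := by
    calc M ≤ Nat.card A := hM
      _ = Nat.card (restrC A x).ker * Nat.card (restrC A x).range := h1
      _ ≤ _ := Nat.mul_le_mul_left _ (hf x)
  obtain ⟨h6, h7⟩ := hnum _ _ (hsmall x) (by omega) h2 h5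
  have htrans := ker_trans A x (by omega)
  refine ⟨?_, htrans⟩
  rcases h6 with h6 | h6
  · exact Or.inl h6
  · refine Or.inr ⟨h6, ?_⟩
    intro a ha
    obtain ⟨k, hk, hk1, hk2⟩ := htrans (a x) ⟨a, ha, rfl⟩
    have hk4 : k ^ 4 = 1 := by
      have hmem : (⟨k, hk⟩ : A) ∈ (restrC A x).ker := (mem_ker_iff A x ⟨k, hk⟩).mpr hk1
      have := pow_card_eq_one' (G := (restrC A x).ker) (x := ⟨⟨k, hk⟩, hmem⟩)
      rw [h7, h6] at this
      have h8 := congrArg (fun t : (restrC A x).ker => ((t : A) : Equiv.Perm α)) this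
      simpa using h8
    have hsq := sq_of_even_four (orb A x) h6 k hk1 (heven k hk) hk4
    rw [← hk2, comm_apply A ha hk, ← hk2]
    exact hsq x

/-- a permutation agreeing on every orbit with an element of the group is in the group -/
theorem mem_of_locally [Finite α] (A : Subgroup (Equiv.Perm α)) [hA : IsMulCommutative A]
    (hG : Good A) (σ : Equiv.Perm α) (h : ∀ x, ∃ a ∈ A, ∀ y ∈ orb A x, σ y = a y) : σ ∈ A := by
  classical
  have hloc : ∀ x, ∃ k ∈ A, (∀ y, y ∉ orb A x → k y = y) ∧ ∀ y ∈ orb A x, k y = σ y := by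
    intro x
    obtain ⟨a, ha, hax⟩ := h x
    obtain ⟨k, hk, hk1, hk2⟩ := (hG x).2 (a x) ⟨a, ha, rfl⟩
    refine ⟨k, hk, hk1, ?_⟩
    rintro y ⟨b, hb, rfl⟩
    rw [hax _ ⟨b, hb, rfl⟩, comm_apply A hk hb, hk2, comm_apply A hb ha]
  have hσorb : ∀ x y, y ∈ orb A x → σ y ∈ orb A x := by
    intro x y hy
    obtain ⟨a, ha, hax⟩ := h x
    rw [hax y hy]
    exact (apply_mem_orb_iff A x ha y).mpr hy
  have key : ∀ S : Finset α, ∃ a ∈ A, (∀ y, (∃ s ∈ S, y ∈ orb A s) → a y = σ y) ∧
      (∀ y, (¬ ∃ s ∈ S, y ∈ orb A s) → a y = y) := by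
    intro S
    induction S using Finset.induction_on with
    | empty => exact ⟨1, A.one_mem, by simp, by simp⟩
    | insert x S hxS ih =>
      obtain ⟨a, ha, ha1, ha2⟩ := ih
      by_cases hx : ∃ s ∈ S, x ∈ orb A s
      · obtain ⟨s0, hs0, hxs0⟩ := hx
        have hequiv : ∀ y, (∃ s ∈ insert x S, y ∈ orb A s) ↔ (∃ s ∈ S, y ∈ orb A s) := by
          intro y
          constructor
          · rintro ⟨s, hs, hy⟩
            rcases Finset.mem_insert.mp hs with rfl | hs
            · exact ⟨s0, hs0, mem_orb_trans A hxs0 hy⟩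
            · exact ⟨s, hs, hy⟩
          · rintro ⟨s, hs, hy⟩
            exact ⟨s, Finset.mem_insert_of_mem hs, hy⟩
        exact ⟨a, ha, fun y hy => ha1 y ((hequiv y).mp hy),
          fun y hy => ha2 y (fun h' => hy ((hequiv y).mpr h'))⟩
      · obtain ⟨k, hk, hk1, hk2⟩ := hloc x
        refine ⟨a * k, A.mul_mem ha hk, ?_, ?_⟩
        · rintro y ⟨s, hs, hy⟩
          rw [Equiv.Perm.mul_apply]
          by_cases hyx : y ∈ orb A x
          · rw [hk2 y hyx]
            apply ha2
            rintro ⟨s', hs', hy'⟩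
            exact hx ⟨s', hs', mem_orb_trans A hy' (mem_orb_symm A (hσorb x y hyx))⟩
          · rw [hk1 y hyx]
            rcases Finset.mem_insert.mp hs with rfl | hs
            · exact absurd hy hyx
            · exact ha1 y ⟨s, hs, hy⟩
        · intro y hy
          rw [Equiv.Perm.mul_apply]
          have hyx : y ∉ orb A x := fun h' => hy ⟨x, Finset.mem_insert_self x S, h'⟩
          rw [hk1 y hyx]
          apply ha2
          rintro ⟨s, hs, hy'⟩
          exact hy ⟨s, Finset.mem_insert_of_mem hs, hy'⟩
  have := Fintype.ofFinite α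
  obtain ⟨a, ha, ha1, -⟩ := key Finset.univ
  have : σ = a := by
    ext y
    exact (ha1 y ⟨y, Finset.mem_univ y, mem_orb_self A y⟩).symm
  rw [this]
  exact ha

end max

/-- a bijection matching the orbits conjugates one group into the other -/
theorem conj_le {α β : Type u} [Finite α] [Finite β] (A : Subgroup (Equiv.Perm α))
    (B : Subgroup (Equiv.Perm β)) [hA : IsMulCommutative A] [hB : IsMulCommutative B]
    (hGA : Good A) (hGB : Good B) (φ : α ≃ β)
    (hφ : ∀ u v, φ v ∈ orb B (φ u) ↔ v ∈ orb A u) (σ : Equiv.Perm α) (hσ : σ ∈ A) :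
    φ.permCongr σ ∈ B := by
  apply mem_of_locally B hGB
  intro x'
  obtain ⟨x, rfl⟩ := φ.surjective x'
  have hncard : ∀ u, (orb B (φ u)).ncard = (orb A u).ncard := by
    intro u
    have : orb B (φ u) = φ '' orb A u := by
      ext z'
      constructor
      · intro hz
        refine ⟨φ.symm z', ?_, φ.apply_symm_apply z'⟩
        rw [← hφ, φ.apply_symm_apply]
        exact hz
      · rintro ⟨z, hz, rfl⟩
        exact (hφ u z).mpr hz
    rw [this, Set.ncard_image_of_injective _ φ.injective]
  have hτ : ∀ y, φ.permCongr σ (φ y) = φ (σ y) := by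
    intro y
    rw [Equiv.permCongr_apply, φ.symm_apply_apply]
  have hτx : φ.permCongr σ (φ x) ∈ orb B (φ x) := by
    rw [hτ, hφ]
    exact ⟨σ, hσ, rfl⟩
  obtain ⟨b, hb, hbx⟩ := hτx
  refine ⟨b, hb, ?_⟩
  refine sharp (orb B (φ x)) (φ.permCongr σ) b ?_ ?_ ?_ ?_ ?_ ?_ (φ x) (mem_orb_self B (φ x))
    hbx.symm
  · intro y'
    obtain ⟨y, rfl⟩ := φ.surjective y'
    rw [hτ, hφ, hφ]
    exact apply_mem_orb_iff A x hσ y
  · exact fun y' => apply_mem_orb_iff B (φ x) hb y'
  · rcases (hGB (φ x)).1 with h | h
    · exact Or.inl h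
    · exact Or.inr h.1
  · intro h4
    constructor
    · intro y' hy'
      obtain ⟨y, rfl⟩ := φ.surjective y'
      rw [hφ] at hy'
      rw [hτ, hτ]
      have h4' : (orb A y).ncard = 4 := by
        rw [orb_eq_of_mem A hy', ← hncard, h4]
      rcases (hGA y).1 with h | h
      · omega
      · rw [h.2 σ hσ]
    · intro y' hy'
      have h4' : (orb B y').ncard = 4 := by
        rw [orb_eq_of_mem B hy', h4]
      rcases (hGB y').1 with h | h
      · omega
      · exact h.2 b hb
  · intro y' hy' hfix z' hz'
    obtain ⟨y, rfl⟩ := φ.surjective y'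
    obtain ⟨z, rfl⟩ := φ.surjective z'
    rw [hφ] at hy' hz'
    rw [hτ] at hfix ⊢
    have hfix' : σ y = y := φ.injective hfix
    rw [fix_orb A hσ hfix' (mem_orb_trans A (mem_orb_symm A hy') hz')]
  · intro y' hy' hfix z' hz'
    exact fix_orb B hb hfix (mem_orb_trans B (mem_orb_symm B hy') hz')

theorem conj_iff {α β : Type u} [Finite α] [Finite β] (A : Subgroup (Equiv.Perm α))
    (B : Subgroup (Equiv.Perm β)) [hA : IsMulCommutative A] [hB : IsMulCommutative B]
    (hGA : Good A) (hGB : Good B) (φ : α ≃ β)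
    (hφ : ∀ u v, φ v ∈ orb B (φ u) ↔ v ∈ orb A u) (σ : Equiv.Perm α) :
    φ.permCongr σ ∈ B ↔ σ ∈ A := by
  constructor
  · intro h
    have h' := conj_le B A hGB hGA φ.symm (fun u v => by
      have := hφ (φ.symm u) (φ.symm v)
      rw [φ.apply_symm_apply, φ.apply_symm_apply] at this
      exact this.symm) _ h
    have e : φ.symm.permCongr (φ.permCongr σ) = σ := by
      ext y
      simp [Equiv.permCongr_apply]
    rwa [e] at h'
  · exact conj_le A B hGA hGB φ hφ σ

/-- two groups with the structure `Good`, of the same degree and order, have matching orbits -/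
theorem exists_matching : ∀ (n : ℕ) (α β : Type u) [Finite α] [Finite β], Nat.card α = n →
    Nat.card β = n → ∀ (A : Subgroup (Equiv.Perm α)) (B : Subgroup (Equiv.Perm β)),
    IsMulCommutative A → IsMulCommutative B → Good A → Good B → Nat.card A = Nat.card B →
    ∃ φ : α ≃ β, ∀ u v, φ v ∈ orb B (φ u) ↔ v ∈ orb A u := by
  intro n
  induction n using Nat.strong_induction_on with
  | _ n ih =>
    intro α β _ _ hα hβ A B hA hB hGA hGB hcard
    classical
    rcases isEmpty_or_nonempty α with hα0 | ⟨⟨x⟩⟩
    · have hn : n = 0 := by rw [← hα]; exact Nat.card_of_isEmpty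
      have hβ0 : IsEmpty β := by
        rw [hn] at hβ
        exact (Nat.card_eq_zero.mp hβ).resolve_right (fun h => h.not_finite inferInstance)
      exact ⟨Equiv.equivOfIsEmpty α β, fun u => isEmptyElim u⟩
    · have hmove : ∀ b : B, b ≠ 1 → ∃ y, (b : Equiv.Perm β) y ≠ y := by
        intro b hb1
        by_contra hall
        push Not at hall
        exact hb1 (Subtype.ext (Equiv.ext hall))
      have hx' : ∃ x' : β, (orb B x').ncard = (orb A x).ncard := by
        have hKA := card_ker_eq A hGA x
        have hdvd : (orb A x).ncard ∣ Nat.card B := by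
          rw [← hcard, ← hKA]
          exact Subgroup.card_subgroup_dvd_card _
        rcases (hGA x).1 with h3 | ⟨h4, -⟩
        · rw [h3] at hdvd
          have : Fact (Nat.Prime 3) := ⟨by norm_num⟩
          obtain ⟨b, hb⟩ := exists_prime_orderOf_dvd_card' 3 hdvd
          have hb1 : b ≠ 1 := by
            intro h
            rw [h, orderOf_one] at hb
            omega
          obtain ⟨y, hy⟩ := hmove b hb1
          refine ⟨y, ?_⟩
          rw [h3]
          rcases (hGB y).1 with h | ⟨-, h⟩
          · exact h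
          · exfalso
            have h2 := h b.1 b.2
            have hb3 : (b : Equiv.Perm β) ^ 3 = 1 := by
              have := pow_orderOf_eq_one b
              rw [hb] at this
              have h8 := congrArg Subtype.val this
              simpa using h8
            have h5 : ((b : Equiv.Perm β) ^ 3) y = y := by rw [hb3]; rfl
            have h6 : ((b : Equiv.Perm β) ^ 3) y =
                (b : Equiv.Perm β) ((b : Equiv.Perm β) ((b : Equiv.Perm β) y)) := by
              simp [pow_succ]
            rw [h6, h2] at h5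
            exact hy h5
        · rw [h4] at hdvd
          have h2dvd : 2 ∣ Nat.card B := dvd_trans (by norm_num) hdvd
          have : Fact (Nat.Prime 2) := ⟨by norm_num⟩
          obtain ⟨b, hb⟩ := exists_prime_orderOf_dvd_card' 2 h2dvd
          have hb1 : b ≠ 1 := by
            intro h
            rw [h, orderOf_one] at hb
            omega
          obtain ⟨y, hy⟩ := hmove b hb1
          refine ⟨y, ?_⟩
          rw [h4]
          rcases (hGB y).1 with h | ⟨h, -⟩
          · exfalso
            have h5 := pow_ncard_fix B b.2 y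
            rw [h] at h5
            have hb2 : (b : Equiv.Perm β) ^ 2 = 1 := by
              have := pow_orderOf_eq_one b
              rw [hb] at this
              have h8 := congrArg Subtype.val this
              simpa using h8
            have : (b : Equiv.Perm β) ^ 3 = b := by rw [pow_succ, hb2, one_mul]
            rw [this] at h5
            exact hy h5
          · exact h
      obtain ⟨x', hx'⟩ := hx'
      have hjA := card_ker_eq A hGA x
      have hjB := card_ker_eq B hGB x'
      have h1A := card_eq_ker_mul_range (restrC A x)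
      have h1B := card_eq_ker_mul_range (restrC B x')
      have hcA := card_compl_orb A x
      have hcB := card_compl_orb B x'
      have hpos := orb_ncard_pos A x
      have hR : Nat.card (restrC A x).range = Nat.card (restrC B x').range := by
        rw [hjA] at h1A
        rw [hjB, hx'] at h1B
        rw [h1A, h1B] at hcard
        exact Nat.eq_of_mul_eq_mul_left (by omega) hcard
      obtain ⟨ψ, hψ⟩ := ih (Nat.card ↥(orb A x)ᶜ) (by omega) ↥(orb A x)ᶜ ↥(orb B x')ᶜ rfl
        (by omega) (restrC A x).range (restrC B x').range inferInstance inferInstance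
        (good_range A hGA x) (good_range B hGB x') hR
      have hχ : Nonempty (↥(orb A x) ≃ ↥(orb B x')) := by
        rw [← Finite.card_eq, Nat.card_coe_set_eq, Nat.card_coe_set_eq, hx']
      obtain ⟨χ⟩ := hχ
      let φ : α ≃ β := (Equiv.Set.sumCompl (orb A x)).symm.trans
        ((Equiv.sumCongr χ ψ).trans (Equiv.Set.sumCompl (orb B x')))
      have hφ1 : ∀ v (hv : v ∈ orb A x), φ v = (χ ⟨v, hv⟩ : β) := by
        intro v hv
        show Equiv.Set.sumCompl (orb B x')
          (Equiv.sumCongr χ ψ ((Equiv.Set.sumCompl (orb A x)).symm v)) = _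
        rw [Equiv.Set.sumCompl_symm_apply_of_mem hv]
        rfl
      have hφ2 : ∀ v (hv : v ∉ orb A x), φ v = (ψ ⟨v, hv⟩ : β) := by
        intro v hv
        show Equiv.Set.sumCompl (orb B x')
          (Equiv.sumCongr χ ψ ((Equiv.Set.sumCompl (orb A x)).symm v)) = _
        rw [Equiv.Set.sumCompl_symm_apply_of_notMem hv]
        rfl
      have hφ3 : ∀ v, φ v ∈ orb B x' ↔ v ∈ orb A x := by
        intro v
        by_cases hv : v ∈ orb A x
        · rw [hφ1 v hv]
          exact ⟨fun _ => hv, fun _ => (χ ⟨v, hv⟩).2⟩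
        · rw [hφ2 v hv]
          exact ⟨fun h => absurd h (ψ ⟨v, hv⟩).2, fun h => absurd h hv⟩
      refine ⟨φ, ?_⟩
      intro u v
      by_cases hu : u ∈ orb A x
      · rw [orb_eq_of_mem A hu, orb_eq_of_mem B ((hφ3 u).mpr hu)]
        exact hφ3 v
      · by_cases hv : v ∈ orb A x
        · constructor
          · intro h
            exfalso
            have h1 : φ u ∈ orb B x' := mem_orb_trans B ((hφ3 v).mpr hv) (mem_orb_symm B h)
            exact hu ((hφ3 u).mp h1)
          · intro h
            exfalso
            exact hu (mem_orb_trans A hv (mem_orb_symm A h))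
        · rw [hφ2 u hu, hφ2 v hv]
          have h1 := hψ ⟨u, hu⟩ ⟨v, hv⟩
          rw [mem_orb_range_iff, mem_orb_range_iff] at h1
          exact h1

end Cfsg.Agent.Lib.Helper42.AbelConj2
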