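import Mathlib

/-!
# Counting the circle `a² + b² = 1` over a finite field of odd order

`card_circle`: the number of points plus the number of square roots of `-1` is `q + 1`.
`v2_circle`: the `2`-adic valuation of the number of points, plus one, is
`v₂(q - 1) + v₂(q + 1)`.
-/

set_option autoImplicit false
set_option linter.unusedSectionVars false

namespace Cfsg.Agent.Lib.Helper42.Circle

section count

variable {F : Type*} [Field F]

/-- The rational parametrization of the circle minus the point `(-1, 0)`. -/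
noncomputable def param (h2 : (2 : F) ≠ 0) :
    {x : {p : F × F // p.1 ^ 2 + p.2 ^ 2 = 1} // ¬ (x.1 = ((-1 : F), (0 : F)))} ≃
      {t : F // ¬ (1 + t ^ 2 = 0)} where
  toFun x := ⟨x.1.1.2 / (1 + x.1.1.1), by
    obtain ⟨⟨⟨a, b⟩, h⟩, hne⟩ := x
    have h' : a ^ 2 + b ^ 2 = 1 := h
    have ha : 1 + a ≠ 0 := by
      intro ha
      apply hne
      have ha' : a = -1 := by linear_combination ha
      have hb : b ^ 2 = 0 := by
        rw [ha'] at h'
        linear_combination h'
      have hb' : b = 0 := by simpa using hb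
      show (a, b) = (-1, 0)
      rw [ha', hb']
    show ¬ (1 + (b / (1 + a)) ^ 2 = 0)
    intro hcon
    have h3 : (1 + a) ^ 2 + b ^ 2 = 0 := by
      have h4 : (1 + (b / (1 + a)) ^ 2) * (1 + a) ^ 2 = 0 := by rw [hcon, zero_mul]
      rw [add_mul, one_mul, div_pow, div_mul_cancel₀ _ (pow_ne_zero 2 ha)] at h4
      exact h4
    have h5 : 2 * (1 + a) = 0 := by linear_combination h3 - h'
    rcases mul_eq_zero.mp h5 with h6 | h6
    · exact h2 h6
    · exact ha h6⟩
  invFun t := ⟨⟨((1 - t.1 ^ 2) / (1 + t.1 ^ 2), 2 * t.1 / (1 + t.1 ^ 2)), by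
    have ht : 1 + t.1 ^ 2 ≠ 0 := t.2
    show ((1 - t.1 ^ 2) / (1 + t.1 ^ 2)) ^ 2 + (2 * t.1 / (1 + t.1 ^ 2)) ^ 2 = 1
    field_simp
    ring⟩, by
    have ht : 1 + t.1 ^ 2 ≠ 0 := t.2
    intro hcon
    have h3 : (1 - t.1 ^ 2) / (1 + t.1 ^ 2) = -1 := congrArg Prod.fst hcon
    rw [div_eq_iff ht] at h3
    apply h2
    linear_combination h3⟩
  left_inv x := by
    obtain ⟨⟨⟨a, b⟩, h⟩, hne⟩ := x
    have h' : a ^ 2 + b ^ 2 = 1 := h
    have ha : 1 + a ≠ 0 := by
      intro ha
      apply hne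
      have ha' : a = -1 := by linear_combination ha
      have hb : b ^ 2 = 0 := by
        rw [ha'] at h'
        linear_combination h'
      have hb' : b = 0 := by simpa using hb
      show (a, b) = (-1, 0)
      rw [ha', hb']
    have hden : (1 + a) ^ 2 + b ^ 2 = 2 * (1 + a) := by linear_combination h'
    have hden0 : 1 + (b / (1 + a)) ^ 2 ≠ 0 := by
      intro hcon
      have h4 : (1 + (b / (1 + a)) ^ 2) * (1 + a) ^ 2 = 0 := by rw [hcon, zero_mul]
      rw [add_mul, one_mul, div_pow, div_mul_cancel₀ _ (pow_ne_zero 2 ha), hden] at h4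
      rcases mul_eq_zero.mp h4 with h6 | h6
      · exact h2 h6
      · exact ha h6
    apply Subtype.ext
    apply Subtype.ext
    show ((1 - (b / (1 + a)) ^ 2) / (1 + (b / (1 + a)) ^ 2),
      2 * (b / (1 + a)) / (1 + (b / (1 + a)) ^ 2)) = (a, b)
    have e1 : 1 + (b / (1 + a)) ^ 2 = 2 / (1 + a) := by
      field_simp
      linear_combination h'
    have e2 : 1 - (b / (1 + a)) ^ 2 = 2 * a / (1 + a) := by
      field_simp
      linear_combination -h'
    rw [e1, e2]
    apply Prod.ext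
    · show 2 * a / (1 + a) / (2 / (1 + a)) = a
      field_simp
    · show 2 * (b / (1 + a)) / (2 / (1 + a)) = b
      field_simp
  right_inv t := by
    have ht : 1 + t.1 ^ 2 ≠ 0 := t.2
    apply Subtype.ext
    show 2 * t.1 / (1 + t.1 ^ 2) / (1 + (1 - t.1 ^ 2) / (1 + t.1 ^ 2)) = t.1
    have e1 : 1 + (1 - t.1 ^ 2) / (1 + t.1 ^ 2) = 2 / (1 + t.1 ^ 2) := by
      field_simp
      ring
    rw [e1]
    field_simp

theorem card_circle [Fintype F] (h2 : (2 : F) ≠ 0) :
    Nat.card {p : F × F // p.1 ^ 2 + p.2 ^ 2 = 1} + Nat.card {t : F // t ^ 2 = -1} =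
      Fintype.card F + 1 := by
  classical
  have h1 : Nat.card {p : F × F // p.1 ^ 2 + p.2 ^ 2 = 1} =
      Nat.card {x : {p : F × F // p.1 ^ 2 + p.2 ^ 2 = 1} // x.1 = ((-1 : F), (0 : F))} +
      Nat.card {x : {p : F × F // p.1 ^ 2 + p.2 ^ 2 = 1} // ¬ (x.1 = ((-1 : F), (0 : F)))} := by
    rw [← Nat.card_sum]
    exact Nat.card_congr (Equiv.sumCompl _).symm
  have h3 : Nat.card {x : {p : F × F // p.1 ^ 2 + p.2 ^ 2 = 1} // x.1 = ((-1 : F), (0 : F))}
      = 1 := by
    rw [Nat.card_eq_one_iff_unique]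
    refine ⟨⟨?_⟩, ⟨⟨⟨((-1 : F), (0 : F)), by simp⟩, rfl⟩⟩⟩
    rintro ⟨⟨p, hp⟩, hx⟩ ⟨⟨p', hp'⟩, hx'⟩
    apply Subtype.ext
    apply Subtype.ext
    show p = p'
    have e1 : p = ((-1 : F), (0 : F)) := hx
    have e2 : p' = ((-1 : F), (0 : F)) := hx'
    rw [e1, e2]
  have h4 : Nat.card F = Nat.card {t : F // 1 + t ^ 2 = 0} +
      Nat.card {t : F // ¬ (1 + t ^ 2 = 0)} := by
    rw [← Nat.card_sum]
    exact Nat.card_congr (Equiv.sumCompl _).symm
  have h5 : Nat.card {t : F // 1 + t ^ 2 = 0} = Nat.card {t : F // t ^ 2 = -1} := by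
    apply Nat.card_congr
    apply Equiv.subtypeEquivRight
    intro t
    constructor
    · intro h
      linear_combination h
    · intro h
      linear_combination h
  have h6 := Nat.card_congr (param h2)
  rw [Nat.card_eq_fintype_card] at h4
  omega

theorem card_roots_three [Fintype F] (hq : Fintype.card F % 4 = 3) :
    Nat.card {t : F // t ^ 2 = -1} = 0 := by
  have : IsEmpty {t : F // t ^ 2 = -1} := by
    constructor
    rintro ⟨t, ht⟩
    have h1 : IsSquare (-1 : F) := ⟨t, by rw [← ht, pow_two]⟩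
    rw [FiniteField.isSquare_neg_one_iff] at h1
    exact h1 hq
  exact Nat.card_of_isEmpty

theorem card_roots_one [Fintype F] (h2 : (2 : F) ≠ 0) (hq : Fintype.card F % 4 = 1) :
    Nat.card {t : F // t ^ 2 = -1} = 2 := by
  have h1 : IsSquare (-1 : F) := by
    rw [FiniteField.isSquare_neg_one_iff]
    omega
  obtain ⟨i, hi⟩ := h1
  have hi2 : i ^ 2 = -1 := by rw [pow_two, ← hi]
  have hi0 : i ≠ 0 := by
    rintro rfl
    simp at hi
  rw [Nat.card_eq_two_iff]
  refine ⟨⟨i, hi2⟩, ⟨-i, by rw [neg_pow_two, hi2]⟩, ?_, ?_⟩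
  · intro h
    have h3 : i = -i := congrArg Subtype.val h
    have h4 : 2 * i = 0 := by linear_combination h3
    rcases mul_eq_zero.mp h4 with h5 | h5
    · exact h2 h5
    · exact hi0 h5
  · rw [Set.eq_univ_iff_forall]
    rintro ⟨t, ht⟩
    have h3 : (t - i) * (t + i) = 0 := by linear_combination ht - hi2
    rcases mul_eq_zero.mp h3 with h4 | h4
    · left
      apply Subtype.ext
      show t = i
      linear_combination h4
    · right
      apply Subtype.ext
      show t = -i
      linear_combination h4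

theorem v2_of_mod4 (m : ℕ) (h : m % 4 = 2) : padicValNat 2 m = 1 := by
  obtain ⟨k, rfl⟩ : ∃ k, m = 2 * k := ⟨m / 2, by omega⟩
  rw [padicValNat.mul (by norm_num) (by omega), padicValNat_self,
    padicValNat.eq_zero_of_not_dvd (by omega)]

/-- The `2`-part of the number of points on the circle. -/
theorem v2_circle [Fintype F] (h2 : (2 : F) ≠ 0) (hodd : Odd (Fintype.card F)) :
    (Nat.card {p : F × F // p.1 ^ 2 + p.2 ^ 2 = 1}).factorization 2 + 1 =
      padicValNat 2 (Fintype.card F - 1) + padicValNat 2 (Fintype.card F + 1) := by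
  have hc := card_circle (F := F) h2
  have hq2 : Fintype.card F % 2 = 1 := Nat.odd_iff.mp hodd
  rw [Nat.factorization_def _ Nat.prime_two]
  rcases (by omega : Fintype.card F % 4 = 1 ∨ Fintype.card F % 4 = 3) with hq | hq
  · rw [card_roots_one h2 hq] at hc
    have e : Nat.card {p : F × F // p.1 ^ 2 + p.2 ^ 2 = 1} = Fintype.card F - 1 := by omega
    rw [e, v2_of_mod4 (Fintype.card F + 1) (by omega)]
  · rw [card_roots_three hq] at hc
    have e : Nat.card {p : F × F // p.1 ^ 2 + p.2 ^ 2 = 1} = Fintype.card F + 1 := by omega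
    rw [e, v2_of_mod4 (Fintype.card F - 1) (by omega)]
    ring

end count

end Cfsg.Agent.Lib.Helper42.Circle
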