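import Mathlib

/-!
# Derived length of finite `p`-subgroups of `GL_n`: characteristic `p` part

`exists_fixed`: a finite `p`-group acting linearly on a nonzero space over a field in which
`p = 0` has a nonzero fixed vector.  `exists_fixed_dual`: invariant nonzero functional.
`charp_bound`: for a representation `ρ` of a finite `p`-group on a space of dimension `n`
over such a field, `derivedSeries P k ≤ ker ρ` as soon as `n ≤ 2 ^ k`.
-/

set_option autoImplicit false
set_option linter.unusedSectionVars false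

open scoped commutatorElement

namespace Cfsg.Agent.Lib.Helper42.DerLenA

/-- A finite `p`-group acting linearly in characteristic `p` on a nonzero space has a nonzero
fixed vector. -/
theorem exists_fixed {K : Type*} [Field K] {p : ℕ} [Fact p.Prime] (hpK : (p : K) = 0)
    {P : Type*} [Group P] [Finite P] (hP : IsPGroup p P)
    {V : Type*} [AddCommGroup V] [Module K V] [Nontrivial V]
    (ρ : P →* Module.End K V) : ∃ v : V, v ≠ 0 ∧ ∀ g, ρ g v = v := by
  classical
  obtain ⟨v0, hv0⟩ := exists_ne (0 : V)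
  obtain ⟨S, hS⟩ : ∃ S : Set V, S = Set.range (fun g : P => ρ g v0) := ⟨_, rfl⟩
  obtain ⟨A, hA⟩ : ∃ A : AddSubgroup V, A = AddSubgroup.closure S := ⟨_, rfl⟩
  have hpv : ∀ v : V, p • v = 0 := fun v => by
    rw [← Nat.cast_smul_eq_nsmul K, hpK, zero_smul]
  have hSfin : S.Finite := by rw [hS]; exact Set.finite_range _
  have hfin : Finite A := by
    have hfg : AddGroup.FG A := by
      rw [AddGroup.fg_iff_addSubgroup_fg]
      exact ⟨hSfin.toFinset, by rw [hA]; simp⟩
    apply AddCommGroup.finite_of_fg_isAddTorsion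
    intro a
    rw [isOfFinAddOrder_iff_nsmul_eq_zero]
    exact ⟨p, (Fact.out : p.Prime).pos, Subtype.ext (hpv _)⟩
  have hinv : ∀ g : P, ∀ a ∈ A, ρ g a ∈ A := by
    intro g a ha
    have h1 : A.map (ρ g).toAddMonoidHom ≤ A := by
      rw [hA, AddMonoidHom.map_closure]
      apply AddSubgroup.closure_mono
      rintro _ ⟨w, hw, rfl⟩
      rw [hS] at hw ⊢
      obtain ⟨h, rfl⟩ := hw
      exact ⟨g * h, by simp⟩
    exact h1 ⟨a, ha, rfl⟩
  let act : MulAction P A :=
    { smul := fun g a => ⟨ρ g a, hinv g a a.2⟩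
      one_smul := fun a => Subtype.ext (by show ρ 1 (a : V) = a; simp)
      mul_smul := fun g h a => Subtype.ext (by show ρ (g * h) (a : V) = ρ g (ρ h a); simp) }
  have hv0A : v0 ∈ A := by
    rw [hA]
    apply AddSubgroup.subset_closure
    rw [hS]
    exact ⟨1, by simp⟩
  have hdvd : p ∣ Nat.card A := by
    have h1 : addOrderOf (⟨v0, hv0A⟩ : A) = p := by
      apply addOrderOf_eq_prime
      · exact Subtype.ext (hpv _)
      · intro h
        exact hv0 (congrArg Subtype.val h)
    rw [← h1]
    exact addOrderOf_dvd_natCard _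
  have h0 : (0 : A) ∈ MulAction.fixedPoints P A := by
    intro g
    apply Subtype.ext
    show ρ g ((0 : A) : V) = ((0 : A) : V)
    simp
  obtain ⟨b, hb, hb0⟩ := hP.exists_fixed_point_of_prime_dvd_card_of_fixed_point A hdvd h0
  refine ⟨b, fun h => hb0 (Subtype.ext h.symm), fun g => ?_⟩
  exact congrArg Subtype.val (hb g)

/-- A finite `p`-group acting linearly in characteristic `p` on a nonzero finite-dimensional
space fixes a nonzero linear functional. -/
theorem exists_fixed_dual {K : Type*} [Field K] {p : ℕ} [Fact p.Prime] (hpK : (p : K) = 0)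
    {P : Type*} [Group P] [Finite P] (hP : IsPGroup p P)
    {V : Type*} [AddCommGroup V] [Module K V] [FiniteDimensional K V] [Nontrivial V]
    (ρ : P →* Module.End K V) :
    ∃ φ : Module.Dual K V, φ ≠ 0 ∧ ∀ g, φ ∘ₗ ρ g = φ := by
  have hnt : Nontrivial (Module.Dual K V) := inferInstance
  obtain ⟨φ, hφ, hfix⟩ := exists_fixed hpK hP (Representation.dual ρ)
  refine ⟨φ, hφ, fun g => ?_⟩
  have h := hfix g⁻¹
  rw [Representation.dual_apply, inv_inv] at h
  exact h

/-- Restriction of a representation to an invariant subspace. -/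
def res {K : Type*} [Field K] {P : Type*} [Group P] {V : Type*} [AddCommGroup V] [Module K V]
    (ρ : P →* Module.End K V) (U : Submodule K V) (hU : ∀ g, ∀ u ∈ U, ρ g u ∈ U) :
    P →* Module.End K U where
  toFun g := (ρ g).restrict (hU g)
  map_one' := by
    ext u
    simp
  map_mul' g h := by
    ext u
    simp

theorem res_apply {K : Type*} [Field K] {P : Type*} [Group P] {V : Type*} [AddCommGroup V]
    [Module K V] (ρ : P →* Module.End K V) (U : Submodule K V)
    (hU : ∀ g, ∀ u ∈ U, ρ g u ∈ U) (g : P) (u : U) :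
    ((res ρ U hU g) u : V) = ρ g (u : V) := rfl

section chain

variable {K : Type*} [Field K] {P : Type*} [Group P] {V : Type*} [AddCommGroup V] [Module K V]

/-- The descending chain `W 0 = ⊤`, `W (i+1) = [W i, P]`. -/
def chainW (ρ : P →* Module.End K V) : ℕ → Submodule K V
  | 0 => ⊤
  | (i + 1) => ⨆ g : P, (chainW ρ i).map (ρ g - 1)

theorem chainW_step (ρ : P →* Module.End K V) (i : ℕ) (g : P) (w : V) (hw : w ∈ chainW ρ i) :
    (ρ g - 1) w ∈ chainW ρ (i + 1) := by
  show (ρ g - 1) w ∈ ⨆ g : P, (chainW ρ i).map (ρ g - 1)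
  exact (le_iSup (fun g : P => (chainW ρ i).map (ρ g - 1)) g) ⟨w, hw, rfl⟩

theorem chainW_inv (ρ : P →* Module.End K V) (i : ℕ) (g : P) (w : V) (hw : w ∈ chainW ρ i) :
    ρ g w ∈ chainW ρ i := by
  induction i generalizing w with
  | zero => exact Submodule.mem_top
  | succ i ih =>
    have h1 : (chainW ρ (i + 1)).map (ρ g) ≤ chainW ρ (i + 1) := by
      show (⨆ h : P, (chainW ρ i).map (ρ h - 1)).map (ρ g) ≤ _
      rw [Submodule.map_iSup]
      apply iSup_le
      intro h
      rintro _ ⟨_, ⟨u, hu, rfl⟩, rfl⟩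
      have e : ρ g ((ρ h - 1) u) = (ρ (g * h * g⁻¹) - 1) (ρ g u) := by
        simp only [LinearMap.sub_apply, Module.End.one_apply, map_sub, map_mul,
          Module.End.mul_apply]
        congr 2
        rw [← Module.End.mul_apply, ← map_mul]
        simp
      rw [e]
      exact chainW_step ρ i _ _ (ih u hu)
    exact h1 ⟨w, hw, rfl⟩

theorem chainW_succ_le (ρ : P →* Module.End K V) (i : ℕ) : chainW ρ (i + 1) ≤ chainW ρ i := by
  show (⨆ h : P, (chainW ρ i).map (ρ h - 1)) ≤ _
  apply iSup_le
  intro h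
  rintro _ ⟨u, hu, rfl⟩
  simp only [LinearMap.sub_apply, Module.End.one_apply]
  exact Submodule.sub_mem _ (chainW_inv ρ i h u hu) hu

theorem chainW_anti (ρ : P →* Module.End K V) : Antitone (chainW ρ) :=
  antitone_nat_of_succ_le (chainW_succ_le ρ)

end chain

section charp

variable {K : Type*} [Field K] {p : ℕ} [Fact p.Prime] {P : Type*} [Group P] [Finite P]
  {V : Type*} [AddCommGroup V] [Module K V] [FiniteDimensional K V]

theorem chainW_lt (hpK : (p : K) = 0) (hP : IsPGroup p P) (ρ : P →* Module.End K V) (i : ℕ)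
    (hi : chainW ρ i ≠ ⊥) : chainW ρ (i + 1) < chainW ρ i := by
  have hnt : Nontrivial (chainW ρ i) := Submodule.nontrivial_iff_ne_bot.mpr hi
  obtain ⟨φ, hφ, hfix⟩ := exists_fixed_dual hpK hP (res ρ (chainW ρ i) (chainW_inv ρ i))
  refine lt_of_le_of_ne (chainW_succ_le ρ i) (fun heq => hφ ?_)
  -- φ vanishes on W (i+1) = W i
  have hker : ∀ u : chainW ρ i, (u : V) ∈ chainW ρ (i + 1) → φ u = 0 := by
    intro u hu
    have h1 : (chainW ρ (i + 1)).comap (chainW ρ i).subtype ≤ LinearMap.ker φ := by
      show (⨆ h : P, (chainW ρ i).map (ρ h - 1)).comap (chainW ρ i).subtype ≤ _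
      intro x hx
      have hx' : (x : V) ∈ ⨆ h : P, (chainW ρ i).map (ρ h - 1) := hx
      -- use the induction principle for iSup
      have key : ∀ y : V, y ∈ (⨆ h : P, (chainW ρ i).map (ρ h - 1)) →
          ∀ hy : y ∈ chainW ρ i, φ ⟨y, hy⟩ = 0 := by
        intro y hy
        induction hy using Submodule.iSup_induction' with
        | mem h y hy =>
          intro hy2
          obtain ⟨u, hu, rfl⟩ := hy
          have e : (⟨(ρ h - 1) u, hy2⟩ : chainW ρ i) =
              (res ρ (chainW ρ i) (chainW_inv ρ i) h) ⟨u, hu⟩ - ⟨u, hu⟩ := by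
            apply Subtype.ext
            simp [res_apply]
          rw [e, map_sub]
          have := LinearMap.congr_fun (hfix h) ⟨u, hu⟩
          simp only [LinearMap.comp_apply] at this
          rw [this, sub_self]
        | zero =>
          intro hy2
          exact map_zero φ
        | add y z hy hz ihy ihz =>
          intro hyz
          have hy1 : y ∈ chainW ρ i := chainW_succ_le ρ i hy
          have hz1 : z ∈ chainW ρ i := chainW_succ_le ρ i hz
          have e : (⟨y + z, hyz⟩ : chainW ρ i) = ⟨y, hy1⟩ + ⟨z, hz1⟩ := rfl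
          rw [e, map_add, ihy hy1, ihz hz1, add_zero]
      exact key x hx' x.2
    exact h1 hu
  ext u
  rw [LinearMap.zero_apply]
  have hu1 : (u : V) ∈ chainW ρ (i + 1) := by
    rw [heq]
    exact u.2
  exact hker u hu1

theorem chainW_finrank (hpK : (p : K) = 0) (hP : IsPGroup p P) (ρ : P →* Module.End K V)
    (i : ℕ) : Module.finrank K (chainW ρ i) + i ≤ Module.finrank K V ∨ chainW ρ i = ⊥ := by
  induction i with
  | zero =>
    left
    show Module.finrank K (⊤ : Submodule K V) + 0 ≤ _
    simp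
  | succ i ih =>
    by_cases hi : chainW ρ i = ⊥
    · right
      exact le_bot_iff.mp (hi ▸ chainW_succ_le ρ i)
    · left
      have h1 := Submodule.finrank_lt_finrank_of_lt (chainW_lt hpK hP ρ i hi)
      rcases ih with h | h
      · omega
      · exact absurd h hi

theorem chainW_eq_bot (hpK : (p : K) = 0) (hP : IsPGroup p P) (ρ : P →* Module.End K V)
    (j : ℕ) (hj : Module.finrank K V ≤ j) : chainW ρ j = ⊥ := by
  have h0 : chainW ρ (Module.finrank K V) = ⊥ := by
    rcases chainW_finrank hpK hP ρ (Module.finrank K V) with h | h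
    · have : Module.finrank K (chainW ρ (Module.finrank K V)) = 0 := by omega
      exact Submodule.finrank_eq_zero.mp this
    · exact h
  exact le_bot_iff.mp (h0 ▸ chainW_anti ρ hj)

/-- The subgroup of elements acting trivially on `W i / W (i + j)` for all `i`. -/
def filG (ρ : P →* Module.End K V) (j : ℕ) : Subgroup P where
  carrier := {g | ∀ i, ∀ w ∈ chainW ρ i, (ρ g - 1) w ∈ chainW ρ (i + j)}
  one_mem' := by
    intro i w _
    simp
  mul_mem' := by
    intro g h hg hh i w hw
    have e : (ρ (g * h) - 1) w = ρ g ((ρ h - 1) w) + (ρ g - 1) w := by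
      simp [map_mul]
    rw [e]
    exact Submodule.add_mem _ (chainW_inv ρ _ g _ (hh i w hw)) (hg i w hw)
  inv_mem' := by
    intro g hg i w hw
    have e : (ρ g⁻¹ - 1) w = - ρ g⁻¹ ((ρ g - 1) w) := by
      simp only [LinearMap.sub_apply, Module.End.one_apply, map_sub, neg_sub]
      congr 1
      rw [← Module.End.mul_apply, ← map_mul]
      simp
    rw [e]
    exact Submodule.neg_mem _ (chainW_inv ρ _ g⁻¹ _ (hg i w hw))

theorem mem_filG (ρ : P →* Module.End K V) (j : ℕ) (g : P) :
    g ∈ filG ρ j ↔ ∀ i, ∀ w ∈ chainW ρ i, (ρ g - 1) w ∈ chainW ρ (i + j) := Iff.rfl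

theorem filG_comm (ρ : P →* Module.End K V) (j k : ℕ) (g h : P) (hg : g ∈ filG ρ j)
    (hh : h ∈ filG ρ k) : ⁅g, h⁆ ∈ filG ρ (j + k) := by
  rw [mem_filG]
  intro i w hw
  have e1 : (ρ g - 1) * (ρ h - 1) - (ρ h - 1) * (ρ g - 1) = ρ (g * h) - ρ (h * g) := by
    rw [map_mul, map_mul]
    noncomm_ring
  have e2 : ρ ⁅g, h⁆ - 1 =
      ((ρ g - 1) * (ρ h - 1) - (ρ h - 1) * (ρ g - 1)) * ρ (g⁻¹ * h⁻¹) := by
    rw [e1, sub_mul, ← map_mul, ← map_mul]
    have a1 : g * h * (g⁻¹ * h⁻¹) = ⁅g, h⁆ := by
      rw [commutatorElement_def]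
      group
    have a2 : h * g * (g⁻¹ * h⁻¹) = 1 := by group
    rw [a1, a2, map_one]
  rw [e2]
  have hw' : ρ (g⁻¹ * h⁻¹) w ∈ chainW ρ i := chainW_inv ρ i _ w hw
  simp only [Module.End.mul_apply, LinearMap.sub_apply]
  apply Submodule.sub_mem
  · have := hg (i + k) _ (hh i _ hw')
    rwa [show i + k + j = i + (j + k) by omega] at this
  · have := hh (i + j) _ (hg i _ hw')
    rwa [show i + j + k = i + (j + k) by omega] at this

theorem derivedSeries_le_filG (ρ : P →* Module.End K V) (k : ℕ) :
    derivedSeries P k ≤ filG ρ (2 ^ k) := by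
  induction k with
  | zero =>
    intro g _
    rw [mem_filG]
    intro i w hw
    exact chainW_step ρ i g w hw
  | succ k ih =>
    rw [derivedSeries_succ, Subgroup.commutator_le]
    intro g hg h hh
    have := filG_comm ρ _ _ g h (ih hg) (ih hh)
    rwa [show 2 ^ k + 2 ^ k = 2 ^ (k + 1) by ring] at this

/-- Characteristic `p` bound: a finite `p`-group acting on an `n`-dimensional space over a
field with `p = 0` has `derivedSeries P k ≤ ker ρ` whenever `n ≤ 2 ^ k`. -/
theorem charp_bound (hpK : (p : K) = 0) (hP : IsPGroup p P) (ρ : P →* Module.End K V)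
    (k : ℕ) (hk : Module.finrank K V ≤ 2 ^ k) : derivedSeries P k ≤ ρ.ker := by
  intro g hg
  have h1 := derivedSeries_le_filG ρ k hg
  rw [mem_filG] at h1
  rw [MonoidHom.mem_ker]
  ext w
  have h2 := h1 0 w Submodule.mem_top
  rw [chainW_eq_bot hpK hP ρ (0 + 2 ^ k) (by omega), Submodule.mem_bot] at h2
  simp only [LinearMap.sub_apply, Module.End.one_apply] at h2
  rw [Module.End.one_apply]
  exact sub_eq_zero.mp h2

end charp

end Cfsg.Agent.Lib.Helper42.DerLenA
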