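import Mathlib
import Cfsg.Agent.Lib.Helper42.DerLenA

/-!
# Derived length of finite `p`-subgroups of `GL_n`: characteristic different from `p`

`maschke`: invariant complements for finite `p`-groups when `p ≠ 0` in the field.
`schur`: commuting endomorphisms of an irreducible representation over an algebraically
closed field are scalar.  `main_bound`: over an algebraically closed field with `p ≠ 0`, a
representation `ρ` of a finite `p`-group on an `n`-dimensional space has
`derivedSeries P (Nat.log 2 n + 1) ≤ ker ρ`.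
-/

set_option autoImplicit false
set_option linter.unusedSectionVars false

open scoped commutatorElement

namespace Cfsg.Agent.Lib.Helper42.DerLenB

open Cfsg.Agent.Lib.Helper42.DerLenA

universe u v w

section basics

variable {K : Type u} [Field K] {p : ℕ} [Fact p.Prime] {P : Type v} [Group P] [Finite P]
  {V : Type w} [AddCommGroup V] [Module K V]

/-- Invariance of a subspace. -/
def Inv (ρ : P →* Module.End K V) (U : Submodule K V) : Prop := ∀ g, ∀ u ∈ U, ρ g u ∈ U

theorem maschke (hpK : (p : K) ≠ 0) (hP : IsPGroup p P) (ρ : P →* Module.End K V)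
    (U : Submodule K V) (hU : Inv ρ U) : ∃ W : Submodule K V, Inv ρ W ∧ IsCompl U W := by
  classical
  cases nonempty_fintype P
  obtain ⟨f, hf⟩ := LinearMap.exists_leftInverse_of_injective U.subtype (Submodule.ker_subtype U)
  have hfu : ∀ u : U, f (u : V) = u := fun u => LinearMap.congr_fun hf u
  have hN : (Fintype.card P : K) ≠ 0 := by
    obtain ⟨k, hk⟩ := IsPGroup.iff_card.mp hP
    rw [← Nat.card_eq_fintype_card, hk, Nat.cast_pow]
    exact pow_ne_zero _ hpK
  obtain ⟨π0, hπ0⟩ : ∃ π0 : V → V, π0 = fun v => ∑ g : P, ρ g ((f (ρ g⁻¹ v) : U) : V) :=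
    ⟨_, rfl⟩
  have h1 : ∀ v, π0 v ∈ U := by
    intro v
    rw [hπ0]
    exact Submodule.sum_mem _ (fun g _ => hU g _ (f (ρ g⁻¹ v)).2)
  have h2 : ∀ u ∈ U, π0 u = (Fintype.card P : K) • u := by
    intro u hu
    rw [hπ0]
    show ∑ g : P, ρ g ((f (ρ g⁻¹ u) : U) : V) = _
    have : ∀ g : P, ρ g ((f (ρ g⁻¹ u) : U) : V) = u := by
      intro g
      have e := hfu ⟨ρ g⁻¹ u, hU g⁻¹ u hu⟩
      simp only at e
      rw [e]
      show ρ g (ρ g⁻¹ u) = u
      rw [← Module.End.mul_apply, ← map_mul]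
      simp
    rw [Finset.sum_congr rfl (fun g _ => this g)]
    simp [Nat.cast_smul_eq_nsmul]
  have h3 : ∀ h v, π0 (ρ h v) = ρ h (π0 v) := by
    intro h v
    rw [hπ0]
    show ∑ g : P, ρ g ((f (ρ g⁻¹ (ρ h v)) : U) : V) = ρ h (∑ g : P, ρ g ((f (ρ g⁻¹ v) : U) : V))
    rw [map_sum]
    apply Fintype.sum_equiv (Equiv.mulLeft h⁻¹)
    intro g
    show ρ g ((f (ρ g⁻¹ (ρ h v)) : U) : V) = ρ h (ρ (h⁻¹ * g) ((f (ρ (h⁻¹ * g)⁻¹ v) : U) : V))
    have e1 : ρ (h⁻¹ * g)⁻¹ v = ρ g⁻¹ (ρ h v) := by
      rw [← Module.End.mul_apply, ← map_mul]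
      simp
    rw [e1, ← Module.End.mul_apply, ← map_mul]
    simp
  have hadd : ∀ a b, π0 (a + b) = π0 a + π0 b := by
    intro a b
    rw [hπ0]
    simp [Finset.sum_add_distrib]
  have hsub : ∀ a b, π0 (a - b) = π0 a - π0 b := by
    intro a b
    rw [hπ0]
    simp [Finset.sum_sub_distrib]
  have hsmul : ∀ (c : K) a, π0 (c • a) = c • π0 a := by
    intro c a
    rw [hπ0]
    simp [Finset.smul_sum]
  obtain ⟨W, hW⟩ : ∃ W : Submodule K V, W = 
      { carrier := {v | π0 v = 0}
        add_mem' := fun {a b} ha hb => by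
          show π0 (a + b) = 0
          rw [hadd, show π0 a = 0 from ha, show π0 b = 0 from hb, add_zero]
        zero_mem' := by
          show π0 0 = 0
          have := hsmul 0 0
          simpa using this
        smul_mem' := fun c a ha => by
          show π0 (c • a) = 0
          rw [hsmul, show π0 a = 0 from ha, smul_zero] } := ⟨_, rfl⟩
  have hWmem : ∀ v, v ∈ W ↔ π0 v = 0 := by
    intro v
    rw [hW]
    rfl
  refine ⟨W, ?_, ?_⟩
  · intro g w hw
    rw [hWmem] at hw ⊢
    rw [h3, hw, map_zero]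
  · constructor
    · rw [Submodule.disjoint_def]
      intro v hv hw
      rw [hWmem] at hw
      have := h2 v hv
      rw [hw] at this
      exact (smul_eq_zero.mp this.symm).resolve_left hN
    · rw [codisjoint_iff, eq_top_iff]
      intro v _
      rw [Submodule.mem_sup]
      refine ⟨(Fintype.card P : K)⁻¹ • π0 v, Submodule.smul_mem _ _ (h1 v),
        v - (Fintype.card P : K)⁻¹ • π0 v, ?_, by abel⟩
      rw [hWmem, hsub, hsmul, h2 _ (h1 v), smul_smul, inv_mul_cancel₀ hN, one_smul, sub_self]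

theorem schur [IsAlgClosed K] [FiniteDimensional K V] [Nontrivial V] (ρ : P →* Module.End K V)
    (hirr : ∀ U : Submodule K V, Inv ρ U → U = ⊥ ∨ U = ⊤) (T : Module.End K V)
    (hT : ∀ g, T * ρ g = ρ g * T) : ∃ c : K, ∀ v, T v = c • v := by
  obtain ⟨c, hc⟩ := Module.End.exists_eigenvalue T
  refine ⟨c, fun v => ?_⟩
  have hinv : Inv ρ (Module.End.eigenspace T c) := by
    intro g u hu
    rw [Module.End.mem_eigenspace_iff] at hu ⊢
    have := LinearMap.congr_fun (hT g) u
    simp only [Module.End.mul_apply] at this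
    rw [this, hu, map_smul]
  rcases hirr _ hinv with h | h
  · exact absurd h hc
  · have : v ∈ Module.End.eigenspace T c := h ▸ Submodule.mem_top
    exact Module.End.mem_eigenspace_iff.mp this

theorem ds_le_map (C : Subgroup P) (hC : commutator P ≤ C) (k : ℕ) :
    derivedSeries P (k + 1) ≤ (derivedSeries C k).map C.subtype := by
  induction k with
  | zero =>
    rw [derivedSeries_succ, derivedSeries_zero, derivedSeries_zero, ← MonoidHom.range_eq_map,
      Subgroup.range_subtype]
    exact hC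
  | succ k ih =>
    rw [derivedSeries_succ, derivedSeries_succ (G := C), Subgroup.map_commutator]
    exact Subgroup.commutator_mono ih ih

/-- Preimage of the centre of the image. -/
def cenPre (ρ : P →* Module.End K V) : Subgroup P where
  carrier := {g | ∀ h, ρ g * ρ h = ρ h * ρ g}
  one_mem' := by
    intro h
    simp
  mul_mem' := by
    intro a b ha hb h
    rw [map_mul, mul_assoc, hb h, ← mul_assoc, ha h, mul_assoc]
  inv_mem' := by
    intro a ha h
    have h1 : ρ a⁻¹ * ρ a = 1 := by rw [← map_mul]; simp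
    have h2 : ρ a * ρ a⁻¹ = 1 := by rw [← map_mul]; simp
    calc ρ a⁻¹ * ρ h = ρ a⁻¹ * (ρ h * ρ a) * ρ a⁻¹ := by
          rw [mul_assoc, mul_assoc, h2, mul_one]
      _ = ρ h * ρ a⁻¹ := by
          rw [← ha h, ← mul_assoc, h1, one_mul]

theorem mem_cenPre (ρ : P →* Module.End K V) (g : P) :
    g ∈ cenPre ρ ↔ ∀ h, ρ g * ρ h = ρ h * ρ g := Iff.rfl

theorem cenPre_normal (ρ : P →* Module.End K V) : (cenPre ρ).Normal := by
  constructor
  intro g hg a
  rw [mem_cenPre] at hg ⊢
  intro h
  have h1 : ρ a⁻¹ * ρ a = 1 := by rw [← map_mul]; simp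
  have h2 : ρ a * ρ a⁻¹ = 1 := by rw [← map_mul]; simp
  have e := hg (a⁻¹ * h * a)
  rw [map_mul, map_mul] at e
  rw [map_mul, map_mul]
  calc ρ a * ρ g * ρ a⁻¹ * ρ h = ρ a * (ρ g * (ρ a⁻¹ * ρ h * ρ a)) * ρ a⁻¹ := by
        simp only [mul_assoc, h2, mul_one]
    _ = ρ a * (ρ a⁻¹ * ρ h * ρ a * ρ g) * ρ a⁻¹ := by rw [e]
    _ = ρ h * (ρ a * ρ g * ρ a⁻¹) := by
        simp only [← mul_assoc, h2, one_mul]

/-- Preimage of the centralizer of `ρ x`. -/
def cenX (ρ : P →* Module.End K V) (x : P) : Subgroup P where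
  carrier := {g | ρ g * ρ x = ρ x * ρ g}
  one_mem' := by
    show ρ 1 * ρ x = ρ x * ρ 1
    simp
  mul_mem' := by
    intro a b ha hb
    show ρ (a * b) * ρ x = ρ x * ρ (a * b)
    rw [map_mul, mul_assoc, show ρ b * ρ x = ρ x * ρ b from hb, ← mul_assoc,
      show ρ a * ρ x = ρ x * ρ a from ha, mul_assoc]
  inv_mem' := by
    intro a ha
    show ρ a⁻¹ * ρ x = ρ x * ρ a⁻¹
    have h1 : ρ a⁻¹ * ρ a = 1 := by rw [← map_mul]; simp
    have h2 : ρ a * ρ a⁻¹ = 1 := by rw [← map_mul]; simp
    calc ρ a⁻¹ * ρ x = ρ a⁻¹ * (ρ x * ρ a) * ρ a⁻¹ := by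
          rw [mul_assoc, mul_assoc, h2, mul_one]
      _ = ρ x * ρ a⁻¹ := by
          rw [← show ρ a * ρ x = ρ x * ρ a from ha, ← mul_assoc, h1, one_mul]

theorem mem_cenX (ρ : P →* Module.End K V) (x g : P) :
    g ∈ cenX ρ x ↔ ρ g * ρ x = ρ x * ρ g := Iff.rfl

theorem q_mul (ρ : P →* Module.End K V) (x g h : P) (c d : K)
    (hg : ρ g * ρ x = c • (ρ x * ρ g)) (hh : ρ h * ρ x = d • (ρ x * ρ h)) :
    ρ (g * h) * ρ x = (c * d) • (ρ x * ρ (g * h)) := by
  rw [map_mul, mul_assoc, hh, mul_smul_comm, ← mul_assoc, hg, smul_mul_assoc, smul_smul,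
    mul_assoc, mul_comm d c]

theorem q_inv (ρ : P →* Module.End K V) (x g : P) (c : K) (hc : c ≠ 0)
    (hg : ρ g * ρ x = c • (ρ x * ρ g)) :
    ρ g⁻¹ * ρ x = c⁻¹ • (ρ x * ρ g⁻¹) := by
  have h1 : ρ g⁻¹ * ρ g = 1 := by rw [← map_mul]; simp
  have h2 : ρ g * ρ g⁻¹ = 1 := by rw [← map_mul]; simp
  have h3 : ρ x * ρ g⁻¹ = c • (ρ g⁻¹ * ρ x) := by
    calc ρ x * ρ g⁻¹ = ρ g⁻¹ * (ρ g * ρ x) * ρ g⁻¹ := by
          rw [← mul_assoc, h1, one_mul]
      _ = c • (ρ g⁻¹ * ρ x) := by
          rw [hg, mul_smul_comm, smul_mul_assoc, mul_assoc, mul_assoc, h2, mul_one]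
  rw [h3, smul_smul, inv_mul_cancel₀ hc, one_smul]

end basics

section main

variable {K : Type u} [Field K] [IsAlgClosed K] {p : ℕ} [Fact p.Prime]

/-- The irreducible nonabelian step. -/
theorem irr_step (n : ℕ) (_hnpos : 0 < n)
    (ih : ∀ m < n, ∀ (P : Type v) [Group P] [Finite P] (_ : IsPGroup p P) (V : Type w)
      [AddCommGroup V] [Module K V] [FiniteDimensional K V] (_ : Module.finrank K V = m)
      (ρ : P →* Module.End K V), derivedSeries P (Nat.log 2 m + 1) ≤ ρ.ker)
    (P : Type v) [Group P] [Finite P] (hP : IsPGroup p P) (V : Type w)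
    [AddCommGroup V] [Module K V] [FiniteDimensional K V] [Nontrivial V]
    (hV : Module.finrank K V = n)
    (ρ : P →* Module.End K V)
    (hirr : ∀ U : Submodule K V, Inv ρ U → U = ⊥ ∨ U = ⊤)
    (hab : ¬ ∀ g h : P, ρ g * ρ h = ρ h * ρ g) :
    derivedSeries P (Nat.log 2 n + 1) ≤ ρ.ker := by
  have hinvr : ∀ a : P, ρ a⁻¹ * ρ a = 1 := fun a => by rw [← map_mul]; simp
  have hinvl : ∀ a : P, ρ a * ρ a⁻¹ = 1 := fun a => by rw [← map_mul]; simp
  have hinj : ∀ a : P, Function.Injective (ρ a) := by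
    intro a u v huv
    have := congrArg (ρ a⁻¹) huv
    rwa [← Module.End.mul_apply, ← Module.End.mul_apply, hinvr, Module.End.one_apply,
      Module.End.one_apply] at this
  have hZn : (cenPre ρ).Normal := cenPre_normal ρ
  have hZtop : cenPre ρ ≠ ⊤ := by
    intro h
    apply hab
    intro g h'
    have : g ∈ cenPre ρ := h ▸ Subgroup.mem_top g
    exact this h'
  have hntQ : Nontrivial (P ⧸ cenPre ρ) := QuotientGroup.nontrivial_iff.mpr hZtop
  have hPQ : IsPGroup p (P ⧸ cenPre ρ) := hP.to_quotient (cenPre ρ)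
  have hcen := hPQ.center_nontrivial
  obtain ⟨⟨zb, hzb⟩, hzne⟩ := exists_ne (1 : Subgroup.center (P ⧸ cenPre ρ))
  obtain ⟨x, rfl⟩ := QuotientGroup.mk_surjective zb
  have hxZ : x ∉ cenPre ρ := fun hx =>
    hzne (Subtype.ext ((QuotientGroup.eq_one_iff x).mpr hx))
  have hcomm : ∀ g : P, ⁅g, x⁆ ∈ cenPre ρ := by
    intro g
    rw [← QuotientGroup.eq_one_iff, commutatorElement_def]
    have h1 := Subgroup.mem_center_iff.mp hzb (g : P ⧸ cenPre ρ)
    simp only [QuotientGroup.mk_mul, QuotientGroup.mk_inv]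
    rw [h1]
    group
  -- scalars
  have hsc : ∀ g : P, ∃ c : K, c ≠ 0 ∧ ρ g * ρ x = c • (ρ x * ρ g) := by
    intro g
    obtain ⟨c, hc⟩ := schur ρ hirr (ρ ⁅g, x⁆) (fun h => (hcomm g) h)
    have e : ρ g * ρ x = ρ ⁅g, x⁆ * (ρ x * ρ g) := by
      rw [← map_mul, ← map_mul, ← map_mul, commutatorElement_def]
      congr 1
      group
    refine ⟨c, ?_, ?_⟩
    · rintro rfl
      obtain ⟨v, hv⟩ := exists_ne (0 : V)
      have h1 := hc v
      rw [zero_smul] at h1
      exact hv (hinj _ (h1.trans (map_zero _).symm))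
    · rw [e]
      ext v
      simp only [Module.End.mul_apply, LinearMap.smul_apply]
      exact hc _
  -- commutator lies in the centralizer of ρ x
  have hC : commutator P ≤ cenX ρ x := by
    rw [commutator_def, Subgroup.commutator_le]
    intro g _ h _
    obtain ⟨c, hc0, hc⟩ := hsc g
    obtain ⟨d, hd0, hd⟩ := hsc h
    have h1 := q_mul ρ x _ _ _ _ (q_mul ρ x _ _ _ _ (q_mul ρ x g h c d hc hd)
      (q_inv ρ x g c hc0 hc)) (q_inv ρ x h d hd0 hd)
    rw [show c * d * c⁻¹ * d⁻¹ = 1 by field_simp, one_smul] at h1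
    rw [mem_cenX, commutatorElement_def]
    exact h1
  -- eigenspaces
  have hshift : ∀ (g : P) (c : K), c ≠ 0 → ρ g * ρ x = c • (ρ x * ρ g) → ∀ (μ : K) (v : V),
      v ∈ Module.End.eigenspace (ρ x) μ → ρ g v ∈ Module.End.eigenspace (ρ x) (c⁻¹ * μ) := by
    intro g c hc0 hc μ v hv
    rw [Module.End.mem_eigenspace_iff] at hv ⊢
    have h1 := LinearMap.congr_fun hc v
    simp only [Module.End.mul_apply, LinearMap.smul_apply] at h1
    rw [hv, map_smul] at h1
    rw [mul_smul, h1, smul_smul, inv_mul_cancel₀ hc0, one_smul]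
  have hSinv : Inv ρ (⨆ μ : K, Module.End.eigenspace (ρ x) μ) := by
    intro g v hv
    induction hv using Submodule.iSup_induction' with
    | mem μ v hv =>
      obtain ⟨c, hc0, hc⟩ := hsc g
      exact (le_iSup (fun μ : K => Module.End.eigenspace (ρ x) μ) (c⁻¹ * μ))
        (hshift g c hc0 hc μ v hv)
    | zero => rw [map_zero]; exact Submodule.zero_mem _
    | add y z _ _ ihy ihz => rw [map_add]; exact Submodule.add_mem _ ihy ihz
  have hStop : (⨆ μ : K, Module.End.eigenspace (ρ x) μ) = ⊤ := by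
    rcases hirr _ hSinv with h | h
    · exfalso
      obtain ⟨μ0, hμ0⟩ := Module.End.exists_eigenvalue (ρ x)
      apply hμ0
      exact le_bot_iff.mp (h ▸ le_iSup (fun μ : K => Module.End.eigenspace (ρ x) μ) μ0)
    · exact h
  -- dimension bound
  have hdim : ∀ μ : K, 2 * Module.finrank K (Module.End.eigenspace (ρ x) μ) ≤ n := by
    intro μ
    by_cases hE : Module.End.eigenspace (ρ x) μ = ⊥
    · rw [hE]
      simp
    · have hx2 : ¬ ∀ h, ρ x * ρ h = ρ h * ρ x := hxZ
      push Not at hx2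
      obtain ⟨g0, hg0⟩ := hx2
      obtain ⟨c, hc0, hc⟩ := hsc g0
      have hc1 : c ≠ 1 := by
        rintro rfl
        rw [one_smul] at hc
        exact hg0 hc.symm
      obtain ⟨v, hvE, hv0⟩ := (Submodule.ne_bot_iff _).mp hE
      have hμ0 : μ ≠ 0 := by
        rintro rfl
        rw [Module.End.mem_eigenspace_iff, zero_smul] at hvE
        exact hv0 (hinj x (hvE.trans (map_zero _).symm))
      have hne : c⁻¹ * μ ≠ μ := by
        intro h
        apply hc1
        have h2 : c⁻¹ = 1 := by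
          have := mul_right_cancel₀ hμ0 (h.trans (one_mul μ).symm)
          exact this
        rw [← inv_inv c, h2, inv_one]
      have hle : Module.finrank K (Module.End.eigenspace (ρ x) μ) ≤
          Module.finrank K (Module.End.eigenspace (ρ x) (c⁻¹ * μ)) := by
        apply LinearMap.finrank_le_finrank_of_injective
          (f := (ρ g0).restrict (hshift g0 c hc0 hc μ))
        intro a b hab'
        apply Subtype.ext
        apply hinj g0
        exact congrArg Subtype.val hab'
      have hdisj : Disjoint (Module.End.eigenspace (ρ x) μ)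
          (Module.End.eigenspace (ρ x) (c⁻¹ * μ)) :=
        (Module.End.eigenspaces_iSupIndep (ρ x)).pairwiseDisjoint (Ne.symm hne)
      have := Submodule.finrank_add_finrank_le_of_disjoint hdisj
      omega
  -- induction hypothesis on the eigenspaces, for the centralizer
  have hCinv : ∀ μ : K, ∀ g : cenX ρ x, ∀ u ∈ Module.End.eigenspace (ρ x) μ,
      (ρ.comp (cenX ρ x).subtype) g u ∈ Module.End.eigenspace (ρ x) μ := by
    intro μ g u hu
    rw [Module.End.mem_eigenspace_iff] at hu ⊢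
    have h1 := LinearMap.congr_fun ((mem_cenX ρ x g).mp g.2) u
    simp only [Module.End.mul_apply] at h1
    show ρ x (ρ g u) = μ • ρ g u
    rw [← h1, hu, map_smul]
  have hfix : ∀ h : cenX ρ x, h ∈ derivedSeries (cenX ρ x) (Nat.log 2 n) →
      ∀ μ : K, ∀ v ∈ Module.End.eigenspace (ρ x) μ, ρ h v = v := by
    intro h hh μ v hv
    by_cases hE : Module.End.eigenspace (ρ x) μ = ⊥
    · rw [hE, Submodule.mem_bot] at hv
      rw [hv, map_zero]
    · have hd1 : 0 < Module.finrank K (Module.End.eigenspace (ρ x) μ) :=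
        Submodule.one_le_finrank_iff.mpr hE
      have hd2 := hdim μ
      have i1 := ih (Module.finrank K (Module.End.eigenspace (ρ x) μ)) (by omega)
        (cenX ρ x) (hP.to_subgroup _) (Module.End.eigenspace (ρ x) μ) rfl
        (res (ρ.comp (cenX ρ x).subtype) (Module.End.eigenspace (ρ x) μ) (hCinv μ))
      have hlog : Nat.log 2 (Module.finrank K (Module.End.eigenspace (ρ x) μ)) + 1 ≤
          Nat.log 2 n := by
        rw [← Nat.log_mul_base (by norm_num) (by omega)]
        exact Nat.log_mono_right (by omega)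
      have h2 := i1 (derivedSeries_antitone _ hlog hh)
      rw [MonoidHom.mem_ker] at h2
      have h3 := congrArg (fun T : Module.End K (Module.End.eigenspace (ρ x) μ) =>
        ((T ⟨v, hv⟩ : Module.End.eigenspace (ρ x) μ) : V)) h2
      simpa [res_apply] using h3
  intro g hg
  obtain ⟨h, hh, rfl⟩ := ds_le_map (cenX ρ x) hC (Nat.log 2 n) hg
  rw [MonoidHom.mem_ker]
  ext v
  rw [Module.End.one_apply]
  have hv : v ∈ (⨆ μ : K, Module.End.eigenspace (ρ x) μ) := hStop ▸ Submodule.mem_top
  induction hv using Submodule.iSup_induction' with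
  | mem μ v hv => exact hfix h hh μ v hv
  | zero => rw [map_zero]
  | add y z _ _ ihy ihz => rw [map_add, ihy, ihz]

/-- Main bound in characteristic different from `p` over an algebraically closed field. -/
theorem main_bound (hpK : (p : K) ≠ 0) :
    ∀ (n : ℕ) (P : Type v) [Group P] [Finite P] (_ : IsPGroup p P) (V : Type w)
      [AddCommGroup V] [Module K V] [FiniteDimensional K V] (_ : Module.finrank K V = n)
      (ρ : P →* Module.End K V), derivedSeries P (Nat.log 2 n + 1) ≤ ρ.ker := by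
  intro n
  induction n using Nat.strong_induction_on with
  | _ n ih =>
  intro P _ _ hP V _ _ _ hV ρ
  rcases Nat.eq_zero_or_pos n with hn0 | hnpos
  · rw [hn0] at hV
    have hsub : Subsingleton V := Module.finrank_zero_iff.mp hV
    intro g _
    rw [MonoidHom.mem_ker]
    ext v
    exact Subsingleton.elim _ _
  have hnt : Nontrivial V := Module.nontrivial_of_finrank_pos (R := K) (by omega)
  by_cases hred : ∃ U : Submodule K V, Inv ρ U ∧ U ≠ ⊥ ∧ U ≠ ⊤
  · obtain ⟨U, hU, hU0, hU1⟩ := hred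
    obtain ⟨W, hW, hc⟩ := maschke hpK hP ρ U hU
    have hW0 : W ≠ ⊥ := by
      rintro rfl
      apply hU1
      have := hc.sup_eq_top
      rwa [sup_bot_eq] at this
    have hdim := Submodule.finrank_add_eq_of_isCompl hc
    have hdU : 0 < Module.finrank K U := Submodule.one_le_finrank_iff.mpr hU0
    have hdW : 0 < Module.finrank K W := Submodule.one_le_finrank_iff.mpr hW0
    have iU := ih (Module.finrank K U) (by omega) P hP U rfl (res ρ U hU)
    have iW := ih (Module.finrank K W) (by omega) P hP W rfl (res ρ W hW)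
    intro g hg
    have hgU : g ∈ (res ρ U hU).ker :=
      iU (derivedSeries_antitone _ (Nat.add_le_add_right (Nat.log_mono_right (by omega)) 1) hg)
    have hgW : g ∈ (res ρ W hW).ker :=
      iW (derivedSeries_antitone _ (Nat.add_le_add_right (Nat.log_mono_right (by omega)) 1) hg)
    rw [MonoidHom.mem_ker] at hgU hgW ⊢
    ext v
    have hv : v ∈ U ⊔ W := hc.sup_eq_top ▸ Submodule.mem_top
    obtain ⟨u, hu, w, hw, rfl⟩ := Submodule.mem_sup.mp hv
    have e1 : ρ g u = u := by
      have h3 := congrArg (fun T : Module.End K U => ((T ⟨u, hu⟩ : U) : V)) hgU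
      exact (res_apply ρ U hU g ⟨u, hu⟩).symm.trans h3
    have e2 : ρ g w = w := by
      have h3 := congrArg (fun T : Module.End K W => ((T ⟨w, hw⟩ : W) : V)) hgW
      exact (res_apply ρ W hW g ⟨w, hw⟩).symm.trans h3
    rw [map_add, e1, e2, Module.End.one_apply]
  · have hirr : ∀ U : Submodule K V, Inv ρ U → U = ⊥ ∨ U = ⊤ := by
      intro U hU
      by_contra hcon
      push Not at hcon
      exact hred ⟨U, hU, hcon.1, hcon.2⟩
    by_cases hab : ∀ g h : P, ρ g * ρ h = ρ h * ρ g
    · have h1 : derivedSeries P 1 ≤ ρ.ker := by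
        rw [derivedSeries_one, commutator_def, Subgroup.commutator_le]
        intro g _ h _
        rw [MonoidHom.mem_ker, commutatorElement_def, map_mul, map_mul, map_mul, hab g h,
          ← map_mul, ← map_mul, ← map_mul]
        simp
      exact (derivedSeries_antitone _ (by omega)).trans h1
    · exact irr_step n hnpos ih P hP V hV ρ hirr hab

end main

end Cfsg.Agent.Lib.Helper42.DerLenB
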