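import Mathlib
import Cfsg.Agent.Lib.Helper42.DerLenB

/-!
# Derived length of `p`-subgroups of `GL_n(q)`, `p ∤ q`, with the refinement by `e = ord_p(q)`

Over the algebraic closure `K` of the finite field `F`, the Frobenius twist `Phi` commutes
with the action of matrices over `F`, and maps the `ζ`-eigenspace of a matrix over `F` into its
`ζ^q`-eigenspace.  Hence every eigenspace of a `p`-element for an eigenvalue `ζ ≠ 1` has
dimension at most `n / e`.  `frob_bound` is the resulting bound on the derived series.
-/

set_option autoImplicit false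
set_option linter.unusedSectionVars false

open scoped commutatorElement

namespace Cfsg.Agent.Lib.Helper42.DerLenC

open Cfsg.Agent.Lib.Helper42.DerLenA Cfsg.Agent.Lib.Helper42.DerLenB

universe u

section defs

variable (F : Type u) [Field F] [Fintype F] (n : ℕ)

/-- Frobenius of the algebraic closure over `F`. -/
noncomputable def frob : AlgebraicClosure F ≃ₐ[F] AlgebraicClosure F :=
  FiniteField.frobeniusAlgEquivOfAlgebraic F (AlgebraicClosure F)

theorem frob_apply (x : AlgebraicClosure F) : frob F x = x ^ Fintype.card F := rfl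

/-- Coordinatewise Frobenius. -/
noncomputable def PhiHom : (Fin n → AlgebraicClosure F) →+ (Fin n → AlgebraicClosure F) where
  toFun v := fun i => frob F (v i)
  map_zero' := by
    ext i
    simp
  map_add' := by
    intro a b
    ext i
    simp

theorem PhiHom_apply (v : Fin n → AlgebraicClosure F) (i : Fin n) :
    PhiHom F n v i = frob F (v i) := rfl

theorem PhiHom_smul (c : AlgebraicClosure F) (v : Fin n → AlgebraicClosure F) :
    PhiHom F n (c • v) = frob F c • PhiHom F n v := by
  ext i
  simp [PhiHom_apply]

theorem PhiHom_injective : Function.Injective (PhiHom F n) := by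
  intro a b h
  ext i
  exact (frob F).injective (congrFun h i)

end defs

section sig

variable {F : Type u} [Field F] [Fintype F] {n : ℕ}

/-- The action of a subgroup of `GL_n(F)` on `K^n`, `K` the algebraic closure. -/
noncomputable def sig (P : Subgroup (GL (Fin n) F)) :
    ↥P →* Module.End (AlgebraicClosure F) (Fin n → AlgebraicClosure F) where
  toFun g := Matrix.toLin' (((g : GL (Fin n) F) : Matrix (Fin n) (Fin n) F).map
    (algebraMap F (AlgebraicClosure F)))
  map_one' := by
    rw [Subgroup.coe_one, Units.val_one, Matrix.map_one _ (map_zero _) (map_one _),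
      Matrix.toLin'_one]
    rfl
  map_mul' := by
    intro g h
    rw [Subgroup.coe_mul, Units.val_mul, Matrix.map_mul, Matrix.toLin'_mul]
    rfl

theorem sig_apply (P : Subgroup (GL (Fin n) F)) (g : P) (v : Fin n → AlgebraicClosure F)
    (i : Fin n) : sig P g v i =
      ∑ j, algebraMap F (AlgebraicClosure F) ((g : GL (Fin n) F) i j) * v j := by
  show (Matrix.toLin' _ v) i = _
  rw [Matrix.toLin'_apply, Matrix.mulVec, dotProduct]
  rfl

theorem sig_Phi (P : Subgroup (GL (Fin n) F)) (g : P) (v : Fin n → AlgebraicClosure F) :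
    sig P g (PhiHom F n v) = PhiHom F n (sig P g v) := by
  ext i
  rw [PhiHom_apply, sig_apply, sig_apply, map_sum]
  apply Finset.sum_congr rfl
  intro j _
  rw [map_mul, PhiHom_apply, AlgEquiv.commutes]

theorem sig_eq_one (P : Subgroup (GL (Fin n) F)) (g : P) (h : sig P g = 1) : g = 1 := by
  apply Subtype.ext
  apply Units.ext
  rw [Subgroup.coe_one, Units.val_one]
  have h1 : ((g : GL (Fin n) F) : Matrix (Fin n) (Fin n) F).map
      (algebraMap F (AlgebraicClosure F)) = 1 := by
    apply Matrix.toLin'.injective
    rw [Matrix.toLin'_one]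
    exact h
  have h2 : (1 : Matrix (Fin n) (Fin n) (AlgebraicClosure F)) =
      (1 : Matrix (Fin n) (Fin n) F).map (algebraMap F (AlgebraicClosure F)) := by
    rw [Matrix.map_one _ (map_zero _) (map_one _)]
  rw [h2] at h1
  exact Matrix.map_injective (algebraMap F (AlgebraicClosure F)).injective h1

/-- The Frobenius twist does not decrease dimensions. -/
theorem finrank_le_of_Phi (A B : Submodule (AlgebraicClosure F) (Fin n → AlgebraicClosure F))
    (h : ∀ a ∈ A, PhiHom F n a ∈ B) :
    Module.finrank (AlgebraicClosure F) A ≤ Module.finrank (AlgebraicClosure F) B := by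
  classical
  obtain ⟨b⟩ : Nonempty (Module.Basis (Fin (Module.finrank (AlgebraicClosure F) A))
      (AlgebraicClosure F) A) := ⟨Module.finBasis _ _⟩
  have hli : LinearIndependent (AlgebraicClosure F)
      (fun i => (⟨PhiHom F n (b i : Fin n → AlgebraicClosure F), h _ (b i).2⟩ : B)) := by
    rw [Fintype.linearIndependent_iff]
    intro c hc i
    have hc' : ∑ i, c i • PhiHom F n (b i : Fin n → AlgebraicClosure F) = 0 := by
      have := congrArg (Subtype.val) hc
      simpa using this
    have h2 : PhiHom F n (∑ i, (frob F).symm (c i) • (b i : Fin n → AlgebraicClosure F)) = 0 := by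
      rw [map_sum, ← hc']
      apply Finset.sum_congr rfl
      intro j _
      rw [PhiHom_smul, AlgEquiv.apply_symm_apply]
    have h3 : ∑ i, (frob F).symm (c i) • (b i : Fin n → AlgebraicClosure F) = 0 :=
      PhiHom_injective F n (h2.trans (map_zero _).symm)
    have h4 : ∑ i, (frob F).symm (c i) • b i = 0 := by
      apply Subtype.ext
      simpa using h3
    have h5 := Fintype.linearIndependent_iff.mp b.linearIndependent _ h4 i
    have h6 := congrArg (frob F) h5
    rwa [AlgEquiv.apply_symm_apply, map_zero] at h6
  have := hli.fintype_card_le_finrank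
  simpa using this

end sig

section gen

variable {K : Type*} [Field K] {V : Type*} [AddCommGroup V] [Module K V] [FiniteDimensional K V]

/-- Pieces of a subspace in distinct eigenspaces have total dimension at most that of the
subspace. -/
theorem sum_finrank_le (T : Module.End K V) (U : Submodule K V) (s : Finset K) :
    ∑ μ ∈ s, Module.finrank K (U ⊓ Module.End.eigenspace T μ : Submodule K V) ≤
      Module.finrank K U := by
  classical
  have key : ∑ μ ∈ s, Module.finrank K (U ⊓ Module.End.eigenspace T μ : Submodule K V) =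
      Module.finrank K (⨆ μ ∈ s, U ⊓ Module.End.eigenspace T μ : Submodule K V) := by
    induction s using Finset.induction_on with
    | empty =>
      have : (⨆ μ ∈ (∅ : Finset K), U ⊓ Module.End.eigenspace T μ : Submodule K V) = ⊥ := by
        simp
      rw [this, finrank_bot, Finset.sum_empty]
    | insert a s ha ih =>
      rw [Finset.sum_insert ha, ih, Finset.iSup_insert]
      have hd : Disjoint (U ⊓ Module.End.eigenspace T a)
          (⨆ μ ∈ s, U ⊓ Module.End.eigenspace T μ) := by
        have h1 := (Module.End.eigenspaces_iSupIndep T).disjoint_biSup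
          (x := a) (y := (s : Set K)) (by simpa using ha)
        refine h1.mono inf_le_right ?_
        apply iSup₂_le
        intro μ hμ
        exact le_trans inf_le_right
          (le_iSup₂ (f := fun i (_ : i ∈ (s : Set K)) => Module.End.eigenspace T i) μ
            (by simpa using hμ))
      have h2 := Submodule.finrank_sup_add_finrank_inf_eq (U ⊓ Module.End.eigenspace T a)
        (⨆ μ ∈ s, U ⊓ Module.End.eigenspace T μ)
      rw [disjoint_iff.mp hd, finrank_bot, add_zero] at h2
      exact h2.symm
  rw [key]
  apply Submodule.finrank_mono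
  apply iSup₂_le
  intro μ _
  exact inf_le_left

end gen

section num

theorem pow_pow_inj {M : Type*} [Monoid M] {p : ℕ} (hp : p.Prime) (q a e : ℕ)
    (he : e = orderOf (q : ZMod p)) (ζ : M) (h1 : ζ ≠ 1) (hζ : ζ ^ (p ^ a) = 1)
    (i j : ℕ) (hi : i < e) (hj : j < e) (h : ζ ^ (q ^ i) = ζ ^ (q ^ j)) : i = j := by
  have hfin : IsOfFinOrder ζ := by
    rw [isOfFinOrder_iff_pow_eq_one]
    exact ⟨p ^ a, pow_pos hp.pos _, hζ⟩
  have hdvd : orderOf ζ ∣ p ^ a := orderOf_dvd_of_pow_eq_one hζ
  obtain ⟨b, hb, hb2⟩ := (Nat.dvd_prime_pow hp).mp hdvd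
  have hb0 : b ≠ 0 := by
    rintro rfl
    rw [pow_zero] at hb2
    exact h1 (orderOf_eq_one_iff.mp hb2)
  have hpd : p ∣ orderOf ζ := by
    rw [hb2]
    exact dvd_pow_self p hb0
  have h2 : q ^ i ≡ q ^ j [MOD p] := (hfin.pow_eq_pow_iff_modEq.mp h).of_dvd hpd
  have h3 : ((q : ZMod p)) ^ i = (q : ZMod p) ^ j := by
    have := (ZMod.natCast_eq_natCast_iff _ _ _).mpr h2
    simpa using this
  exact pow_injOn_Iio_orderOf (by rw [← he]; exact hi) (by rw [← he]; exact hj) h3

end num

section eig

variable {F : Type u} [Field F] [Fintype F] {n : ℕ}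

theorem twist (P : Subgroup (GL (Fin n) F)) (z : P)
    (U : Submodule (AlgebraicClosure F) (Fin n → AlgebraicClosure F))
    (hΦ : ∀ u ∈ U, PhiHom F n u ∈ U) (μ : AlgebraicClosure F) :
    ∀ a ∈ U ⊓ Module.End.eigenspace (sig P z) μ,
      PhiHom F n a ∈ U ⊓ Module.End.eigenspace (sig P z) (frob F μ) := by
  intro a ha
  refine ⟨hΦ a ha.1, ?_⟩
  have h1 := Module.End.mem_eigenspace_iff.mp ha.2
  show PhiHom F n a ∈ Module.End.eigenspace (sig P z) (frob F μ)
  rw [Module.End.mem_eigenspace_iff, sig_Phi, h1, PhiHom_smul]

theorem twist_iter (P : Subgroup (GL (Fin n) F)) (z : P)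
    (U : Submodule (AlgebraicClosure F) (Fin n → AlgebraicClosure F))
    (hΦ : ∀ u ∈ U, PhiHom F n u ∈ U) (μ : AlgebraicClosure F) (j : ℕ) :
    Module.finrank (AlgebraicClosure F)
      (U ⊓ Module.End.eigenspace (sig P z) μ : Submodule _ _) ≤
    Module.finrank (AlgebraicClosure F)
      (U ⊓ Module.End.eigenspace (sig P z) (μ ^ (Fintype.card F ^ j)) : Submodule _ _) := by
  induction j with
  | zero => rw [pow_zero, pow_one]
  | succ j ih =>
    refine ih.trans ?_
    have h1 := finrank_le_of_Phi _ _ (twist P z U hΦ (μ ^ (Fintype.card F ^ j)))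
    rwa [frob_apply, ← pow_mul, ← pow_succ] at h1

theorem eig_dim {p : ℕ} (hp : p.Prime) (P : Subgroup (GL (Fin n) F)) (z : P)
    (U : Submodule (AlgebraicClosure F) (Fin n → AlgebraicClosure F))
    (hΦ : ∀ u ∈ U, PhiHom F n u ∈ U) (e : ℕ)
    (he : e = orderOf ((Fintype.card F : ℕ) : ZMod p)) (a : ℕ)
    (μ : AlgebraicClosure F) (h1 : μ ≠ 1) (hμ : μ ^ (p ^ a) = 1) :
    e * Module.finrank (AlgebraicClosure F)
      (U ⊓ Module.End.eigenspace (sig P z) μ : Submodule _ _) ≤
    Module.finrank (AlgebraicClosure F) U := by
  classical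
  have hinj : Set.InjOn (fun j : ℕ => μ ^ (Fintype.card F ^ j)) (Finset.range e : Set ℕ) := by
    intro i hi j hj hij
    exact pow_pow_inj hp (Fintype.card F) a e he μ h1 hμ i j (by simpa using hi)
      (by simpa using hj) hij
  have h2 := sum_finrank_le (sig P z) U
    ((Finset.range e).image (fun j : ℕ => μ ^ (Fintype.card F ^ j)))
  rw [Finset.sum_image hinj] at h2
  refine le_trans ?_ h2
  calc e * Module.finrank (AlgebraicClosure F)
        (U ⊓ Module.End.eigenspace (sig P z) μ : Submodule _ _)
      = ∑ _j ∈ Finset.range e, Module.finrank (AlgebraicClosure F)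
        (U ⊓ Module.End.eigenspace (sig P z) μ : Submodule _ _) := by simp
    _ ≤ _ := Finset.sum_le_sum (fun j _ => twist_iter P z U hΦ μ j)

theorem mem_ker_res {K : Type*} [Field K] {P : Type*} [Group P] {V : Type*} [AddCommGroup V]
    [Module K V] (ρ : P →* Module.End K V) (U : Submodule K V)
    (hU : ∀ g, ∀ u ∈ U, ρ g u ∈ U) (g : P) :
    g ∈ (res ρ U hU).ker ↔ ∀ u ∈ U, ρ g u = u := by
  rw [MonoidHom.mem_ker]
  constructor
  · intro h u hu
    have h3 := congrArg (fun T : Module.End K U => ((T ⟨u, hu⟩ : U) : V)) h
    exact (res_apply ρ U hU g ⟨u, hu⟩).symm.trans h3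
  · intro h
    ext u
    rw [res_apply, h _ u.2]
    rfl

theorem frob_bound {p : ℕ} [Fact p.Prime] (P : Subgroup (GL (Fin n) F)) (hP : IsPGroup p P)
    (hpK : (p : AlgebraicClosure F) ≠ 0) (e : ℕ)
    (he : e = orderOf ((Fintype.card F : ℕ) : ZMod p)) (he1 : 1 ≤ e) :
    ∀ (d : ℕ) (U : Submodule (AlgebraicClosure F) (Fin n → AlgebraicClosure F)),
      Module.finrank (AlgebraicClosure F) U = d → (∀ g : P, ∀ u ∈ U, sig P g u ∈ U) →
      (∀ u ∈ U, PhiHom F n u ∈ U) →
      ∀ g ∈ derivedSeries P (Nat.log 2 (n / e) + 1), ∀ u ∈ U, sig P g u = u := by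
  classical
  have hfinP : Finite P := inferInstance
  intro d
  induction d using Nat.strong_induction_on with
  | _ d ih =>
  intro U hd hU hΦ g hg u hu
  by_cases hN : ∀ z : P, ∀ u ∈ U, sig P z u = u
  · exact hN g u hu
  · have hNtop : (res (sig P) U hU).ker ≠ ⊤ := by
      intro h
      apply hN
      intro z
      have hz : z ∈ (res (sig P) U hU).ker := h ▸ Subgroup.mem_top z
      exact (mem_ker_res (sig P) U hU z).mp hz
    have hntQ : Nontrivial (P ⧸ (res (sig P) U hU).ker) := QuotientGroup.nontrivial_iff.mpr hNtop
    have hPQ : IsPGroup p (P ⧸ (res (sig P) U hU).ker) := hP.to_quotient _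
    have hcen := hPQ.center_nontrivial
    obtain ⟨⟨zb, hzb⟩, hzne⟩ := exists_ne (1 : Subgroup.center (P ⧸ (res (sig P) U hU).ker))
    obtain ⟨z, rfl⟩ := QuotientGroup.mk_surjective zb
    have hzN : z ∉ (res (sig P) U hU).ker := fun hx =>
      hzne (Subtype.ext ((QuotientGroup.eq_one_iff z).mpr hx))
    have hcomm : ∀ g : P, ⁅g, z⁆ ∈ (res (sig P) U hU).ker := by
      intro g
      rw [← QuotientGroup.eq_one_iff, commutatorElement_def]
      have h1 := Subgroup.mem_center_iff.mp hzb (g : P ⧸ (res (sig P) U hU).ker)
      simp only [QuotientGroup.mk_mul, QuotientGroup.mk_inv]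
      rw [h1]
      group
    have hcommU : ∀ g : P, ∀ u ∈ U, sig P g (sig P z u) = sig P z (sig P g u) := by
      intro g u hu
      have e1 : g * z = ⁅g, z⁆ * (z * g) := by
        rw [commutatorElement_def]
        group
      have h1 : sig P (g * z) u = sig P ⁅g, z⁆ (sig P (z * g) u) := by
        rw [e1, map_mul]
        rfl
      rw [(mem_ker_res (sig P) U hU _).mp (hcomm g) _ (hU _ u hu)] at h1
      rw [map_mul, map_mul] at h1
      exact h1
    -- the restricted operator and its semisimplicity
    obtain ⟨T, hT⟩ : ∃ T : Module.End (AlgebraicClosure F) U, T = res (sig P) U hU z := ⟨_, rfl⟩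
    obtain ⟨a, ha⟩ := IsPGroup.iff_card.mp hP
    have hTpow : T ^ (p ^ a) = 1 := by
      rw [hT, ← map_pow, ← ha, pow_card_eq_one', map_one]
    have hss : T.IsSemisimple := by
      apply Module.End.isSemisimple_of_squarefree_aeval_eq_zero
        (p := (Polynomial.X ^ (p ^ a) - Polynomial.C (1 : AlgebraicClosure F)))
      · apply Polynomial.Separable.squarefree
        apply Polynomial.separable_X_pow_sub_C _ _ one_ne_zero
        rw [Nat.cast_pow]
        exact pow_ne_zero _ hpK
      · simp [hTpow]
    have htop : (⨆ μ : AlgebraicClosure F, Module.End.eigenspace T μ) = ⊤ :=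
      (hss.iSup_maxGenEigenspace_eq_top_iff).mp (Module.End.iSup_maxGenEigenspace_eq_top T)
    have hzpow : ∀ (k : ℕ) (μ : AlgebraicClosure F) (w : Fin n → AlgebraicClosure F),
        sig P z w = μ • w → sig P (z ^ k) w = μ ^ k • w := by
      intro k μ w hw
      induction k with
      | zero => simp
      | succ k ihk =>
        rw [pow_succ, map_mul, Module.End.mul_apply, hw, map_smul, ihk, smul_smul, pow_succ,
          mul_comm]
    -- reduce to eigenvectors
    have key : ∀ w : U, sig P g (w : Fin n → AlgebraicClosure F) = w := by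
      intro w
      have hw : w ∈ (⨆ μ : AlgebraicClosure F, Module.End.eigenspace T μ) :=
        htop ▸ Submodule.mem_top
      induction hw using Submodule.iSup_induction' with
      | zero => simp
      | add y z' _ _ ihy ihz => rw [Submodule.coe_add, map_add, ihy, ihz]
      | mem μ w hw =>
        rw [Module.End.mem_eigenspace_iff] at hw
        have hw' : sig P z (w : Fin n → AlgebraicClosure F) = μ • (w : Fin n → AlgebraicClosure F) := by
          have h3 := congrArg (Subtype.val) hw
          rw [hT, res_apply] at h3
          exact h3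
        have hwU : (w : Fin n → AlgebraicClosure F) ∈ U ⊓ Module.End.eigenspace (sig P z) μ :=
          ⟨w.2, Module.End.mem_eigenspace_iff.mpr hw'⟩
        have hinv : ∀ g' : P, ∀ u' ∈ U ⊓ Module.End.eigenspace (sig P z) μ,
            sig P g' u' ∈ U ⊓ Module.End.eigenspace (sig P z) μ := by
          intro g' u' hu'
          refine ⟨hU g' u' hu'.1, ?_⟩
          show sig P g' u' ∈ Module.End.eigenspace (sig P z) μ
          rw [Module.End.mem_eigenspace_iff, ← hcommU g' u' hu'.1,
            Module.End.mem_eigenspace_iff.mp hu'.2, map_smul]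
        by_cases hμ1 : μ = 1
        · -- fixed space of z: smaller dimension
          have hΦμ : ∀ u' ∈ U ⊓ Module.End.eigenspace (sig P z) μ,
              PhiHom F n u' ∈ U ⊓ Module.End.eigenspace (sig P z) μ := by
            intro u' hu'
            have := twist P z U hΦ μ u' hu'
            rwa [hμ1, map_one, ← hμ1] at this
          have hlt : U ⊓ Module.End.eigenspace (sig P z) μ < U := by
            refine lt_of_le_of_ne inf_le_left (fun heq => hzN ?_)
            rw [mem_ker_res]
            intro u' hu'
            have h4 : u' ∈ U ⊓ Module.End.eigenspace (sig P z) μ := by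
              rw [heq]
              exact hu'
            have h5 := Module.End.mem_eigenspace_iff.mp h4.2
            rwa [hμ1, one_smul] at h5
          have hdlt := Submodule.finrank_lt_finrank_of_lt hlt
          exact ih _ (hd ▸ hdlt) _ rfl hinv hΦμ g hg _ hwU
        · by_cases hw0 : (w : Fin n → AlgebraicClosure F) = 0
          · rw [hw0, map_zero]
          · have hμpow : μ ^ (p ^ a) = 1 := by
              have h5 := hzpow (p ^ a) μ _ hw'
              rw [← ha, pow_card_eq_one', map_one, Module.End.one_apply] at h5
              have h6 : (μ ^ (Nat.card P) - 1) • (w : Fin n → AlgebraicClosure F) = 0 := by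
                rw [sub_smul, one_smul, ← h5, sub_self]
              rcases smul_eq_zero.mp h6 with h7 | h7
              · rw [← ha]
                exact sub_eq_zero.mp h7
              · exact absurd h7 hw0
            have hdim := eig_dim (Fact.out : p.Prime) P z U hΦ e he a μ hμ1 hμpow
            have hUn : Module.finrank (AlgebraicClosure F) U ≤ n := by
              have := Submodule.finrank_le U
              rwa [Module.finrank_fin_fun] at this
            have hne : U ⊓ Module.End.eigenspace (sig P z) μ ≠ ⊥ := by
              intro h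
              rw [h, Submodule.mem_bot] at hwU
              exact hw0 hwU
            have hd1 : 1 ≤ Module.finrank (AlgebraicClosure F)
                (U ⊓ Module.End.eigenspace (sig P z) μ : Submodule _ _) :=
              Submodule.one_le_finrank_iff.mpr hne
            have hle : Module.finrank (AlgebraicClosure F)
                (U ⊓ Module.End.eigenspace (sig P z) μ : Submodule _ _) ≤ n / e := by
              rw [Nat.le_div_iff_mul_le (by omega)]
              calc _ = e * _ := mul_comm _ _
                _ ≤ _ := hdim.trans hUn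
            have hb := main_bound hpK _ P hP
              (U ⊓ Module.End.eigenspace (sig P z) μ : Submodule _ _) rfl
              (res (sig P) (U ⊓ Module.End.eigenspace (sig P z) μ) hinv)
            have hg2 : g ∈ (res (sig P) (U ⊓ Module.End.eigenspace (sig P z) μ) hinv).ker :=
              hb (derivedSeries_antitone _
                (Nat.add_le_add_right (Nat.log_mono_right hle) 1) hg)
            exact (mem_ker_res _ _ hinv g).mp hg2 _ hwU
    exact key ⟨u, hu⟩

end eig

end Cfsg.Agent.Lib.Helper42.DerLenC
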