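import Mathlib
import Cfsg.Agent.Lib.Helper42.DerLenA
import Cfsg.Agent.Lib.Helper42.DerLenB
import Cfsg.Agent.Lib.Helper42.DerLenC

/-!
# Derived length of finite `p`-groups of matrices: the `log_p` refinement

`main_bound_p`: over an algebraically closed field in which `p ≠ 0`, a representation of a
finite `p`-group on an `n`-dimensional space kills `derivedSeries P (Nat.log p n + 1)`.
`frob_bound_p`: the analogue of `DerLenC.frob_bound` with `Nat.log p (n / e) + 1`.
-/

set_option autoImplicit false
set_option linter.unusedSectionVars false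

open scoped commutatorElement

namespace Cfsg.Agent.Lib.Helper42.DerLenP

open Cfsg.Agent.Lib.Helper42.DerLenA Cfsg.Agent.Lib.Helper42.DerLenB
  Cfsg.Agent.Lib.Helper42.DerLenC

universe u v w

section main

variable {K : Type u} [Field K] [IsAlgClosed K] {p : ℕ} [Fact p.Prime]

/-- The irreducible nonabelian step. -/
theorem irr_step_p (n : ℕ) (_hnpos : 0 < n)
    (ih : ∀ m < n, ∀ (P : Type v) [Group P] [Finite P] (_ : IsPGroup p P) (V : Type w)
      [AddCommGroup V] [Module K V] [FiniteDimensional K V] (_ : Module.finrank K V = m)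
      (ρ : P →* Module.End K V), derivedSeries P (Nat.log p m + 1) ≤ ρ.ker)
    (P : Type v) [Group P] [Finite P] (hP : IsPGroup p P) (V : Type w)
    [AddCommGroup V] [Module K V] [FiniteDimensional K V] [Nontrivial V]
    (hV : Module.finrank K V = n)
    (ρ : P →* Module.End K V)
    (hirr : ∀ U : Submodule K V, Inv ρ U → U = ⊥ ∨ U = ⊤)
    (hab : ¬ ∀ g h : P, ρ g * ρ h = ρ h * ρ g) :
    derivedSeries P (Nat.log p n + 1) ≤ ρ.ker := by
  classical
  have hinvr : ∀ a : P, ρ a⁻¹ * ρ a = 1 := fun a => by rw [← map_mul]; simp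
  have hinvl : ∀ a : P, ρ a * ρ a⁻¹ = 1 := fun a => by rw [← map_mul]; simp
  have hinj : ∀ a : P, Function.Injective (ρ a) := by
    intro a u v huv
    have := congrArg (ρ a⁻¹) huv
    rwa [← Module.End.mul_apply, ← Module.End.mul_apply, hinvr, Module.End.one_apply,
      Module.End.one_apply] at this
  have hZn : (cenPre ρ).Normal := cenPre_normal ρ
  have hZtop : cenPre ρ ≠ ⊤ := by
    intro h
    apply hab
    intro g h'
    have : g ∈ cenPre ρ := h ▸ Subgroup.mem_top g
    exact this h'
  have hntQ : Nontrivial (P ⧸ cenPre ρ) := QuotientGroup.nontrivial_iff.mpr hZtop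
  have hPQ : IsPGroup p (P ⧸ cenPre ρ) := hP.to_quotient (cenPre ρ)
  have hcen := hPQ.center_nontrivial
  obtain ⟨⟨zb, hzb⟩, hzne⟩ := exists_ne (1 : Subgroup.center (P ⧸ cenPre ρ))
  obtain ⟨x, rfl⟩ := QuotientGroup.mk_surjective zb
  have hxZ : x ∉ cenPre ρ := fun hx =>
    hzne (Subtype.ext ((QuotientGroup.eq_one_iff x).mpr hx))
  have hcomm : ∀ g : P, ⁅g, x⁆ ∈ cenPre ρ := by
    intro g
    rw [← QuotientGroup.eq_one_iff, commutatorElement_def]
    have h1 := Subgroup.mem_center_iff.mp hzb (g : P ⧸ cenPre ρ)
    simp only [QuotientGroup.mk_mul, QuotientGroup.mk_inv]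
    rw [h1]
    group
  -- scalars
  have hsc : ∀ g : P, ∃ c : K, c ≠ 0 ∧ ρ g * ρ x = c • (ρ x * ρ g) := by
    intro g
    obtain ⟨c, hc⟩ := schur ρ hirr (ρ ⁅g, x⁆) (fun h => (hcomm g) h)
    have e : ρ g * ρ x = ρ ⁅g, x⁆ * (ρ x * ρ g) := by
      rw [← map_mul, ← map_mul, ← map_mul, commutatorElement_def]
      congr 1
      group
    refine ⟨c, ?_, ?_⟩
    · rintro rfl
      obtain ⟨v, hv⟩ := exists_ne (0 : V)
      have h1 := hc v
      rw [zero_smul] at h1
      exact hv (hinj _ (h1.trans (map_zero _).symm))
    · rw [e]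
      ext v
      simp only [Module.End.mul_apply, LinearMap.smul_apply]
      exact hc _
  -- commutator lies in the centralizer of ρ x
  have hC : commutator P ≤ cenX ρ x := by
    rw [commutator_def, Subgroup.commutator_le]
    intro g _ h _
    obtain ⟨c, hc0, hc⟩ := hsc g
    obtain ⟨d, hd0, hd⟩ := hsc h
    have h1 := q_mul ρ x _ _ _ _ (q_mul ρ x _ _ _ _ (q_mul ρ x g h c d hc hd)
      (q_inv ρ x g c hc0 hc)) (q_inv ρ x h d hd0 hd)
    rw [show c * d * c⁻¹ * d⁻¹ = 1 by field_simp, one_smul] at h1
    rw [mem_cenX, commutatorElement_def]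
    exact h1
  -- eigenspaces
  have hshift : ∀ (g : P) (c : K), c ≠ 0 → ρ g * ρ x = c • (ρ x * ρ g) → ∀ (μ : K) (v : V),
      v ∈ Module.End.eigenspace (ρ x) μ → ρ g v ∈ Module.End.eigenspace (ρ x) (c⁻¹ * μ) := by
    intro g c hc0 hc μ v hv
    rw [Module.End.mem_eigenspace_iff] at hv ⊢
    have h1 := LinearMap.congr_fun hc v
    simp only [Module.End.mul_apply, LinearMap.smul_apply] at h1
    rw [hv, map_smul] at h1
    rw [mul_smul, h1, smul_smul, inv_mul_cancel₀ hc0, one_smul]
  have hSinv : Inv ρ (⨆ μ : K, Module.End.eigenspace (ρ x) μ) := by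
    intro g v hv
    induction hv using Submodule.iSup_induction' with
    | mem μ v hv =>
      obtain ⟨c, hc0, hc⟩ := hsc g
      exact (le_iSup (fun μ : K => Module.End.eigenspace (ρ x) μ) (c⁻¹ * μ))
        (hshift g c hc0 hc μ v hv)
    | zero => rw [map_zero]; exact Submodule.zero_mem _
    | add y z _ _ ihy ihz => rw [map_add]; exact Submodule.add_mem _ ihy ihz
  have hStop : (⨆ μ : K, Module.End.eigenspace (ρ x) μ) = ⊤ := by
    rcases hirr _ hSinv with h | h
    · exfalso
      obtain ⟨μ0, hμ0⟩ := Module.End.exists_eigenvalue (ρ x)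
      apply hμ0
      exact le_bot_iff.mp (h ▸ le_iSup (fun μ : K => Module.End.eigenspace (ρ x) μ) μ0)
    · exact h
  -- dimension bound
  have hp : p.Prime := Fact.out
  have hdim : ∀ μ : K, p * Module.finrank K (Module.End.eigenspace (ρ x) μ) ≤ n := by
    intro μ
    by_cases hE : Module.End.eigenspace (ρ x) μ = ⊥
    · rw [hE]
      simp
    · have hx2 : ¬ ∀ h, ρ x * ρ h = ρ h * ρ x := hxZ
      push Not at hx2
      obtain ⟨g0, hg0⟩ := hx2
      obtain ⟨c, hc0, hc⟩ := hsc g0
      have hc1 : c ≠ 1 := by
        rintro rfl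
        rw [one_smul] at hc
        exact hg0 hc.symm
      obtain ⟨v, hvE, hv0⟩ := (Submodule.ne_bot_iff _).mp hE
      have hμ0 : μ ≠ 0 := by
        rintro rfl
        rw [Module.End.mem_eigenspace_iff, zero_smul] at hvE
        exact hv0 (hinj x (hvE.trans (map_zero _).symm))
      have hpowk : ∀ k : ℕ, ρ (g0 ^ k) * ρ x = c ^ k • (ρ x * ρ (g0 ^ k)) := by
        intro k
        induction k with
        | zero => simp
        | succ k ihk =>
          have := q_mul ρ x (g0 ^ k) g0 (c ^ k) c ihk hc
          rw [pow_succ, pow_succ]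
          exact this
      obtain ⟨a, ha⟩ := IsPGroup.iff_card.mp hP
      have hcpa : c ^ (p ^ a) = 1 := by
        have h1 := hpowk (p ^ a)
        rw [← ha, pow_card_eq_one', map_one, one_mul, mul_one] at h1
        have h2 := LinearMap.congr_fun h1 v
        rw [LinearMap.smul_apply] at h2
        have h3 : (c ^ Nat.card P - 1) • ρ x v = 0 := by
          rw [sub_smul, one_smul, ← h2, sub_self]
        rcases smul_eq_zero.mp h3 with h4 | h4
        · rw [← ha]
          exact sub_eq_zero.mp h4
        · exact absurd (hinj x (h4.trans (map_zero _).symm)) hv0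
      have hpo : p ≤ orderOf c := by
        have hdvd : orderOf c ∣ p ^ a := orderOf_dvd_of_pow_eq_one hcpa
        obtain ⟨b, hb, hb2⟩ := (Nat.dvd_prime_pow hp).mp hdvd
        have hb0 : b ≠ 0 := by
          rintro rfl
          rw [pow_zero] at hb2
          exact hc1 (orderOf_eq_one_iff.mp hb2)
        rw [hb2]
        calc p = p ^ 1 := (pow_one p).symm
          _ ≤ p ^ b := Nat.pow_le_pow_right hp.pos (Nat.one_le_iff_ne_zero.mpr hb0)
      have hinjc : Set.InjOn (fun j : ℕ => (c ^ j)⁻¹ * μ) (Finset.range p : Set ℕ) := by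
        intro i hi j hj hij
        have hi' : i < orderOf c := lt_of_lt_of_le (by simpa using hi) hpo
        have hj' : j < orderOf c := lt_of_lt_of_le (by simpa using hj) hpo
        have hij' : (c ^ i)⁻¹ * μ = (c ^ j)⁻¹ * μ := hij
        have h1 : (c ^ i)⁻¹ = (c ^ j)⁻¹ := mul_right_cancel₀ hμ0 hij'
        have h2 : c ^ i = c ^ j := inv_injective h1
        exact pow_injOn_Iio_orderOf hi' hj' h2
      have hle : ∀ j : ℕ, Module.finrank K (Module.End.eigenspace (ρ x) μ) ≤
          Module.finrank K (Module.End.eigenspace (ρ x) ((c ^ j)⁻¹ * μ)) := by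
        intro j
        apply LinearMap.finrank_le_finrank_of_injective
          (f := (ρ (g0 ^ j)).restrict (hshift (g0 ^ j) (c ^ j) (pow_ne_zero j hc0) (hpowk j) μ))
        intro a' b' hab'
        apply Subtype.ext
        apply hinj (g0 ^ j)
        exact congrArg Subtype.val hab'
      have h2 := Cfsg.Agent.Lib.Helper42.DerLenC.sum_finrank_le (ρ x) ⊤
        ((Finset.range p).image (fun j : ℕ => (c ^ j)⁻¹ * μ))
      rw [Finset.sum_image hinjc] at h2
      calc p * Module.finrank K (Module.End.eigenspace (ρ x) μ)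
          = ∑ _j ∈ Finset.range p, Module.finrank K (Module.End.eigenspace (ρ x) μ) := by simp
        _ ≤ ∑ j ∈ Finset.range p, Module.finrank K
            (⊤ ⊓ Module.End.eigenspace (ρ x) ((c ^ j)⁻¹ * μ) : Submodule K V) :=
            Finset.sum_le_sum (fun j _ => by rw [top_inf_eq]; exact hle j)
        _ ≤ Module.finrank K (⊤ : Submodule K V) := h2
        _ = n := by rw [finrank_top, hV]
  -- induction hypothesis on the eigenspaces, for the centralizer
  have hCinv : ∀ μ : K, ∀ g : cenX ρ x, ∀ u ∈ Module.End.eigenspace (ρ x) μ,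
      (ρ.comp (cenX ρ x).subtype) g u ∈ Module.End.eigenspace (ρ x) μ := by
    intro μ g u hu
    rw [Module.End.mem_eigenspace_iff] at hu ⊢
    have h1 := LinearMap.congr_fun ((mem_cenX ρ x g).mp g.2) u
    simp only [Module.End.mul_apply] at h1
    show ρ x (ρ g u) = μ • ρ g u
    rw [← h1, hu, map_smul]
  have hfix : ∀ h : cenX ρ x, h ∈ derivedSeries (cenX ρ x) (Nat.log p n) →
      ∀ μ : K, ∀ v ∈ Module.End.eigenspace (ρ x) μ, ρ h v = v := by
    intro h hh μ v hv
    by_cases hE : Module.End.eigenspace (ρ x) μ = ⊥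
    · rw [hE, Submodule.mem_bot] at hv
      rw [hv, map_zero]
    · have hd1 : 0 < Module.finrank K (Module.End.eigenspace (ρ x) μ) :=
        Submodule.one_le_finrank_iff.mpr hE
      have hd2 := hdim μ
      have hd3 : 2 * Module.finrank K (Module.End.eigenspace (ρ x) μ) ≤
          p * Module.finrank K (Module.End.eigenspace (ρ x) μ) :=
        Nat.mul_le_mul_right _ hp.two_le
      have i1 := ih (Module.finrank K (Module.End.eigenspace (ρ x) μ)) (by omega)
        (cenX ρ x) (hP.to_subgroup _) (Module.End.eigenspace (ρ x) μ) rfl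
        (res (ρ.comp (cenX ρ x).subtype) (Module.End.eigenspace (ρ x) μ) (hCinv μ))
      have hlog : Nat.log p (Module.finrank K (Module.End.eigenspace (ρ x) μ)) + 1 ≤
          Nat.log p n := by
        rw [← Nat.log_mul_base hp.one_lt (by omega)]
        exact Nat.log_mono_right (by rw [mul_comm]; exact hd2)
      have h2 := i1 (derivedSeries_antitone _ hlog hh)
      rw [MonoidHom.mem_ker] at h2
      have h3 := congrArg (fun T : Module.End K (Module.End.eigenspace (ρ x) μ) =>
        ((T ⟨v, hv⟩ : Module.End.eigenspace (ρ x) μ) : V)) h2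
      simpa [res_apply] using h3
  intro g hg
  obtain ⟨h, hh, rfl⟩ := ds_le_map (cenX ρ x) hC (Nat.log p n) hg
  rw [MonoidHom.mem_ker]
  ext v
  rw [Module.End.one_apply]
  have hv : v ∈ (⨆ μ : K, Module.End.eigenspace (ρ x) μ) := hStop ▸ Submodule.mem_top
  induction hv using Submodule.iSup_induction' with
  | mem μ v hv => exact hfix h hh μ v hv
  | zero => rw [map_zero]
  | add y z _ _ ihy ihz => rw [map_add, ihy, ihz]

/-- Main bound in characteristic different from `p` over an algebraically closed field. -/
theorem main_bound_p (hpK : (p : K) ≠ 0) :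
    ∀ (n : ℕ) (P : Type v) [Group P] [Finite P] (_ : IsPGroup p P) (V : Type w)
      [AddCommGroup V] [Module K V] [FiniteDimensional K V] (_ : Module.finrank K V = n)
      (ρ : P →* Module.End K V), derivedSeries P (Nat.log p n + 1) ≤ ρ.ker := by
  intro n
  induction n using Nat.strong_induction_on with
  | _ n ih =>
  intro P _ _ hP V _ _ _ hV ρ
  rcases Nat.eq_zero_or_pos n with hn0 | hnpos
  · rw [hn0] at hV
    have hsub : Subsingleton V := Module.finrank_zero_iff.mp hV
    intro g _
    rw [MonoidHom.mem_ker]
    ext v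
    exact Subsingleton.elim _ _
  have hnt : Nontrivial V := Module.nontrivial_of_finrank_pos (R := K) (by omega)
  by_cases hred : ∃ U : Submodule K V, Inv ρ U ∧ U ≠ ⊥ ∧ U ≠ ⊤
  · obtain ⟨U, hU, hU0, hU1⟩ := hred
    obtain ⟨W, hW, hc⟩ := maschke hpK hP ρ U hU
    have hW0 : W ≠ ⊥ := by
      rintro rfl
      apply hU1
      have := hc.sup_eq_top
      rwa [sup_bot_eq] at this
    have hdim := Submodule.finrank_add_eq_of_isCompl hc
    have hdU : 0 < Module.finrank K U := Submodule.one_le_finrank_iff.mpr hU0
    have hdW : 0 < Module.finrank K W := Submodule.one_le_finrank_iff.mpr hW0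
    have iU := ih (Module.finrank K U) (by omega) P hP U rfl (res ρ U hU)
    have iW := ih (Module.finrank K W) (by omega) P hP W rfl (res ρ W hW)
    intro g hg
    have hgU : g ∈ (res ρ U hU).ker :=
      iU (derivedSeries_antitone _ (Nat.add_le_add_right (Nat.log_mono_right (by omega)) 1) hg)
    have hgW : g ∈ (res ρ W hW).ker :=
      iW (derivedSeries_antitone _ (Nat.add_le_add_right (Nat.log_mono_right (by omega)) 1) hg)
    rw [MonoidHom.mem_ker] at hgU hgW ⊢
    ext v
    have hv : v ∈ U ⊔ W := hc.sup_eq_top ▸ Submodule.mem_top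
    obtain ⟨u, hu, w, hw, rfl⟩ := Submodule.mem_sup.mp hv
    have e1 : ρ g u = u := by
      have h3 := congrArg (fun T : Module.End K U => ((T ⟨u, hu⟩ : U) : V)) hgU
      exact (res_apply ρ U hU g ⟨u, hu⟩).symm.trans h3
    have e2 : ρ g w = w := by
      have h3 := congrArg (fun T : Module.End K W => ((T ⟨w, hw⟩ : W) : V)) hgW
      exact (res_apply ρ W hW g ⟨w, hw⟩).symm.trans h3
    rw [map_add, e1, e2, Module.End.one_apply]
  · have hirr : ∀ U : Submodule K V, Inv ρ U → U = ⊥ ∨ U = ⊤ := by
      intro U hU
      by_contra hcon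
      push Not at hcon
      exact hred ⟨U, hU, hcon.1, hcon.2⟩
    by_cases hab : ∀ g h : P, ρ g * ρ h = ρ h * ρ g
    · have h1 : derivedSeries P 1 ≤ ρ.ker := by
        rw [derivedSeries_one, commutator_def, Subgroup.commutator_le]
        intro g _ h _
        rw [MonoidHom.mem_ker, commutatorElement_def, map_mul, map_mul, map_mul, hab g h,
          ← map_mul, ← map_mul, ← map_mul]
        simp
      exact (derivedSeries_antitone _ (by omega)).trans h1
    · exact irr_step_p n hnpos ih P hP V hV ρ hirr hab

end main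

section eig

variable {F : Type u} [Field F] [Fintype F] {n : ℕ}

theorem frob_bound_p {p : ℕ} [Fact p.Prime] (P : Subgroup (GL (Fin n) F)) (hP : IsPGroup p P)
    (hpK : (p : AlgebraicClosure F) ≠ 0) (e : ℕ)
    (he : e = orderOf ((Fintype.card F : ℕ) : ZMod p)) (he1 : 1 ≤ e) :
    ∀ (d : ℕ) (U : Submodule (AlgebraicClosure F) (Fin n → AlgebraicClosure F)),
      Module.finrank (AlgebraicClosure F) U = d → (∀ g : P, ∀ u ∈ U, sig P g u ∈ U) →
      (∀ u ∈ U, PhiHom F n u ∈ U) →
      ∀ g ∈ derivedSeries P (Nat.log p (n / e) + 1), ∀ u ∈ U, sig P g u = u := by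
  classical
  have hfinP : Finite P := inferInstance
  intro d
  induction d using Nat.strong_induction_on with
  | _ d ih =>
  intro U hd hU hΦ g hg u hu
  by_cases hN : ∀ z : P, ∀ u ∈ U, sig P z u = u
  · exact hN g u hu
  · have hNtop : (res (sig P) U hU).ker ≠ ⊤ := by
      intro h
      apply hN
      intro z
      have hz : z ∈ (res (sig P) U hU).ker := h ▸ Subgroup.mem_top z
      exact (mem_ker_res (sig P) U hU z).mp hz
    have hntQ : Nontrivial (P ⧸ (res (sig P) U hU).ker) := QuotientGroup.nontrivial_iff.mpr hNtop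
    have hPQ : IsPGroup p (P ⧸ (res (sig P) U hU).ker) := hP.to_quotient _
    have hcen := hPQ.center_nontrivial
    obtain ⟨⟨zb, hzb⟩, hzne⟩ := exists_ne (1 : Subgroup.center (P ⧸ (res (sig P) U hU).ker))
    obtain ⟨z, rfl⟩ := QuotientGroup.mk_surjective zb
    have hzN : z ∉ (res (sig P) U hU).ker := fun hx =>
      hzne (Subtype.ext ((QuotientGroup.eq_one_iff z).mpr hx))
    have hcomm : ∀ g : P, ⁅g, z⁆ ∈ (res (sig P) U hU).ker := by
      intro g
      rw [← QuotientGroup.eq_one_iff, commutatorElement_def]
      have h1 := Subgroup.mem_center_iff.mp hzb (g : P ⧸ (res (sig P) U hU).ker)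
      simp only [QuotientGroup.mk_mul, QuotientGroup.mk_inv]
      rw [h1]
      group
    have hcommU : ∀ g : P, ∀ u ∈ U, sig P g (sig P z u) = sig P z (sig P g u) := by
      intro g u hu
      have e1 : g * z = ⁅g, z⁆ * (z * g) := by
        rw [commutatorElement_def]
        group
      have h1 : sig P (g * z) u = sig P ⁅g, z⁆ (sig P (z * g) u) := by
        rw [e1, map_mul]
        rfl
      rw [(mem_ker_res (sig P) U hU _).mp (hcomm g) _ (hU _ u hu)] at h1
      rw [map_mul, map_mul] at h1
      exact h1
    -- the restricted operator and its semisimplicity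
    obtain ⟨T, hT⟩ : ∃ T : Module.End (AlgebraicClosure F) U, T = res (sig P) U hU z := ⟨_, rfl⟩
    obtain ⟨a, ha⟩ := IsPGroup.iff_card.mp hP
    have hTpow : T ^ (p ^ a) = 1 := by
      rw [hT, ← map_pow, ← ha, pow_card_eq_one', map_one]
    have hss : T.IsSemisimple := by
      apply Module.End.isSemisimple_of_squarefree_aeval_eq_zero
        (p := (Polynomial.X ^ (p ^ a) - Polynomial.C (1 : AlgebraicClosure F)))
      · apply Polynomial.Separable.squarefree
        apply Polynomial.separable_X_pow_sub_C _ _ one_ne_zero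
        rw [Nat.cast_pow]
        exact pow_ne_zero _ hpK
      · simp [hTpow]
    have htop : (⨆ μ : AlgebraicClosure F, Module.End.eigenspace T μ) = ⊤ :=
      (hss.iSup_maxGenEigenspace_eq_top_iff).mp (Module.End.iSup_maxGenEigenspace_eq_top T)
    have hzpow : ∀ (k : ℕ) (μ : AlgebraicClosure F) (w : Fin n → AlgebraicClosure F),
        sig P z w = μ • w → sig P (z ^ k) w = μ ^ k • w := by
      intro k μ w hw
      induction k with
      | zero => simp
      | succ k ihk =>
        rw [pow_succ, map_mul, Module.End.mul_apply, hw, map_smul, ihk, smul_smul, pow_succ,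
          mul_comm]
    -- reduce to eigenvectors
    have key : ∀ w : U, sig P g (w : Fin n → AlgebraicClosure F) = w := by
      intro w
      have hw : w ∈ (⨆ μ : AlgebraicClosure F, Module.End.eigenspace T μ) :=
        htop ▸ Submodule.mem_top
      induction hw using Submodule.iSup_induction' with
      | zero => simp
      | add y z' _ _ ihy ihz => rw [Submodule.coe_add, map_add, ihy, ihz]
      | mem μ w hw =>
        rw [Module.End.mem_eigenspace_iff] at hw
        have hw' : sig P z (w : Fin n → AlgebraicClosure F) = μ • (w : Fin n → AlgebraicClosure F) := by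
          have h3 := congrArg (Subtype.val) hw
          rw [hT, res_apply] at h3
          exact h3
        have hwU : (w : Fin n → AlgebraicClosure F) ∈ U ⊓ Module.End.eigenspace (sig P z) μ :=
          ⟨w.2, Module.End.mem_eigenspace_iff.mpr hw'⟩
        have hinv : ∀ g' : P, ∀ u' ∈ U ⊓ Module.End.eigenspace (sig P z) μ,
            sig P g' u' ∈ U ⊓ Module.End.eigenspace (sig P z) μ := by
          intro g' u' hu'
          refine ⟨hU g' u' hu'.1, ?_⟩
          show sig P g' u' ∈ Module.End.eigenspace (sig P z) μ
          rw [Module.End.mem_eigenspace_iff, ← hcommU g' u' hu'.1,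
            Module.End.mem_eigenspace_iff.mp hu'.2, map_smul]
        by_cases hμ1 : μ = 1
        · -- fixed space of z: smaller dimension
          have hΦμ : ∀ u' ∈ U ⊓ Module.End.eigenspace (sig P z) μ,
              PhiHom F n u' ∈ U ⊓ Module.End.eigenspace (sig P z) μ := by
            intro u' hu'
            have := twist P z U hΦ μ u' hu'
            rwa [hμ1, map_one, ← hμ1] at this
          have hlt : U ⊓ Module.End.eigenspace (sig P z) μ < U := by
            refine lt_of_le_of_ne inf_le_left (fun heq => hzN ?_)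
            rw [mem_ker_res]
            intro u' hu'
            have h4 : u' ∈ U ⊓ Module.End.eigenspace (sig P z) μ := by
              rw [heq]
              exact hu'
            have h5 := Module.End.mem_eigenspace_iff.mp h4.2
            rwa [hμ1, one_smul] at h5
          have hdlt := Submodule.finrank_lt_finrank_of_lt hlt
          exact ih _ (hd ▸ hdlt) _ rfl hinv hΦμ g hg _ hwU
        · by_cases hw0 : (w : Fin n → AlgebraicClosure F) = 0
          · rw [hw0, map_zero]
          · have hμpow : μ ^ (p ^ a) = 1 := by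
              have h5 := hzpow (p ^ a) μ _ hw'
              rw [← ha, pow_card_eq_one', map_one, Module.End.one_apply] at h5
              have h6 : (μ ^ (Nat.card P) - 1) • (w : Fin n → AlgebraicClosure F) = 0 := by
                rw [sub_smul, one_smul, ← h5, sub_self]
              rcases smul_eq_zero.mp h6 with h7 | h7
              · rw [← ha]
                exact sub_eq_zero.mp h7
              · exact absurd h7 hw0
            have hdim := eig_dim (Fact.out : p.Prime) P z U hΦ e he a μ hμ1 hμpow
            have hUn : Module.finrank (AlgebraicClosure F) U ≤ n := by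
              have := Submodule.finrank_le U
              rwa [Module.finrank_fin_fun] at this
            have hne : U ⊓ Module.End.eigenspace (sig P z) μ ≠ ⊥ := by
              intro h
              rw [h, Submodule.mem_bot] at hwU
              exact hw0 hwU
            have hd1 : 1 ≤ Module.finrank (AlgebraicClosure F)
                (U ⊓ Module.End.eigenspace (sig P z) μ : Submodule _ _) :=
              Submodule.one_le_finrank_iff.mpr hne
            have hle : Module.finrank (AlgebraicClosure F)
                (U ⊓ Module.End.eigenspace (sig P z) μ : Submodule _ _) ≤ n / e := by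
              rw [Nat.le_div_iff_mul_le (by omega)]
              calc _ = e * _ := mul_comm _ _
                _ ≤ _ := hdim.trans hUn
            have hb := main_bound_p hpK _ P hP
              (U ⊓ Module.End.eigenspace (sig P z) μ : Submodule _ _) rfl
              (res (sig P) (U ⊓ Module.End.eigenspace (sig P z) μ) hinv)
            have hg2 : g ∈ (res (sig P) (U ⊓ Module.End.eigenspace (sig P z) μ) hinv).ker :=
              hb (derivedSeries_antitone _
                (Nat.add_le_add_right (Nat.log_mono_right hle) 1) hg)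
            exact (mem_ker_res _ _ hinv g).mp hg2 _ hwU
    exact key ⟨u, hu⟩

end eig

end Cfsg.Agent.Lib.Helper42.DerLenP
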