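import Mathlib

/-!
# Squares in the derived subgroup of the kernel of a character: product and wreath steps

For a homomorphism `χ : G →* A` to a commutative group we study whether the squares of the
elements of `χ.ker` lie in `⁅χ.ker, χ.ker⁆` (or in `⁅χ.ker, ⊤⁆`).

* `sqSub K M h`: the subgroup of the elements of `K` whose square lies in `⁅K, M⁆`.
* `Ref χ r t`: `t` is an involution inverting `r`, and the values of `χ` lie in the subgroup
  generated by `χ r` and `χ t`.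
* `prodCore`: the product step.
* `wreathCore`: the step to the wreath product with a group of order two.
-/

set_option autoImplicit false
set_option linter.unusedSectionVars false

open scoped commutatorElement

namespace Cfsg.Agent.Lib.Helper42.ECore

section sq

variable {G : Type*} [Group G]

/-- The elements of `K` whose square lies in `⁅K, M⁆`. -/
def sqSub (K M : Subgroup G) (h : K ≤ M) : Subgroup G where
  carrier := {g | g ∈ K ∧ g ^ 2 ∈ ⁅K, M⁆}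
  one_mem' := ⟨K.one_mem, by rw [one_pow]; exact Subgroup.one_mem _⟩
  mul_mem' := by
    rintro a b ⟨ha, ha2⟩ ⟨hb, hb2⟩
    refine ⟨K.mul_mem ha hb, ?_⟩
    have e : (a * b) ^ 2 = a ^ 2 * ⁅a⁻¹, b⁆ * b ^ 2 := by
      simp only [commutatorElement_def, pow_two]
      group
    rw [e]
    exact Subgroup.mul_mem _ (Subgroup.mul_mem _ ha2
      (Subgroup.commutator_mem_commutator (K.inv_mem ha) (h hb))) hb2
  inv_mem' := by
    rintro a ⟨ha, ha2⟩
    refine ⟨K.inv_mem ha, ?_⟩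
    rw [inv_pow]
    exact Subgroup.inv_mem _ ha2

theorem mem_sqSub {K M : Subgroup G} {h : K ≤ M} {g : G} :
    g ∈ sqSub K M h ↔ g ∈ K ∧ g ^ 2 ∈ ⁅K, M⁆ := Iff.rfl

theorem sq_eq_comm {r t : G} (h : t * r * t⁻¹ = r⁻¹) : r ^ 2 = ⁅r, t⁆ := by
  have h1 : t * r⁻¹ * t⁻¹ = r := by
    have : t * r⁻¹ * t⁻¹ = (t * r * t⁻¹)⁻¹ := by group
    rw [this, h, inv_inv]
  rw [commutatorElement_def, pow_two]
  calc r * r = r * (t * r⁻¹ * t⁻¹) := by rw [h1]
    _ = r * t * r⁻¹ * t⁻¹ := by group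

/-- Reference data for a character: an involution `t` inverting `r`, such that the values of
the character lie in the subgroup generated by the values at `r` and `t`. -/
def Ref {A : Type*} [CommGroup A] (χ : G →* A) (r t : G) : Prop :=
  t * t = 1 ∧ t * r * t⁻¹ = r⁻¹ ∧ ∀ x, χ x ∈ Subgroup.closure {χ r, χ t}

end sq

section prod

variable {G₁ G₂ A : Type*} [Group G₁] [Group G₂] [CommGroup A]

theorem prodCore (χ₁ : G₁ →* A) (χ₂ : G₂ →* A) (χ : G₁ × G₂ →* A)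
    (hχ : ∀ x y, χ (x, y) = χ₁ x * χ₂ y) (he₂ : ∀ y, χ₂ y * χ₂ y = 1)
    (r₁ t₁ : G₁) (r₂ t₂ : G₂) (hR₁ : Ref χ₁ r₁ t₁) (hR₂ : Ref χ₂ r₂ t₂)
    (hu : χ₁ r₁ = χ₂ r₂) (hv : χ₁ t₁ = χ₂ t₂)
    (h₁ : ∀ l ∈ χ₁.ker, l ^ 2 ∈ ⁅χ₁.ker, (⊤ : Subgroup G₁)⁆)
    (h₂ : ∀ l ∈ χ₂.ker, l ^ 2 ∈ ⁅χ₂.ker, (⊤ : Subgroup G₂)⁆) :
    (∀ z ∈ χ.ker, z ^ 2 ∈ ⁅χ.ker, χ.ker⁆) ∧ Ref χ (r₁, 1) (t₁, 1) := by
  obtain ⟨ht₁, hc₁, hval₁⟩ := hR₁
  obtain ⟨ht₂, hc₂, hval₂⟩ := hR₂
  have hrK : ((r₁, r₂) : G₁ × G₂) ∈ χ.ker := by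
    rw [MonoidHom.mem_ker, hχ, hu]
    exact he₂ r₂
  have htK : ((t₁, t₂) : G₁ × G₂) ∈ χ.ker := by
    rw [MonoidHom.mem_ker, hχ, hv]
    exact he₂ t₂
  have htS : ((t₁, t₂) : G₁ × G₂) ∈ sqSub χ.ker χ.ker le_rfl := by
    refine ⟨htK, ?_⟩
    have : ((t₁, t₂) : G₁ × G₂) ^ 2 = 1 := by
      rw [pow_two]
      exact Prod.ext ht₁ ht₂
    rw [this]
    exact Subgroup.one_mem _
  have hrS : ((r₁, r₂) : G₁ × G₂) ∈ sqSub χ.ker χ.ker le_rfl := by
    refine ⟨hrK, ?_⟩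
    have hc : ((t₁, t₂) : G₁ × G₂) * (r₁, r₂) * (t₁, t₂)⁻¹ = (r₁, r₂)⁻¹ :=
      Prod.ext hc₁ hc₂
    rw [sq_eq_comm hc]
    exact Subgroup.commutator_mem_commutator hrK htK
  have hRS : Subgroup.closure ({(r₁, r₂), (t₁, t₂)} : Set (G₁ × G₂)) ≤
      sqSub χ.ker χ.ker le_rfl := by
    rw [Subgroup.closure_le]
    intro z hz
    rcases hz with rfl | rfl
    · exact hrS
    · exact htS
  -- partners
  have hp₁ : ∀ x : G₁, ∃ z ∈ Subgroup.closure ({(r₁, r₂), (t₁, t₂)} : Set (G₁ × G₂)),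
      χ₁ z.1 = χ₁ x := by
    intro x
    have h := hval₁ x
    have e1 : ({χ₁ r₁, χ₁ t₁} : Set A) = χ₁ '' {r₁, t₁} := by
      rw [Set.image_pair]
    have e2 : ({r₁, t₁} : Set G₁) = (MonoidHom.fst G₁ G₂) '' {(r₁, r₂), (t₁, t₂)} := by
      rw [Set.image_pair]
      rfl
    rw [e1, ← MonoidHom.map_closure, e2, ← MonoidHom.map_closure] at h
    obtain ⟨w, hw, hwx⟩ := h
    obtain ⟨z, hz, rfl⟩ := hw
    exact ⟨z, hz, hwx⟩
  have hp₂ : ∀ y : G₂, ∃ z ∈ Subgroup.closure ({(r₁, r₂), (t₁, t₂)} : Set (G₁ × G₂)),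
      χ₂ z.2 = χ₂ y := by
    intro y
    have h := hval₂ y
    have e1 : ({χ₂ r₂, χ₂ t₂} : Set A) = χ₂ '' {r₂, t₂} := by
      rw [Set.image_pair]
    have e2 : ({r₂, t₂} : Set G₂) = (MonoidHom.snd G₁ G₂) '' {(r₁, r₂), (t₁, t₂)} := by
      rw [Set.image_pair]
      rfl
    rw [e1, ← MonoidHom.map_closure, e2, ← MonoidHom.map_closure] at h
    obtain ⟨w, hw, hwx⟩ := h
    obtain ⟨z, hz, rfl⟩ := hw
    exact ⟨z, hz, hwx⟩
  have hzK : ∀ z ∈ Subgroup.closure ({(r₁, r₂), (t₁, t₂)} : Set (G₁ × G₂)),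
      χ₁ z.1 * χ₂ z.2 = 1 := by
    intro z hz
    have := (hRS hz).1
    rw [MonoidHom.mem_ker] at this
    rw [← hχ]
    exact this
  -- the two factors
  have hA : ∀ k ∈ χ₁.ker, ((k, 1) : G₁ × G₂) ∈ sqSub χ.ker χ.ker le_rfl := by
    intro k hk
    have hkK : ((k, 1) : G₁ × G₂) ∈ χ.ker := by
      rw [MonoidHom.mem_ker, hχ, map_one, mul_one]
      exact hk
    refine ⟨hkK, ?_⟩
    have hle : ⁅χ₁.ker, (⊤ : Subgroup G₁)⁆ ≤
        (⁅χ.ker, χ.ker⁆).comap (MonoidHom.inl G₁ G₂) := by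
      rw [Subgroup.commutator_le]
      intro l hl g _
      obtain ⟨z, hz, hzg⟩ := hp₁ g
      have hgK : ((g, z.2) : G₁ × G₂) ∈ χ.ker := by
        rw [MonoidHom.mem_ker, hχ, ← hzg]
        exact hzK z hz
      have hlK : ((l, 1) : G₁ × G₂) ∈ χ.ker := by
        rw [MonoidHom.mem_ker, hχ, map_one, mul_one]
        exact hl
      have e : MonoidHom.inl G₁ G₂ ⁅l, g⁆ = ⁅((l, 1) : G₁ × G₂), (g, z.2)⁆ := by
        apply Prod.ext
        · simp [commutatorElement_def]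
        · simp [commutatorElement_def]
      rw [Subgroup.mem_comap, e]
      exact Subgroup.commutator_mem_commutator hlK hgK
    have h := hle (h₁ k hk)
    rw [Subgroup.mem_comap] at h
    have e : ((k, 1) : G₁ × G₂) ^ 2 = MonoidHom.inl G₁ G₂ (k ^ 2) := by
      apply Prod.ext
      · simp
      · simp
    rw [e]
    exact h
  have hB : ∀ k ∈ χ₂.ker, ((1, k) : G₁ × G₂) ∈ sqSub χ.ker χ.ker le_rfl := by
    intro k hk
    have hkK : ((1, k) : G₁ × G₂) ∈ χ.ker := by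
      rw [MonoidHom.mem_ker, hχ, map_one, one_mul]
      exact hk
    refine ⟨hkK, ?_⟩
    have hle : ⁅χ₂.ker, (⊤ : Subgroup G₂)⁆ ≤
        (⁅χ.ker, χ.ker⁆).comap (MonoidHom.inr G₁ G₂) := by
      rw [Subgroup.commutator_le]
      intro l hl g _
      obtain ⟨z, hz, hzg⟩ := hp₂ g
      have hgK : ((z.1, g) : G₁ × G₂) ∈ χ.ker := by
        rw [MonoidHom.mem_ker, hχ, ← hzg]
        exact hzK z hz
      have hlK : ((1, l) : G₁ × G₂) ∈ χ.ker := by
        rw [MonoidHom.mem_ker, hχ, map_one, one_mul]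
        exact hl
      have e : MonoidHom.inr G₁ G₂ ⁅l, g⁆ = ⁅((1, l) : G₁ × G₂), (z.1, g)⁆ := by
        apply Prod.ext
        · simp [commutatorElement_def]
        · simp [commutatorElement_def]
      rw [Subgroup.mem_comap, e]
      exact Subgroup.commutator_mem_commutator hlK hgK
    have h := hle (h₂ k hk)
    rw [Subgroup.mem_comap] at h
    have e : ((1, k) : G₁ × G₂) ^ 2 = MonoidHom.inr G₁ G₂ (k ^ 2) := by
      apply Prod.ext
      · simp
      · simp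
    rw [e]
    exact h
  refine ⟨?_, ?_, ?_, ?_⟩
  · intro z hz
    obtain ⟨z₀, hz₀, hz₀x⟩ := hp₁ z.1
    have hz₀K := hzK z₀ hz₀
    have hzk : χ₁ z.1 * χ₂ z.2 = 1 := by
      rw [← hχ]
      exact hz
    have hk1 : z.1 * z₀.1⁻¹ ∈ χ₁.ker := by
      rw [MonoidHom.mem_ker, map_mul, map_inv, hz₀x, mul_inv_cancel]
    have hk2 : z.2 * z₀.2⁻¹ ∈ χ₂.ker := by
      rw [MonoidHom.mem_ker, map_mul, map_inv]
      have e1 : χ₂ z.2 = (χ₁ z.1)⁻¹ := (inv_eq_of_mul_eq_one_right hzk).symm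
      have e2 : χ₂ z₀.2 = (χ₁ z₀.1)⁻¹ := (inv_eq_of_mul_eq_one_right hz₀K).symm
      rw [e1, e2, hz₀x, mul_inv_cancel]
    have hfac : z = ((z.1 * z₀.1⁻¹, 1) : G₁ × G₂) * (1, z.2 * z₀.2⁻¹) * z₀ := by
      apply Prod.ext
      · simp
      · simp
    have hmem : z ∈ sqSub χ.ker χ.ker le_rfl := by
      rw [hfac]
      exact Subgroup.mul_mem _ (Subgroup.mul_mem _ (hA _ hk1) (hB _ hk2)) (hRS hz₀)
    exact hmem.2
  · exact Prod.ext ht₁ (by simp)
  · exact Prod.ext hc₁ (by simp)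
  · intro z
    have e : χ z = χ₁ z.1 * χ₂ z.2 := by rw [← hχ]
    have e1 : χ (r₁, 1) = χ₁ r₁ := by rw [hχ, map_one, mul_one]
    have e2 : χ (t₁, 1) = χ₁ t₁ := by rw [hχ, map_one, mul_one]
    rw [e, e1, e2]
    apply Subgroup.mul_mem _ (hval₁ z.1)
    rw [hu, hv]
    exact hval₂ z.2

end prod

section wreath

variable {G A : Type*} [Group G] [CommGroup A]

theorem c2_cases (q : Multiplicative (ZMod 2)) :
    q = 1 ∨ q = Multiplicative.ofAdd (1 : ZMod 2) := by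
  revert q
  decide

theorem c2_sq (s : Multiplicative (ZMod 2)) : s * s = 1 := by
  revert s
  decide

theorem c2_ne : (Multiplicative.ofAdd (1 : ZMod 2)) ≠ 1 := by
  decide

/-- The embedding of `G × G` as the base group of `G ≀ᵣ C₂`. -/
def baseHom : G × G →* G ≀ᵣ Multiplicative (ZMod 2) where
  toFun p := ⟨fun q => if q = 1 then p.1 else p.2, 1⟩
  map_one' := by
    ext q
    · by_cases hq : q = 1 <;> simp [hq]
    · rfl
  map_mul' a b := by
    ext q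
    · by_cases hq : q = 1 <;> simp [hq]
    · simp

theorem baseHom_apply (p : G × G) :
    baseHom p = ⟨fun q => if q = 1 then p.1 else p.2, 1⟩ := rfl

theorem baseHom_swap (y : G) :
    baseHom ((1, y) : G × G) =
      RegularWreathProduct.inl (Multiplicative.ofAdd (1 : ZMod 2)) * baseHom (y, 1) *
        (RegularWreathProduct.inl (Multiplicative.ofAdd (1 : ZMod 2)))⁻¹ := by
  ext q
  · rcases c2_cases q with rfl | rfl
    · simp [baseHom_apply]
    · simp [baseHom_apply]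
  · simp [baseHom_apply]

theorem decomp (w : G ≀ᵣ Multiplicative (ZMod 2)) :
    w = baseHom (w.left 1, w.left (Multiplicative.ofAdd (1 : ZMod 2))) *
      RegularWreathProduct.inl w.right := by
  ext q
  · rcases c2_cases q with rfl | rfl
    · simp [baseHom_apply]
    · simp [baseHom_apply]
  · simp [baseHom_apply]

theorem wreathCore (χ : G ≀ᵣ Multiplicative (ZMod 2) →* A) (he : ∀ w, χ w * χ w = 1)
    (hs : ∀ s, χ (RegularWreathProduct.inl s) = 1)
    (r t : G) (χ₀ : G →* A) (hχ₀ : ∀ x, χ₀ x = χ (baseHom (x, 1)))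
    (hR : Ref χ₀ r t) (h₀ : ∀ l ∈ χ₀.ker, l ^ 2 ∈ ⁅χ₀.ker, (⊤ : Subgroup G)⁆) :
    (∀ z ∈ χ.ker, z ^ 2 ∈ ⁅χ.ker, χ.ker⁆) ∧ Ref χ (baseHom (r, 1)) (baseHom (t, 1)) := by
  have hχj : ∀ x y, (χ.comp baseHom) (x, y) = χ₀ x * χ₀ y := by
    intro x y
    have e : ((x, y) : G × G) = (x, 1) * (1, y) := by
      apply Prod.ext <;> simp
    rw [MonoidHom.comp_apply, e, map_mul, map_mul, baseHom_swap, map_mul, map_mul, map_inv, hs,
      one_mul, inv_one, mul_one, hχ₀, hχ₀]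
  obtain ⟨hE, hRef⟩ := prodCore χ₀ χ₀ (χ.comp baseHom) hχj
    (fun y => by rw [hχ₀]; exact he _) r t r t hR hR rfl rfl h₀ h₀
  obtain ⟨ht, hc, hval⟩ := hRef
  have hJ : ∀ p ∈ (χ.comp baseHom).ker, baseHom p ∈ sqSub χ.ker χ.ker le_rfl := by
    intro p hp
    have hpK : baseHom p ∈ χ.ker := hp
    refine ⟨hpK, ?_⟩
    have h1 := hE p hp
    have h2 : baseHom (p ^ 2) ∈ (⁅(χ.comp baseHom).ker, (χ.comp baseHom).ker⁆).map baseHom :=
      Subgroup.mem_map_of_mem _ h1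
    rw [Subgroup.map_commutator] at h2
    have hle : ((χ.comp baseHom).ker).map baseHom ≤ χ.ker := by
      rintro _ ⟨p', hp', rfl⟩
      exact hp'
    rw [← map_pow]
    exact Subgroup.commutator_mono hle hle h2
  have hI : ∀ s : Multiplicative (ZMod 2),
      (RegularWreathProduct.inl s : G ≀ᵣ Multiplicative (ZMod 2)) ∈
        sqSub χ.ker χ.ker le_rfl := by
    intro s
    refine ⟨hs s, ?_⟩
    rw [pow_two, ← map_mul, c2_sq, map_one]
    exact Subgroup.one_mem _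
  refine ⟨?_, ?_, ?_, ?_⟩
  · intro z hz
    have hd := decomp z
    have hp : (z.left 1, z.left (Multiplicative.ofAdd (1 : ZMod 2))) ∈
        (χ.comp baseHom).ker := by
      rw [MonoidHom.mem_ker, MonoidHom.comp_apply]
      have h1 : χ z = 1 := hz
      rw [hd, map_mul, hs, mul_one] at h1
      exact h1
    have hmem : z ∈ sqSub χ.ker χ.ker le_rfl := by
      rw [hd]
      exact Subgroup.mul_mem _ (hJ _ hp) (hI _)
    exact hmem.2
  · rw [← map_mul, ht, map_one]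
  · rw [← map_inv, ← map_mul, ← map_mul, hc, map_inv]
  · intro w
    have h1 := hval (w.left 1, w.left (Multiplicative.ofAdd (1 : ZMod 2)))
    rw [MonoidHom.comp_apply, MonoidHom.comp_apply, MonoidHom.comp_apply] at h1
    have e : χ w = χ (baseHom (w.left 1, w.left (Multiplicative.ofAdd (1 : ZMod 2)))) := by
      conv_lhs => rw [decomp w, map_mul, hs, mul_one]
    rw [e]
    exact h1

end wreath

end Cfsg.Agent.Lib.Helper42.ECore
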