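import Mathlib
import Cfsg.Agent.Lib.Helper42.G2Base

/-!
# The Cayley–Dickson model of the Zorn algebra and the subgroup of type `SO₄`

`psi` identifies pairs of `2 × 2` matrices with `F⁸` so that the Zorn product becomes
`(a, b) (c, d) = (a c + adj d · b, d a + b · adj c)`.  For invertible `p`, `c` with the same
determinant, `(a, b) ↦ (c a c⁻¹, p b c⁻¹)` is an automorphism; `phi` is the resulting
homomorphism, whose kernel consists of the pairs of equal scalar matrices.
-/

set_option autoImplicit false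

namespace Cfsg.Agent.Lib.Helper42.G2CD

open Matrix Cfsg.Agent.Lib.Helper42.G2Base

variable {F : Type*} [Field F]

/-- Coordinates of a pair of matrices. -/
def psiFun (x : Matrix (Fin 2) (Fin 2) F × Matrix (Fin 2) (Fin 2) F) : Fin 8 → F :=
  ![x.1 0 0, x.2 0 0, -x.2 1 0, x.1 0 1, x.2 1 1, x.2 0 1, x.1 1 0, x.1 1 1]

/-- The pair of matrices with given coordinates. -/
def psiInv (v : Fin 8 → F) : Matrix (Fin 2) (Fin 2) F × Matrix (Fin 2) (Fin 2) F :=
  (!![v 0, v 3; v 6, v 7], !![v 1, v 5; -v 2, v 4])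

/-- The coordinate isomorphism. -/
def psi : (Matrix (Fin 2) (Fin 2) F × Matrix (Fin 2) (Fin 2) F) ≃ₗ[F] (Fin 8 → F) where
  toFun := psiFun
  invFun := psiInv
  map_add' := by
    intro x y
    ext i
    fin_cases i <;> simp [psiFun]
    ring
  map_smul' := by
    intro r x
    ext i
    fin_cases i <;> simp [psiFun]
  left_inv := by
    intro x
    apply Prod.ext
    · ext i j
      fin_cases i <;> fin_cases j <;> simp [psiFun, psiInv]
    · ext i j
      fin_cases i <;> fin_cases j <;> simp [psiFun, psiInv]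
  right_inv := by
    intro v
    ext i
    fin_cases i <;> simp [psiFun, psiInv]

theorem psi_apply (x : Matrix (Fin 2) (Fin 2) F × Matrix (Fin 2) (Fin 2) F) :
    psi x = psiFun x := rfl

/-- The Cayley–Dickson product. -/
def cdMul (x y : Matrix (Fin 2) (Fin 2) F × Matrix (Fin 2) (Fin 2) F) :
    Matrix (Fin 2) (Fin 2) F × Matrix (Fin 2) (Fin 2) F :=
  (x.1 * y.1 + adjugate y.2 * x.2, y.2 * x.1 + x.2 * adjugate y.1)

theorem psi_mul (x y : Matrix (Fin 2) (Fin 2) F × Matrix (Fin 2) (Fin 2) F) :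
    psi (cdMul x y) = Cfsg.Lie.zornMul (psi x) (psi y) := by
  ext i
  fin_cases i <;>
    simp [psi_apply, psiFun, cdMul, Cfsg.Lie.zornMul, Cfsg.Lie.dot3, Cfsg.Lie.cross3,
      Matrix.mul_apply, Fin.sum_univ_two, Matrix.adjugate_fin_two, Matrix.vecMul, dotProduct] <;>
    ring

theorem coe_mul_inv (c : Matrix.GeneralLinearGroup (Fin 2) F) :
    (c : Matrix (Fin 2) (Fin 2) F) * ((c⁻¹ : Matrix.GeneralLinearGroup (Fin 2) F) :
      Matrix (Fin 2) (Fin 2) F) = 1 := by
  rw [← Units.val_mul, mul_inv_cancel, Units.val_one]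

theorem coe_inv_mul (c : Matrix.GeneralLinearGroup (Fin 2) F) :
    ((c⁻¹ : Matrix.GeneralLinearGroup (Fin 2) F) : Matrix (Fin 2) (Fin 2) F) *
      (c : Matrix (Fin 2) (Fin 2) F) = 1 := by
  rw [← Units.val_mul, inv_mul_cancel, Units.val_one]

theorem coe_mul_inv_assoc (c : Matrix.GeneralLinearGroup (Fin 2) F)
    (m : Matrix (Fin 2) (Fin 2) F) :
    (c : Matrix (Fin 2) (Fin 2) F) * (((c⁻¹ : Matrix.GeneralLinearGroup (Fin 2) F) :
      Matrix (Fin 2) (Fin 2) F) * m) = m := by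
  rw [← mul_assoc, coe_mul_inv, one_mul]

theorem coe_inv_mul_assoc (c : Matrix.GeneralLinearGroup (Fin 2) F)
    (m : Matrix (Fin 2) (Fin 2) F) :
    ((c⁻¹ : Matrix.GeneralLinearGroup (Fin 2) F) : Matrix (Fin 2) (Fin 2) F) *
      ((c : Matrix (Fin 2) (Fin 2) F) * m) = m := by
  rw [← mul_assoc, coe_inv_mul, one_mul]

/-- The map `(a, b) ↦ (c a c⁻¹, p b c⁻¹)`. -/
def lam (p c : Matrix.GeneralLinearGroup (Fin 2) F) :
    (Matrix (Fin 2) (Fin 2) F × Matrix (Fin 2) (Fin 2) F) ≃ₗ[F]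
      (Matrix (Fin 2) (Fin 2) F × Matrix (Fin 2) (Fin 2) F) where
  toFun x := ((c : Matrix (Fin 2) (Fin 2) F) * x.1 *
      ((c⁻¹ : Matrix.GeneralLinearGroup (Fin 2) F) : Matrix (Fin 2) (Fin 2) F),
    (p : Matrix (Fin 2) (Fin 2) F) * x.2 *
      ((c⁻¹ : Matrix.GeneralLinearGroup (Fin 2) F) : Matrix (Fin 2) (Fin 2) F))
  invFun x := (((c⁻¹ : Matrix.GeneralLinearGroup (Fin 2) F) : Matrix (Fin 2) (Fin 2) F) * x.1 *
      (c : Matrix (Fin 2) (Fin 2) F),
    ((p⁻¹ : Matrix.GeneralLinearGroup (Fin 2) F) : Matrix (Fin 2) (Fin 2) F) * x.2 *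
      (c : Matrix (Fin 2) (Fin 2) F))
  map_add' := by
    intro x y
    simp [mul_add, add_mul]
  map_smul' := by
    intro r x
    simp
  left_inv := by
    intro x
    apply Prod.ext
    · simp only [mul_assoc, coe_inv_mul, coe_inv_mul_assoc, mul_one]
    · simp only [mul_assoc, coe_inv_mul, coe_inv_mul_assoc, mul_one]
  right_inv := by
    intro x
    apply Prod.ext
    · simp only [mul_assoc, coe_mul_inv, coe_mul_inv_assoc, mul_one]
    · simp only [mul_assoc, coe_mul_inv, coe_mul_inv_assoc, mul_one]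

theorem lam_apply (p c : Matrix.GeneralLinearGroup (Fin 2) F)
    (x : Matrix (Fin 2) (Fin 2) F × Matrix (Fin 2) (Fin 2) F) :
    lam p c x = ((c : Matrix (Fin 2) (Fin 2) F) * x.1 *
      ((c⁻¹ : Matrix.GeneralLinearGroup (Fin 2) F) : Matrix (Fin 2) (Fin 2) F),
    (p : Matrix (Fin 2) (Fin 2) F) * x.2 *
      ((c⁻¹ : Matrix.GeneralLinearGroup (Fin 2) F) : Matrix (Fin 2) (Fin 2) F)) := rfl

theorem lam_one (x : Matrix (Fin 2) (Fin 2) F × Matrix (Fin 2) (Fin 2) F) :
    lam (1 : Matrix.GeneralLinearGroup (Fin 2) F) 1 x = x := by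
  rw [lam_apply]
  simp

theorem lam_mul (p c p' c' : Matrix.GeneralLinearGroup (Fin 2) F)
    (x : Matrix (Fin 2) (Fin 2) F × Matrix (Fin 2) (Fin 2) F) :
    lam (p * p') (c * c') x = lam p c (lam p' c' x) := by
  rw [lam_apply, lam_apply, lam_apply]
  simp only [_root_.mul_inv_rev, Units.val_mul, mul_assoc]

theorem adj_inv (c : Matrix.GeneralLinearGroup (Fin 2) F) :
    adjugate ((c⁻¹ : Matrix.GeneralLinearGroup (Fin 2) F) : Matrix (Fin 2) (Fin 2) F) =
      ((c⁻¹ : Matrix.GeneralLinearGroup (Fin 2) F) : Matrix (Fin 2) (Fin 2) F).det •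
        (c : Matrix (Fin 2) (Fin 2) F) := by
  have h := Matrix.mul_adjugate
    ((c⁻¹ : Matrix.GeneralLinearGroup (Fin 2) F) : Matrix (Fin 2) (Fin 2) F)
  have h2 := congrArg (fun m => (c : Matrix (Fin 2) (Fin 2) F) * m) h
  simp only [coe_mul_inv_assoc, Matrix.mul_smul, mul_one] at h2
  exact h2

theorem adj_coe (c : Matrix.GeneralLinearGroup (Fin 2) F) :
    adjugate (c : Matrix (Fin 2) (Fin 2) F) =
      (c : Matrix (Fin 2) (Fin 2) F).det •
        ((c⁻¹ : Matrix.GeneralLinearGroup (Fin 2) F) : Matrix (Fin 2) (Fin 2) F) := by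
  have h := Matrix.mul_adjugate (c : Matrix (Fin 2) (Fin 2) F)
  have h2 := congrArg (fun m => ((c⁻¹ : Matrix.GeneralLinearGroup (Fin 2) F) :
    Matrix (Fin 2) (Fin 2) F) * m) h
  simp only [coe_inv_mul_assoc, Matrix.mul_smul, mul_one] at h2
  exact h2

theorem det_inv_mul (c : Matrix.GeneralLinearGroup (Fin 2) F) :
    ((c⁻¹ : Matrix.GeneralLinearGroup (Fin 2) F) : Matrix (Fin 2) (Fin 2) F).det *
      (c : Matrix (Fin 2) (Fin 2) F).det = 1 := by
  rw [← Matrix.det_mul, coe_inv_mul, Matrix.det_one]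

theorem lam_cdMul (p c : Matrix.GeneralLinearGroup (Fin 2) F)
    (h : (p : Matrix (Fin 2) (Fin 2) F).det = (c : Matrix (Fin 2) (Fin 2) F).det)
    (x y : Matrix (Fin 2) (Fin 2) F × Matrix (Fin 2) (Fin 2) F) :
    lam p c (cdMul x y) = cdMul (lam p c x) (lam p c y) := by
  have hd := det_inv_mul c
  have hd' : ((c⁻¹ : Matrix.GeneralLinearGroup (Fin 2) F) : Matrix (Fin 2) (Fin 2) F).det *
      (p : Matrix (Fin 2) (Fin 2) F).det = 1 := by rw [h]; exact hd
  rw [lam_apply, lam_apply, lam_apply]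
  unfold cdMul
  apply Prod.ext
  · simp only [Matrix.adjugate_mul_distrib, adj_inv, mul_add, add_mul]
    congr 1
    · simp only [mul_assoc, coe_inv_mul_assoc]
    · have e : adjugate (p : Matrix (Fin 2) (Fin 2) F) * ((p : Matrix (Fin 2) (Fin 2) F) *
          (x.2 * ((c⁻¹ : Matrix.GeneralLinearGroup (Fin 2) F) : Matrix (Fin 2) (Fin 2) F))) =
          (p : Matrix (Fin 2) (Fin 2) F).det •
            (x.2 * ((c⁻¹ : Matrix.GeneralLinearGroup (Fin 2) F) : Matrix (Fin 2) (Fin 2) F)) := by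
        rw [← mul_assoc, Matrix.adjugate_mul, Matrix.smul_mul, one_mul]
      simp only [mul_assoc, e, Matrix.smul_mul, Matrix.mul_smul, smul_smul, hd', one_smul]
  · simp only [Matrix.adjugate_mul_distrib, adj_coe, inv_inv, mul_add, add_mul]
    congr 1
    · simp only [mul_assoc, coe_inv_mul_assoc]
    · have hd2 : (c : Matrix (Fin 2) (Fin 2) F).det *
          ((c⁻¹ : Matrix.GeneralLinearGroup (Fin 2) F) : Matrix (Fin 2) (Fin 2) F).det = 1 := by
        rw [mul_comm]; exact hd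
      simp only [mul_assoc, Matrix.smul_mul, Matrix.mul_smul, smul_smul, hd2, one_smul,
        coe_inv_mul_assoc]

/-- The homomorphism `(p, c) ↦ ((a, b) ↦ (c a c⁻¹, p b c⁻¹))` in coordinates. -/
def phi : Matrix.GeneralLinearGroup (Fin 2) F × Matrix.GeneralLinearGroup (Fin 2) F →*
    ((Fin 8 → F) ≃ₗ[F] (Fin 8 → F)) where
  toFun g := (psi.symm.trans (lam g.1 g.2)).trans psi
  map_one' := by
    apply LinearEquiv.ext
    intro v
    change psi (lam 1 1 (psi.symm v)) = v
    rw [lam_one, LinearEquiv.apply_symm_apply]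
  map_mul' := by
    intro g h
    apply LinearEquiv.ext
    intro v
    change psi (lam (g.1 * h.1) (g.2 * h.2) (psi.symm v)) =
      psi (lam g.1 g.2 (psi.symm (psi (lam h.1 h.2 (psi.symm v)))))
    rw [lam_mul, LinearEquiv.symm_apply_apply]

theorem phi_apply (g : Matrix.GeneralLinearGroup (Fin 2) F × Matrix.GeneralLinearGroup (Fin 2) F)
    (v : Fin 8 → F) : phi g v = psi (lam g.1 g.2 (psi.symm v)) := rfl

theorem phi_mem (g : Matrix.GeneralLinearGroup (Fin 2) F × Matrix.GeneralLinearGroup (Fin 2) F)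
    (h : Matrix.GeneralLinearGroup.det g.1 = Matrix.GeneralLinearGroup.det g.2) :
    phi g ∈ AutO F := by
  have h' : (g.1 : Matrix (Fin 2) (Fin 2) F).det = (g.2 : Matrix (Fin 2) (Fin 2) F).det := by
    have := congrArg Units.val h
    simpa using this
  intro x y
  obtain ⟨x', rfl⟩ := psi.surjective x
  obtain ⟨y', rfl⟩ := psi.surjective y
  rw [← psi_mul, phi_apply, phi_apply, phi_apply, LinearEquiv.symm_apply_apply,
    LinearEquiv.symm_apply_apply, LinearEquiv.symm_apply_apply, lam_cdMul _ _ h', psi_mul]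

theorem phi_ker (g : Matrix.GeneralLinearGroup (Fin 2) F × Matrix.GeneralLinearGroup (Fin 2) F)
    (h : phi g = 1) : ∃ z : Fˣ, g = (Matrix.GeneralLinearGroup.scalar (Fin 2) z,
      Matrix.GeneralLinearGroup.scalar (Fin 2) z) := by
  have h1 : ∀ x, lam g.1 g.2 x = x := by
    intro x
    have := congrArg (fun f => f (psi x)) h
    simp only [phi_apply, LinearEquiv.symm_apply_apply] at this
    exact psi.injective this
  have h2 : (g.1 : Matrix (Fin 2) (Fin 2) F) = (g.2 : Matrix (Fin 2) (Fin 2) F) := by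
    have := congrArg Prod.snd (h1 (0, 1))
    rw [lam_apply] at this
    simp only [mul_one] at this
    have e := congrArg (fun m => m * (g.2 : Matrix (Fin 2) (Fin 2) F)) this
    simp only [mul_assoc, coe_inv_mul, mul_one, one_mul] at e
    exact e
  have h3 : ∀ a : Matrix (Fin 2) (Fin 2) F, (g.2 : Matrix (Fin 2) (Fin 2) F) * a =
      a * (g.2 : Matrix (Fin 2) (Fin 2) F) := by
    intro a
    have := congrArg Prod.fst (h1 (a, 0))
    rw [lam_apply] at this
    have e := congrArg (fun m => m * (g.2 : Matrix (Fin 2) (Fin 2) F)) this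
    simp only [mul_assoc, coe_inv_mul, mul_one] at e
    exact e
  obtain ⟨r, hr⟩ := Matrix.mem_range_scalar_of_commute_single
    (M := (g.2 : Matrix (Fin 2) (Fin 2) F)) (fun i j _ => (h3 _).symm)
  have hr0 : r ≠ 0 := by
    rintro rfl
    have hd : (g.2 : Matrix (Fin 2) (Fin 2) F).det = 0 := by
      rw [← hr]
      simp
    have hu : IsUnit (g.2 : Matrix (Fin 2) (Fin 2) F).det :=
      (Matrix.isUnit_iff_isUnit_det _).mp g.2.isUnit
    rw [hd] at hu
    exact not_isUnit_zero hu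
  refine ⟨Units.mk0 r hr0, ?_⟩
  apply Prod.ext
  · apply Units.ext
    rw [h2, ← hr]
    rfl
  · apply Units.ext
    rw [← hr]
    rfl

end Cfsg.Agent.Lib.Helper42.G2CD
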