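import Mathlib

/-!
# Groups whose squares lie in the derived subgroup

`E G` says that `x ^ 2 ∈ commutator G` for all `x`, i.e. `G/G'` is an elementary abelian
`2`-group.  The property passes to products, to regular wreath products with a group of
exponent two, and along surjections.  Also: `2`-adic valuations of factorials and of the
orders of symplectic groups.
-/

set_option autoImplicit false
set_option linter.unusedSectionVars false

open scoped commutatorElement

namespace Cfsg.Agent.Lib.Helper42.SylE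

section E

/-- Squares lie in the derived subgroup. -/
def E (G : Type*) [Group G] : Prop := ∀ x : G, x ^ 2 ∈ commutator G

theorem mem_comm_iff {G : Type*} [Group G] (x : G) :
    x ∈ commutator G ↔ Abelianization.of x = 1 := by
  rw [← Abelianization.ker_of, MonoidHom.mem_ker]

theorem sq_mul {G : Type*} [Group G] {x y : G} (hx : x ^ 2 ∈ commutator G)
    (hy : y ^ 2 ∈ commutator G) : (x * y) ^ 2 ∈ commutator G := by
  rw [mem_comm_iff, map_pow] at *
  rw [map_mul, mul_pow, hx, hy, one_mul]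

theorem sq_inv {G : Type*} [Group G] {x : G} (hx : x ^ 2 ∈ commutator G) :
    (x⁻¹) ^ 2 ∈ commutator G := by
  rw [inv_pow]
  exact Subgroup.inv_mem _ hx

theorem map_mem_commutator {G H : Type*} [Group G] [Group H] (f : G →* H) {x : G}
    (hx : x ∈ commutator G) : f x ∈ commutator H := by
  rw [mem_comm_iff] at hx ⊢
  rw [← Abelianization.map_of f x, hx, map_one]

theorem E_of_surjective {G H : Type*} [Group G] [Group H] (f : G →* H)
    (hf : Function.Surjective f) (hG : E G) : E H := by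
  intro y
  obtain ⟨x, rfl⟩ := hf y
  rw [← map_pow]
  exact map_mem_commutator f (hG x)

theorem E_of_mulEquiv {G H : Type*} [Group G] [Group H] (e : G ≃* H) (hG : E G) : E H :=
  E_of_surjective e.toMonoidHom e.surjective hG

theorem E_prod {G H : Type*} [Group G] [Group H] (hG : E G) (hH : E H) : E (G × H) := by
  intro x
  have h1 : x = MonoidHom.inl G H x.1 * MonoidHom.inr G H x.2 := by
    ext <;> simp
  rw [h1]
  apply sq_mul
  · rw [← map_pow]
    exact map_mem_commutator _ (hG x.1)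
  · rw [← map_pow]
    exact map_mem_commutator _ (hH x.2)

theorem E_wreath {D Q : Type*} [Group D] [Group Q] [Finite Q] (hD : E D)
    (hQ : ∀ s : Q, s ^ 2 = 1) : E (D ≀ᵣ Q) := by
  intro w
  obtain ⟨β, hβ⟩ : ∃ β : (Q → D) →* D ≀ᵣ Q, ∀ f, β f = ⟨f, 1⟩ :=
    ⟨{ toFun := fun f => ⟨f, 1⟩
       map_one' := rfl
       map_mul' := by
         intro f g
         ext <;> simp }, fun f => rfl⟩
  have hw : w = β w.left * ⟨1, w.right⟩ := by
    rw [hβ]
    ext <;> simp
  rw [hw]
  apply sq_mul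
  · rw [← map_pow]
    apply map_mem_commutator
    rw [commutator_def, ← Subgroup.pi_top Set.univ, Subgroup.commutator_pi_pi_of_finite,
      Subgroup.mem_pi]
    intro q _
    exact hD (w.left q)
  · have h1 : ((⟨1, w.right⟩ : D ≀ᵣ Q)) ^ 2 = 1 := by
      rw [pow_two]
      ext
      · simp
      · simp only [RegularWreathProduct.mul_right, RegularWreathProduct.one_right]
        rw [← pow_two]
        exact hQ _
    rw [h1]
    exact Subgroup.one_mem _

/-- A group generated by elements whose squares are commutators has `E`. -/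
theorem E_of_closure {G : Type*} [Group G] (s : Set G) (hs : Subgroup.closure s = ⊤)
    (h : ∀ x ∈ s, x ^ 2 ∈ commutator G) : E G := by
  intro x
  have hx : x ∈ Subgroup.closure s := hs ▸ Subgroup.mem_top x
  induction hx using Subgroup.closure_induction with
  | mem x hx => exact h x hx
  | one => rw [one_pow]; exact Subgroup.one_mem _
  | mul x y _ _ ihx ihy => exact sq_mul ihx ihy
  | inv x _ ihx => exact sq_inv ihx

end E

section val

theorem v2_factorial_succ (n : ℕ) :
    padicValNat 2 (n + 1).factorial = padicValNat 2 (n + 1) + padicValNat 2 n.factorial := by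
  rw [Nat.factorial_succ, padicValNat.mul (by omega) (Nat.factorial_ne_zero n)]

/-- The `2`-part of `q ^ (2k) - 1` for odd `q`. -/
theorem v2_pow_sub_one (q : ℕ) (hq : Odd q) (hq3 : 3 ≤ q) (k : ℕ) (hk : k ≠ 0) :
    padicValNat 2 (q ^ (2 * k) - 1) =
      padicValNat 2 (q - 1) + padicValNat 2 (q + 1) + padicValNat 2 k := by
  have h1 : (1 : ℕ) < q := by omega
  have h2 : 2 ∣ q - 1 := by
    obtain ⟨m, hm⟩ := hq
    exact ⟨m, by omega⟩
  have h3 : ¬ 2 ∣ q := Nat.two_dvd_ne_zero.mpr (Nat.odd_iff.mp hq)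
  have h4 := padicValNat.pow_two_sub_pow h1 h2 h3 (n := 2 * k) (by omega) (even_two_mul k)
  rw [one_pow, padicValNat.mul (by norm_num) hk, padicValNat_self] at h4
  omega

/-- The `2`-part of the order formula of `Sp_{2n}(q)`, `q` odd. -/
theorem v2_sp (q : ℕ) (hq : Odd q) (hq3 : 3 ≤ q) (n : ℕ) :
    padicValNat 2 (q ^ (n ^ 2) * ∏ i ∈ Finset.range n, (q ^ (2 * (i + 1)) - 1)) =
      n * (padicValNat 2 (q - 1) + padicValNat 2 (q + 1)) + padicValNat 2 n.factorial := by
  have hne : ∀ i : ℕ, q ^ (2 * (i + 1)) - 1 ≠ 0 := by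
    intro i
    have : 3 ≤ q ^ (2 * (i + 1)) := by
      calc 3 ≤ q := hq3
        _ = q ^ 1 := (pow_one q).symm
        _ ≤ q ^ (2 * (i + 1)) := Nat.pow_le_pow_right (by omega) (by omega)
    omega
  have hqv : padicValNat 2 (q ^ (n ^ 2)) = 0 := by
    rw [padicValNat.pow]
    have : padicValNat 2 q = 0 := by
      apply padicValNat.eq_zero_of_not_dvd
      exact Nat.two_dvd_ne_zero.mpr (Nat.odd_iff.mp hq)
    rw [this, mul_zero]
  have hprod : ∀ m : ℕ, (∏ i ∈ Finset.range m, (q ^ (2 * (i + 1)) - 1)) ≠ 0 ∧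
      padicValNat 2 (∏ i ∈ Finset.range m, (q ^ (2 * (i + 1)) - 1)) =
        m * (padicValNat 2 (q - 1) + padicValNat 2 (q + 1)) + padicValNat 2 m.factorial := by
    intro m
    induction m with
    | zero => simp
    | succ m ih =>
      obtain ⟨ih0, ih1⟩ := ih
      refine ⟨?_, ?_⟩
      · rw [Finset.prod_range_succ]
        exact mul_ne_zero ih0 (hne m)
      · rw [Finset.prod_range_succ, padicValNat.mul ih0 (hne m), ih1,
          v2_pow_sub_one q hq hq3 (m + 1) (by omega), v2_factorial_succ]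
        ring
  rw [padicValNat.mul (pow_ne_zero _ (by omega)) (hprod n).1, hqv, zero_add, (hprod n).2]

end val

section dic

/-- A dicyclic-type configuration: a subgroup `T` inverted by `y`, with `y * y = j * j` for an
element `j ∈ T` of order dividing four.  Then there is a `2`-subgroup `Q` with `E Q` whose order
is divisible by twice the `2`-part of `|T|`. -/
theorem dic_exists {G : Type*} [Group G] [Finite G] (T : Subgroup G) (y j : G)
    (hT : ∀ t ∈ T, t * y * t = y) (hj : j ∈ T) (hj4 : j ^ 4 = 1) (hyj : y * y = j * j)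
    (hyT : y ∉ T) :
    ∃ Q : Subgroup G, IsPGroup 2 Q ∧ E ↥Q ∧
      2 ^ ((Nat.card T).factorization 2 + 1) ∣ Nat.card Q := by
  classical
  have hc1 : ∀ t ∈ T, y * t * y⁻¹ = t⁻¹ := by
    intro t ht
    have h := hT t ht
    have e : y * t = t⁻¹ * y := by
      rw [eq_inv_mul_iff_mul_eq, ← mul_assoc]
      exact h
    rw [e, mul_inv_cancel_right]
  have hcomm : ∀ s ∈ T, ∀ t ∈ T, s * t = t * s := by
    intro s hs t ht
    have h1 := hc1 (s * t) (T.mul_mem hs ht)
    have h2 : y * (s * t) * y⁻¹ = (y * s * y⁻¹) * (y * t * y⁻¹) := by group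
    rw [h2, hc1 s hs, hc1 t ht, mul_inv_rev] at h1
    have h3 := congrArg (fun g => g⁻¹) h1
    simp only [mul_inv_rev, inv_inv] at h3
    exact h3.symm
  obtain ⟨T2, hT2⟩ : ∃ T2 : Subgroup G, ∀ g, g ∈ T2 ↔ g ∈ T ∧ ∃ k : ℕ, g ^ (2 ^ k) = 1 :=
    ⟨{ carrier := {g | g ∈ T ∧ ∃ k : ℕ, g ^ (2 ^ k) = 1}
       one_mem' := ⟨T.one_mem, 0, by simp⟩
       mul_mem' := by
         rintro a b ⟨ha, k, hk⟩ ⟨hb, m, hm⟩
         refine ⟨T.mul_mem ha hb, k + m, ?_⟩
         rw [(show Commute a b from hcomm a ha b hb).mul_pow, pow_add, pow_mul, hk, one_pow,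
           mul_comm (2 ^ k) (2 ^ m), pow_mul, hm, one_pow, mul_one]
       inv_mem' := by
         rintro a ⟨ha, k, hk⟩
         exact ⟨T.inv_mem ha, k, by rw [inv_pow, hk, inv_one]⟩ }, fun g => Iff.rfl⟩
  have hjT2 : j ∈ T2 := (hT2 j).mpr ⟨hj, 2, hj4⟩
  have hyy : y * y ∈ T2 := by
    rw [hyj]
    exact T2.mul_mem hjT2 hjT2
  have hc1' : ∀ t ∈ T2, y * t * y⁻¹ = t⁻¹ := fun t ht => hc1 t ((hT2 t).mp ht).1
  obtain ⟨Q, hQ⟩ : ∃ Q : Subgroup G, ∀ g, g ∈ Q ↔ g ∈ T2 ∨ g * y⁻¹ ∈ T2 :=
    ⟨{ carrier := {g | g ∈ T2 ∨ g * y⁻¹ ∈ T2}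
       one_mem' := Or.inl T2.one_mem
       mul_mem' := by
         rintro a b (ha | ha) (hb | hb)
         · exact Or.inl (T2.mul_mem ha hb)
         · right
           have e : a * b * y⁻¹ = a * (b * y⁻¹) := by group
           rw [e]
           exact T2.mul_mem ha hb
         · right
           have e : a * b * y⁻¹ = (a * y⁻¹) * (y * b * y⁻¹) := by group
           rw [e, hc1' b hb]
           exact T2.mul_mem ha (T2.inv_mem hb)
         · left
           have e : a * b = (a * y⁻¹) * (y * (b * y⁻¹) * y⁻¹) * (y * y) := by group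
           rw [e, hc1' _ hb]
           exact T2.mul_mem (T2.mul_mem ha (T2.inv_mem hb)) hyy
       inv_mem' := by
         rintro a (ha | ha)
         · exact Or.inl (T2.inv_mem ha)
         · right
           have e1 : a⁻¹ * y⁻¹ = y⁻¹ * (a * y⁻¹)⁻¹ * y⁻¹ := by group
           have e2 : y⁻¹ * (y * (a * y⁻¹) * y⁻¹) * y⁻¹ = (a * y⁻¹) * (y * y)⁻¹ := by group
           rw [e1, ← hc1' _ ha, e2]
           exact T2.mul_mem ha (T2.inv_mem hyy) }, fun g => Iff.rfl⟩
  have hsq : ∀ g, g * y⁻¹ ∈ T2 → g * g = y * y := by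
    intro g h
    have e : g * g = (g * y⁻¹) * (y * (g * y⁻¹) * y⁻¹) * (y * y) := by group
    rw [e, hc1' _ h]
    group
  have hQp : IsPGroup 2 Q := by
    rintro ⟨g, hg⟩
    rcases (hQ g).mp hg with h | h
    · obtain ⟨k, hk⟩ := ((hT2 g).mp h).2
      exact ⟨k, Subtype.ext hk⟩
    · refine ⟨2, Subtype.ext ?_⟩
      show g ^ (2 ^ 2) = 1
      rw [show (2 : ℕ) ^ 2 = 2 * 2 from rfl, pow_mul, pow_two g, hsq g h, hyj, ← pow_two j,
        ← pow_mul]
      exact hj4
  have hyQ : y ∈ Q := (hQ y).mpr (Or.inr (by rw [mul_inv_cancel]; exact T2.one_mem))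
  have hT2Q : ∀ t ∈ T2, t ∈ Q := fun t ht => (hQ t).mpr (Or.inl ht)
  have key : ∀ t (ht : t ∈ T2), (⟨t, hT2Q t ht⟩ : Q) ^ 2 ∈ commutator Q := by
    intro t ht
    have e : (⟨t, hT2Q t ht⟩ : Q) ^ 2 = ⁅(⟨t, hT2Q t ht⟩ : Q), ⟨y, hyQ⟩⁆ := by
      apply Subtype.ext
      show t ^ 2 = t * y * t⁻¹ * y⁻¹
      have e2 : t * y * t⁻¹ * y⁻¹ = t * (y * t * y⁻¹)⁻¹ := by group
      rw [e2, hc1' t ht, inv_inv, pow_two]
    rw [e, commutator_def]
    exact Subgroup.commutator_mem_commutator (Subgroup.mem_top _) (Subgroup.mem_top _)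
  have hE : E Q := by
    rintro ⟨g, hg⟩
    rcases (hQ g).mp hg with h | h
    · exact key g h
    · have e : (⟨g, hg⟩ : Q) ^ 2 = (⟨j, hT2Q j hjT2⟩ : Q) ^ 2 := by
        apply Subtype.ext
        show g ^ 2 = j ^ 2
        rw [pow_two, pow_two, hsq g h, hyj]
      rw [e]
      exact key j hjT2
  refine ⟨Q, hQp, hE, ?_⟩
  -- cardinalities
  obtain ⟨P2⟩ : Nonempty (Sylow 2 T) := inferInstance
  have hP2 : Nat.card P2 = 2 ^ (Nat.card T).factorization 2 := P2.card_eq_multiplicity
  have hmemP : ∀ x : (P2 : Subgroup T), ((x : T) : G) ∈ T2 := by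
    intro x
    obtain ⟨k, hk⟩ := P2.isPGroup' x
    refine (hT2 _).mpr ⟨x.1.2, k, ?_⟩
    have h1 := congrArg (fun z : (P2 : Subgroup T) => ((z : T) : G)) hk
    simpa using h1
  have hle : Nat.card P2 ≤ Nat.card T2 := by
    apply Nat.card_le_card_of_injective (fun x : (P2 : Subgroup T) => (⟨_, hmemP x⟩ : T2))
    intro a b hab
    have h1 : ((a : T) : G) = ((b : T) : G) := congrArg (fun z : T2 => (z : G)) hab
    exact Subtype.ext (Subtype.ext h1)
  have hT2le : T2 ≤ Q := fun t ht => hT2Q t ht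
  have hT2p : IsPGroup 2 T2 := hQp.to_le hT2le
  obtain ⟨c', hc'⟩ := IsPGroup.iff_card.mp hT2p
  obtain ⟨c, hc⟩ := IsPGroup.iff_card.mp hQp
  have hlt : Nat.card T2 < Nat.card Q := by
    by_contra hcon
    push Not at hcon
    have heq := Subgroup.eq_of_le_of_card_ge hT2le hcon
    apply hyT
    have : y ∈ T2 := heq ▸ hyQ
    exact ((hT2 y).mp this).1
  rw [hc', hc] at hlt
  rw [hP2, hc'] at hle
  have h1 : c' < c := (Nat.pow_lt_pow_iff_right (by norm_num)).mp hlt
  have h2 : (Nat.card T).factorization 2 ≤ c' := (Nat.pow_le_pow_iff_right (by norm_num)).mp hle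
  rw [hc]
  exact pow_dvd_pow 2 (by omega)

end dic

end Cfsg.Agent.Lib.Helper42.SylE
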