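import Mathlib
import Cfsg.Agent.Lib.Helper42.SylE

/-!
# A `2`-subgroup of `GL₂ × GL₂` from a torus with an inverting element

Given an abelian subgroup `T` of `GL₂(F)` containing the scalars, an element `j` of determinant
one with `j² = -1` and `j t j⁻¹ = det t · t⁻¹` on `T`, and `k ∈ T` of determinant one with
`k² = -1`, the pairs `(s, t)` with equal determinants and with `s, t` in `T₂ ∪ j⁻¹ T₂`
(`T₂` the `2`-elements of `T`) form a `2`-group `Y` whose squares lie in `⁅Y, Y⁆` up to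
pairs of equal scalars.
-/

set_option autoImplicit false

open scoped commutatorElement
open Matrix

namespace Cfsg.Agent.Lib.Helper42.G2Tor

variable {F : Type*} [Field F]

/-- The data of a torus with an inverting element. -/
structure Datum (T : Subgroup (GL (Fin 2) F)) (j k : GL (Fin 2) F) : Prop where
  comm : ∀ s ∈ T, ∀ t ∈ T, s * t = t * s
  scal : ∀ z : Fˣ, GeneralLinearGroup.scalar (Fin 2) z ∈ T
  jdet : GeneralLinearGroup.det j = 1
  jsq : j * j = GeneralLinearGroup.scalar (Fin 2) (-1)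
  jconj : ∀ t ∈ T, j * t * j⁻¹ =
    GeneralLinearGroup.scalar (Fin 2) (GeneralLinearGroup.det t) * t⁻¹
  jnot : j ∉ T
  kmem : k ∈ T
  kdet : GeneralLinearGroup.det k = 1
  ksq : k * k = GeneralLinearGroup.scalar (Fin 2) (-1)

theorem neg_sq : (GeneralLinearGroup.scalar (Fin 2) (-1 : Fˣ)) *
    GeneralLinearGroup.scalar (Fin 2) (-1 : Fˣ) = 1 := by
  rw [← map_mul]
  simp

theorem neg_inv : (GeneralLinearGroup.scalar (Fin 2) (-1 : Fˣ))⁻¹ =
    GeneralLinearGroup.scalar (Fin 2) (-1 : Fˣ) := by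
  rw [inv_eq_iff_mul_eq_one]
  exact neg_sq

variable {T : Subgroup (GL (Fin 2) F)} {j k : GL (Fin 2) F}

/-- The `2`-elements of the torus. -/
def T2 (D : Datum T j k) : Subgroup (GL (Fin 2) F) where
  carrier := {t | t ∈ T ∧ ∃ n : ℕ, t ^ (2 ^ n) = 1}
  one_mem' := ⟨T.one_mem, 0, by simp⟩
  mul_mem' := by
    rintro a b ⟨ha, n, hn⟩ ⟨hb, m, hm⟩
    refine ⟨T.mul_mem ha hb, n + m, ?_⟩
    have hab : Commute a b := D.comm a ha b hb
    rw [hab.mul_pow, pow_add, pow_mul, hn, one_pow, one_mul, mul_comm (2 ^ n), pow_mul, hm,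
      one_pow]
  inv_mem' := by
    rintro a ⟨ha, n, hn⟩
    exact ⟨T.inv_mem ha, n, by rw [inv_pow, hn, inv_one]⟩

theorem mem_T2 (D : Datum T j k) {t : GL (Fin 2) F} :
    t ∈ T2 D ↔ t ∈ T ∧ ∃ n : ℕ, t ^ (2 ^ n) = 1 := Iff.rfl

theorem neg_mem (D : Datum T j k) : GeneralLinearGroup.scalar (Fin 2) (-1 : Fˣ) ∈ T2 D :=
  ⟨D.scal _, 1, by rw [pow_one, pow_two]; exact neg_sq⟩

theorem conj_mem (D : Datum T j k) {t : GL (Fin 2) F} (ht : t ∈ T2 D) :
    j * t * j⁻¹ ∈ T2 D := by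
  obtain ⟨h1, n, hn⟩ := ht
  refine ⟨?_, n, ?_⟩
  · rw [D.jconj t h1]
    exact T.mul_mem (D.scal _) (T.inv_mem h1)
  · rw [conj_pow, hn, mul_one, mul_inv_cancel]

theorem jinv (D : Datum T j k) : j⁻¹ = GeneralLinearGroup.scalar (Fin 2) (-1 : Fˣ) * j := by
  rw [inv_eq_iff_mul_eq_one, GeneralLinearGroup.scalar_commute, ← mul_assoc, D.jsq]
  exact neg_sq

theorem conj_mem' (D : Datum T j k) {t : GL (Fin 2) F} (ht : t ∈ T2 D) :
    j⁻¹ * t * j ∈ T2 D := by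
  have h := conj_mem D ht
  have e : j⁻¹ * t * j = j * t * j⁻¹ := by
    rw [jinv D, ← mul_assoc (j * t), ← GeneralLinearGroup.scalar_commute (-1 : Fˣ) (j * t)]
    simp only [mul_assoc]
  rw [e]
  exact h

theorem jj_inv_mem (D : Datum T j k) : (j * j)⁻¹ ∈ T2 D := by
  rw [D.jsq]
  exact (T2 D).inv_mem (neg_mem D)

/-- The group `T₂ ∪ j⁻¹ T₂`. -/
def N2 (D : Datum T j k) : Subgroup (GL (Fin 2) F) where
  carrier := {g | g ∈ T2 D ∨ j * g ∈ T2 D}
  one_mem' := Or.inl (T2 D).one_mem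
  mul_mem' := by
    rintro g h (hg | hg) (hh | hh)
    · exact Or.inl ((T2 D).mul_mem hg hh)
    · right
      have e : j * (g * h) = j * g * j⁻¹ * (j * h) := by group
      rw [e]
      exact (T2 D).mul_mem (conj_mem D hg) hh
    · right
      rw [← mul_assoc]
      exact (T2 D).mul_mem hg hh
    · left
      have e : g * h = j⁻¹ * (j * g) * j * (j * j)⁻¹ * (j * h) := by group
      rw [e]
      exact (T2 D).mul_mem ((T2 D).mul_mem (conj_mem' D hg) (jj_inv_mem D)) hh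
  inv_mem' := by
    rintro g (hg | hg)
    · exact Or.inl ((T2 D).inv_mem hg)
    · right
      have e : j * g⁻¹ = j * (j * g)⁻¹ * j⁻¹ * (j * j) := by group
      rw [e]
      refine (T2 D).mul_mem (conj_mem D ((T2 D).inv_mem hg)) ?_
      rw [D.jsq]
      exact neg_mem D

theorem mem_N2 (D : Datum T j k) {g : GL (Fin 2) F} :
    g ∈ N2 D ↔ g ∈ T2 D ∨ j * g ∈ T2 D := Iff.rfl

theorem T2_le_N2 (D : Datum T j k) : T2 D ≤ N2 D := fun _ h => Or.inl h

theorem j_mem_N2 (D : Datum T j k) : j ∈ N2 D := by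
  right
  rw [D.jsq]
  exact neg_mem D

theorem N2_pow (D : Datum T j k) {g : GL (Fin 2) F} (hg : g ∈ N2 D) :
    ∃ n : ℕ, g ^ (2 ^ n) = 1 := by
  rcases hg with hg | hg
  · exact hg.2
  · have e : g * g = j⁻¹ * (j * g) * j * (j * j)⁻¹ * (j * g) := by group
    have h2 : g * g ∈ T2 D := by
      rw [e]
      exact (T2 D).mul_mem ((T2 D).mul_mem (conj_mem' D hg) (jj_inv_mem D)) hg
    obtain ⟨n, hn⟩ := h2.2
    refine ⟨n + 1, ?_⟩
    rw [pow_succ', pow_mul, pow_two]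
    exact hn

theorem card_N2 [Finite F] (D : Datum T j k) : 2 * Nat.card (T2 D) ≤ Nat.card (N2 D) := by
  have hdvd : Nat.card (T2 D) ∣ Nat.card (N2 D) := Subgroup.card_dvd_of_le (T2_le_N2 D)
  obtain ⟨m, hm⟩ := hdvd
  have hpos : 0 < Nat.card (N2 D) := Nat.card_pos
  have hm1 : m ≠ 1 := by
    rintro rfl
    rw [mul_one] at hm
    have hle : N2 D ≤ T2 D := by
      have := Subgroup.eq_of_le_of_card_ge (T2_le_N2 D) hm.le
      exact this.ge
    exact D.jnot (hle (j_mem_N2 D)).1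
  have hm0 : m ≠ 0 := by
    rintro rfl
    rw [mul_zero] at hm
    omega
  have : 2 ≤ m := by omega
  calc 2 * Nat.card (T2 D) ≤ m * Nat.card (T2 D) := Nat.mul_le_mul_right _ this
    _ = Nat.card (N2 D) := by rw [hm, mul_comm]

theorem card_T2 [Finite F] (D : Datum T j k) (τ : ℕ) (hτ : 2 ^ τ ∣ Nat.card T) :
    2 ^ τ ∣ Nat.card (T2 D) := by
  have : Fact (Nat.Prime 2) := ⟨Nat.prime_two⟩
  obtain ⟨S, hS⟩ := Sylow.exists_subgroup_card_pow_prime 2 hτ
  have hle : S.map T.subtype ≤ T2 D := by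
    rintro _ ⟨x, hx, rfl⟩
    refine ⟨x.2, τ, ?_⟩
    have h1 : (⟨x, hx⟩ : ↥S) ^ Nat.card S = 1 := pow_card_eq_one'
    rw [hS] at h1
    have h2 := congrArg (fun y : ↥S => ((y : ↥T) : GL (Fin 2) F)) h1
    simpa using h2
  have hc : Nat.card (S.map T.subtype) = 2 ^ τ := by
    rw [Subgroup.card_map_of_injective T.subtype_injective, hS]
  rw [← hc]
  exact Subgroup.card_dvd_of_le hle

theorem N2_isPGroup (D : Datum T j k) : IsPGroup 2 ↥(N2 D) := by
  intro g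
  obtain ⟨n, hn⟩ := N2_pow D g.2
  exact ⟨n, Subtype.ext (by simpa using hn)⟩

theorem T2_isPGroup (D : Datum T j k) : IsPGroup 2 ↥(T2 D) := by
  intro g
  obtain ⟨n, hn⟩ := g.2.2
  exact ⟨n, Subtype.ext (by simpa using hn)⟩

/-- The quotient of the determinants. -/
def delta : GL (Fin 2) F × GL (Fin 2) F →* Fˣ where
  toFun y := GeneralLinearGroup.det y.1 * (GeneralLinearGroup.det y.2)⁻¹
  map_one' := by simp
  map_mul' := by
    intro a b
    simp only [Prod.fst_mul, Prod.snd_mul, map_mul, mul_inv]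
    exact mul_mul_mul_comm _ _ _ _

theorem delta_eq_one {y : GL (Fin 2) F × GL (Fin 2) F} :
    delta y = 1 ↔ GeneralLinearGroup.det y.1 = GeneralLinearGroup.det y.2 := by
  change GeneralLinearGroup.det y.1 * (GeneralLinearGroup.det y.2)⁻¹ = 1 ↔ _
  rw [mul_inv_eq_one]

/-- The pairs with equal determinants. -/
def Y (D : Datum T j k) : Subgroup (GL (Fin 2) F × GL (Fin 2) F) :=
  delta.ker ⊓ (N2 D).prod (N2 D)

theorem mem_Y (D : Datum T j k) {y : GL (Fin 2) F × GL (Fin 2) F} :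
    y ∈ Y D ↔ GeneralLinearGroup.det y.1 = GeneralLinearGroup.det y.2 ∧ y.1 ∈ N2 D ∧
      y.2 ∈ N2 D := by
  unfold Y
  rw [Subgroup.mem_inf, MonoidHom.mem_ker, delta_eq_one, Subgroup.mem_prod]

theorem Y_isPGroup (D : Datum T j k) : IsPGroup 2 ↥(Y D) := by
  intro y
  obtain ⟨-, h1, h2⟩ := (mem_Y D).mp y.2
  obtain ⟨n, hn⟩ := N2_pow D h1
  obtain ⟨m, hm⟩ := N2_pow D h2
  refine ⟨n + m, Subtype.ext (Prod.ext ?_ ?_)⟩
  · simp only [Subgroup.coe_pow, Prod.pow_fst, Subgroup.coe_one, Prod.fst_one]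
    rw [pow_add, pow_mul, hn, one_pow]
  · simp only [Subgroup.coe_pow, Prod.pow_snd, Subgroup.coe_one, Prod.snd_one]
    rw [pow_add, mul_comm, pow_mul, hm, one_pow]

theorem card_Y [Fintype F] (D : Datum T j k) (τ : ℕ) (hτ : 2 ^ τ ∣ Nat.card T) :
    2 ^ (2 * τ + 2) ∣ Nat.card (Y D) * 2 ^ padicValNat 2 (Fintype.card F - 1) := by
  have : Fact (Nat.Prime 2) := ⟨Nat.prime_two⟩
  have h1 := Subgroup.relIndex_mul_relIndex ⊥ (delta.ker ⊓ (N2 D).prod (N2 D))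
    ((N2 D).prod (N2 D)) bot_le inf_le_right
  rw [Subgroup.relIndex_bot_left, Subgroup.relIndex_bot_left, Subgroup.inf_relIndex_right,
    Subgroup.relIndex_ker] at h1
  have h2 : Nat.card ((N2 D).prod (N2 D)) = Nat.card (N2 D) * Nat.card (N2 D) := by
    rw [Nat.card_congr ((N2 D).prodEquiv (N2 D)).toEquiv, Nat.card_prod]
  have h3 : 2 ^ (τ + 1) ∣ Nat.card (N2 D) := by
    obtain ⟨m, hm⟩ := (IsPGroup.iff_card (p := 2)).mp (N2_isPGroup D)
    obtain ⟨l, hl⟩ := (IsPGroup.iff_card (p := 2)).mp (T2_isPGroup D)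
    have h4 := card_T2 D τ hτ
    have h5 := card_N2 D
    rw [hl] at h4 h5
    rw [hm] at h5 ⊢
    have h6 : τ ≤ l := (Nat.pow_dvd_pow_iff_le_right (by norm_num)).mp h4
    have h7 : l + 1 ≤ m := by
      by_contra hlt
      have : m ≤ l := by omega
      have := Nat.pow_le_pow_right (show 0 < 2 by norm_num) this
      have hpos : 0 < 2 ^ l := by positivity
      omega
    exact pow_dvd_pow 2 (by omega)
  have h8 : Nat.card (((N2 D).prod (N2 D)).map (delta (F := F))) ∣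
      2 ^ padicValNat 2 (Fintype.card F - 1) := by
    have hp : IsPGroup 2 ↥(((N2 D).prod (N2 D)).map (delta (F := F))) := by
      rintro ⟨_, y, hy, rfl⟩
      obtain ⟨h1, h2⟩ := Subgroup.mem_prod.mp hy
      obtain ⟨n, hn⟩ := N2_pow D h1
      obtain ⟨m, hm⟩ := N2_pow D h2
      refine ⟨n + m, Subtype.ext ?_⟩
      have e : y ^ 2 ^ (n + m) = 1 := by
        apply Prod.ext
        · rw [Prod.pow_fst, pow_add, pow_mul, hn, one_pow]
          rfl
        · rw [Prod.pow_snd, pow_add, mul_comm, pow_mul, hm, one_pow]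
          rfl
      simp only [Subgroup.coe_pow, Subgroup.coe_one]
      rw [← map_pow, e, map_one]
    obtain ⟨i, hi⟩ := (IsPGroup.iff_card (p := 2)).mp hp
    have hdvd : Nat.card (((N2 D).prod (N2 D)).map (delta (F := F))) ∣ Nat.card Fˣ :=
      Subgroup.card_subgroup_dvd_card _
    rw [hi, Nat.card_units, Nat.card_eq_fintype_card] at hdvd
    rw [hi]
    have hq : Fintype.card F - 1 ≠ 0 := by
      have := Fintype.one_lt_card (α := F)
      omega
    exact pow_dvd_pow 2 ((padicValNat_dvd_iff_le hq).mp hdvd)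
  have h9 : 2 ^ (2 * τ + 2) ∣ Nat.card (N2 D) * Nat.card (N2 D) := by
    have e : 2 ^ (2 * τ + 2) = 2 ^ (τ + 1) * 2 ^ (τ + 1) := by ring
    rw [e]
    exact Nat.mul_dvd_mul h3 h3
  rw [← h2, ← h1] at h9
  exact h9.trans (Nat.mul_dvd_mul_left _ h8)

/-- The pair of equal scalar matrices. -/
def Zs (z : Fˣ) : GL (Fin 2) F × GL (Fin 2) F :=
  (GeneralLinearGroup.scalar (Fin 2) z, GeneralLinearGroup.scalar (Fin 2) z)

theorem Zs_comm (z : Fˣ) (g : GL (Fin 2) F × GL (Fin 2) F) : Zs z * g = g * Zs z :=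
  Prod.ext (GeneralLinearGroup.scalar_commute z g.1) (GeneralLinearGroup.scalar_commute z g.2)

theorem Zs_mul (z z' : Fˣ) : Zs z * Zs z' = Zs (z * z') := by
  unfold Zs
  rw [Prod.mk_mul_mk, ← map_mul]

theorem sq_mul_central {G : Type*} [Group G] (x y c c' : G) (hc : ∀ g, c * g = g * c) :
    (x * y) ^ 2 * (c * c') = (x ^ 2 * c) * ⁅x⁻¹, y⁆ * (y ^ 2 * c') := by
  have h1 : x ^ 2 * c = c * x ^ 2 := (hc _).symm
  have h2 : (x * y) ^ 2 * (c * c') = c * ((x * y) ^ 2 * c') := by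
    rw [← mul_assoc, ← hc, mul_assoc]
  rw [h1, h2, commutatorElement_def, pow_two, pow_two, pow_two]
  group

/-- Squares lie in the derived subgroup up to a pair of equal scalars. -/
def P (D : Datum T j k) (y : GL (Fin 2) F × GL (Fin 2) F) : Prop :=
  ∃ z : Fˣ, Zs z ∈ Y D ∧ y ^ 2 * Zs z ∈ ⁅Y D, Y D⁆

theorem P_mul (D : Datum T j k) {x y : GL (Fin 2) F × GL (Fin 2) F} (hx : x ∈ Y D)
    (hy : y ∈ Y D) (Px : P D x) (Py : P D y) : P D (x * y) := by
  obtain ⟨z, hz, h1⟩ := Px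
  obtain ⟨z', hz', h2⟩ := Py
  refine ⟨z * z', ?_, ?_⟩
  · rw [← Zs_mul]
    exact (Y D).mul_mem hz hz'
  · rw [← Zs_mul, sq_mul_central x y (Zs z) (Zs z') (Zs_comm z)]
    exact Subgroup.mul_mem _ (Subgroup.mul_mem _ h1
      (Subgroup.commutator_mem_commutator ((Y D).inv_mem hx) hy)) h2

theorem torus_sq (D : Datum T j k) {s : GL (Fin 2) F} (hs : s ∈ T) :
    s ^ 2 * GeneralLinearGroup.scalar (Fin 2) (GeneralLinearGroup.det s)⁻¹ = ⁅s, j⁆ := by
  have h := D.jconj s⁻¹ (T.inv_mem hs)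
  rw [map_inv, inv_inv] at h
  rw [commutatorElement_def]
  calc s ^ 2 * GeneralLinearGroup.scalar (Fin 2) (GeneralLinearGroup.det s)⁻¹
      = s * (GeneralLinearGroup.scalar (Fin 2) (GeneralLinearGroup.det s)⁻¹ * s) := by
        rw [GeneralLinearGroup.scalar_commute, pow_two, mul_assoc]
    _ = s * (j * s⁻¹ * j⁻¹) := by rw [h]
    _ = s * j * s⁻¹ * j⁻¹ := by group

theorem jk_comm (D : Datum T j k) : ⁅j, k⁆ = j * j := by
  rw [commutatorElement_def, D.jconj k D.kmem, D.kdet, map_one, one_mul, ← _root_.mul_inv_rev,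
    D.ksq, neg_inv, D.jsq]

theorem scalar_mem_T2 (D : Datum T j k) {s : GL (Fin 2) F} (hs : s ∈ T2 D) :
    GeneralLinearGroup.scalar (Fin 2) (GeneralLinearGroup.det s)⁻¹ ∈ T2 D := by
  obtain ⟨-, n, hn⟩ := hs
  refine ⟨D.scal _, n, ?_⟩
  rw [← map_pow, inv_pow, ← map_pow, hn, map_one, inv_one, map_one]

theorem k_mem_T2 (D : Datum T j k) : k ∈ T2 D := by
  refine ⟨D.kmem, 2, ?_⟩
  have e : k ^ 2 ^ 2 = (k * k) * (k * k) := by
    rw [show (2 : ℕ) ^ 2 = 2 + 2 from rfl, pow_add, pow_two]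
  rw [e, D.ksq]
  exact neg_sq

theorem det_j_inv (D : Datum T j k) : GeneralLinearGroup.det j⁻¹ = 1 := by
  rw [map_inv, D.jdet, inv_one]

theorem P_torus (D : Datum T j k) {s t : GL (Fin 2) F} (hs : s ∈ T2 D) (ht : t ∈ T2 D)
    (hd : GeneralLinearGroup.det s = GeneralLinearGroup.det t) : P D (s, t) := by
  refine ⟨(GeneralLinearGroup.det s)⁻¹, ?_, ?_⟩
  · rw [mem_Y]
    exact ⟨rfl, Or.inl (scalar_mem_T2 D hs), Or.inl (scalar_mem_T2 D hs)⟩
  · have e : ((s, t) : GL (Fin 2) F × GL (Fin 2) F) ^ 2 * Zs (GeneralLinearGroup.det s)⁻¹ =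
        ⁅((s, t) : GL (Fin 2) F × GL (Fin 2) F), (j, j)⁆ := by
      apply Prod.ext
      · change s ^ 2 * GeneralLinearGroup.scalar (Fin 2) (GeneralLinearGroup.det s)⁻¹ = ⁅s, j⁆
        exact torus_sq D hs.1
      · change t ^ 2 * GeneralLinearGroup.scalar (Fin 2) (GeneralLinearGroup.det s)⁻¹ = ⁅t, j⁆
        rw [hd]
        exact torus_sq D ht.1
    rw [e]
    apply Subgroup.commutator_mem_commutator
    · rw [mem_Y]
      exact ⟨hd, Or.inl hs, Or.inl ht⟩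
    · rw [mem_Y]
      exact ⟨rfl, j_mem_N2 D, j_mem_N2 D⟩

theorem j1_mem (D : Datum T j k) : ((j, 1) : GL (Fin 2) F × GL (Fin 2) F) ∈ Y D := by
  rw [mem_Y]
  exact ⟨by rw [D.jdet, map_one], j_mem_N2 D, (N2 D).one_mem⟩

theorem oj_mem (D : Datum T j k) : ((1, j) : GL (Fin 2) F × GL (Fin 2) F) ∈ Y D := by
  rw [mem_Y]
  exact ⟨by rw [D.jdet, map_one], (N2 D).one_mem, j_mem_N2 D⟩

theorem Zs_one : Zs (1 : Fˣ) = (1 : GL (Fin 2) F × GL (Fin 2) F) := by
  unfold Zs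
  rw [map_one]
  rfl

theorem P_j1 (D : Datum T j k) : P D (j, 1) := by
  refine ⟨1, ?_, ?_⟩
  · rw [Zs_one]
    exact (Y D).one_mem
  · have e : ((j, 1) : GL (Fin 2) F × GL (Fin 2) F) ^ 2 * Zs 1 =
        ⁅((j, 1) : GL (Fin 2) F × GL (Fin 2) F), (k, 1)⁆ := by
      rw [Zs_one, mul_one]
      apply Prod.ext
      · change j ^ 2 = ⁅j, k⁆
        rw [jk_comm D, pow_two]
      · change (1 : GL (Fin 2) F) ^ 2 = ⁅(1 : GL (Fin 2) F), 1⁆
        simp
    rw [e]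
    apply Subgroup.commutator_mem_commutator (j1_mem D)
    rw [mem_Y]
    exact ⟨by rw [D.kdet, map_one], Or.inl (k_mem_T2 D), (N2 D).one_mem⟩

theorem P_1j (D : Datum T j k) : P D (1, j) := by
  refine ⟨1, ?_, ?_⟩
  · rw [Zs_one]
    exact (Y D).one_mem
  · have e : ((1, j) : GL (Fin 2) F × GL (Fin 2) F) ^ 2 * Zs 1 =
        ⁅((1, j) : GL (Fin 2) F × GL (Fin 2) F), (1, k)⁆ := by
      rw [Zs_one, mul_one]
      apply Prod.ext
      · change (1 : GL (Fin 2) F) ^ 2 = ⁅(1 : GL (Fin 2) F), 1⁆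
        simp
      · change j ^ 2 = ⁅j, k⁆
        rw [jk_comm D, pow_two]
    rw [e]
    apply Subgroup.commutator_mem_commutator (oj_mem D)
    rw [mem_Y]
    exact ⟨by rw [D.kdet, map_one], (N2 D).one_mem, Or.inl (k_mem_T2 D)⟩

theorem jinv_mul_mem (D : Datum T j k) {g : GL (Fin 2) F} (hg : j * g ∈ T2 D) :
    j⁻¹ * g ∈ T2 D := by
  have e : j⁻¹ * g = (j * j)⁻¹ * (j * g) := by group
  rw [e]
  exact (T2 D).mul_mem (jj_inv_mem D) hg

theorem det_jinv_mul (D : Datum T j k) (g : GL (Fin 2) F) :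
    GeneralLinearGroup.det (j⁻¹ * g) = GeneralLinearGroup.det g := by
  rw [map_mul, det_j_inv D, one_mul]

theorem P_all (D : Datum T j k) {y : GL (Fin 2) F × GL (Fin 2) F} (hy : y ∈ Y D) : P D y := by
  obtain ⟨hd, h1, h2⟩ := (mem_Y D).mp hy
  rcases h1 with h1 | h1 <;> rcases h2 with h2 | h2
  · exact P_torus D h1 h2 hd
  · have e : y = (1, j) * (y.1, j⁻¹ * y.2) := by
      apply Prod.ext
      · simp
      · simp
    have hm : ((y.1, j⁻¹ * y.2) : GL (Fin 2) F × GL (Fin 2) F) ∈ Y D := by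
      rw [mem_Y]
      exact ⟨by rw [det_jinv_mul D]; exact hd, Or.inl h1, Or.inl (jinv_mul_mem D h2)⟩
    rw [e]
    exact P_mul D (oj_mem D) hm (P_1j D)
      (P_torus D h1 (jinv_mul_mem D h2) (by rw [det_jinv_mul D]; exact hd))
  · have e : y = (j, 1) * (j⁻¹ * y.1, y.2) := by
      apply Prod.ext
      · simp
      · simp
    have hm : ((j⁻¹ * y.1, y.2) : GL (Fin 2) F × GL (Fin 2) F) ∈ Y D := by
      rw [mem_Y]
      exact ⟨by rw [det_jinv_mul D]; exact hd, Or.inl (jinv_mul_mem D h1), Or.inl h2⟩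
    rw [e]
    exact P_mul D (j1_mem D) hm (P_j1 D)
      (P_torus D (jinv_mul_mem D h1) h2 (by rw [det_jinv_mul D]; exact hd))
  · have e : y = (j, 1) * ((1, j) * (j⁻¹ * y.1, j⁻¹ * y.2)) := by
      apply Prod.ext
      · simp
      · simp
    have hm : ((j⁻¹ * y.1, j⁻¹ * y.2) : GL (Fin 2) F × GL (Fin 2) F) ∈ Y D := by
      rw [mem_Y]
      exact ⟨by rw [det_jinv_mul D, det_jinv_mul D]; exact hd, Or.inl (jinv_mul_mem D h1),
        Or.inl (jinv_mul_mem D h2)⟩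
    rw [e]
    exact P_mul D (j1_mem D) ((Y D).mul_mem (oj_mem D) hm) (P_j1 D)
      (P_mul D (oj_mem D) hm (P_1j D) (P_torus D (jinv_mul_mem D h1) (jinv_mul_mem D h2)
        (by rw [det_jinv_mul D, det_jinv_mul D]; exact hd)))

/-- The abstract statement. -/
theorem exists_Y_of_datum [Fintype F] (D : Datum T j k) (τ : ℕ) (hτ : 2 ^ τ ∣ Nat.card T) :
    ∃ Y : Subgroup (GL (Fin 2) F × GL (Fin 2) F),
      (∀ y ∈ Y, GeneralLinearGroup.det y.1 = GeneralLinearGroup.det y.2) ∧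
      IsPGroup 2 Y ∧
      2 ^ (2 * τ + 2) ∣ Nat.card Y * 2 ^ padicValNat 2 (Fintype.card F - 1) ∧
      ∀ y ∈ Y, ∃ z : Fˣ,
        ((GeneralLinearGroup.scalar (Fin 2) z, GeneralLinearGroup.scalar (Fin 2) z) :
          GL (Fin 2) F × GL (Fin 2) F) ∈ Y ∧
        y ^ 2 * (GeneralLinearGroup.scalar (Fin 2) z, GeneralLinearGroup.scalar (Fin 2) z) ∈
          ⁅Y, Y⁆ :=
  ⟨Y D, fun _ hy => ((mem_Y D).mp hy).1, Y_isPGroup D, card_Y D τ hτ, fun _ hy => P_all D hy⟩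

end Cfsg.Agent.Lib.Helper42.G2Tor
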