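import Mathlib
import Cfsg.Agent.Lib.Helper42.SpWr
import Cfsg.Agent.Lib.Helper42.SylE
import Cfsg.Agent.Lib.Helper42.Circle
import Cfsg.Agent.Lib.Helper5.SpCard

/-!
# Sylow `2`-subgroups of `Sp_{2n}(q)`, `q` odd: squares are commutators

`base_syl`: a `2`-subgroup `Q` of `Sp_2(q)` with `E Q` and `2^{v₂(q²-1)} ∣ |Q|`.
`blocks`, `towerS`: iterated wreath products and direct products of them inside `Sp(l, F)`.
`sylow_E`: every Sylow `2`-subgroup `P` of `Sp_{2n}(q)` satisfies `E P`.
-/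

set_option autoImplicit false
set_option linter.unusedSectionVars false

open scoped commutatorElement
open Matrix

namespace Cfsg.Agent.Lib.Helper42.SpSyl

open Cfsg.Agent.Lib.Helper42.SpWr Cfsg.Agent.Lib.Helper42.SylE Cfsg.Agent.Lib.Helper42.Circle

section base

variable {F : Type*} [Field F] {l : Type*} [Fintype l] [DecidableEq l]

/-- Rotation matrices. -/
def Rg (a b : F) (h : a ^ 2 + b ^ 2 = 1) : Matrix.symplecticGroup l F :=
  ⟨sb a (-b) b a, by
    rw [SymplecticGroup.mem_iff, J_eq_sb, sb_transpose, sb_mul, sb_mul]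
    apply sb_congr
    · ring
    · linear_combination -h
    · linear_combination h
    · ring⟩

theorem Rg_mul (a b c d : F) (h : a ^ 2 + b ^ 2 = 1) (h' : c ^ 2 + d ^ 2 = 1)
    (h'' : (a * c - b * d) ^ 2 + (a * d + b * c) ^ 2 = 1) :
    (Rg a b h : Matrix.symplecticGroup l F) * Rg c d h' = Rg (a * c - b * d) (a * d + b * c) h'' := by
  apply Subtype.ext
  show (sb a (-b) b a : Matrix (l ⊕ l) (l ⊕ l) F) * sb c (-d) d c = sb _ _ _ _
  rw [sb_mul]
  apply sb_congr <;> ring

theorem Rg_one : (Rg 1 0 (by ring) : Matrix.symplecticGroup l F) = 1 := by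
  apply Subtype.ext
  show (sb 1 (-0) 0 1 : Matrix (l ⊕ l) (l ⊕ l) F) = 1
  rw [neg_zero]
  exact sb_one

theorem Rg_inv (a b : F) (h : a ^ 2 + b ^ 2 = 1) (h' : a ^ 2 + (-b) ^ 2 = 1) :
    (Rg a b h : Matrix.symplecticGroup l F)⁻¹ = Rg a (-b) h' := by
  apply inv_eq_of_mul_eq_one_right
  apply Subtype.ext
  show (sb a (-b) b a : Matrix (l ⊕ l) (l ⊕ l) F) * sb a (- -b) (-b) a = 1
  rw [sb_mul, ← sb_one]
  apply sb_congr
  · linear_combination h
  · ring
  · ring
  · linear_combination h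

/-- The circle group inside the symplectic group. -/
def Tc (F : Type*) [Field F] (l : Type*) [Fintype l] [DecidableEq l] :
    Subgroup (Matrix.symplecticGroup l F) where
  carrier := {g | ∃ (a b : F) (h : a ^ 2 + b ^ 2 = 1), g = Rg a b h}
  one_mem' := ⟨1, 0, by ring, Rg_one.symm⟩
  mul_mem' := by
    rintro g g' ⟨a, b, h, rfl⟩ ⟨c, d, h', rfl⟩
    have h'' : (a * c - b * d) ^ 2 + (a * d + b * c) ^ 2 = 1 := by
      linear_combination (c ^ 2 + d ^ 2) * h + h'
    exact ⟨_, _, h'', Rg_mul a b c d h h' h''⟩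
  inv_mem' := by
    rintro g ⟨a, b, h, rfl⟩
    have h' : a ^ 2 + (-b) ^ 2 = 1 := by linear_combination h
    exact ⟨_, _, h', Rg_inv a b h h'⟩

theorem mem_Tc (g : Matrix.symplecticGroup l F) :
    g ∈ Tc F l ↔ ∃ (a b : F) (h : a ^ 2 + b ^ 2 = 1), g = Rg a b h := Iff.rfl

theorem Tc_rel (c d : F) (hcd : c ^ 2 + d ^ 2 = -1) (t : Matrix.symplecticGroup l F)
    (ht : t ∈ Tc F l) : t * Ig c d hcd * t = Ig c d hcd := by
  obtain ⟨a, b, h, rfl⟩ := ht
  apply Subtype.ext
  show (sb a (-b) b a : Matrix (l ⊕ l) (l ⊕ l) F) * sb c d d (-c) * sb a (-b) b a =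
    sb c d d (-c)
  rw [sb_mul, sb_mul]
  apply sb_congr
  · linear_combination c * h
  · linear_combination d * h
  · linear_combination d * h
  · linear_combination (-c) * h

theorem Jg_mem_Tc : Jg F l ∈ Tc F l := by
  refine ⟨0, 1, by ring, ?_⟩
  apply Subtype.ext
  show Matrix.J l F = sb 0 (-1) 1 0
  exact J_eq_sb

theorem Ig_sq (c d : F) (hcd : c ^ 2 + d ^ 2 = -1) :
    (Ig c d hcd : Matrix.symplecticGroup l F) * Ig c d hcd = Jg F l * Jg F l := by
  apply Subtype.ext
  show (sb c d d (-c) : Matrix (l ⊕ l) (l ⊕ l) F) * sb c d d (-c) = Matrix.J l F * Matrix.J l F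
  rw [J_eq_sb, sb_mul, sb_mul]
  apply sb_congr
  · linear_combination hcd
  · ring
  · ring
  · linear_combination hcd

theorem Jg_sq_ne_one [Nonempty l] (h2 : (2 : F) ≠ 0) : Jg F l * Jg F l ≠ 1 := by
  intro h
  have h1 : Matrix.J l F * Matrix.J l F = (1 : Matrix (l ⊕ l) (l ⊕ l) F) :=
    congrArg Subtype.val h
  rw [J_eq_sb, sb_mul, ← sb_one] at h1
  obtain ⟨e1, -, -, -⟩ := sb_inj h1
  apply h2
  linear_combination -e1

theorem Ig_not_mem_Tc [Nonempty l] (h2 : (2 : F) ≠ 0) (c d : F) (hcd : c ^ 2 + d ^ 2 = -1) :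
    (Ig c d hcd : Matrix.symplecticGroup l F) ∉ Tc F l := by
  intro hy
  have h1 := Tc_rel c d hcd _ hy
  have h3 : (Ig c d hcd : Matrix.symplecticGroup l F) * Ig c d hcd = 1 := by
    have h4 : (Ig c d hcd : Matrix.symplecticGroup l F) * Ig c d hcd * Ig c d hcd =
        1 * Ig c d hcd := by rw [h1, one_mul]
    exact mul_right_cancel h4
  rw [Ig_sq] at h3
  exact Jg_sq_ne_one h2 h3

theorem card_Tc [Nonempty l] :
    Nat.card (Tc F l) = Nat.card {p : F × F // p.1 ^ 2 + p.2 ^ 2 = 1} := by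
  symm
  apply Nat.card_congr
  apply Equiv.ofBijective
    (fun p : {p : F × F // p.1 ^ 2 + p.2 ^ 2 = 1} =>
      (⟨Rg p.1.1 p.1.2 p.2, ⟨_, _, p.2, rfl⟩⟩ : Tc F l))
  constructor
  · rintro ⟨⟨a, b⟩, h⟩ ⟨⟨a', b'⟩, h'⟩ hpp
    have h1 : (sb a (-b) b a : Matrix (l ⊕ l) (l ⊕ l) F) = sb a' (-b') b' a' :=
      congrArg (fun z : Tc F l => ((z : Matrix.symplecticGroup l F) : Matrix (l ⊕ l) (l ⊕ l) F))
        hpp
    obtain ⟨e1, -, e3, -⟩ := sb_inj h1
    apply Subtype.ext
    show (a, b) = (a', b')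
    rw [e1, e3]
  · rintro ⟨g, a, b, h, rfl⟩
    exact ⟨⟨(a, b), h⟩, rfl⟩

/-- The base block: a `2`-subgroup of `Sp_2(q)` with `E` of the right order. -/
theorem base_syl [Fintype F] [Nonempty l] (hodd : Odd (Fintype.card F)) :
    ∃ Q : Subgroup (Matrix.symplecticGroup l F), IsPGroup 2 Q ∧ E ↥Q ∧
      2 ^ (padicValNat 2 (Fintype.card F - 1) + padicValNat 2 (Fintype.card F + 1)) ∣
        Nat.card Q := by
  have hq2 : Fintype.card F % 2 = 1 := Nat.odd_iff.mp hodd
  have h2 : (2 : F) ≠ 0 := by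
    apply Ring.two_ne_zero
    intro hc
    rw [FiniteField.even_card_iff_char_two] at hc
    omega
  obtain ⟨c, d, hcd⟩ := exists_sq_add_sq F hq2
  obtain ⟨Q, hQp, hQE, hQc⟩ := dic_exists (Tc F l) (Ig c d hcd) (Jg F l)
    (fun t ht => Tc_rel c d hcd t ht) Jg_mem_Tc Jg_pow_four (Ig_sq c d hcd)
    (Ig_not_mem_Tc h2 c d hcd)
  refine ⟨Q, hQp, hQE, ?_⟩
  rw [card_Tc, v2_circle h2 hodd] at hQc
  exact hQc

end base

section prod

variable {F : Type*} [CommRing F] {l c : Type*} [Fintype l] [DecidableEq l] [Fintype c]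
  [DecidableEq c] {X Y : Type*} [Group X] [Group Y]

/-- Block-diagonal matrices of a pair. -/
def prodMat (φ : X →* Matrix.symplecticGroup l F) (ψ : Y →* Matrix.symplecticGroup c F) :
    X × Y →* Matrix ((l ⊕ l) ⊕ (c ⊕ c)) ((l ⊕ l) ⊕ (c ⊕ c)) F where
  toFun p := Matrix.fromBlocks (φ p.1).1 0 0 (ψ p.2).1
  map_one' := by
    simp [Matrix.fromBlocks_one]
  map_mul' p p' := by
    simp [Matrix.fromBlocks_multiply]

theorem prodMat_form (φ : X →* Matrix.symplecticGroup l F)
    (ψ : Y →* Matrix.symplecticGroup c F) (p : X × Y) :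
    prodMat φ ψ p * JE F l c * (prodMat φ ψ p)ᵀ = JE F l c := by
  have h1 := (φ p.1).2
  have h2 := (ψ p.2).2
  rw [SymplecticGroup.mem_iff] at h1 h2
  show Matrix.fromBlocks (φ p.1).1 0 0 (ψ p.2).1 *
    Matrix.fromBlocks (Matrix.J l F) 0 0 (Matrix.J c F) *
    (Matrix.fromBlocks (φ p.1).1 0 0 (ψ p.2).1)ᵀ = _
  rw [Matrix.fromBlocks_transpose, Matrix.fromBlocks_multiply, Matrix.fromBlocks_multiply]
  simp [h1, h2, JE]

/-- The direct product inside the symplectic group of the disjoint union. -/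
def prodHom (φ : X →* Matrix.symplecticGroup l F) (ψ : Y →* Matrix.symplecticGroup c F) :
    X × Y →* Matrix.symplecticGroup (l ⊕ c) F :=
  sympHom (extEquiv (Equiv.refl (l ⊕ c))).symm (JE F l c) (JE_eq (Equiv.refl (l ⊕ c)))
    (prodMat φ ψ) (prodMat_form φ ψ)

theorem prodHom_injective (φ : X →* Matrix.symplecticGroup l F)
    (ψ : Y →* Matrix.symplecticGroup c F) (hφ : Function.Injective φ)
    (hψ : Function.Injective ψ) : Function.Injective (prodHom φ ψ) := by
  apply sympHom_injective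
  intro p p' h
  have h1 : Matrix.fromBlocks (φ p.1).1 0 0 (ψ p.2).1 =
      Matrix.fromBlocks (φ p'.1).1 0 0 (ψ p'.2).1 := h
  rw [Matrix.fromBlocks_inj] at h1
  exact Prod.ext (hφ (Subtype.ext h1.1)) (hψ (Subtype.ext h1.2.2.2))

end prod

section tower

universe u

/-- Exponents of the orders of the blocks. -/
def beta (a : ℕ) : ℕ → ℕ
  | 0 => a
  | j + 1 => 2 * beta a j + 1

theorem sq_C2 (s : Multiplicative (ZMod 2)) : s ^ 2 = 1 := by
  revert s
  decide

variable (F : Type u) [Field F] [Fintype F] [DecidableEq F]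

theorem blocks (hodd : Odd (Fintype.card F)) : ∀ j : ℕ,
    ∃ (X : Type u) (_ : Group X) (_ : Finite X) (l : Type) (_ : Fintype l) (_ : DecidableEq l),
      Nonempty l ∧ IsPGroup 2 X ∧ E X ∧ Fintype.card l = 2 ^ j ∧
      2 ^ (beta (padicValNat 2 (Fintype.card F - 1) + padicValNat 2 (Fintype.card F + 1)) j) ∣
        Nat.card X ∧
      ∃ φ : X →* Matrix.symplecticGroup l F, Function.Injective φ := by
  intro j
  induction j with
  | zero =>
    obtain ⟨Q, hQp, hQE, hQc⟩ := base_syl (F := F) (l := Fin 1) hodd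
    exact ⟨↥Q, inferInstance, inferInstance, Fin 1, inferInstance, inferInstance, inferInstance,
      hQp, hQE, by simp, hQc, Q.subtype, Subgroup.subtype_injective Q⟩
  | succ j ih =>
    obtain ⟨X, hG, hfin, l, hl1, hl2, hne, hp, hE, hc, hd, φ, hφ⟩ := ih
    refine ⟨X ≀ᵣ Multiplicative (ZMod 2), inferInstance, inferInstance,
      Multiplicative (ZMod 2) × l, inferInstance, inferInstance, inferInstance, ?_,
      E_wreath hE sq_C2, ?_, ?_, dblHom φ, dblHom_injective φ hφ⟩
    · obtain ⟨k, hk⟩ := (IsPGroup.iff_card).mp hp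
      apply IsPGroup.of_card (n := k * 2 + 1)
      rw [RegularWreathProduct.card, hk, Nat.card_eq_fintype_card, Fintype.card_multiplicative,
        ZMod.card]
      ring
    · rw [Fintype.card_prod, hc, Fintype.card_multiplicative, ZMod.card]
      ring
    · rw [RegularWreathProduct.card, Nat.card_eq_fintype_card (α := Multiplicative (ZMod 2)),
        Fintype.card_multiplicative, ZMod.card]
      show 2 ^ (2 * beta _ j + 1) ∣ _
      rw [pow_succ, pow_mul']
      exact Nat.mul_dvd_mul (pow_dvd_pow_of_dvd hd 2) (dvd_refl 2)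

theorem towerS (hodd : Odd (Fintype.card F)) : ∀ n j : ℕ,
    ∃ (X : Type u) (_ : Group X) (_ : Finite X) (l : Type) (_ : Fintype l) (_ : DecidableEq l),
      IsPGroup 2 X ∧ E X ∧ Fintype.card l = 2 ^ j * n ∧
      2 ^ (n * beta (padicValNat 2 (Fintype.card F - 1) + padicValNat 2 (Fintype.card F + 1)) j
        + padicValNat 2 n.factorial) ∣ Nat.card X ∧
      ∃ φ : X →* Matrix.symplecticGroup l F, Function.Injective φ := by
  intro n
  induction n using Nat.strong_induction_on with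
  | _ n ih =>
  intro j
  rcases Nat.eq_zero_or_pos n with rfl | hn
  · refine ⟨PUnit, inferInstance, inferInstance, Fin 0, inferInstance, inferInstance,
      IsPGroup.of_card (n := 0) (by simp), ?_, by simp, by simp, 1,
      Function.injective_of_subsingleton _⟩
    intro x
    rw [Subsingleton.elim (x ^ 2) 1]
    exact Subgroup.one_mem _
  · obtain ⟨X', hG', hfin', l', hl1', hl2', hp', hE', hc', hd', φ', hφ'⟩ :=
      ih (n / 2) (Nat.div_lt_self hn (by norm_num)) (j + 1)
    rcases Nat.even_or_odd' n with ⟨m, rfl | rfl⟩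
    · have hm : 2 * m / 2 = m := by omega
      rw [hm] at hc' hd'
      refine ⟨X', hG', hfin', l', hl1', hl2', hp', hE', ?_, ?_, φ', hφ'⟩
      · rw [hc']
        ring
      · have e : 2 * m * beta (padicValNat 2 (Fintype.card F - 1) +
            padicValNat 2 (Fintype.card F + 1)) j + padicValNat 2 (2 * m).factorial =
            m * beta (padicValNat 2 (Fintype.card F - 1) +
            padicValNat 2 (Fintype.card F + 1)) (j + 1) + padicValNat 2 m.factorial := by
          rw [padicValNat_factorial_mul]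
          show _ = m * (2 * beta _ j + 1) + _
          ring
        rw [e]
        exact hd'
    · have hm : (2 * m + 1) / 2 = m := by omega
      rw [hm] at hc' hd'
      obtain ⟨Xb, hGb, hfinb, lb, hlb1, hlb2, hneb, hpb, hEb, hcb, hdb, φb, hφb⟩ :=
        blocks F hodd j
      refine ⟨X' × Xb, inferInstance, inferInstance, l' ⊕ lb, inferInstance, inferInstance,
        ?_, E_prod hE' hEb, ?_, ?_, prodHom φ' φb, prodHom_injective _ _ hφ' hφb⟩
      · obtain ⟨k1, hk1⟩ := (IsPGroup.iff_card).mp hp'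
        obtain ⟨k2, hk2⟩ := (IsPGroup.iff_card).mp hpb
        exact IsPGroup.of_card (n := k1 + k2) (by rw [Nat.card_prod, hk1, hk2, pow_add])
      · rw [Fintype.card_sum, hc', hcb]
        ring
      · have e : (2 * m + 1) * beta (padicValNat 2 (Fintype.card F - 1) +
            padicValNat 2 (Fintype.card F + 1)) j + padicValNat 2 (2 * m + 1).factorial =
            (m * beta (padicValNat 2 (Fintype.card F - 1) +
            padicValNat 2 (Fintype.card F + 1)) (j + 1) + padicValNat 2 m.factorial) +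
            beta (padicValNat 2 (Fintype.card F - 1) +
            padicValNat 2 (Fintype.card F + 1)) j := by
          rw [padicValNat_factorial_mul_add m (by norm_num : 1 < 2), padicValNat_factorial_mul]
          show _ = m * (2 * beta _ j + 1) + _ + _
          ring
        rw [e, pow_add, Nat.card_prod]
        exact Nat.mul_dvd_mul hd' hdb

/-- Every Sylow `2`-subgroup of `Sp_{2n}(q)`, `q` odd, has its squares in its derived
subgroup. -/
theorem sylow_E (hodd : Odd (Fintype.card F)) (n : ℕ)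
    (P : Sylow 2 (Matrix.symplecticGroup (Fin n) F)) :
    E ↥(P : Subgroup (Matrix.symplecticGroup (Fin n) F)) := by
  obtain ⟨X, hG, hfin, l, hl1, hl2, hp, hE, hc, hd, φ, hφ⟩ := towerS F hodd n 0
  have hq2 : Fintype.card F % 2 = 1 := Nat.odd_iff.mp hodd
  have hq1 : 1 < Fintype.card F := Fintype.one_lt_card
  have hcard : Fintype.card (l ⊕ Fin 0) = Fintype.card (Fin n) := by
    rw [Fintype.card_sum, hc, Fintype.card_fin, Fintype.card_fin]
    simp
  obtain ⟨e⟩ : Nonempty (l ⊕ Fin 0 ≃ Fin n) := ⟨Fintype.equivOfCardEq hcard⟩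
  obtain ⟨f, hf⟩ : ∃ f : X →* Matrix.symplecticGroup (Fin n) F, Function.Injective f :=
    ⟨(extHom e).comp φ, (extHom_injective e).comp hφ⟩
  have hrange : IsPGroup 2 ↥f.range := by
    rw [MonoidHom.range_eq_map]
    exact (IsPGroup.of_equiv hp (Subgroup.topEquiv).symm).map f
  obtain ⟨Q', hQ'⟩ := hrange.exists_le_sylow
  obtain ⟨g, hg⟩ : ∃ g : X →* ↥(Q' : Subgroup ↥(Matrix.symplecticGroup (Fin n) F)),
      ∀ x, (g x).1 = f x :=
    ⟨f.codRestrict (Q' : Subgroup ↥(Matrix.symplecticGroup (Fin n) F)) (fun w => hQ' ⟨w, rfl⟩),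
      fun x => rfl⟩
  have hginj : Function.Injective g := by
    intro a b hab
    apply hf
    rw [← hg a, ← hg b, hab]
  have hQcard : Nat.card ↥(Q' : Subgroup ↥(Matrix.symplecticGroup (Fin n) F)) =
      2 ^ (n * (padicValNat 2 (Fintype.card F - 1) + padicValNat 2 (Fintype.card F + 1)) +
        padicValNat 2 n.factorial) := by
    rw [Q'.card_eq_multiplicity, Nat.factorization_def _ Nat.prime_two,
      Cfsg.Agent.Lib.Helper5.SpCard.card_symplectic, v2_sp _ hodd (by omega)]
  have hle : Nat.card ↥(Q' : Subgroup ↥(Matrix.symplecticGroup (Fin n) F)) ≤ Nat.card X := by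
    rw [hQcard]
    exact Nat.le_of_dvd Nat.card_pos hd
  have hbij : Function.Bijective g := hginj.bijective_of_nat_card_le hle
  have hEQ : E ↥(Q' : Subgroup ↥(Matrix.symplecticGroup (Fin n) F)) :=
    E_of_mulEquiv (MulEquiv.ofBijective g hbij) hE
  exact E_of_mulEquiv (Sylow.equiv Q' P) hEQ

end tower

end Cfsg.Agent.Lib.Helper42.SpSyl
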