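import Mathlib
import Cfsg.Agent.Lib.Helper42.SylE

/-!
# A semidihedral-type configuration

`sd_exists`: an abelian subgroup `T` normalized by an involution `y` acting as `t ↦ t ^ q`
with `4 ∣ q + 1` gives a `2`-subgroup `Q` with `E Q` and `2^{v₂|T| + 1} ∣ |Q|`.
-/

set_option autoImplicit false
set_option linter.unusedSectionVars false

open scoped commutatorElement

namespace Cfsg.Agent.Lib.Helper42.SylSD

open Cfsg.Agent.Lib.Helper42.SylE

theorem sd_exists {G : Type*} [Group G] [Finite G] (T : Subgroup G) (y : G) (q w : ℕ)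
    (hq : q + 1 = 4 * w) (hcomm : ∀ s ∈ T, ∀ t ∈ T, s * t = t * s)
    (hT : ∀ t ∈ T, y * t * y⁻¹ = t ^ q) (hy : y * y = 1) (hyT : y ∉ T) :
    ∃ Q : Subgroup G, IsPGroup 2 Q ∧ E ↥Q ∧
      2 ^ ((Nat.card T).factorization 2 + 1) ∣ Nat.card Q := by
  classical
  have hyinv : y⁻¹ = y := inv_eq_of_mul_eq_one_right hy
  obtain ⟨T2, hT2⟩ : ∃ T2 : Subgroup G, ∀ g, g ∈ T2 ↔ g ∈ T ∧ ∃ k : ℕ, g ^ (2 ^ k) = 1 :=
    ⟨{ carrier := {g | g ∈ T ∧ ∃ k : ℕ, g ^ (2 ^ k) = 1}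
       one_mem' := ⟨T.one_mem, 0, by simp⟩
       mul_mem' := by
         rintro a b ⟨ha, k, hk⟩ ⟨hb, m, hm⟩
         refine ⟨T.mul_mem ha hb, k + m, ?_⟩
         rw [(show Commute a b from hcomm a ha b hb).mul_pow, pow_add, pow_mul, hk, one_pow,
           mul_comm (2 ^ k) (2 ^ m), pow_mul, hm, one_pow, mul_one]
       inv_mem' := by
         rintro a ⟨ha, k, hk⟩
         exact ⟨T.inv_mem ha, k, by rw [inv_pow, hk, inv_one]⟩ }, fun g => Iff.rfl⟩
  have hc1' : ∀ t ∈ T2, y * t * y⁻¹ = t ^ q := fun t ht => hT t ((hT2 t).mp ht).1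
  obtain ⟨Q, hQ⟩ : ∃ Q : Subgroup G, ∀ g, g ∈ Q ↔ g ∈ T2 ∨ g * y⁻¹ ∈ T2 :=
    ⟨{ carrier := {g | g ∈ T2 ∨ g * y⁻¹ ∈ T2}
       one_mem' := Or.inl T2.one_mem
       mul_mem' := by
         rintro a b (ha | ha) (hb | hb)
         · exact Or.inl (T2.mul_mem ha hb)
         · right
           have e : a * b * y⁻¹ = a * (b * y⁻¹) := by group
           rw [e]
           exact T2.mul_mem ha hb
         · right
           have e : a * b * y⁻¹ = (a * y⁻¹) * (y * b * y⁻¹) := by group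
           rw [e, hc1' b hb]
           exact T2.mul_mem ha (T2.pow_mem hb q)
         · left
           have e : a * b = (a * y⁻¹) * (y * (b * y⁻¹) * y⁻¹) * (y * y) := by group
           rw [e, hc1' _ hb, hy, mul_one]
           exact T2.mul_mem ha (T2.pow_mem hb q)
       inv_mem' := by
         rintro a (ha | ha)
         · exact Or.inl (T2.inv_mem ha)
         · right
           have e1 : a⁻¹ * y⁻¹ = y⁻¹ * (a * y⁻¹)⁻¹ * y⁻¹ := by group
           have e2 : y⁻¹ * (a * y⁻¹)⁻¹ * y⁻¹ = y * (a * y⁻¹)⁻¹ * y⁻¹ := by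
             congr 2
           rw [e1, e2, hc1' _ (T2.inv_mem ha)]
           exact T2.pow_mem (T2.inv_mem ha) q }, fun g => Iff.rfl⟩
  have hsq : ∀ g, g * y⁻¹ ∈ T2 → g * g = (g * y⁻¹) ^ (q + 1) := by
    intro g h
    have e : g * g = (g * y⁻¹) * (y * (g * y⁻¹) * y⁻¹) * (y * y) := by group
    rw [e, hc1' _ h, hy, mul_one, pow_succ']
  have hQp : IsPGroup 2 Q := by
    rintro ⟨g, hg⟩
    rcases (hQ g).mp hg with h | h
    · obtain ⟨k, hk⟩ := ((hT2 g).mp h).2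
      exact ⟨k, Subtype.ext hk⟩
    · obtain ⟨k, hk⟩ := ((hT2 _).mp h).2
      refine ⟨k + 1, Subtype.ext ?_⟩
      show g ^ (2 ^ (k + 1)) = 1
      rw [pow_succ', pow_mul, pow_two, hsq g h, ← pow_mul, mul_comm, pow_mul, hk, one_pow]
  have hyQ : y ∈ Q := (hQ y).mpr (Or.inr (by rw [mul_inv_cancel]; exact T2.one_mem))
  have hT2Q : ∀ t ∈ T2, t ∈ Q := fun t ht => (hQ t).mpr (Or.inl ht)
  -- the image of the derived subgroup
  obtain ⟨K, hK⟩ : ∃ K : Subgroup G, K = (commutator ↥Q).map Q.subtype := ⟨_, rfl⟩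
  have k1 : ∀ (a b : G), a ∈ Q → b ∈ Q → a * b * a⁻¹ * b⁻¹ ∈ K := by
    intro a b ha hb
    rw [hK, Subgroup.mem_map]
    refine ⟨⁅(⟨a, ha⟩ : Q), ⟨b, hb⟩⁆, ?_, rfl⟩
    rw [commutator_def]
    exact Subgroup.commutator_mem_commutator (Subgroup.mem_top _) (Subgroup.mem_top _)
  have k2 : ∀ x : Q, (x : G) ^ 2 ∈ K → x ^ 2 ∈ commutator ↥Q := by
    intro x hx
    rw [hK, Subgroup.mem_map] at hx
    obtain ⟨z, hz, hzx⟩ := hx
    have : z = x ^ 2 := Subtype.ext hzx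
    rw [← this]
    exact hz
  have claim : ∀ k : ℕ, ∀ t ∈ T2, t ^ (2 ^ k) = 1 → t ^ 2 ∈ K := by
    intro k
    induction k with
    | zero =>
      intro t _ ht1
      rw [pow_zero, pow_one] at ht1
      rw [ht1, one_pow]
      exact K.one_mem
    | succ k ih =>
      intro t ht ht1
      have hc : t * y * t⁻¹ * y⁻¹ ∈ K := k1 t y (hT2Q t ht) hyQ
      have e1 : t * y * t⁻¹ * y⁻¹ = t * (y * t * y⁻¹)⁻¹ := by group
      rw [e1, hc1' t ht] at hc
      have hs : (t ^ (2 * w)) ^ 2 ∈ K := by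
        apply ih _ (T2.pow_mem ht _)
        rw [← pow_mul, mul_comm 2 w, mul_assoc, ← pow_succ', mul_comm, pow_mul, ht1, one_pow]
      have e2 : t ^ 2 = (t * (t ^ q)⁻¹) * (t ^ (2 * w)) ^ 2 := by
        have e3 : (t ^ (2 * w)) ^ 2 = t ^ q * t := by
          rw [← pow_mul, show 2 * w * 2 = q + 1 by omega, pow_succ]
        rw [e3, ← mul_assoc, inv_mul_cancel_right, pow_two]
      rw [e2]
      exact K.mul_mem hc hs
  have hE : E Q := by
    rintro ⟨g, hg⟩
    apply k2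
    show g ^ 2 ∈ K
    rcases (hQ g).mp hg with h | h
    · obtain ⟨k, hk⟩ := ((hT2 g).mp h).2
      exact claim k g h hk
    · obtain ⟨k, hk⟩ := ((hT2 _).mp h).2
      have h3 : ((g * y⁻¹) ^ (2 * w)) ^ 2 ∈ K := by
        apply claim k _ (T2.pow_mem h _)
        rw [← pow_mul, mul_comm, pow_mul, hk, one_pow]
      rw [pow_two, hsq g h, show q + 1 = 2 * w * 2 by omega, pow_mul]
      exact h3
  refine ⟨Q, hQp, hE, ?_⟩
  -- cardinalities
  obtain ⟨P2⟩ : Nonempty (Sylow 2 T) := inferInstance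
  have hP2 : Nat.card P2 = 2 ^ (Nat.card T).factorization 2 := P2.card_eq_multiplicity
  have hmemP : ∀ x : (P2 : Subgroup T), ((x : T) : G) ∈ T2 := by
    intro x
    obtain ⟨k, hk⟩ := P2.isPGroup' x
    refine (hT2 _).mpr ⟨x.1.2, k, ?_⟩
    have h1 := congrArg (fun z : (P2 : Subgroup T) => ((z : T) : G)) hk
    simpa using h1
  have hle : Nat.card P2 ≤ Nat.card T2 := by
    apply Nat.card_le_card_of_injective (fun x : (P2 : Subgroup T) => (⟨_, hmemP x⟩ : T2))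
    intro a b hab
    have h1 : ((a : T) : G) = ((b : T) : G) := congrArg (fun z : T2 => (z : G)) hab
    exact Subtype.ext (Subtype.ext h1)
  have hT2le : T2 ≤ Q := fun t ht => hT2Q t ht
  have hT2p : IsPGroup 2 T2 := hQp.to_le hT2le
  obtain ⟨c', hc'⟩ := IsPGroup.iff_card.mp hT2p
  obtain ⟨c, hc⟩ := IsPGroup.iff_card.mp hQp
  have hlt : Nat.card T2 < Nat.card Q := by
    by_contra hcon
    push Not at hcon
    have heq := Subgroup.eq_of_le_of_card_ge hT2le hcon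
    apply hyT
    have : y ∈ T2 := heq ▸ hyQ
    exact ((hT2 y).mp this).1
  rw [hc', hc] at hlt
  rw [hP2, hc'] at hle
  have h1 : c' < c := (Nat.pow_lt_pow_iff_right (by norm_num)).mp hlt
  have h2 : (Nat.card T).factorization 2 ≤ c' := (Nat.pow_le_pow_iff_right (by norm_num)).mp hle
  rw [hc]
  exact pow_dvd_pow 2 (by omega)

end Cfsg.Agent.Lib.Helper42.SylSD
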