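import Mathlib
import Cfsg.Agent.Lib.Helper42.SpWr
import Cfsg.Agent.Lib.Helper42.GLWr
import Cfsg.Agent.Lib.Helper42.SylE
import Cfsg.Agent.Lib.Helper42.SylSD
import Cfsg.Agent.Lib.Helper42.SpSyl
import Cfsg.Agent.Lib.Helper5.SLCard

/-!
# Sylow `2`-subgroups of `GL_{2m}(q)` and `SL_{2m+1}(q)`, `q ≡ 3 (mod 4)`

`base_syl_GL`: a `2`-subgroup `Q` of `GL_2(q)` (semidihedral) with `E Q` and
`2^{v₂(q²-1)+1} ∣ |Q|`.  `sylow_E_SL`: every Sylow `2`-subgroup `P` of `SL_{2m+1}(q)` satisfies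
`E P` (squares are in the derived subgroup).
-/

set_option autoImplicit false
set_option linter.unusedSectionVars false

open scoped commutatorElement
open Matrix

namespace Cfsg.Agent.Lib.Helper42.GLSyl

open Cfsg.Agent.Lib.Helper42.SpWr Cfsg.Agent.Lib.Helper42.GLWr Cfsg.Agent.Lib.Helper42.SylE
  Cfsg.Agent.Lib.Helper42.SylSD Cfsg.Agent.Lib.Helper42.Circle

section sbmore

variable {F : Type*} [CommRing F] {l : Type*} [Fintype l] [DecidableEq l]

theorem sb_add (x y z w x' y' z' w' : F) :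
    (sb x y z w : Matrix (l ⊕ l) (l ⊕ l) F) + sb x' y' z' w' =
      sb (x + x') (y + y') (z + z') (w + w') := by
  unfold sb
  rw [Matrix.fromBlocks_add]
  simp only [add_smul]

theorem sb_smul (c x y z w : F) :
    c • (sb x y z w : Matrix (l ⊕ l) (l ⊕ l) F) = sb (c * x) (c * y) (c * z) (c * w) := by
  unfold sb
  rw [Matrix.fromBlocks_smul]
  simp only [smul_smul]

end sbmore

section base

variable {F : Type*} [Field F] {l : Type*} [Fintype l] [DecidableEq l]

/-- Frobenius on the rotation-scaling matrices. -/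
theorem frob_sb [Fintype F] [Nonempty l] (hq : Fintype.card F % 4 = 3) (a b : F) :
    (sb a (-b) b a : Matrix (l ⊕ l) (l ⊕ l) F) ^ Fintype.card F = sb a b (-b) a := by
  obtain ⟨p, hp⟩ := CharP.exists F
  obtain ⟨n, hpr, hcard⟩ := FiniteField.card F p
  have hfact : Fact p.Prime := ⟨hpr⟩
  have hchar : CharP (Matrix (l ⊕ l) (l ⊕ l) F) p := Matrix.charP p
  have e0 : (sb a (-b) b a : Matrix (l ⊕ l) (l ⊕ l) F) =
      a • (1 : Matrix (l ⊕ l) (l ⊕ l) F) + b • sb 0 (-1) 1 0 := by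
    rw [← sb_one, sb_smul, sb_smul, sb_add]
    apply sb_congr <;> ring
  have hcomm : Commute (a • (1 : Matrix (l ⊕ l) (l ⊕ l) F)) (b • sb 0 (-1) 1 0) := by
    apply Commute.smul_left
    exact Commute.one_left _
  have hJ2 : (sb 0 (-1) 1 0 : Matrix (l ⊕ l) (l ⊕ l) F) ^ 2 = sb (-1) 0 0 (-1) := by
    rw [pow_two, sb_mul]
    apply sb_congr <;> ring
  have hJ4 : (sb 0 (-1) 1 0 : Matrix (l ⊕ l) (l ⊕ l) F) ^ 4 = 1 := by
    rw [show (4 : ℕ) = 2 * 2 from rfl, pow_mul, hJ2, pow_two, sb_mul, ← sb_one]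
    apply sb_congr <;> ring
  have hJ3 : (sb 0 (-1) 1 0 : Matrix (l ⊕ l) (l ⊕ l) F) ^ 3 = sb 0 1 (-1) 0 := by
    rw [show (3 : ℕ) = 2 + 1 from rfl, pow_succ, hJ2, sb_mul]
    apply sb_congr <;> ring
  have hJq : (sb 0 (-1) 1 0 : Matrix (l ⊕ l) (l ⊕ l) F) ^ Fintype.card F = sb 0 1 (-1) 0 := by
    have e : Fintype.card F = 4 * (Fintype.card F / 4) + 3 := by omega
    rw [e, pow_add, pow_mul, hJ4, one_pow, one_mul, hJ3]
  rw [e0]
  conv_lhs => rw [hcard]
  rw [add_pow_char_pow_of_commute p n hcomm, ← hcard, smul_pow, smul_pow, one_pow,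
    FiniteField.pow_card, FiniteField.pow_card, hJq, ← sb_one, sb_smul, sb_smul, sb_add]
  apply sb_congr <;> ring

/-- Rotation-scaling matrices as units. -/
def RG (a b : F) (h : a ^ 2 + b ^ 2 ≠ 0) : Matrix.GeneralLinearGroup (l ⊕ l) F where
  val := sb a (-b) b a
  inv := sb (a / (a ^ 2 + b ^ 2)) (b / (a ^ 2 + b ^ 2)) (-b / (a ^ 2 + b ^ 2))
    (a / (a ^ 2 + b ^ 2))
  val_inv := by
    rw [sb_mul, ← sb_one]
    apply sb_congr
    · field_simp
    · field_simp
      ring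
    · field_simp
      ring
    · field_simp
      ring
  inv_val := by
    rw [sb_mul, ← sb_one]
    apply sb_congr
    · field_simp
    · field_simp
      ring
    · field_simp
      ring
    · field_simp
      ring

theorem RG_val (a b : F) (h : a ^ 2 + b ^ 2 ≠ 0) :
    ((RG a b h : Matrix.GeneralLinearGroup (l ⊕ l) F) : Matrix (l ⊕ l) (l ⊕ l) F) =
      sb a (-b) b a := rfl

theorem norm_mul (a b c d : F) :
    (a * c - b * d) ^ 2 + (a * d + b * c) ^ 2 = (a ^ 2 + b ^ 2) * (c ^ 2 + d ^ 2) := by ring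

theorem RG_mul (a b c d : F) (h : a ^ 2 + b ^ 2 ≠ 0) (h' : c ^ 2 + d ^ 2 ≠ 0)
    (h'' : (a * c - b * d) ^ 2 + (a * d + b * c) ^ 2 ≠ 0) :
    (RG a b h : Matrix.GeneralLinearGroup (l ⊕ l) F) * RG c d h' =
      RG (a * c - b * d) (a * d + b * c) h'' := by
  apply Units.ext
  rw [Units.val_mul, RG_val, RG_val, RG_val, sb_mul]
  apply sb_congr <;> ring

/-- The nonsplit torus of `GL_2`. -/
def Tg (F : Type*) [Field F] (l : Type*) [Fintype l] [DecidableEq l] :
    Subgroup (Matrix.GeneralLinearGroup (l ⊕ l) F) where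
  carrier := {g | ∃ (a b : F) (h : a ^ 2 + b ^ 2 ≠ 0), g = RG a b h}
  one_mem' := by
    refine ⟨1, 0, by simp, ?_⟩
    apply Units.ext
    rw [RG_val, Units.val_one, neg_zero]
    exact sb_one.symm
  mul_mem' := by
    rintro g g' ⟨a, b, h, rfl⟩ ⟨c, d, h', rfl⟩
    have h'' : (a * c - b * d) ^ 2 + (a * d + b * c) ^ 2 ≠ 0 := by
      rw [norm_mul]
      exact mul_ne_zero h h'
    exact ⟨_, _, h'', RG_mul a b c d h h' h''⟩
  inv_mem' := by
    rintro g ⟨a, b, h, rfl⟩
    have h' : (a / (a ^ 2 + b ^ 2)) ^ 2 + (-b / (a ^ 2 + b ^ 2)) ^ 2 ≠ 0 := by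
      have e : (a / (a ^ 2 + b ^ 2)) ^ 2 + (-b / (a ^ 2 + b ^ 2)) ^ 2 = (a ^ 2 + b ^ 2)⁻¹ := by
        field_simp
      rw [e]
      exact inv_ne_zero h
    refine ⟨_, _, h', ?_⟩
    apply Units.ext
    show sb (a / (a ^ 2 + b ^ 2)) (b / (a ^ 2 + b ^ 2)) (-b / (a ^ 2 + b ^ 2))
      (a / (a ^ 2 + b ^ 2)) = sb (a / (a ^ 2 + b ^ 2)) (-(-b / (a ^ 2 + b ^ 2)))
      (-b / (a ^ 2 + b ^ 2)) (a / (a ^ 2 + b ^ 2))
    apply sb_congr <;> ring

/-- The reflection `diag(1, -1)`. -/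
def Yg (F : Type*) [Field F] (l : Type*) [Fintype l] [DecidableEq l] :
    Matrix.GeneralLinearGroup (l ⊕ l) F where
  val := sb 1 0 0 (-1)
  inv := sb 1 0 0 (-1)
  val_inv := by
    rw [sb_mul, ← sb_one]
    apply sb_congr <;> ring
  inv_val := by
    rw [sb_mul, ← sb_one]
    apply sb_congr <;> ring

theorem Yg_sq : Yg F l * Yg F l = 1 := by
  apply Units.ext
  exact (Yg F l).val_inv

theorem Tg_comm (s t : Matrix.GeneralLinearGroup (l ⊕ l) F) (hs : s ∈ Tg F l)
    (ht : t ∈ Tg F l) : s * t = t * s := by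
  obtain ⟨a, b, h, rfl⟩ := hs
  obtain ⟨c, d, h', rfl⟩ := ht
  apply Units.ext
  rw [Units.val_mul, Units.val_mul, RG_val, RG_val, sb_mul, sb_mul]
  apply sb_congr <;> ring

theorem Tg_rel [Fintype F] [Nonempty l] (hq : Fintype.card F % 4 = 3)
    (t : Matrix.GeneralLinearGroup (l ⊕ l) F) (ht : t ∈ Tg F l) :
    Yg F l * t * (Yg F l)⁻¹ = t ^ Fintype.card F := by
  obtain ⟨a, b, h, rfl⟩ := ht
  apply Units.ext
  rw [Units.val_pow_eq_pow_val, RG_val, frob_sb hq]
  show (sb 1 0 0 (-1) : Matrix (l ⊕ l) (l ⊕ l) F) * sb a (-b) b a * sb 1 0 0 (-1) =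
    sb a b (-b) a
  rw [sb_mul, sb_mul]
  apply sb_congr <;> ring

theorem Yg_not_mem [Nonempty l] (h2 : (2 : F) ≠ 0) : Yg F l ∉ Tg F l := by
  rintro ⟨a, b, h, hy⟩
  have h1 : (sb 1 0 0 (-1) : Matrix (l ⊕ l) (l ⊕ l) F) = sb a (-b) b a :=
    congrArg Units.val hy
  obtain ⟨e1, -, -, e4⟩ := sb_inj h1
  apply h2
  linear_combination e1 - e4

theorem card_Tg [Nonempty l] :
    Nat.card (Tg F l) = Nat.card {p : F × F // p.1 ^ 2 + p.2 ^ 2 ≠ 0} := by
  symm
  apply Nat.card_congr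
  apply Equiv.ofBijective
    (fun p : {p : F × F // p.1 ^ 2 + p.2 ^ 2 ≠ 0} =>
      (⟨RG p.1.1 p.1.2 p.2, ⟨_, _, p.2, rfl⟩⟩ : Tg F l))
  constructor
  · rintro ⟨⟨a, b⟩, h⟩ ⟨⟨a', b'⟩, h'⟩ hpp
    have h1 : (sb a (-b) b a : Matrix (l ⊕ l) (l ⊕ l) F) = sb a' (-b') b' a' :=
      congrArg (fun z : Tg F l =>
        ((z : Matrix.GeneralLinearGroup (l ⊕ l) F) : Matrix (l ⊕ l) (l ⊕ l) F)) hpp
    obtain ⟨e1, -, e3, -⟩ := sb_inj h1
    apply Subtype.ext
    show (a, b) = (a', b')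
    rw [e1, e3]
  · rintro ⟨g, a, b, h, rfl⟩
    exact ⟨⟨(a, b), h⟩, rfl⟩

theorem card_norm_ne [Fintype F] (hq : Fintype.card F % 4 = 3) :
    Nat.card {p : F × F // p.1 ^ 2 + p.2 ^ 2 ≠ 0} + 1 = Fintype.card F ^ 2 := by
  classical
  have h1 : Nat.card (F × F) =
      Nat.card {p : F × F // p.1 ^ 2 + p.2 ^ 2 = 0} +
      Nat.card {p : F × F // ¬ (p.1 ^ 2 + p.2 ^ 2 = 0)} := by
    rw [← Nat.card_sum]
    exact Nat.card_congr (Equiv.sumCompl _).symm
  have h3 : Nat.card {p : F × F // p.1 ^ 2 + p.2 ^ 2 = 0} = 1 := by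
    rw [Nat.card_eq_one_iff_unique]
    have key : ∀ p : F × F, p.1 ^ 2 + p.2 ^ 2 = 0 → p = (0, 0) := by
      rintro ⟨a, b⟩ h
      have h' : a ^ 2 + b ^ 2 = 0 := h
      have hb : b = 0 := by
        by_contra hb
        have h4 : IsSquare (-1 : F) := by
          refine ⟨a / b, ?_⟩
          field_simp
          linear_combination -h'
        rw [FiniteField.isSquare_neg_one_iff] at h4
        exact h4 hq
      have ha : a = 0 := by
        rw [hb] at h'
        simpa using h'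
      rw [ha, hb]
    refine ⟨⟨?_⟩, ⟨⟨((0 : F), (0 : F)), by simp⟩⟩⟩
    rintro ⟨p, hp⟩ ⟨p', hp'⟩
    apply Subtype.ext
    show p = p'
    rw [key p hp, key p' hp']
  rw [Nat.card_prod, Nat.card_eq_fintype_card] at h1
  have h5 : Nat.card {p : F × F // p.1 ^ 2 + p.2 ^ 2 ≠ 0} =
      Nat.card {p : F × F // ¬ (p.1 ^ 2 + p.2 ^ 2 = 0)} := rfl
  rw [h5, pow_two]
  omega

/-- The base block in `GL_2(q)`, `q ≡ 3 (mod 4)`. -/
theorem base_syl_GL [Fintype F] [Nonempty l] (hq : Fintype.card F % 4 = 3) :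
    ∃ Q : Subgroup (Matrix.GeneralLinearGroup (l ⊕ l) F), IsPGroup 2 Q ∧ E ↥Q ∧
      2 ^ (padicValNat 2 (Fintype.card F - 1) + padicValNat 2 (Fintype.card F + 1) + 1) ∣
        Nat.card Q := by
  have h2 : (2 : F) ≠ 0 := by
    apply Ring.two_ne_zero
    intro hc
    rw [FiniteField.even_card_iff_char_two] at hc
    omega
  obtain ⟨Q, hQp, hQE, hQc⟩ := sd_exists (Tg F l) (Yg F l) (Fintype.card F)
    ((Fintype.card F + 1) / 4) (by omega) (fun s hs t ht => Tg_comm s t hs ht) (Tg_rel hq) Yg_sq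
    (Yg_not_mem h2)
  refine ⟨Q, hQp, hQE, ?_⟩
  have hc := card_norm_ne (F := F) hq
  have hq1 : 1 < Fintype.card F := Fintype.one_lt_card
  have e1 : Nat.card (Tg F l) = (Fintype.card F - 1) * (Fintype.card F + 1) := by
    rw [card_Tg]
    obtain ⟨k, hk⟩ : ∃ k, Fintype.card F = k + 1 := ⟨Fintype.card F - 1, by omega⟩
    rw [hk] at hc ⊢
    have : (k + 1) ^ 2 = k * (k + 1 + 1) + 1 := by ring
    rw [this] at hc
    simpa using hc
  rw [e1, Nat.factorization_def _ Nat.prime_two, padicValNat.mul (by omega) (by omega)] at hQc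
  exact hQc

end base

section prodGL

variable {F : Type*} [CommRing F] {l c : Type*} [Fintype l] [DecidableEq l] [Fintype c]
  [DecidableEq c] {X Y : Type*} [Group X] [Group Y]

/-- Block-diagonal matrices of a pair. -/
def prodMatGL (φ : X →* Matrix.GeneralLinearGroup l F) (ψ : Y →* Matrix.GeneralLinearGroup c F) :
    X × Y →* Matrix (l ⊕ c) (l ⊕ c) F where
  toFun p := Matrix.fromBlocks (φ p.1 : Matrix l l F) 0 0 (ψ p.2 : Matrix c c F)
  map_one' := by
    simp [Matrix.fromBlocks_one]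
  map_mul' p p' := by
    simp [Matrix.fromBlocks_multiply]

/-- The direct product inside the general linear group of the disjoint union. -/
def prodHomGL (φ : X →* Matrix.GeneralLinearGroup l F) (ψ : Y →* Matrix.GeneralLinearGroup c F) :
    X × Y →* Matrix.GeneralLinearGroup (l ⊕ c) F :=
  (prodMatGL φ ψ).toHomUnits

theorem prodHomGL_injective (φ : X →* Matrix.GeneralLinearGroup l F)
    (ψ : Y →* Matrix.GeneralLinearGroup c F) (hφ : Function.Injective φ)
    (hψ : Function.Injective ψ) : Function.Injective (prodHomGL φ ψ) := by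
  intro p p' h
  have h0 : prodMatGL φ ψ p = prodMatGL φ ψ p' :=
    congrArg (fun u : Matrix.GeneralLinearGroup (l ⊕ c) F => (u : Matrix (l ⊕ c) (l ⊕ c) F)) h
  have h1 : Matrix.fromBlocks (φ p.1 : Matrix l l F) 0 0 (ψ p.2 : Matrix c c F) =
      Matrix.fromBlocks (φ p'.1 : Matrix l l F) 0 0 (ψ p'.2 : Matrix c c F) := h0
  rw [Matrix.fromBlocks_inj] at h1
  exact Prod.ext (hφ (Units.ext h1.1)) (hψ (Units.ext h1.2.2.2))

end prodGL

section sl

variable {F : Type*} [Field F] {l : Type*} [Fintype l] [DecidableEq l] {N : ℕ}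

/-- `g ↦ diag(g, (det g)⁻¹)`, reindexed. -/
def slMat (e : l ⊕ Fin 1 ≃ Fin N) (g : Matrix.GeneralLinearGroup l F) :
    Matrix (Fin N) (Fin N) F :=
  (Matrix.fromBlocks (g : Matrix l l F) 0 0
    ((((Matrix.GeneralLinearGroup.det g)⁻¹ : Fˣ) : F) • (1 : Matrix (Fin 1) (Fin 1) F))).submatrix
      e.symm e.symm

theorem slMat_det (e : l ⊕ Fin 1 ≃ Fin N) (g : Matrix.GeneralLinearGroup l F) :
    (slMat e g).det = 1 := by
  unfold slMat
  rw [Matrix.det_submatrix_equiv_self, Matrix.det_fromBlocks_zero₂₁, Matrix.det_smul,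
    Matrix.det_one, mul_one, Fintype.card_fin, pow_one,
    ← Matrix.GeneralLinearGroup.val_det_apply, ← Units.val_mul, mul_inv_cancel, Units.val_one]

theorem slMat_one (e : l ⊕ Fin 1 ≃ Fin N) : slMat (F := F) e 1 = 1 := by
  unfold slMat
  simp [Matrix.fromBlocks_one]

theorem slMat_mul (e : l ⊕ Fin 1 ≃ Fin N) (g h : Matrix.GeneralLinearGroup l F) :
    slMat e (g * h) = slMat e g * slMat e h := by
  unfold slMat
  rw [Matrix.submatrix_mul_equiv, Matrix.fromBlocks_multiply]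
  congr 1
  have e1 : ((((Matrix.GeneralLinearGroup.det (g * h))⁻¹ : Fˣ) : F) •
      (1 : Matrix (Fin 1) (Fin 1) F)) =
      ((((Matrix.GeneralLinearGroup.det g)⁻¹ : Fˣ) : F) • (1 : Matrix (Fin 1) (Fin 1) F)) *
      ((((Matrix.GeneralLinearGroup.det h)⁻¹ : Fˣ) : F) • (1 : Matrix (Fin 1) (Fin 1) F)) := by
    rw [Matrix.smul_mul, Matrix.mul_smul, Matrix.one_mul, smul_smul, map_mul, mul_inv,
      Units.val_mul]
  rw [e1]
  simp

/-- The embedding of `GL(l)` into `SL_N`, `N = |l| + 1`. -/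
def slHom (e : l ⊕ Fin 1 ≃ Fin N) :
    Matrix.GeneralLinearGroup l F →* Matrix.SpecialLinearGroup (Fin N) F where
  toFun g := ⟨slMat e g, slMat_det e g⟩
  map_one' := Subtype.ext (slMat_one e)
  map_mul' g h := Subtype.ext (slMat_mul e g h)

theorem slHom_injective (e : l ⊕ Fin 1 ≃ Fin N) : Function.Injective (slHom (F := F) e) := by
  intro g h hgh
  have h0 : slMat e g = slMat e h := congrArg Subtype.val hgh
  have h1 : Matrix.fromBlocks (g : Matrix l l F) 0 0
      ((((Matrix.GeneralLinearGroup.det g)⁻¹ : Fˣ) : F) • (1 : Matrix (Fin 1) (Fin 1) F)) =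
      Matrix.fromBlocks (h : Matrix l l F) 0 0
      ((((Matrix.GeneralLinearGroup.det h)⁻¹ : Fˣ) : F) • (1 : Matrix (Fin 1) (Fin 1) F)) := by
    ext x y
    have h2 := congrFun (congrFun h0 (e x)) (e y)
    simpa [slMat] using h2
  rw [Matrix.fromBlocks_inj] at h1
  exact Units.ext h1.1

end sl

section val

theorem v2_odd_pow (q : ℕ) (hq : q % 4 = 3) (k : ℕ) :
    padicValNat 2 (q ^ (2 * k + 1) - 1) = 1 := by
  apply v2_of_mod4
  have h9 : (3 ^ 2) ^ k % 4 = 1 := by
    rw [Nat.pow_mod]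
    norm_num
  have h1 : q ^ (2 * k + 1) % 4 = 3 := by
    rw [Nat.pow_mod, hq, pow_succ, pow_mul, Nat.mul_mod, h9]
  have h2 : 1 ≤ q ^ (2 * k + 1) := Nat.one_le_pow _ _ (by omega)
  omega

theorem v2_GL (q n : ℕ) (hq2 : 2 ≤ q) (hodd : q % 2 = 1) :
    (∏ i : Fin n, (q ^ n - q ^ (i : ℕ))).factorization 2 =
      ∑ k ∈ Finset.range n, padicValNat 2 (q ^ (k + 1) - 1) := by
  have hlt : ∀ i : Fin n, q ^ (i : ℕ) < q ^ n := fun i =>
    Nat.pow_lt_pow_right (by omega) i.2
  rw [Nat.factorization_prod (fun i _ => by have := hlt i; omega), Finsupp.finsetSum_apply]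
  have key : ∀ i : Fin n, (q ^ n - q ^ (i : ℕ)).factorization 2 =
      padicValNat 2 (q ^ (n - i) - 1) := by
    intro i
    have e : q ^ n - q ^ (i : ℕ) = q ^ (i : ℕ) * (q ^ (n - i) - 1) := by
      rw [Nat.mul_sub, mul_one, ← pow_add, Nat.add_sub_cancel' i.2.le]
    have h1 : 2 ≤ q ^ (n - (i : ℕ)) := by
      calc 2 ≤ q := hq2
        _ = q ^ 1 := (pow_one q).symm
        _ ≤ q ^ (n - (i : ℕ)) := Nat.pow_le_pow_right (by omega) (by have := i.2; omega)
    rw [Nat.factorization_def _ Nat.prime_two, e,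
      padicValNat.mul (pow_ne_zero _ (by omega)) (by omega), padicValNat.pow,
      padicValNat.eq_zero_of_not_dvd (by omega), mul_zero, zero_add]
  rw [Finset.sum_congr rfl (fun i _ => key i),
    Fin.sum_univ_eq_sum_range (fun i => padicValNat 2 (q ^ (n - i) - 1)) n,
    ← Finset.sum_range_reflect (fun k => padicValNat 2 (q ^ (k + 1) - 1)) n]
  apply Finset.sum_congr rfl
  intro i hi
  rw [Finset.mem_range] at hi
  have e : n - i = n - 1 - i + 1 := by omega
  rw [e]

theorem gsum_odd (q : ℕ) (hq : q % 4 = 3) (m : ℕ) :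
    ∑ k ∈ Finset.range (2 * m + 1), padicValNat 2 (q ^ (k + 1) - 1) =
      (m + 1) + m * (padicValNat 2 (q - 1) + padicValNat 2 (q + 1)) +
        padicValNat 2 m.factorial := by
  induction m with
  | zero =>
    simp [v2_of_mod4 (q - 1) (by omega)]
  | succ m ih =>
    rw [show 2 * (m + 1) + 1 = 2 * m + 1 + 1 + 1 by ring, Finset.sum_range_succ,
      Finset.sum_range_succ, ih]
    rw [show 2 * m + 1 + 1 = 2 * (m + 1) by ring,
      v2_pow_sub_one q (Nat.odd_iff.mpr (by omega)) (by omega) (m + 1) (by omega),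
      v2_odd_pow q hq (m + 1), v2_factorial_succ]
    ring

/-- The `2`-part of `|SL_{2m+1}(q)|`, `q ≡ 3 (mod 4)`. -/
theorem v2_SL {F : Type*} [Field F] [Fintype F] (hq : Fintype.card F % 4 = 3) (m : ℕ) :
    (Nat.card (Matrix.SpecialLinearGroup (Fin (2 * m + 1)) F)).factorization 2 =
      m * (padicValNat 2 (Fintype.card F - 1) + padicValNat 2 (Fintype.card F + 1) + 1) +
        padicValNat 2 m.factorial := by
  have hq1 : 1 < Fintype.card F := Fintype.one_lt_card
  have h1 := Cfsg.Agent.Lib.Helper5.SLCard.card_SL_mul (F := F) (ι := Fin (2 * m + 1))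
  rw [Nat.card_units, Nat.card_eq_fintype_card (α := F), Matrix.card_GL_field] at h1
  have h2 := v2_GL (Fintype.card F) (2 * m + 1) (by omega) (by omega)
  rw [← h1, gsum_odd _ hq, Nat.factorization_def _ Nat.prime_two,
    padicValNat.mul (Nat.card_pos.ne') (by omega), v2_of_mod4 (Fintype.card F - 1) (by omega)]
    at h2
  rw [Nat.factorization_def _ Nat.prime_two, v2_of_mod4 (Fintype.card F - 1) (by omega)]
  have e : m * (1 + padicValNat 2 (Fintype.card F + 1) + 1) =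
      m * (1 + padicValNat 2 (Fintype.card F + 1)) + m := by ring
  rw [e]
  omega

end val

section tower

universe u

variable (F : Type u) [Field F] [Fintype F] [DecidableEq F]

theorem blocksGL (hq : Fintype.card F % 4 = 3) : ∀ j : ℕ,
    ∃ (X : Type u) (_ : Group X) (_ : Finite X) (l : Type) (_ : Fintype l) (_ : DecidableEq l),
      Nonempty l ∧ IsPGroup 2 X ∧ E X ∧ Fintype.card l = 2 * 2 ^ j ∧
      2 ^ (Cfsg.Agent.Lib.Helper42.SpSyl.beta
        (padicValNat 2 (Fintype.card F - 1) + padicValNat 2 (Fintype.card F + 1) + 1) j) ∣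
        Nat.card X ∧
      ∃ φ : X →* Matrix.GeneralLinearGroup l F, Function.Injective φ := by
  intro j
  induction j with
  | zero =>
    obtain ⟨Q, hQp, hQE, hQc⟩ := base_syl_GL (F := F) (l := Fin 1) hq
    exact ⟨↥Q, inferInstance, inferInstance, Fin 1 ⊕ Fin 1, inferInstance, inferInstance,
      inferInstance, hQp, hQE, by simp, hQc, Q.subtype, Subgroup.subtype_injective Q⟩
  | succ j ih =>
    obtain ⟨X, hG, hfin, l, hl1, hl2, hne, hp, hE, hc, hd, φ, hφ⟩ := ih
    refine ⟨X ≀ᵣ Multiplicative (ZMod 2), inferInstance, inferInstance,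
      Multiplicative (ZMod 2) × l, inferInstance, inferInstance, inferInstance, ?_,
      E_wreath hE Cfsg.Agent.Lib.Helper42.SpSyl.sq_C2, ?_, ?_, dblHomGL φ,
      dblHomGL_injective φ hφ⟩
    · obtain ⟨k, hk⟩ := (IsPGroup.iff_card).mp hp
      apply IsPGroup.of_card (n := k * 2 + 1)
      rw [RegularWreathProduct.card, hk, Nat.card_eq_fintype_card, Fintype.card_multiplicative,
        ZMod.card]
      ring
    · rw [Fintype.card_prod, hc, Fintype.card_multiplicative, ZMod.card]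
      ring
    · rw [RegularWreathProduct.card, Nat.card_eq_fintype_card (α := Multiplicative (ZMod 2)),
        Fintype.card_multiplicative, ZMod.card]
      show 2 ^ (2 * Cfsg.Agent.Lib.Helper42.SpSyl.beta _ j + 1) ∣ _
      rw [pow_succ, pow_mul']
      exact Nat.mul_dvd_mul (pow_dvd_pow_of_dvd hd 2) (dvd_refl 2)

theorem towerGLS (hq : Fintype.card F % 4 = 3) : ∀ n j : ℕ,
    ∃ (X : Type u) (_ : Group X) (_ : Finite X) (l : Type) (_ : Fintype l) (_ : DecidableEq l),
      IsPGroup 2 X ∧ E X ∧ Fintype.card l = 2 * 2 ^ j * n ∧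
      2 ^ (n * Cfsg.Agent.Lib.Helper42.SpSyl.beta
        (padicValNat 2 (Fintype.card F - 1) + padicValNat 2 (Fintype.card F + 1) + 1) j
        + padicValNat 2 n.factorial) ∣ Nat.card X ∧
      ∃ φ : X →* Matrix.GeneralLinearGroup l F, Function.Injective φ := by
  intro n
  induction n using Nat.strong_induction_on with
  | _ n ih =>
  intro j
  rcases Nat.eq_zero_or_pos n with rfl | hn
  · refine ⟨PUnit, inferInstance, inferInstance, Fin 0, inferInstance, inferInstance,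
      IsPGroup.of_card (n := 0) (by simp), ?_, by simp, by simp, 1,
      Function.injective_of_subsingleton _⟩
    intro x
    rw [Subsingleton.elim (x ^ 2) 1]
    exact Subgroup.one_mem _
  · obtain ⟨X', hG', hfin', l', hl1', hl2', hp', hE', hc', hd', φ', hφ'⟩ :=
      ih (n / 2) (Nat.div_lt_self hn (by norm_num)) (j + 1)
    rcases Nat.even_or_odd' n with ⟨m, rfl | rfl⟩
    · have hm : 2 * m / 2 = m := by omega
      rw [hm] at hc' hd'
      refine ⟨X', hG', hfin', l', hl1', hl2', hp', hE', ?_, ?_, φ', hφ'⟩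
      · rw [hc']
        ring
      · have e : 2 * m * Cfsg.Agent.Lib.Helper42.SpSyl.beta (padicValNat 2 (Fintype.card F - 1) +
            padicValNat 2 (Fintype.card F + 1) + 1) j + padicValNat 2 (2 * m).factorial =
            m * Cfsg.Agent.Lib.Helper42.SpSyl.beta (padicValNat 2 (Fintype.card F - 1) +
            padicValNat 2 (Fintype.card F + 1) + 1) (j + 1) + padicValNat 2 m.factorial := by
          rw [padicValNat_factorial_mul]
          show _ = m * (2 * Cfsg.Agent.Lib.Helper42.SpSyl.beta _ j + 1) + _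
          ring
        rw [e]
        exact hd'
    · have hm : (2 * m + 1) / 2 = m := by omega
      rw [hm] at hc' hd'
      obtain ⟨Xb, hGb, hfinb, lb, hlb1, hlb2, hneb, hpb, hEb, hcb, hdb, φb, hφb⟩ :=
        blocksGL F hq j
      refine ⟨X' × Xb, inferInstance, inferInstance, l' ⊕ lb, inferInstance, inferInstance,
        ?_, E_prod hE' hEb, ?_, ?_, prodHomGL φ' φb, prodHomGL_injective _ _ hφ' hφb⟩
      · obtain ⟨k1, hk1⟩ := (IsPGroup.iff_card).mp hp'
        obtain ⟨k2, hk2⟩ := (IsPGroup.iff_card).mp hpb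
        exact IsPGroup.of_card (n := k1 + k2) (by rw [Nat.card_prod, hk1, hk2, pow_add])
      · rw [Fintype.card_sum, hc', hcb]
        ring
      · have e : (2 * m + 1) * Cfsg.Agent.Lib.Helper42.SpSyl.beta
            (padicValNat 2 (Fintype.card F - 1) +
            padicValNat 2 (Fintype.card F + 1) + 1) j + padicValNat 2 (2 * m + 1).factorial =
            (m * Cfsg.Agent.Lib.Helper42.SpSyl.beta (padicValNat 2 (Fintype.card F - 1) +
            padicValNat 2 (Fintype.card F + 1) + 1) (j + 1) + padicValNat 2 m.factorial) +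
            Cfsg.Agent.Lib.Helper42.SpSyl.beta (padicValNat 2 (Fintype.card F - 1) +
            padicValNat 2 (Fintype.card F + 1) + 1) j := by
          rw [padicValNat_factorial_mul_add m (by norm_num : 1 < 2), padicValNat_factorial_mul]
          show _ = m * (2 * Cfsg.Agent.Lib.Helper42.SpSyl.beta _ j + 1) + _ + _
          ring
        rw [e, pow_add, Nat.card_prod]
        exact Nat.mul_dvd_mul hd' hdb

/-- Every Sylow `2`-subgroup of `SL_{2m+1}(q)`, `q ≡ 3 (mod 4)`, has its squares in its derived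
subgroup. -/
theorem sylow_E_SL (hq : Fintype.card F % 4 = 3) (m : ℕ)
    (P : Sylow 2 (Matrix.SpecialLinearGroup (Fin (2 * m + 1)) F)) :
    E ↥(P : Subgroup (Matrix.SpecialLinearGroup (Fin (2 * m + 1)) F)) := by
  obtain ⟨X, hG, hfin, l, hl1, hl2, hp, hE, hc, hd, φ, hφ⟩ := towerGLS F hq m 0
  have hcard : Fintype.card (l ⊕ Fin 1) = Fintype.card (Fin (2 * m + 1)) := by
    rw [Fintype.card_sum, hc, Fintype.card_fin, Fintype.card_fin]
    simp
  obtain ⟨e⟩ : Nonempty (l ⊕ Fin 1 ≃ Fin (2 * m + 1)) := ⟨Fintype.equivOfCardEq hcard⟩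
  obtain ⟨f, hf⟩ : ∃ f : X →* Matrix.SpecialLinearGroup (Fin (2 * m + 1)) F,
      Function.Injective f :=
    ⟨(slHom e).comp φ, (slHom_injective e).comp hφ⟩
  have hrange : IsPGroup 2 ↥f.range := by
    rw [MonoidHom.range_eq_map]
    exact (IsPGroup.of_equiv hp (Subgroup.topEquiv).symm).map f
  obtain ⟨Q', hQ'⟩ := hrange.exists_le_sylow
  obtain ⟨g, hg⟩ : ∃ g : X →* ↥(Q' : Subgroup (Matrix.SpecialLinearGroup (Fin (2 * m + 1)) F)),
      ∀ x, (g x).1 = f x :=
    ⟨f.codRestrict (Q' : Subgroup (Matrix.SpecialLinearGroup (Fin (2 * m + 1)) F))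
      (fun w => hQ' ⟨w, rfl⟩), fun x => rfl⟩
  have hginj : Function.Injective g := by
    intro a b hab
    apply hf
    rw [← hg a, ← hg b, hab]
  have hQcard : Nat.card ↥(Q' : Subgroup (Matrix.SpecialLinearGroup (Fin (2 * m + 1)) F)) =
      2 ^ (m * (padicValNat 2 (Fintype.card F - 1) + padicValNat 2 (Fintype.card F + 1) + 1) +
        padicValNat 2 m.factorial) := by
    rw [Q'.card_eq_multiplicity, v2_SL hq]
  have hle : Nat.card ↥(Q' : Subgroup (Matrix.SpecialLinearGroup (Fin (2 * m + 1)) F)) ≤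
      Nat.card X := by
    rw [hQcard]
    exact Nat.le_of_dvd Nat.card_pos hd
  have hbij : Function.Bijective g := hginj.bijective_of_nat_card_le hle
  have hEQ : E ↥(Q' : Subgroup (Matrix.SpecialLinearGroup (Fin (2 * m + 1)) F)) :=
    E_of_mulEquiv (MulEquiv.ofBijective g hbij) hE
  exact E_of_mulEquiv (Sylow.equiv Q' P) hEQ

end tower

end Cfsg.Agent.Lib.Helper42.GLSyl
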