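import Mathlib
import Cfsg.Agent.Lib.Helper42.G2Tor
import Cfsg.Agent.Lib.Helper42.GLSyl
import Cfsg.Agent.Lib.Helper42.Circle
import Cfsg.Agent.Lib.Helper37.RankTools

/-!
# The tori `{[[x, εy], [y, x]]}` and the resulting `2`-subgroup of `GL₂ × GL₂`
-/

set_option autoImplicit false

open scoped commutatorElement
open Matrix

namespace Cfsg.Agent.Lib.Helper42.G2TorI

open Cfsg.Agent.Lib.Helper42.G2Tor

variable {F : Type*} [Field F]

theorem sq_of_trace_zero (M : Matrix (Fin 2) (Fin 2) F) (h : M 0 0 + M 1 1 = 0) :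
    M * M = (-M.det) • (1 : Matrix (Fin 2) (Fin 2) F) := by
  ext i j
  fin_cases i <;> fin_cases j <;>
    simp [Matrix.mul_apply, Fin.sum_univ_two, Matrix.det_fin_two]
  · linear_combination M 0 0 * h
  · linear_combination M 0 1 * h
  · linear_combination M 1 0 * h
  · linear_combination M 1 1 * h

theorem inv_val (g : GL (Fin 2) F) :
    ((g⁻¹ : GL (Fin 2) F) : Matrix (Fin 2) (Fin 2) F) =
      ((g : Matrix (Fin 2) (Fin 2) F).det)⁻¹ •
        !![(g : Matrix (Fin 2) (Fin 2) F) 1 1, -(g : Matrix (Fin 2) (Fin 2) F) 0 1;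
          -(g : Matrix (Fin 2) (Fin 2) F) 1 0, (g : Matrix (Fin 2) (Fin 2) F) 0 0] := by
  rw [Matrix.coe_units_inv, Matrix.inv_def, Matrix.adjugate_fin_two, Ring.inverse_eq_inv']

/-- The torus. -/
def Teps (ε : F) : Subgroup (GL (Fin 2) F) where
  carrier := {g | ∃ x y : F, (g : Matrix (Fin 2) (Fin 2) F) = !![x, ε * y; y, x]}
  one_mem' := ⟨1, 0, by
    ext i j
    fin_cases i <;> fin_cases j <;> simp⟩
  mul_mem' := by
    rintro g h ⟨x, y, hg⟩ ⟨x', y', hh⟩
    refine ⟨x * x' + ε * y * y', y * x' + x * y', ?_⟩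
    rw [Units.val_mul, hg, hh]
    ext i j
    fin_cases i <;> fin_cases j <;> simp [Matrix.mul_apply, Fin.sum_univ_two] <;> ring
  inv_mem' := by
    rintro g ⟨x, y, hg⟩
    refine ⟨((g : Matrix (Fin 2) (Fin 2) F).det)⁻¹ * x, -((g : Matrix (Fin 2) (Fin 2) F).det)⁻¹ * y,
      ?_⟩
    rw [inv_val, hg]
    ext i j
    fin_cases i <;> fin_cases j <;> simp <;> ring

theorem mem_Teps {ε : F} {g : GL (Fin 2) F} :
    g ∈ Teps ε ↔ ∃ x y : F, (g : Matrix (Fin 2) (Fin 2) F) = !![x, ε * y; y, x] := Iff.rfl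

/-- The inverting element. -/
noncomputable def jj (ε a b : F) (hR : ε * b ^ 2 - a ^ 2 = 1) : GL (Fin 2) F :=
  Matrix.GeneralLinearGroup.mkOfDetNeZero !![a, b; -(ε * b), -a] (by
    rw [Matrix.det_fin_two_of]
    have : a * -a - b * -(ε * b) = 1 := by linear_combination hR
    rw [this]
    exact one_ne_zero)

theorem jj_val (ε a b : F) (hR : ε * b ^ 2 - a ^ 2 = 1) :
    ((jj ε a b hR : GL (Fin 2) F) : Matrix (Fin 2) (Fin 2) F) = !![a, b; -(ε * b), -a] := rfl

/-- The element of order four in the torus. -/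
noncomputable def kk (ε y : F) (hk : ε * y ^ 2 = -1) : GL (Fin 2) F :=
  Matrix.GeneralLinearGroup.mkOfDetNeZero !![0, ε * y; y, 0] (by
    rw [Matrix.det_fin_two_of]
    have : (0 : F) * 0 - ε * y * y = 1 := by linear_combination -hk
    rw [this]
    exact one_ne_zero)

theorem kk_val (ε y : F) (hk : ε * y ^ 2 = -1) :
    ((kk ε y hk : GL (Fin 2) F) : Matrix (Fin 2) (Fin 2) F) = !![0, ε * y; y, 0] := rfl

theorem scalar_val (z : Fˣ) : ((GeneralLinearGroup.scalar (Fin 2) z : GL (Fin 2) F) :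
    Matrix (Fin 2) (Fin 2) F) = !![(z : F), 0; 0, (z : F)] := by
  ext i j
  fin_cases i <;> fin_cases j <;> simp

theorem datum (ε a b y : F) (hε : ε * ε = 1) (hR : ε * b ^ 2 - a ^ 2 = 1)
    (hk : ε * y ^ 2 = -1) (h2 : (2 : F) ≠ 0) :
    Datum (Teps ε) (jj ε a b hR) (kk ε y hk) := by
  have hjsq : jj ε a b hR * jj ε a b hR = GeneralLinearGroup.scalar (Fin 2) (-1) := by
    apply Units.ext
    rw [Units.val_mul, jj_val, scalar_val]
    ext i j
    fin_cases i <;> fin_cases j <;> simp [Matrix.mul_apply, Fin.sum_univ_two]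
    · linear_combination -hR
    · ring
    · ring
    · linear_combination -hR
  have hjdet : GeneralLinearGroup.det (jj ε a b hR) = 1 := by
    apply Units.ext
    change ((jj ε a b hR : GL (Fin 2) F) : Matrix (Fin 2) (Fin 2) F).det = 1
    rw [jj_val, Matrix.det_fin_two_of]
    linear_combination hR
  have hjinv : (jj ε a b hR)⁻¹ = GeneralLinearGroup.scalar (Fin 2) (-1) * jj ε a b hR := by
    rw [inv_eq_iff_mul_eq_one, GeneralLinearGroup.scalar_commute, ← mul_assoc, hjsq]
    exact Cfsg.Agent.Lib.Helper42.G2Tor.neg_sq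
  refine ⟨?_, ?_, hjdet, hjsq, ?_, ?_, ?_, ?_, ?_⟩
  · rintro s ⟨x, y, hs⟩ t ⟨x', y', ht⟩
    apply Units.ext
    rw [Units.val_mul, Units.val_mul, hs, ht]
    ext i j
    fin_cases i <;> fin_cases j <;> simp [Matrix.mul_apply, Fin.sum_univ_two] <;> ring
  · intro z
    refine ⟨(z : F), 0, ?_⟩
    rw [scalar_val, mul_zero]
  · rintro t ⟨x, y', ht⟩
    have hH : jj ε a b hR * t * (jj ε a b hR * t) =
        GeneralLinearGroup.scalar (Fin 2) (-1) *
          GeneralLinearGroup.scalar (Fin 2) (GeneralLinearGroup.det t) := by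
      apply Units.ext
      have htr : ((jj ε a b hR : GL (Fin 2) F) : Matrix (Fin 2) (Fin 2) F) *
          (t : Matrix (Fin 2) (Fin 2) F) = !![a * x + b * y', a * (ε * y') + b * x;
            -(ε * b) * x + -a * y', -(ε * b) * (ε * y') + -a * x] := by
        rw [jj_val, ht]
        ext i j
        fin_cases i <;> fin_cases j <;> simp [Matrix.mul_apply, Fin.sum_univ_two]
      have hdet : (((jj ε a b hR : GL (Fin 2) F) : Matrix (Fin 2) (Fin 2) F) *
          (t : Matrix (Fin 2) (Fin 2) F)).det = (t : Matrix (Fin 2) (Fin 2) F).det := by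
        rw [Matrix.det_mul]
        have := congrArg Units.val hjdet
        change ((jj ε a b hR : GL (Fin 2) F) : Matrix (Fin 2) (Fin 2) F).det = 1 at this
        rw [this, one_mul]
      have h0 := sq_of_trace_zero (((jj ε a b hR : GL (Fin 2) F) : Matrix (Fin 2) (Fin 2) F) *
          (t : Matrix (Fin 2) (Fin 2) F)) (by
        rw [htr]
        simp only [Matrix.of_apply, Matrix.cons_val_zero, Matrix.cons_val_one]
        linear_combination (-b * y') * hε)
      rw [hdet] at h0
      rw [Units.val_mul, Units.val_mul, h0, Units.val_mul, scalar_val, scalar_val]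
      ext i j
      fin_cases i <;> fin_cases j <;> simp [GeneralLinearGroup.det]
    have h1 : jj ε a b hR * t * jj ε a b hR =
        GeneralLinearGroup.scalar (Fin 2) (-1) *
          GeneralLinearGroup.scalar (Fin 2) (GeneralLinearGroup.det t) * t⁻¹ := by
      rw [eq_mul_inv_iff_mul_eq, ← hH]
      simp only [mul_assoc]
    calc jj ε a b hR * t * (jj ε a b hR)⁻¹
        = jj ε a b hR * t * (GeneralLinearGroup.scalar (Fin 2) (-1) * jj ε a b hR) := by
          rw [hjinv]
      _ = GeneralLinearGroup.scalar (Fin 2) (-1) * (jj ε a b hR * t * jj ε a b hR) := by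
          rw [← mul_assoc (jj ε a b hR * t), ← GeneralLinearGroup.scalar_commute (-1 : Fˣ)
            (jj ε a b hR * t), mul_assoc]
      _ = GeneralLinearGroup.scalar (Fin 2) (-1) * (GeneralLinearGroup.scalar (Fin 2) (-1) *
          GeneralLinearGroup.scalar (Fin 2) (GeneralLinearGroup.det t) * t⁻¹) := by rw [h1]
      _ = GeneralLinearGroup.scalar (Fin 2) (GeneralLinearGroup.det t) * t⁻¹ := by
          rw [← mul_assoc, ← mul_assoc, Cfsg.Agent.Lib.Helper42.G2Tor.neg_sq, one_mul]
  · rintro ⟨x, y', hj⟩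
    rw [jj_val] at hj
    have e00 := congrFun (congrFun hj 0) 0
    have e01 := congrFun (congrFun hj 0) 1
    have e10 := congrFun (congrFun hj 1) 0
    have e11 := congrFun (congrFun hj 1) 1
    simp only [Matrix.of_apply, Matrix.cons_val_zero, Matrix.cons_val_one] at e00 e01 e10 e11
    have ha : a = 0 := by
      have : (2 : F) * a = 0 := by linear_combination e00 - e11
      rcases mul_eq_zero.mp this with h | h
      · exact absurd h h2
      · exact h
    have hb : b = 0 := by
      have : (2 : F) * b = 0 := by linear_combination e01 - ε * e10 - b * hε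
      rcases mul_eq_zero.mp this with h | h
      · exact absurd h h2
      · exact h
    rw [ha, hb] at hR
    norm_num at hR
  · exact ⟨0, y, rfl⟩
  · apply Units.ext
    change ((kk ε y hk : GL (Fin 2) F) : Matrix (Fin 2) (Fin 2) F).det = 1
    rw [kk_val, Matrix.det_fin_two_of]
    linear_combination -hk
  · apply Units.ext
    rw [Units.val_mul, kk_val, scalar_val]
    ext i j
    fin_cases i <;> fin_cases j <;> simp [Matrix.mul_apply, Fin.sum_univ_two]
    · linear_combination hk
    · linear_combination hk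

theorem card_Teps (ε : F) :
    Nat.card (Teps ε) = Nat.card {p : F × F // p.1 ^ 2 - ε * p.2 ^ 2 ≠ 0} := by
  symm
  apply Nat.card_congr
  apply Equiv.ofBijective
    (fun p : {p : F × F // p.1 ^ 2 - ε * p.2 ^ 2 ≠ 0} =>
      (⟨Matrix.GeneralLinearGroup.mkOfDetNeZero !![p.1.1, ε * p.1.2; p.1.2, p.1.1] (by
          rw [Matrix.det_fin_two_of]
          intro h
          apply p.2
          linear_combination h),
        ⟨p.1.1, p.1.2, rfl⟩⟩ : Teps ε))
  constructor
  · rintro ⟨⟨x, y⟩, h⟩ ⟨⟨x', y'⟩, h'⟩ hpp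
    have h1 : (!![x, ε * y; y, x] : Matrix (Fin 2) (Fin 2) F) = !![x', ε * y'; y', x'] :=
      congrArg (fun z : Teps ε => ((z : GL (Fin 2) F) : Matrix (Fin 2) (Fin 2) F)) hpp
    have e00 := congrFun (congrFun h1 0) 0
    have e10 := congrFun (congrFun h1 1) 0
    simp only [Matrix.of_apply, Matrix.cons_val_zero, Matrix.cons_val_one] at e00 e10
    apply Subtype.ext
    change (x, y) = (x', y')
    rw [e00, e10]
  · rintro ⟨g, x, y, hg⟩
    have hdet : x ^ 2 - ε * y ^ 2 ≠ 0 := by
      intro h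
      have hd : (g : Matrix (Fin 2) (Fin 2) F).det = 0 := by
        rw [hg, Matrix.det_fin_two_of]
        linear_combination h
      have hu := (Matrix.isUnit_iff_isUnit_det _).mp g.isUnit
      rw [hd] at hu
      exact not_isUnit_zero hu
    exact ⟨⟨(x, y), hdet⟩, Subtype.ext (Units.ext hg.symm)⟩

theorem card_split [Fintype F] (h2 : (2 : F) ≠ 0) :
    Nat.card {p : F × F // p.1 ^ 2 - 1 * p.2 ^ 2 ≠ 0} = (Fintype.card F - 1) ^ 2 := by
  have e : {p : F × F // p.1 ^ 2 - 1 * p.2 ^ 2 ≠ 0} ≃ Fˣ × Fˣ :=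
    { toFun := fun p => (Units.mk0 (p.1.1 - p.1.2) (by
          intro h
          apply p.2
          linear_combination (p.1.1 + p.1.2) * h),
        Units.mk0 (p.1.1 + p.1.2) (by
          intro h
          apply p.2
          linear_combination (p.1.1 - p.1.2) * h))
      invFun := fun u => ⟨(((u.1 : F) + u.2) / 2, ((u.2 : F) - u.1) / 2), by
        have e : (((u.1 : F) + u.2) / 2) ^ 2 - 1 * (((u.2 : F) - u.1) / 2) ^ 2 =
            (u.1 : F) * u.2 := by
          field_simp
          ring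
        change (((u.1 : F) + u.2) / 2) ^ 2 - 1 * (((u.2 : F) - u.1) / 2) ^ 2 ≠ 0
        rw [e]
        exact mul_ne_zero u.1.ne_zero u.2.ne_zero⟩
      left_inv := by
        rintro ⟨⟨x, y⟩, h⟩
        apply Subtype.ext
        apply Prod.ext
        · change ((x - y) + (x + y)) / 2 = x
          field_simp
          ring
        · change ((x + y) - (x - y)) / 2 = y
          field_simp
          ring
      right_inv := by
        rintro ⟨u, v⟩
        apply Prod.ext
        · apply Units.ext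
          change ((u : F) + v) / 2 - ((v : F) - u) / 2 = u
          field_simp
          ring
        · apply Units.ext
          change ((u : F) + v) / 2 + ((v : F) - u) / 2 = v
          field_simp
          ring }
  rw [Nat.card_congr e, Nat.card_prod, Nat.card_units, Nat.card_eq_fintype_card, pow_two]

/-- The `2`-subgroup of `GL₂ × GL₂` lifting a Sylow `2`-subgroup of the group of type `SO₄`. -/
theorem exists_Y [Fintype F] (hq : Odd (Fintype.card F)) :
    ∃ Y : Subgroup (GL (Fin 2) F × GL (Fin 2) F),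
      (∀ y ∈ Y, GeneralLinearGroup.det y.1 = GeneralLinearGroup.det y.2) ∧
      IsPGroup 2 Y ∧
      2 ^ (padicValNat 2 (Fintype.card F - 1) + 2 * padicValNat 2 (Fintype.card F ^ 2 - 1)) ∣
        Nat.card Y ∧
      ∀ y ∈ Y, ∃ z : Fˣ,
        ((GeneralLinearGroup.scalar (Fin 2) z, GeneralLinearGroup.scalar (Fin 2) z) :
          GL (Fin 2) F × GL (Fin 2) F) ∈ Y ∧
        y ^ 2 * (GeneralLinearGroup.scalar (Fin 2) z, GeneralLinearGroup.scalar (Fin 2) z) ∈
          ⁅Y, Y⁆ := by
  have : Fact (Nat.Prime 2) := ⟨Nat.prime_two⟩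
  have h2 : (2 : F) ≠ 0 := Cfsg.Agent.Lib.Helper37.RankTools.two_ne_zero_of_odd_card hq
  have hq1 : 1 < Fintype.card F := Fintype.one_lt_card
  have hmod : Fintype.card F % 4 = 1 ∨ Fintype.card F % 4 = 3 := by
    have := Nat.odd_iff.mp hq
    omega
  rcases hmod with hmod | hmod
  · obtain ⟨i, hi⟩ : IsSquare (-1 : F) := by
      rw [FiniteField.isSquare_neg_one_iff]
      omega
    have D := datum (1 : F) 0 1 i (by ring) (by ring) (by linear_combination -hi) h2
    have hτ : 2 ^ (2 * padicValNat 2 (Fintype.card F - 1)) ∣ Nat.card (Teps (1 : F)) := by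
      rw [card_Teps, card_split h2, pow_mul']
      exact pow_dvd_pow_of_dvd pow_padicValNat_dvd 2
    obtain ⟨Y, h1, hp, h3, h4⟩ := exists_Y_of_datum D _ hτ
    refine ⟨Y, h1, hp, ?_, h4⟩
    obtain ⟨y, hy⟩ := (IsPGroup.iff_card (p := 2)).mp hp
    rw [hy] at h3 ⊢
    rw [← pow_add] at h3
    have h5 := (Nat.pow_dvd_pow_iff_le_right (by norm_num)).mp h3
    have h6 := Cfsg.Agent.Lib.Helper42.SylE.v2_pow_sub_one (Fintype.card F) hq (by omega) 1
      one_ne_zero
    rw [mul_one, Cfsg.Agent.Lib.Helper42.Circle.v2_of_mod4 (Fintype.card F + 1) (by omega)] at h6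
    simp only [padicValNat_one_right] at h6
    apply pow_dvd_pow
    omega
  · obtain ⟨a, b, hab⟩ := Cfsg.Agent.Lib.Helper42.SpWr.exists_sq_add_sq F (by omega)
    have D := datum (-1 : F) a b 1 (by ring) (by linear_combination -hab) (by ring) h2
    have hτ : 2 ^ padicValNat 2 (Fintype.card F ^ 2 - 1) ∣ Nat.card (Teps (-1 : F)) := by
      have e : Nat.card {p : F × F // p.1 ^ 2 - (-1) * p.2 ^ 2 ≠ 0} =
          Nat.card {p : F × F // p.1 ^ 2 + p.2 ^ 2 ≠ 0} := by
        apply Nat.card_congr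
        apply Equiv.subtypeEquivRight
        intro p
        rw [show p.1 ^ 2 - (-1) * p.2 ^ 2 = p.1 ^ 2 + p.2 ^ 2 by ring]
      have h5 := Cfsg.Agent.Lib.Helper42.GLSyl.card_norm_ne (F := F) hmod
      rw [card_Teps, e, show Nat.card {p : F × F // p.1 ^ 2 + p.2 ^ 2 ≠ 0} =
        Fintype.card F ^ 2 - 1 by omega]
      exact pow_padicValNat_dvd
    obtain ⟨Y, h1, hp, h3, h4⟩ := exists_Y_of_datum D _ hτ
    refine ⟨Y, h1, hp, ?_, h4⟩
    obtain ⟨y, hy⟩ := (IsPGroup.iff_card (p := 2)).mp hp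
    rw [hy] at h3 ⊢
    rw [← pow_add] at h3
    have h5 := (Nat.pow_dvd_pow_iff_le_right (by norm_num)).mp h3
    rw [Cfsg.Agent.Lib.Helper42.Circle.v2_of_mod4 (Fintype.card F - 1) (by omega)] at h5 ⊢
    apply pow_dvd_pow
    omega

end Cfsg.Agent.Lib.Helper42.G2TorI
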