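import Mathlib
import Cfsg.Agent.Lib.Helper42.G2Base
import Cfsg.Agent.Lib.Helper42.G2CD
import Cfsg.Agent.Lib.Helper42.G2TorI
import Cfsg.Agent.Lib.Helper42.SylE
import Cfsg.Agent.Lib.Helper5.SLCard

/-!
# Sylow `2`-subgroups of `G₂(q)`, `q` odd: assembly

`main` derives the statement "squares lie in the derived subgroup" for the Sylow `2`-subgroups of
`G₂(F)` from three facts on the Zorn algebra (number of primitive idempotents, transitivity of
the automorphism group on them, the stabiliser of one of them embeds in `SL₃`).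
-/

set_option autoImplicit false

open scoped commutatorElement
open Matrix

namespace Cfsg.Agent.Lib.Helper42.G2Asm

open Cfsg.Agent.Lib.Helper42.G2Base Cfsg.Agent.Lib.Helper42.G2CD Cfsg.Agent.Lib.Helper42.SylE

/-- Transfer to the Sylow `2`-subgroups along an embedding of a large `2`-group. -/
theorem sylow_E_of_inj {G : Type*} [Group G] [Finite G] {X : Type*} [Group X] [Finite X]
    (hX : IsPGroup 2 X) (hE : E X) (f : X →* G) (hf : Function.Injective f)
    (hcard : 2 ^ (Nat.card G).factorization 2 ≤ Nat.card X) (P : Sylow 2 G) :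
    E ↥(P : Subgroup G) := by
  have hrange : IsPGroup 2 ↥f.range := by
    rw [MonoidHom.range_eq_map]
    exact (IsPGroup.of_equiv hX (Subgroup.topEquiv).symm).map f
  obtain ⟨Q', hQ'⟩ := hrange.exists_le_sylow
  obtain ⟨g, hg⟩ : ∃ g : X →* ↥(Q' : Subgroup G), ∀ x, (g x).1 = f x :=
    ⟨f.codRestrict (Q' : Subgroup G) (fun w => hQ' ⟨w, rfl⟩), fun x => rfl⟩
  have hginj : Function.Injective g := by
    intro a b hab
    apply hf
    rw [← hg a, ← hg b, hab]
  have hle : Nat.card ↥(Q' : Subgroup G) ≤ Nat.card X := by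
    rw [Q'.card_eq_multiplicity]
    exact hcard
  have hbij : Function.Bijective g := hginj.bijective_of_nat_card_le hle
  exact E_of_mulEquiv (Sylow.equiv Q' P) (E_of_mulEquiv (MulEquiv.ofBijective g hbij) hE)

theorem arith (q s : ℕ) (hq : 1 < q)
    (hs : s * (q - 1) = (q ^ 3 - 1) * (q ^ 3 - q) * (q ^ 3 - q ^ 2)) :
    q ^ 3 * (q ^ 3 + 1) * s = q ^ 6 * (q ^ 6 - 1) * (q ^ 2 - 1) := by
  obtain ⟨a, rfl⟩ : ∃ a, q = a + 2 := ⟨q - 2, by omega⟩
  obtain ⟨b, hb⟩ : ∃ b, (a + 2) ^ 2 = b + 1 :=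
    ⟨(a + 2) ^ 2 - 1, (Nat.sub_add_cancel (Nat.one_le_pow _ _ (by omega))).symm⟩
  obtain ⟨c, hc⟩ : ∃ c, (a + 2) ^ 3 = c + 1 :=
    ⟨(a + 2) ^ 3 - 1, (Nat.sub_add_cancel (Nat.one_le_pow _ _ (by omega))).symm⟩
  obtain ⟨d, hd⟩ : ∃ d, (a + 2) ^ 6 = d + 1 :=
    ⟨(a + 2) ^ 6 - 1, (Nat.sub_add_cancel (Nat.one_le_pow _ _ (by omega))).symm⟩
  have e1 : (a + 2) ^ 3 - (a + 2) = (a + 2) * b := by
    apply Nat.sub_eq_of_eq_add
    have : (a + 2) ^ 3 = (a + 2) * (a + 2) ^ 2 := by ring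
    rw [this, hb]
    ring
  have e2 : (a + 2) ^ 3 - (a + 2) ^ 2 = (a + 2) ^ 2 * (a + 1) := by
    apply Nat.sub_eq_of_eq_add
    ring
  have e3 : a + 2 - 1 = a + 1 := by omega
  have e4 : (a + 2) ^ 3 - 1 = c := by rw [hc]; rfl
  have e5 : (a + 2) ^ 6 - 1 = d := by rw [hd]; rfl
  have e6 : (a + 2) ^ 2 - 1 = b := by rw [hb]; rfl
  rw [e1, e2, e3, e4] at hs
  rw [e5, e6]
  have key : ((a + 2) ^ 3 + 1) * c = d := by
    have h6 : (a + 2) ^ 6 = ((a + 2) ^ 3) ^ 2 := by ring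
    rw [h6, hc] at hd
    rw [hc]
    have h7 : (c + 1 + 1) * c + 1 = d + 1 := by
      rw [← hd]
      ring
    omega
  apply Nat.eq_of_mul_eq_mul_right (show 0 < a + 1 by omega)
  rw [mul_assoc, hs, ← key]
  ring

section upper

variable {F : Type*} [Field F]

theorem one8_mul (x : Fin 8 → F) : Cfsg.Lie.zornMul (one8 F) x = x := by
  ext i
  fin_cases i <;> simp [Cfsg.Lie.zornMul, one8, Cfsg.Lie.dot3, Cfsg.Lie.cross3]

theorem mul_one8 (x : Fin 8 → F) : Cfsg.Lie.zornMul x (one8 F) = x := by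
  ext i
  fin_cases i <;> simp [Cfsg.Lie.zornMul, one8, Cfsg.Lie.dot3, Cfsg.Lie.cross3]

theorem e0_mul_e0 : Cfsg.Lie.zornMul (e0 F) (e0 F) = e0 F := by
  ext i
  fin_cases i <;> simp [Cfsg.Lie.zornMul, e0, Cfsg.Lie.dot3, Cfsg.Lie.cross3]

theorem aut_one8 {g : (Fin 8 → F) ≃ₗ[F] (Fin 8 → F)} (hg : g ∈ AutO F) :
    g (one8 F) = one8 F := by
  have h1 : ∀ y, Cfsg.Lie.zornMul (g (one8 F)) y = y := by
    intro y
    obtain ⟨y', rfl⟩ := g.surjective y
    rw [← hg, one8_mul]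
  have h2 := h1 (one8 F)
  rw [mul_one8] at h2
  exact h2

theorem isIdem_of_aut {g : (Fin 8 → F) ≃ₗ[F] (Fin 8 → F)} (hg : g ∈ AutO F) :
    IsIdem F (g (e0 F)) := by
  refine ⟨?_, ?_, ?_⟩
  · rw [← hg, e0_mul_e0]
  · intro h
    have h1 : e0 F = 0 := g.injective (by rw [h, map_zero])
    have h2 := congrFun h1 0
    simp [e0] at h2
  · intro h
    have h1 : e0 F = one8 F := g.injective (by rw [h, aut_one8 hg])
    have h2 := congrFun h1 7
    simp [e0, one8] at h2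

theorem card_AutO_dvd [Fintype F]
    (c1 : Nat.card {e : Fin 8 → F // IsIdem F e} =
      Fintype.card F ^ 3 * (Fintype.card F ^ 3 + 1))
    (c2 : ∀ e : Fin 8 → F, IsIdem F e → ∃ g ∈ AutO F, g (e0 F) = e)
    (c3 : ∀ S : Subgroup ((Fin 8 → F) ≃ₗ[F] (Fin 8 → F)), S ≤ AutO F →
      (∀ g ∈ S, g (e0 F) = e0 F) →
        Nat.card S ∣ Nat.card (Matrix.SpecialLinearGroup (Fin 3) F)) :
    Nat.card (AutO F) ∣ Fintype.card F ^ 3 * (Fintype.card F ^ 3 + 1) *
      Nat.card (Matrix.SpecialLinearGroup (Fin 3) F) := by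
  have h1 := Nat.card_congr (MulAction.orbitProdStabilizerEquivGroup ↥(AutO F) (e0 F))
  rw [Nat.card_prod] at h1
  have h2 : Nat.card (MulAction.orbit ↥(AutO F) (e0 F)) =
      Nat.card {e : Fin 8 → F // IsIdem F e} := by
    apply Nat.card_congr
    apply Equiv.subtypeEquivRight
    intro e
    constructor
    · rintro ⟨g, rfl⟩
      exact isIdem_of_aut g.2
    · intro he
      obtain ⟨g, hg, hge⟩ := c2 e he
      exact ⟨⟨g, hg⟩, hge⟩
  have h3 : Nat.card (MulAction.stabilizer ↥(AutO F) (e0 F)) ∣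
      Nat.card (Matrix.SpecialLinearGroup (Fin 3) F) := by
    have h4 := c3 ((MulAction.stabilizer ↥(AutO F) (e0 F)).map (AutO F).subtype) (by
      rintro _ ⟨g, -, rfl⟩
      exact g.2) (by
      rintro _ ⟨g, hg, rfl⟩
      exact hg)
    rwa [Subgroup.card_map_of_injective (AutO F).subtype_injective] at h4
  rw [← h1, h2, c1]
  exact Nat.mul_dvd_mul_left _ h3

theorem v2_AutO [Fintype F] (hF : Odd (Fintype.card F))
    (c1 : Nat.card {e : Fin 8 → F // IsIdem F e} =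
      Fintype.card F ^ 3 * (Fintype.card F ^ 3 + 1))
    (c2 : ∀ e : Fin 8 → F, IsIdem F e → ∃ g ∈ AutO F, g (e0 F) = e)
    (c3 : ∀ S : Subgroup ((Fin 8 → F) ≃ₗ[F] (Fin 8 → F)), S ≤ AutO F →
      (∀ g ∈ S, g (e0 F) = e0 F) →
        Nat.card S ∣ Nat.card (Matrix.SpecialLinearGroup (Fin 3) F)) :
    (Nat.card (AutO F)).factorization 2 ≤ 2 * padicValNat 2 (Fintype.card F ^ 2 - 1) := by
  have : Fact (Nat.Prime 2) := ⟨Nat.prime_two⟩
  have hq1 : 1 < Fintype.card F := Fintype.one_lt_card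
  have hq3 : 3 ≤ Fintype.card F := by
    have := Nat.odd_iff.mp hF
    omega
  have hdvd := card_AutO_dvd c1 c2 c3
  have hs := Cfsg.Agent.Lib.Helper5.SLCard.card_SL_mul (F := F) (ι := Fin 3)
  rw [Nat.card_units, Nat.card_eq_fintype_card (α := F), Matrix.card_GL_field,
    Fin.prod_univ_three] at hs
  simp only [Fin.val_zero, Fin.val_one, Fin.val_two, pow_zero, pow_one] at hs
  rw [arith _ _ hq1 hs] at hdvd
  have hfin : Finite ((Fin 8 → F) ≃ₗ[F] (Fin 8 → F)) :=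
    Finite.of_equiv _ (glEquiv F).toEquiv
  have hA : Nat.card (AutO F) ≠ 0 := Nat.card_pos.ne'
  have h6 : Fintype.card F ^ 6 - 1 ≠ 0 := by
    have := Nat.one_lt_pow (n := 6) (by norm_num) hq1
    omega
  have h2' : Fintype.card F ^ 2 - 1 ≠ 0 := by
    have := Nat.one_lt_pow (n := 2) (by norm_num) hq1
    omega
  have hq6 : Fintype.card F ^ 6 ≠ 0 := by positivity
  have hN : Fintype.card F ^ 6 * (Fintype.card F ^ 6 - 1) * (Fintype.card F ^ 2 - 1) ≠ 0 :=
    mul_ne_zero (mul_ne_zero hq6 h6) h2'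
  have hle := (Nat.factorization_le_iff_dvd hA hN).mpr hdvd 2
  rw [Nat.factorization_def _ Nat.prime_two, Nat.factorization_def _ Nat.prime_two] at hle
  rw [Nat.factorization_def _ Nat.prime_two]
  rw [padicValNat.mul (mul_ne_zero hq6 h6) h2', padicValNat.mul hq6 h6] at hle
  have hodd6 : padicValNat 2 (Fintype.card F ^ 6) = 0 := by
    apply padicValNat.eq_zero_of_not_dvd
    intro h
    have := (Nat.Prime.dvd_of_dvd_pow Nat.prime_two h)
    have := Nat.odd_iff.mp hF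
    omega
  have e6 := v2_pow_sub_one (Fintype.card F) hF hq3 3 (by norm_num)
  have e2 := v2_pow_sub_one (Fintype.card F) hF hq3 1 one_ne_zero
  have h3 : padicValNat 2 3 = 0 := padicValNat.eq_zero_of_not_dvd (by norm_num)
  rw [show 2 * 3 = 6 from rfl, h3] at e6
  rw [mul_one, padicValNat_one_right] at e2
  omega

end upper

section lower

variable {F : Type*} [Field F]

theorem phi_scalar (z : Fˣ) :
    phi ((GeneralLinearGroup.scalar (Fin 2) z, GeneralLinearGroup.scalar (Fin 2) z) :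
      GL (Fin 2) F × GL (Fin 2) F) = 1 := by
  have hc : ∀ m : Matrix (Fin 2) (Fin 2) F,
      ((GeneralLinearGroup.scalar (Fin 2) z : GL (Fin 2) F) : Matrix (Fin 2) (Fin 2) F) * m *
        (((GeneralLinearGroup.scalar (Fin 2) z)⁻¹ : GL (Fin 2) F) : Matrix (Fin 2) (Fin 2) F) =
          m := by
    intro m
    have h : ((GeneralLinearGroup.scalar (Fin 2) z : GL (Fin 2) F) :
        Matrix (Fin 2) (Fin 2) F) * m =
        m * ((GeneralLinearGroup.scalar (Fin 2) z : GL (Fin 2) F) :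
          Matrix (Fin 2) (Fin 2) F) := by
      rw [GeneralLinearGroup.coe_scalar]
      exact Matrix.scalar_comm _ (Commute.all _) _
    rw [h, mul_assoc, coe_mul_inv, mul_one]
  apply LinearEquiv.ext
  intro v
  rw [phi_apply, lam_apply]
  simp only [hc]
  exact psi.apply_symm_apply v

theorem exists_X [Fintype F] (hF : Odd (Fintype.card F)) :
    ∃ X : Subgroup ((Fin 8 → F) ≃ₗ[F] (Fin 8 → F)), X ≤ AutO F ∧ IsPGroup 2 X ∧
      2 ^ (2 * padicValNat 2 (Fintype.card F ^ 2 - 1)) ≤ Nat.card X ∧ E ↥X := by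
  have : Fact (Nat.Prime 2) := ⟨Nat.prime_two⟩
  have hfin : Finite ((Fin 8 → F) ≃ₗ[F] (Fin 8 → F)) :=
    Finite.of_equiv _ (glEquiv F).toEquiv
  obtain ⟨Y, h1, hp, h3, h4⟩ := Cfsg.Agent.Lib.Helper42.G2TorI.exists_Y hF
  refine ⟨Y.map phi, ?_, hp.map phi, ?_, ?_⟩
  · rintro _ ⟨y, hy, rfl⟩
    exact phi_mem y (h1 y hy)
  · have e1 := Subgroup.relIndex_mul_relIndex ⊥ ((phi (F := F)).ker ⊓ Y) Y bot_le inf_le_right
    rw [Subgroup.relIndex_bot_left, Subgroup.relIndex_bot_left, Subgroup.inf_relIndex_right,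
      Subgroup.relIndex_ker] at e1
    have hK : IsPGroup 2 ↥((phi (F := F)).ker ⊓ Y) := hp.to_le inf_le_right
    obtain ⟨i, hi⟩ := (IsPGroup.iff_card (p := 2)).mp hK
    obtain ⟨x, hx⟩ := (IsPGroup.iff_card (p := 2)).mp (hp.map (phi (F := F)))
    obtain ⟨y, hy⟩ := (IsPGroup.iff_card (p := 2)).mp hp
    have hdvd : Nat.card ↥((phi (F := F)).ker ⊓ Y) ∣ Fintype.card F - 1 := by
      have hle : (phi (F := F)).ker ⊓ Y ≤
          ((GeneralLinearGroup.scalar (Fin 2)).prod (GeneralLinearGroup.scalar (Fin 2)) :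
            Fˣ →* GL (Fin 2) F × GL (Fin 2) F).range := by
        rintro g ⟨hg, -⟩
        obtain ⟨z, rfl⟩ := phi_ker g (MonoidHom.mem_ker.mp hg)
        exact ⟨z, rfl⟩
      have h5 := (Subgroup.card_dvd_of_le hle).trans (Subgroup.card_range_dvd _)
      rw [Nat.card_units, Nat.card_eq_fintype_card (α := F)] at h5
      exact h5
    have hq : Fintype.card F - 1 ≠ 0 := by
      have := Fintype.one_lt_card (α := F)
      omega
    rw [hi] at hdvd e1
    rw [hx] at e1 ⊢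
    rw [hy] at e1 h3
    have hi' : i ≤ padicValNat 2 (Fintype.card F - 1) := (padicValNat_dvd_iff_le hq).mp hdvd
    have h5 := (Nat.pow_dvd_pow_iff_le_right (by norm_num)).mp h3
    rw [← pow_add] at e1
    have h6 : i + x = y := Nat.pow_right_injective (le_refl 2) e1
    exact Nat.pow_le_pow_right (by norm_num) (by omega)
  · intro x
    obtain ⟨y, hy, hyx⟩ := x.2
    obtain ⟨z, hz, hzz⟩ := h4 y hy
    have h5 : ((x : (Fin 8 → F) ≃ₗ[F] (Fin 8 → F))) ^ 2 ∈ ⁅Y.map phi, Y.map phi⁆ := by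
      rw [← Subgroup.map_commutator]
      refine ⟨y ^ 2 * (GeneralLinearGroup.scalar (Fin 2) z, GeneralLinearGroup.scalar (Fin 2) z),
        hzz, ?_⟩
      rw [map_mul, map_pow, phi_scalar, mul_one, hyx]
    rw [← Subgroup.map_subtype_commutator] at h5
    obtain ⟨w, hw, hwx⟩ := h5
    have e : w = x ^ 2 := Subtype.ext hwx
    rw [← e]
    exact hw

/-- The assembly: squares of a Sylow `2`-subgroup of `G₂(F)`, `|F|` odd, lie in its derived
subgroup, given the three facts on primitive idempotents. -/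
theorem main [Fintype F] (hF : Odd (Fintype.card F))
    (c1 : Nat.card {e : Fin 8 → F // IsIdem F e} =
      Fintype.card F ^ 3 * (Fintype.card F ^ 3 + 1))
    (c2 : ∀ e : Fin 8 → F, IsIdem F e → ∃ g ∈ AutO F, g (e0 F) = e)
    (c3 : ∀ S : Subgroup ((Fin 8 → F) ≃ₗ[F] (Fin 8 → F)), S ≤ AutO F →
      (∀ g ∈ S, g (e0 F) = e0 F) →
        Nat.card S ∣ Nat.card (Matrix.SpecialLinearGroup (Fin 3) F))
    (P : Sylow 2 (Cfsg.Lie.G2 F)) :
    ∀ x : (P : Subgroup (Cfsg.Lie.G2 F)), x ^ 2 ∈ commutator (P : Subgroup (Cfsg.Lie.G2 F)) := by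
  have hfin : Finite ((Fin 8 → F) ≃ₗ[F] (Fin 8 → F)) :=
    Finite.of_equiv _ (glEquiv F).toEquiv
  obtain ⟨X, hXA, hXp, hXc, hXE⟩ := exists_X hF
  have hv := v2_AutO hF c1 c2 c3
  have hcard : Nat.card (Cfsg.Lie.G2 F) = Nat.card (AutO F) :=
    Nat.card_congr (g2Equiv F).toEquiv
  obtain ⟨f, hf⟩ : ∃ f : ↥X →* ↥(Cfsg.Lie.G2 F), Function.Injective f :=
    ⟨(g2Equiv F).symm.toMonoidHom.comp (Subgroup.inclusion hXA),
      (g2Equiv F).symm.injective.comp (Subgroup.inclusion_injective hXA)⟩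
  have hle : 2 ^ (Nat.card (Cfsg.Lie.G2 F)).factorization 2 ≤ Nat.card X := by
    rw [hcard]
    exact (Nat.pow_le_pow_right (by norm_num) hv).trans hXc
  exact sylow_E_of_inj hXp hXE f hf hle P

end lower

end Cfsg.Agent.Lib.Helper42.G2Asm
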