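import Mathlib

/-!
# Orthogonal matrices: coordinate embeddings and permutation matrices

* `OG ι F`: the invertible matrices `g` with `gᵀ * g = 1`, as a subgroup of `GL ι F`.
* `emb p : GL κ F →* GL ι F` for an embedding `p : κ ↪ ι`: act as `g` on the coordinates in
  the range of `p` and as the identity elsewhere.
* `permGL : Equiv.Perm ι →* GL ι F`: permutation matrices.
* `hom_emb_eq`: a homomorphism from `OG ι F` to a commutative group takes the same value on
  `emb p g` for all `p`.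
* `hom_perm_even`: such a homomorphism with values of exponent two is trivial on even
  permutation matrices.
-/

set_option autoImplicit false
set_option linter.unusedSectionVars false

open Matrix

namespace Cfsg.Agent.Lib.Helper42.OEmb

section og

variable {F : Type*} [Field F] {ι : Type*} [Fintype ι] [DecidableEq ι]

/-- The orthogonal group (for the sum of squares) inside `GL`. -/
def OG (ι : Type*) [Fintype ι] [DecidableEq ι] (F : Type*) [Field F] :
    Subgroup (Matrix.GeneralLinearGroup ι F) where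
  carrier := {g | (g : Matrix ι ι F)ᵀ * (g : Matrix ι ι F) = 1}
  one_mem' := by simp
  mul_mem' := by
    intro a b ha hb
    show ((a * b : Matrix.GeneralLinearGroup ι F) : Matrix ι ι F)ᵀ *
      ((a * b : Matrix.GeneralLinearGroup ι F) : Matrix ι ι F) = 1
    have ha' : (a : Matrix ι ι F)ᵀ * (a : Matrix ι ι F) = 1 := ha
    have hb' : (b : Matrix ι ι F)ᵀ * (b : Matrix ι ι F) = 1 := hb
    rw [Units.val_mul, Matrix.transpose_mul, Matrix.mul_assoc,
      ← Matrix.mul_assoc _ (a : Matrix ι ι F), ha', Matrix.one_mul, hb']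
  inv_mem' := by
    intro a ha
    have ha' : (a : Matrix ι ι F)ᵀ * (a : Matrix ι ι F) = 1 := ha
    have h1 : (a : Matrix ι ι F) * (a : Matrix ι ι F)ᵀ = 1 := mul_eq_one_comm.mp ha'
    have h2 : ((a⁻¹ : Matrix.GeneralLinearGroup ι F) : Matrix ι ι F) = (a : Matrix ι ι F)ᵀ := by
      calc ((a⁻¹ : Matrix.GeneralLinearGroup ι F) : Matrix ι ι F)
          = ((a⁻¹ : Matrix.GeneralLinearGroup ι F) : Matrix ι ι F) *
            ((a : Matrix ι ι F) * (a : Matrix ι ι F)ᵀ) := by rw [h1, Matrix.mul_one]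
        _ = (a : Matrix ι ι F)ᵀ := by
          rw [← Matrix.mul_assoc, ← Units.val_mul, inv_mul_cancel, Units.val_one, Matrix.one_mul]
    show ((a⁻¹ : Matrix.GeneralLinearGroup ι F) : Matrix ι ι F)ᵀ *
      ((a⁻¹ : Matrix.GeneralLinearGroup ι F) : Matrix ι ι F) = 1
    rw [h2, Matrix.transpose_transpose, h1]

theorem mem_OG {g : Matrix.GeneralLinearGroup ι F} :
    g ∈ OG ι F ↔ (g : Matrix ι ι F)ᵀ * (g : Matrix ι ι F) = 1 := Iff.rfl

end og

section pm

variable {F : Type*} [Field F] {ι κ μ : Type*} [Fintype ι] [DecidableEq ι] [Fintype κ]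
  [DecidableEq κ] [Fintype μ] [DecidableEq μ]

/-- The rectangular `0/1` matrix of a map of index types. -/
def Pm (F : Type*) [Field F] (p : κ → ι) : Matrix ι κ F := (1 : Matrix ι ι F).submatrix id p

theorem Pm_apply (p : κ → ι) (k : ι) (a : κ) : Pm F p k a = if k = p a then 1 else 0 := by
  simp [Pm, Matrix.one_apply]

theorem Pm_tm (p : κ → ι) (hp : Function.Injective p) :
    (Pm F p)ᵀ * Pm F p = (1 : Matrix κ κ F) := by
  ext a b
  rw [Matrix.mul_apply]
  simp only [Matrix.transpose_apply, Pm_apply, Matrix.one_apply]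
  rw [Finset.sum_eq_single (p a)]
  · by_cases hab : a = b
    · subst hab
      simp
    · have : p a ≠ p b := fun h => hab (hp h)
      simp [hab, this]
  · intro k _ hk
    simp [hk]
  · intro h
    exact absurd (Finset.mem_univ _) h

theorem Pm_comp (p : κ → ι) (p' : ι → μ) : Pm F (p' ∘ p) = Pm F p' * Pm F p := by
  ext m a
  rw [Matrix.mul_apply]
  simp only [Pm_apply, Function.comp_apply]
  rw [Finset.sum_eq_single (p a)]
  · simp
  · intro k _ hk
    simp [hk]
  · intro h
    exact absurd (Finset.mem_univ _) h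

theorem push_mul (p : κ → ι) (hp : Function.Injective p) (A B : Matrix κ κ F) :
    Pm F p * A * (Pm F p)ᵀ * (Pm F p * B * (Pm F p)ᵀ) = Pm F p * (A * B) * (Pm F p)ᵀ := by
  calc Pm F p * A * (Pm F p)ᵀ * (Pm F p * B * (Pm F p)ᵀ)
      = Pm F p * A * ((Pm F p)ᵀ * Pm F p) * B * (Pm F p)ᵀ := by
        simp only [Matrix.mul_assoc]
    _ = Pm F p * (A * B) * (Pm F p)ᵀ := by
        rw [Pm_tm p hp, Matrix.mul_one]
        simp only [Matrix.mul_assoc]

theorem push_apply (p : κ → ι) (hp : Function.Injective p) (A : Matrix κ κ F) (a b : κ) :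
    (Pm F p * A * (Pm F p)ᵀ) (p a) (p b) = A a b := by
  rw [Matrix.mul_apply]
  simp only [Matrix.transpose_apply, Pm_apply, Matrix.mul_apply]
  rw [Finset.sum_eq_single b]
  · rw [Finset.sum_eq_single a]
    · simp
    · intro k _ hk
      have : p a ≠ p k := fun h => hk (hp h).symm
      simp [this]
    · intro h
      exact absurd (Finset.mem_univ _) h
  · intro k _ hk
    have : p b ≠ p k := fun h => hk (hp h).symm
    simp [this]
  · intro h
    exact absurd (Finset.mem_univ _) h

theorem push_apply_left (p : κ → ι) (A : Matrix κ κ F) (k l : ι) (hk : ∀ a, p a ≠ k) :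
    (Pm F p * A * (Pm F p)ᵀ) k l = 0 := by
  rw [Matrix.mul_apply]
  apply Finset.sum_eq_zero
  intro b _
  rw [Matrix.mul_apply]
  have : ∑ a, Pm F p k a * A a b = 0 := by
    apply Finset.sum_eq_zero
    intro a _
    rw [Pm_apply, if_neg (fun h => hk a h.symm), zero_mul]
  rw [this, zero_mul]

theorem push_apply_right (p : κ → ι) (A : Matrix κ κ F) (k l : ι) (hl : ∀ a, p a ≠ l) :
    (Pm F p * A * (Pm F p)ᵀ) k l = 0 := by
  rw [Matrix.mul_apply]
  apply Finset.sum_eq_zero
  intro b _
  rw [Matrix.transpose_apply, Pm_apply, if_neg (fun h => hl b h.symm), mul_zero]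

theorem push_transpose (p : κ → ι) (A : Matrix κ κ F) :
    (Pm F p * A * (Pm F p)ᵀ)ᵀ = Pm F p * Aᵀ * (Pm F p)ᵀ := by
  rw [Matrix.transpose_mul, Matrix.transpose_mul, Matrix.transpose_transpose, Matrix.mul_assoc]

theorem push_add3 (p : κ → ι) (A B C : Matrix κ κ F) :
    Pm F p * A * (Pm F p)ᵀ + (Pm F p * B * (Pm F p)ᵀ + Pm F p * C * (Pm F p)ᵀ) =
      Pm F p * (A + B + C) * (Pm F p)ᵀ := by
  simp only [Matrix.mul_add, Matrix.add_mul, add_assoc]

/-- The matrix of the coordinate embedding. -/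
def embMat (p : κ ↪ ι) : Matrix.GeneralLinearGroup κ F →* Matrix ι ι F where
  toFun g := 1 + Pm F p * ((g : Matrix κ κ F) - 1) * (Pm F p)ᵀ
  map_one' := by simp
  map_mul' g h := by
    rw [add_mul, mul_add, mul_add, one_mul, mul_one, one_mul, push_mul p p.injective,
      add_assoc, push_add3]
    congr 3
    rw [Units.val_mul]
    noncomm_ring

/-- The coordinate embedding `GL κ F →* GL ι F` along `p : κ ↪ ι`. -/
def emb (p : κ ↪ ι) : Matrix.GeneralLinearGroup κ F →* Matrix.GeneralLinearGroup ι F :=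
  (embMat p).toHomUnits

theorem emb_val (p : κ ↪ ι) (g : Matrix.GeneralLinearGroup κ F) :
    ((emb p g : Matrix.GeneralLinearGroup ι F) : Matrix ι ι F) =
      1 + Pm F p * ((g : Matrix κ κ F) - 1) * (Pm F p)ᵀ := rfl

theorem emb_apply_apply (p : κ ↪ ι) (g : Matrix.GeneralLinearGroup κ F) (a b : κ) :
    ((emb p g : Matrix.GeneralLinearGroup ι F) : Matrix ι ι F) (p a) (p b) =
      (g : Matrix κ κ F) a b := by
  rw [emb_val, Matrix.add_apply, push_apply p p.injective, Matrix.sub_apply, Matrix.one_apply,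
    Matrix.one_apply]
  by_cases hab : a = b
  · subst hab
    simp
  · have : p a ≠ p b := fun h => hab (p.injective h)
    simp [hab, this]

theorem emb_apply_left (p : κ ↪ ι) (g : Matrix.GeneralLinearGroup κ F) (k l : ι)
    (hk : ∀ a, p a ≠ k) :
    ((emb p g : Matrix.GeneralLinearGroup ι F) : Matrix ι ι F) k l =
      (1 : Matrix ι ι F) k l := by
  rw [emb_val, Matrix.add_apply, push_apply_left p _ k l hk, add_zero]

theorem emb_apply_right (p : κ ↪ ι) (g : Matrix.GeneralLinearGroup κ F) (k l : ι)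
    (hl : ∀ a, p a ≠ l) :
    ((emb p g : Matrix.GeneralLinearGroup ι F) : Matrix ι ι F) k l =
      (1 : Matrix ι ι F) k l := by
  rw [emb_val, Matrix.add_apply, push_apply_right p _ k l hl, add_zero]

theorem emb_injective (p : κ ↪ ι) :
    Function.Injective (emb (F := F) p) := by
  intro g h hgh
  apply Units.ext
  ext a b
  rw [← emb_apply_apply p g, ← emb_apply_apply p h, hgh]

theorem emb_mem_OG (p : κ ↪ ι) (g : Matrix.GeneralLinearGroup κ F) (hg : g ∈ OG κ F) :
    emb p g ∈ OG ι F := by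
  have hg' : (g : Matrix κ κ F)ᵀ * (g : Matrix κ κ F) = 1 := hg
  show ((emb p g : Matrix.GeneralLinearGroup ι F) : Matrix ι ι F)ᵀ *
    ((emb p g : Matrix.GeneralLinearGroup ι F) : Matrix ι ι F) = 1
  rw [emb_val, Matrix.transpose_add, Matrix.transpose_one, push_transpose, add_mul, mul_add,
    mul_add, one_mul, mul_one, one_mul, push_mul p p.injective, add_assoc, push_add3]
  have : (g : Matrix κ κ F) - 1 + ((g : Matrix κ κ F) - 1)ᵀ +
      ((g : Matrix κ κ F) - 1)ᵀ * ((g : Matrix κ κ F) - 1) = 0 := by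
    rw [Matrix.transpose_sub, Matrix.transpose_one]
    have e2 : ((g : Matrix κ κ F)ᵀ - 1) * ((g : Matrix κ κ F) - 1) =
        (g : Matrix κ κ F)ᵀ * (g : Matrix κ κ F) - (g : Matrix κ κ F)ᵀ - (g : Matrix κ κ F) + 1 := by
      noncomm_ring
    rw [e2, hg']
    abel
  rw [this, Matrix.mul_zero, Matrix.zero_mul, add_zero]

theorem emb_trans (p : κ ↪ ι) (p' : ι ↪ μ) (g : Matrix.GeneralLinearGroup κ F) :
    emb (p.trans p') g = emb p' (emb p g) := by
  apply Units.ext
  rw [emb_val, emb_val, emb_val]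
  have e : Pm F (p.trans p') = Pm F p' * Pm F p := Pm_comp p p'
  rw [e, Matrix.transpose_mul, add_sub_cancel_left]
  simp only [Matrix.mul_assoc]

theorem emb_refl (g : Matrix.GeneralLinearGroup κ F) :
    emb (Function.Embedding.refl κ) g = g := by
  apply Units.ext
  ext a b
  exact emb_apply_apply (Function.Embedding.refl κ) g a b

end pm

section perm

variable {F : Type*} [Field F] {ι κ : Type*} [Fintype ι] [DecidableEq ι] [Fintype κ]
  [DecidableEq κ]

theorem Pm_mt (π : Equiv.Perm ι) : Pm F π * (Pm F π)ᵀ = (1 : Matrix ι ι F) :=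
  mul_eq_one_comm.mp (Pm_tm π π.injective)

/-- Permutation matrices. -/
def permGL (F : Type*) [Field F] : Equiv.Perm ι →* Matrix.GeneralLinearGroup ι F where
  toFun π := ⟨Pm F π, (Pm F π)ᵀ, Pm_mt π, Pm_tm π π.injective⟩
  map_one' := by
    apply Units.ext
    show Pm F (1 : Equiv.Perm ι) = 1
    ext k a
    simp [Pm_apply, Matrix.one_apply]
  map_mul' π π' := by
    apply Units.ext
    show Pm F (π * π' : Equiv.Perm ι) = Pm F π * Pm F π'
    exact Pm_comp π' π

theorem permGL_val (π : Equiv.Perm ι) :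
    ((permGL F π : Matrix.GeneralLinearGroup ι F) : Matrix ι ι F) = Pm F π := rfl

theorem permGL_inv_val (π : Equiv.Perm ι) :
    (((permGL F π)⁻¹ : Matrix.GeneralLinearGroup ι F) : Matrix ι ι F) = (Pm F π)ᵀ := rfl

theorem permGL_mem_OG (π : Equiv.Perm ι) : permGL F π ∈ OG ι F := by
  show (Pm F π)ᵀ * Pm F π = 1
  exact Pm_tm π π.injective

theorem emb_perm (π : Equiv.Perm ι) (g : Matrix.GeneralLinearGroup ι F) :
    emb π.toEmbedding g = permGL F π * g * (permGL F π)⁻¹ := by
  apply Units.ext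
  rw [emb_val, Units.val_mul, Units.val_mul, permGL_val, permGL_inv_val]
  have e : Pm F (π.toEmbedding : ι → ι) = Pm F π := rfl
  rw [e, Matrix.mul_sub, Matrix.sub_mul, Matrix.mul_one, Pm_mt]
  abel

theorem exists_perm (p p' : κ ↪ ι) : ∃ π : Equiv.Perm ι, ∀ a, π (p a) = p' a := by
  classical
  obtain ⟨e, he⟩ : ∃ e : {x // x ∈ Set.range p} ≃ {x // x ∈ Set.range p'},
      ∀ a, e ⟨p a, Set.mem_range_self a⟩ = ⟨p' a, Set.mem_range_self a⟩ := by
    refine ⟨(Equiv.ofInjective p p.injective).symm.trans (Equiv.ofInjective p' p'.injective), ?_⟩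
    intro a
    rw [Equiv.trans_apply]
    have : (Equiv.ofInjective p p.injective).symm ⟨p a, Set.mem_range_self a⟩ = a :=
      Equiv.ofInjective_symm_apply p.injective a
    rw [this]
    rfl
  refine ⟨e.extendSubtype, fun a => ?_⟩
  rw [Equiv.extendSubtype_apply_of_mem e (p a) (Set.mem_range_self a), he]

/-- A homomorphism to a commutative group does not see the position of the embedding. -/
theorem hom_emb_eq {A : Type*} [CommGroup A] (Θ : ↥(OG ι F) →* A) (p p' : κ ↪ ι)
    (g : Matrix.GeneralLinearGroup κ F) (hg : g ∈ OG κ F) :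
    Θ ⟨emb p g, emb_mem_OG p g hg⟩ = Θ ⟨emb p' g, emb_mem_OG p' g hg⟩ := by
  obtain ⟨π, hπ⟩ := exists_perm p p'
  have e1 : p' = p.trans π.toEmbedding := by
    ext a
    simp [hπ]
  have e2 : emb p' g = permGL F π * emb p g * (permGL F π)⁻¹ := by
    rw [e1, emb_trans, emb_perm]
  have e3 : (⟨emb p' g, emb_mem_OG p' g hg⟩ : ↥(OG ι F)) =
      ⟨permGL F π, permGL_mem_OG π⟩ * ⟨emb p g, emb_mem_OG p g hg⟩ *
        (⟨permGL F π, permGL_mem_OG π⟩ : ↥(OG ι F))⁻¹ := by
    apply Subtype.ext
    exact e2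
  rw [e3, map_mul, map_mul, map_inv, mul_comm, inv_mul_cancel_left]

/-- A homomorphism to a commutative group with values of exponent two is trivial on even
permutation matrices. -/
theorem hom_perm_even {A : Type*} [CommGroup A] (Θ : ↥(OG ι F) →* A)
    (hexp : ∀ g, Θ g * Θ g = 1) (π : Equiv.Perm ι) (hπ : Equiv.Perm.sign π = 1) :
    Θ ⟨permGL F π, permGL_mem_OG π⟩ = 1 := by
  obtain ⟨f, hf⟩ : ∃ f : Equiv.Perm ι →* A, ∀ σ, f σ = Θ ⟨permGL F σ, permGL_mem_OG σ⟩ :=
    ⟨Θ.comp ((permGL F).codRestrict (OG ι F) permGL_mem_OG), fun σ => rfl⟩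
  have hker : alternatingGroup ι ≤ f.ker := by
    rw [← Equiv.Perm.closure_three_cycles_eq_alternating, Subgroup.closure_le]
    intro σ hσ
    have h3 : σ ^ 3 = 1 := by
      rw [← Equiv.Perm.IsThreeCycle.orderOf hσ]
      exact pow_orderOf_eq_one σ
    have h4 : f σ ^ 3 = 1 := by rw [← map_pow, h3, map_one]
    have h2 : f σ * f σ = 1 := by rw [hf]; exact hexp _
    show f σ = 1
    calc f σ = f σ ^ 3 * (f σ * f σ)⁻¹ := by group
      _ = 1 := by rw [h4, h2, inv_one, mul_one]
  have : π ∈ alternatingGroup ι := Equiv.Perm.mem_alternatingGroup.mpr hπ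
  rw [← hf]
  exact hker this

end perm

end Cfsg.Agent.Lib.Helper42.OEmb
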