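import Mathlib
import Cfsg.Agent.Lib.Helper42.OEmb
import Cfsg.Agent.Lib.Helper42.Circle
import Cfsg.Agent.Lib.Helper44.FinSq

/-!
# The circle group and the dihedral Sylow `2`-subgroup of `O₂`

* `Circ F`: the points of `x² + y² = 1` as a commutative group; `rotC : Circ F →* GL (Fin 2) F`.
* `sq_iff`: a point is a square in `Circ F` iff `2 * (1 + x)` is a square in `F`.
* `nonsq_mul`: the quotient of two non-squares of `Circ F` is a square (finite `F`).
* `exists_nonsq`: the Sylow `2`-subgroup contains a non-square.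
* `tau`: the reflection `diag(-1, 1)`; `dihSub`: the subgroup `T ∪ T y` for an involution `y`
  inverting `T`.
-/

set_option autoImplicit false
set_option linter.unusedSectionVars false

open Matrix

namespace Cfsg.Agent.Lib.Helper42.OCirc

open Cfsg.Agent.Lib.Helper42.OEmb

section circ

variable {F : Type*} [Field F]

/-- The points of the circle `x² + y² = 1`. -/
@[ext] structure Circ (F : Type*) [Field F] where
  /-- first coordinate -/
  x : F
  /-- second coordinate -/
  y : F
  h : x ^ 2 + y ^ 2 = 1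

/-- Multiplication of the circle group (complex multiplication). -/
def cmul (a b : Circ F) : Circ F :=
  ⟨a.x * b.x - a.y * b.y, a.x * b.y + a.y * b.x, by
    linear_combination (b.x ^ 2 + b.y ^ 2) * a.h + b.h⟩

/-- The identity of the circle group. -/
def cone : Circ F := ⟨1, 0, by ring⟩

/-- Inversion in the circle group. -/
def cinv (a : Circ F) : Circ F := ⟨a.x, -a.y, by linear_combination a.h⟩

theorem cmul_assoc (a b c : Circ F) : cmul (cmul a b) c = cmul a (cmul b c) := by
  apply Circ.ext
  · simp only [cmul]; ring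
  · simp only [cmul]; ring

theorem cone_mul (a : Circ F) : cmul cone a = a := by
  apply Circ.ext
  · simp only [cmul, cone]; ring
  · simp only [cmul, cone]; ring

theorem cmul_one (a : Circ F) : cmul a cone = a := by
  apply Circ.ext
  · simp only [cmul, cone]; ring
  · simp only [cmul, cone]; ring

theorem cinv_mul (a : Circ F) : cmul (cinv a) a = cone := by
  apply Circ.ext
  · simp only [cmul, cone, cinv]
    linear_combination a.h
  · simp only [cmul, cone, cinv]; ring

theorem cmul_comm (a b : Circ F) : cmul a b = cmul b a := by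
  apply Circ.ext
  · simp only [cmul]; ring
  · simp only [cmul]; ring

instance circCommGroup : CommGroup (Circ F) where
  mul := cmul
  mul_assoc := cmul_assoc
  one := cone
  one_mul := cone_mul
  mul_one := cmul_one
  inv := cinv
  inv_mul_cancel := cinv_mul
  mul_comm := cmul_comm

theorem mul_x (a b : Circ F) : (a * b).x = a.x * b.x - a.y * b.y := rfl
theorem mul_y (a b : Circ F) : (a * b).y = a.x * b.y + a.y * b.x := rfl
theorem one_x : (1 : Circ F).x = 1 := rfl
theorem one_y : (1 : Circ F).y = 0 := rfl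
theorem inv_x (a : Circ F) : (a⁻¹).x = a.x := rfl
theorem inv_y (a : Circ F) : (a⁻¹).y = -a.y := rfl

/-- The circle as a subtype of `F × F`. -/
def circEquiv : Circ F ≃ {p : F × F // p.1 ^ 2 + p.2 ^ 2 = 1} where
  toFun a := ⟨(a.x, a.y), a.h⟩
  invFun p := ⟨p.1.1, p.1.2, p.2⟩
  left_inv _ := rfl
  right_inv _ := rfl

instance circFinite [Finite F] : Finite (Circ F) := Finite.of_equiv _ circEquiv.symm

theorem card_circ : Nat.card (Circ F) = Nat.card {p : F × F // p.1 ^ 2 + p.2 ^ 2 = 1} :=
  Nat.card_congr circEquiv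

/-- Rotation matrices. -/
def rotMat : Circ F →* Matrix (Fin 2) (Fin 2) F where
  toFun c := !![c.x, -c.y; c.y, c.x]
  map_one' := by
    rw [one_x, one_y, Matrix.one_fin_two, neg_zero]
  map_mul' a b := by
    rw [Matrix.mul_fin_two, mul_x, mul_y]
    ext i j
    fin_cases i <;> fin_cases j <;> simp <;> ring

/-- Rotations as invertible matrices. -/
def rotC : Circ F →* Matrix.GeneralLinearGroup (Fin 2) F := rotMat.toHomUnits

theorem rotC_val (c : Circ F) :
    ((rotC c : Matrix.GeneralLinearGroup (Fin 2) F) : Matrix (Fin 2) (Fin 2) F) =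
      !![c.x, -c.y; c.y, c.x] := rfl

theorem rotC_injective : Function.Injective (rotC (F := F)) := by
  intro a b hab
  have h := congrArg (fun u : Matrix.GeneralLinearGroup (Fin 2) F =>
    (u : Matrix (Fin 2) (Fin 2) F)) hab
  simp only [rotC_val] at h
  have h0 := congrFun (congrFun h 0) 0
  have h1 := congrFun (congrFun h 1) 0
  simp at h0 h1
  exact Circ.ext h0 h1

theorem rotC_mem_OG (c : Circ F) : rotC c ∈ OG (Fin 2) F := by
  show ((rotC c : Matrix.GeneralLinearGroup (Fin 2) F) : Matrix (Fin 2) (Fin 2) F)ᵀ *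
    ((rotC c : Matrix.GeneralLinearGroup (Fin 2) F) : Matrix (Fin 2) (Fin 2) F) = 1
  rw [rotC_val]
  have h := c.h
  ext i j
  fin_cases i <;> fin_cases j
  · simp [Matrix.mul_apply, Fin.sum_univ_two]
    linear_combination h
  · simp [Matrix.mul_apply, Fin.sum_univ_two]
    ring
  · simp [Matrix.mul_apply, Fin.sum_univ_two]
    ring
  · simp [Matrix.mul_apply, Fin.sum_univ_two]
    linear_combination h

/-- A point of the circle is a square iff `2 * (1 + x)` is a square of the field. -/
theorem sq_iff (h2 : (2 : F) ≠ 0) (c : Circ F) :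
    (∃ d : Circ F, d * d = c) ↔ IsSquare (2 * (1 + c.x)) := by
  constructor
  · rintro ⟨d, rfl⟩
    refine ⟨2 * d.x, ?_⟩
    rw [mul_x]
    linear_combination (-2 : F) * d.h
  · rintro ⟨w, hw⟩
    by_cases hw0 : w = 0
    · have hx : c.x = -1 := by
        rw [hw0, mul_zero] at hw
        rcases mul_eq_zero.mp hw with h | h
        · exact absurd h h2
        · linear_combination h
      have hy : c.y = 0 := by
        have h := c.h
        rw [hx] at h
        have : c.y ^ 2 = 0 := by linear_combination h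
        exact pow_eq_zero_iff (n := 2) (by norm_num) |>.mp this
      refine ⟨⟨0, 1, by ring⟩, ?_⟩
      apply Circ.ext
      · rw [mul_x, hx]; ring
      · rw [mul_y, hy]; ring
    · have hu : 1 + c.x ≠ 0 := by
        intro hu
        rw [hu, mul_zero] at hw
        exact hw0 (mul_self_eq_zero.mp hw.symm)
      have hc := c.h
      have hd : (w / 2) ^ 2 + (c.y / w) ^ 2 = 1 := by
        field_simp
        linear_combination (4 - w ^ 2 - 2 * (1 + c.x)) * hw + 4 * hc
      refine ⟨⟨w / 2, c.y / w, hd⟩, ?_⟩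
      apply Circ.ext
      · rw [mul_x]
        show w / 2 * (w / 2) - c.y / w * (c.y / w) = c.x
        field_simp
        linear_combination (4 * c.x - w ^ 2 - 2 * (1 + c.x)) * hw - 4 * hc
      · rw [mul_y]
        show w / 2 * (c.y / w) + c.y / w * (w / 2) = c.y
        field_simp
        ring

/-- The quotient of two non-squares of the circle group is a square. -/
theorem nonsq_mul [Fintype F] (h2 : (2 : F) ≠ 0) (c c' : Circ F)
    (hc : ¬ ∃ d : Circ F, d * d = c) (hc' : ¬ ∃ d : Circ F, d * d = c') :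
    ∃ d : Circ F, d * d = c * c'⁻¹ := by
  rw [sq_iff h2] at hc hc' ⊢
  obtain ⟨r, hr⟩ := Cfsg.Agent.Lib.Helper44.FinSq.isSquare_mul_of_not_of_not hc hc'
  have hr0 : r ≠ 0 := by
    intro h
    rw [h, mul_zero] at hr
    rcases mul_eq_zero.mp hr with h' | h'
    · exact hc (h' ▸ IsSquare.zero)
    · exact hc' (h' ▸ IsSquare.zero)
  have h := c.h
  have h' := c'.h
  have key : 2 * (1 + (c.x * c'.x + c.y * c'.y)) * (r * r) =
      4 * ((1 + c.x) * (1 + c'.x) + c.y * c'.y) ^ 2 := by
    linear_combination (-2 * (1 + (c.x * c'.x + c.y * c'.y))) * hr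
      - 4 * (1 - c'.x ^ 2) * h - 4 * c.y ^ 2 * h'
  refine ⟨2 * ((1 + c.x) * (1 + c'.x) + c.y * c'.y) / r, ?_⟩
  rw [mul_x, inv_x, inv_y, div_mul_div_comm, eq_div_iff (mul_ne_zero hr0 hr0)]
  linear_combination key

/-- The point `(-1, 0)`. -/
def negOne (F : Type*) [Field F] : Circ F := ⟨-1, 0, by ring⟩

theorem negOne_mul_self : negOne F * negOne F = 1 := by
  apply Circ.ext
  · rw [mul_x, one_x]; simp [negOne]
  · rw [mul_y, one_y]; simp [negOne]

theorem negOne_ne_one (h2 : (2 : F) ≠ 0) : negOne F ≠ 1 := by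
  intro h
  have hx := congrArg Circ.x h
  rw [one_x] at hx
  apply h2
  have : (-1 : F) = 1 := hx
  linear_combination -this

/-- In a commutative group a Sylow subgroup contains all elements of `2`-power order. -/
theorem mem_sylow_of_pow {C : Type*} [CommGroup C] [Finite C] (P : Sylow 2 C) (c : C) (j : ℕ)
    (h : c ^ (2 ^ j) = 1) : c ∈ P := by
  have hord : orderOf c ∣ 2 ^ j := orderOf_dvd_of_pow_eq_one h
  obtain ⟨i, -, hi⟩ := (Nat.dvd_prime_pow Nat.prime_two).mp hord
  have hp : IsPGroup 2 ↥(Subgroup.zpowers c) :=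
    IsPGroup.of_card (n := i) (by rw [Nat.card_zpowers, hi])
  obtain ⟨Q, hQ⟩ := hp.exists_le_sylow
  obtain ⟨g, hg⟩ := MulAction.exists_smul_eq C Q P
  rw [Sylow.smul_eq_of_normal] at hg
  rw [← hg]
  exact hQ (Subgroup.mem_zpowers c)

/-- The Sylow `2`-subgroup of the circle group contains a non-square. -/
theorem exists_nonsq [Finite F] (h2 : (2 : F) ≠ 0) (P : Sylow 2 (Circ F)) :
    ∃ ρ : Circ F, ρ ∈ P ∧ ¬ ∃ d : Circ F, d * d = ρ := by
  by_contra hcon
  push Not at hcon
  obtain ⟨k, hk⟩ := (IsPGroup.iff_card).mp P.isPGroup'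
  have hpow : ∀ t : Circ F, t ∈ P → t ^ (2 ^ k) = 1 := by
    intro t ht
    have h1 : (⟨t, ht⟩ : ↥(P : Subgroup (Circ F))) ^ Nat.card ↥(P : Subgroup (Circ F)) = 1 :=
      pow_card_eq_one'
    rw [hk] at h1
    exact congrArg Subtype.val h1
  have hsurj : Function.Surjective (fun t : ↥(P : Subgroup (Circ F)) => t * t) := by
    intro t
    obtain ⟨d, hd⟩ := hcon t.1 t.2
    have hdP : d ∈ P := by
      apply mem_sylow_of_pow P d (k + 1)
      rw [pow_succ', pow_mul, pow_two, hd]
      exact hpow t.1 t.2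
    exact ⟨⟨d, hdP⟩, Subtype.ext hd⟩
  have hinj := Finite.injective_iff_surjective.mpr hsurj
  have hneg : negOne F ∈ P := by
    apply mem_sylow_of_pow P (negOne F) 1
    rw [pow_one, pow_two]
    exact negOne_mul_self
  have h1 : (⟨negOne F, hneg⟩ : ↥(P : Subgroup (Circ F))) = 1 := by
    apply hinj
    show (⟨negOne F, hneg⟩ : ↥(P : Subgroup (Circ F))) * ⟨negOne F, hneg⟩ = 1 * 1
    rw [one_mul]
    exact Subtype.ext negOne_mul_self
  exact negOne_ne_one h2 (congrArg Subtype.val h1)

end circ

section tau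

variable {F : Type*} [Field F]

/-- The first coordinate of `Fin 2`. -/
def p0 : Fin 1 ↪ Fin 2 := ⟨fun _ => 0, fun _ _ _ => Subsingleton.elim _ _⟩

theorem negOne_mem_OG : (-1 : Matrix.GeneralLinearGroup (Fin 1) F) ∈ OG (Fin 1) F := by
  show ((-1 : Matrix.GeneralLinearGroup (Fin 1) F) : Matrix (Fin 1) (Fin 1) F)ᵀ *
    ((-1 : Matrix.GeneralLinearGroup (Fin 1) F) : Matrix (Fin 1) (Fin 1) F) = 1
  simp

/-- The reflection `diag(-1, 1)`. -/
def tau (F : Type*) [Field F] : Matrix.GeneralLinearGroup (Fin 2) F := emb p0 (-1)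

theorem tau_mem_OG : tau F ∈ OG (Fin 2) F := emb_mem_OG p0 _ negOne_mem_OG

theorem tau_val :
    ((tau F : Matrix.GeneralLinearGroup (Fin 2) F) : Matrix (Fin 2) (Fin 2) F) =
      !![-1, 0; 0, 1] := by
  ext i j
  fin_cases i <;> fin_cases j
  · have h := emb_apply_apply (F := F) p0 (-1) 0 0
    have e : p0 (0 : Fin 1) = (0 : Fin 2) := rfl
    rw [e] at h
    simpa [tau] using h
  · have h := emb_apply_right (F := F) p0 (-1) 0 1 (by
      intro a
      show (0 : Fin 2) ≠ 1
      decide)
    simpa [tau] using h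
  · have h := emb_apply_left (F := F) p0 (-1) 1 0 (by
      intro a
      show (0 : Fin 2) ≠ 1
      decide)
    simpa [tau] using h
  · have h := emb_apply_left (F := F) p0 (-1) 1 1 (by
      intro a
      show (0 : Fin 2) ≠ 1
      decide)
    simpa [tau] using h

theorem tau_mul_self : tau F * tau F = 1 := by
  apply Units.ext
  rw [Units.val_mul, tau_val, Matrix.mul_fin_two, Units.val_one, Matrix.one_fin_two]
  simp

theorem tau_rot (c : Circ F) : tau F * rotC c * (tau F)⁻¹ = (rotC c)⁻¹ := by
  have hinv : (tau F)⁻¹ = tau F := inv_eq_of_mul_eq_one_right tau_mul_self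
  rw [hinv, ← map_inv]
  apply Units.ext
  rw [Units.val_mul, Units.val_mul, tau_val, rotC_val, rotC_val, Matrix.mul_fin_two,
    Matrix.mul_fin_two, inv_x, inv_y]
  simp

theorem tau_ne_rot (h2 : (2 : F) ≠ 0) (c : Circ F) : tau F ≠ rotC c := by
  intro h
  have h' := congrArg (fun u : Matrix.GeneralLinearGroup (Fin 2) F =>
    (u : Matrix (Fin 2) (Fin 2) F)) h
  simp only [rotC_val, tau_val] at h'
  have h0 := congrFun (congrFun h' 0) 0
  have h1 := congrFun (congrFun h' 1) 1
  simp at h0 h1
  apply h2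
  rw [← h0] at h1
  linear_combination h1

end tau

section dih

variable {G : Type*} [Group G]

/-- The subgroup `T ∪ T y` for an involution `y` inverting `T`. -/
def dihSub (T : Subgroup G) (y : G) (hy : y * y = 1) (hT : ∀ t ∈ T, y * t * y⁻¹ = t⁻¹) :
    Subgroup G where
  carrier := {g | g ∈ T ∨ g * y ∈ T}
  one_mem' := Or.inl T.one_mem
  mul_mem' := by
    have hyinv : y⁻¹ = y := inv_eq_of_mul_eq_one_right hy
    rintro a b (ha | ha) (hb | hb)
    · exact Or.inl (T.mul_mem ha hb)
    · right
      have e : a * b * y = a * (b * y) := by group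
      rw [e]
      exact T.mul_mem ha hb
    · right
      have e : a * b * y = (a * y) * (y * b * y⁻¹) := by
        rw [hyinv]
        calc a * b * y = a * (y * y) * b * y := by rw [hy, mul_one]
          _ = (a * y) * (y * b * y) := by group
      rw [e, hT b hb]
      exact T.mul_mem ha (T.inv_mem hb)
    · left
      have e : a * b = (a * y) * (y * (b * y) * y⁻¹) := by
        rw [hyinv]
        calc a * b = a * (y * y) * b * (y * y) := by rw [hy, mul_one, mul_one]
          _ = (a * y) * (y * (b * y) * y) := by group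
      rw [e, hT _ hb]
      exact T.mul_mem ha (T.inv_mem hb)
  inv_mem' := by
    have hyinv : y⁻¹ = y := inv_eq_of_mul_eq_one_right hy
    rintro a (ha | ha)
    · exact Or.inl (T.inv_mem ha)
    · right
      have e : a⁻¹ * y = (y * (a * y) * y⁻¹)⁻¹ := by
        have e0 : (y * (a * y) * y⁻¹)⁻¹ = a⁻¹ * y⁻¹ := by group
        rw [e0, hyinv]
      rw [e, hT _ ha, inv_inv]
      exact ha

theorem mem_dihSub {T : Subgroup G} {y : G} {hy : y * y = 1}
    {hT : ∀ t ∈ T, y * t * y⁻¹ = t⁻¹} {g : G} :
    g ∈ dihSub T y hy hT ↔ g ∈ T ∨ g * y ∈ T := Iff.rfl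

theorem card_dihSub [Finite G] (T : Subgroup G) (y : G) (hy : y * y = 1)
    (hT : ∀ t ∈ T, y * t * y⁻¹ = t⁻¹) (hyT : y ∉ T) :
    Nat.card ↥(dihSub T y hy hT) = 2 * Nat.card ↥T := by
  have hyinv : y⁻¹ = y := inv_eq_of_mul_eq_one_right hy
  obtain ⟨f, hf⟩ : ∃ f : ↥T ⊕ ↥T → ↥(dihSub T y hy hT),
      (∀ t : ↥T, (f (Sum.inl t)).1 = t.1) ∧ (∀ t : ↥T, (f (Sum.inr t)).1 = t.1 * y) :=
    ⟨Sum.elim (fun t => ⟨t.1, Or.inl t.2⟩) (fun t => ⟨t.1 * y, Or.inr (by
      rw [mul_assoc, hy, mul_one]; exact t.2)⟩), fun t => rfl, fun t => rfl⟩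
  have hbij : Function.Bijective f := by
    constructor
    · rintro (a | a) (b | b) hab
      · have h := congrArg Subtype.val hab
        rw [hf.1, hf.1] at h
        exact congrArg Sum.inl (Subtype.ext h)
      · exfalso
        have h := congrArg Subtype.val hab
        rw [hf.1, hf.2] at h
        apply hyT
        have : y = b.1⁻¹ * a.1 := by rw [h]; group
        rw [this]
        exact T.mul_mem (T.inv_mem b.2) a.2
      · exfalso
        have h := congrArg Subtype.val hab
        rw [hf.1, hf.2] at h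
        apply hyT
        have : y = a.1⁻¹ * b.1 := by rw [← h]; group
        rw [this]
        exact T.mul_mem (T.inv_mem a.2) b.2
      · have h := congrArg Subtype.val hab
        rw [hf.2, hf.2] at h
        exact congrArg Sum.inr (Subtype.ext (mul_right_cancel h))
    · rintro ⟨g, hg | hg⟩
      · exact ⟨Sum.inl ⟨g, hg⟩, Subtype.ext (hf.1 _)⟩
      · refine ⟨Sum.inr ⟨g * y, hg⟩, Subtype.ext ?_⟩
        rw [hf.2]
        show g * y * y = g
        rw [mul_assoc, hy, mul_one]
  rw [← Nat.card_congr (Equiv.ofBijective f hbij), Nat.card_sum]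
  ring

end dih

end Cfsg.Agent.Lib.Helper42.OCirc
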