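import Mathlib
import Cfsg.Agent.Lib.Helper42.OEmb
import Cfsg.Agent.Lib.Helper42.ECore
import Cfsg.Agent.Lib.Helper42.OCirc
import Cfsg.Agent.Lib.Helper42.GLSyl

/-!
# The tower of Sylow `2`-subgroups of orthogonal groups (sum of squares), with characters

`Inv R₀ φ`: the invariant carried through the tower, for an embedding `φ : X →* GL ι F` into
the orthogonal matrices: reference elements (a plane rotation `R₀` and a coordinate reflection)
and, for every homomorphism `Θ` from the orthogonal group to a commutative group with values of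
exponent two, control of the squares of the kernel of `Θ ∘ φ`.

* `inv_base`: the dihedral base group; `inv_prod`, `inv_wreath`: the two steps;
* `towerO`: the tower.
-/

set_option autoImplicit false
set_option linter.unusedSectionVars false

open scoped commutatorElement
open Matrix

namespace Cfsg.Agent.Lib.Helper42.OTower

open Cfsg.Agent.Lib.Helper42.OEmb Cfsg.Agent.Lib.Helper42.ECore Cfsg.Agent.Lib.Helper42.OCirc
open Cfsg.Agent.Lib.Helper42.GLWr Cfsg.Agent.Lib.Helper42.GLSyl Cfsg.Agent.Lib.Helper42.SpWr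

universe u

section defs

variable {F : Type u} [Field F]

/-- The composite character. -/
def chi {ι : Type} [Fintype ι] [DecidableEq ι] {X : Type u} [Group X] {A : Type u}
    [CommGroup A] (Θ : ↥(OG ι F) →* A) (φ : X →* Matrix.GeneralLinearGroup ι F)
    (hφ : ∀ x, φ x ∈ OG ι F) : X →* A :=
  Θ.comp (φ.codRestrict (OG ι F) hφ)

theorem chi_apply {ι : Type} [Fintype ι] [DecidableEq ι] {X : Type u} [Group X] {A : Type u}
    [CommGroup A] (Θ : ↥(OG ι F) →* A) (φ : X →* Matrix.GeneralLinearGroup ι F)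
    (hφ : ∀ x, φ x ∈ OG ι F) (x : X) : chi Θ φ hφ x = Θ ⟨φ x, hφ x⟩ := rfl

theorem theta_congr {ι : Type} [Fintype ι] [DecidableEq ι] {A : Type u} [CommGroup A]
    (Θ : ↥(OG ι F) →* A) {g g' : Matrix.GeneralLinearGroup ι F} (h : g = g') (hg : g ∈ OG ι F)
    (hg' : g' ∈ OG ι F) : Θ ⟨g, hg⟩ = Θ ⟨g', hg'⟩ := by
  subst h
  rfl

/-- The coordinate embedding on orthogonal groups. -/
def embO {ι κ : Type} [Fintype ι] [DecidableEq ι] [Fintype κ] [DecidableEq κ] (p : κ ↪ ι) :
    ↥(OG κ F) →* ↥(OG ι F) :=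
  ((emb p).comp (OG κ F).subtype).codRestrict (OG ι F) (fun g => emb_mem_OG p g.1 g.2)

theorem embO_apply {ι κ : Type} [Fintype ι] [DecidableEq ι] [Fintype κ] [DecidableEq κ]
    (p : κ ↪ ι) (g : Matrix.GeneralLinearGroup κ F) (hg : g ∈ OG κ F) :
    embO p ⟨g, hg⟩ = ⟨emb p g, emb_mem_OG p g hg⟩ := rfl

/-- The invariant of the tower. -/
def Inv (R₀ : Matrix.GeneralLinearGroup (Fin 2) F) {ι : Type} [Fintype ι] [DecidableEq ι]
    {X : Type u} [Group X] (φ : X →* Matrix.GeneralLinearGroup ι F) : Prop :=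
  Function.Injective φ ∧ ∃ hφ : ∀ x, φ x ∈ OG ι F,
    ∃ r t : X, t * t = 1 ∧ t * r * t⁻¹ = r⁻¹ ∧
      (∃ p : Fin 2 ↪ ι, φ r = emb p R₀) ∧ (∃ p : Fin 1 ↪ ι, φ t = emb p (-1 : Matrix.GeneralLinearGroup (Fin 1) F)) ∧
      ∀ (A : Type u) [CommGroup A] (Θ : ↥(OG ι F) →* A), (∀ g, Θ g * Θ g = 1) →
        (∀ l ∈ (chi Θ φ hφ).ker, l ^ 2 ∈ ⁅(chi Θ φ hφ).ker, (⊤ : Subgroup X)⁆) ∧
        (Fintype.card ι ≠ 2 →
          ∀ l ∈ (chi Θ φ hφ).ker, l ^ 2 ∈ ⁅(chi Θ φ hφ).ker, (chi Θ φ hφ).ker⁆) ∧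
        (∀ x, chi Θ φ hφ x ∈ Subgroup.closure {chi Θ φ hφ r, chi Θ φ hφ t})

end defs

section base

variable {F : Type u} [Field F] [Fintype F]

/-- The base of the tower: the dihedral group generated by the Sylow `2`-subgroup of the
circle group and the reflection `tau`. -/
theorem inv_base (h2 : (2 : F) ≠ 0) (P : Sylow 2 (Circ F)) (ρ : Circ F) (hρP : ρ ∈ P)
    (hρ : ¬ ∃ d : Circ F, d * d = ρ) :
    ∃ D : Subgroup (Matrix.GeneralLinearGroup (Fin 2) F),
      Nat.card ↥D = 2 * Nat.card ↥(P : Subgroup (Circ F)) ∧ Inv (rotC ρ) D.subtype := by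
  obtain ⟨T', hT'⟩ : ∃ T' : Subgroup (Matrix.GeneralLinearGroup (Fin 2) F),
      T' = (P : Subgroup (Circ F)).map rotC := ⟨_, rfl⟩
  have hmemT : ∀ g, g ∈ T' ↔ ∃ c ∈ P, rotC c = g := by
    intro g
    rw [hT']
    exact Subgroup.mem_map
  have hinvT : ∀ t ∈ T', tau F * t * (tau F)⁻¹ = t⁻¹ := by
    intro t ht
    obtain ⟨c, -, rfl⟩ := (hmemT t).mp ht
    exact tau_rot c
  have hyT : tau F ∉ T' := by
    intro h
    obtain ⟨c, -, hc⟩ := (hmemT _).mp h
    exact tau_ne_rot h2 c hc.symm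
  have hyinv : (tau F)⁻¹ = tau F := inv_eq_of_mul_eq_one_right tau_mul_self
  have hcardT : Nat.card ↥T' = Nat.card ↥(P : Subgroup (Circ F)) := by
    rw [hT']
    exact Subgroup.card_map_of_injective rotC_injective
  refine ⟨dihSub T' (tau F) tau_mul_self hinvT, ?_, ?_⟩
  · rw [card_dihSub T' (tau F) tau_mul_self hinvT hyT, hcardT]
  · have hTO : ∀ g ∈ T', g ∈ OG (Fin 2) F := by
      intro g hg
      obtain ⟨c, -, rfl⟩ := (hmemT g).mp hg
      exact rotC_mem_OG c
    have hφ : ∀ x : ↥(dihSub T' (tau F) tau_mul_self hinvT),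
        (dihSub T' (tau F) tau_mul_self hinvT).subtype x ∈ OG (Fin 2) F := by
      rintro ⟨g, hg | hg⟩
      · exact hTO g hg
      · have e : g = g * tau F * (tau F)⁻¹ := by group
        show g ∈ OG (Fin 2) F
        rw [e]
        exact Subgroup.mul_mem _ (hTO _ hg) (Subgroup.inv_mem _ tau_mem_OG)
    have hrD : rotC ρ ∈ dihSub T' (tau F) tau_mul_self hinvT :=
      Or.inl ((hmemT _).mpr ⟨ρ, hρP, rfl⟩)
    have htD : tau F ∈ dihSub T' (tau F) tau_mul_self hinvT := by
      right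
      rw [tau_mul_self]
      exact T'.one_mem
    refine ⟨Subgroup.subtype_injective _, hφ, ⟨rotC ρ, hrD⟩, ⟨tau F, htD⟩,
      Subtype.ext tau_mul_self, Subtype.ext (tau_rot ρ),
      ⟨Function.Embedding.refl _, (emb_refl _).symm⟩, ⟨p0, rfl⟩, ?_⟩
    intro A _ Θ hexp
    -- values on rotations
    have hrot : ∀ c ∈ P, Θ ⟨rotC c, rotC_mem_OG c⟩ ∈
        Subgroup.closure {Θ ⟨rotC ρ, rotC_mem_OG ρ⟩, Θ ⟨tau F, tau_mem_OG⟩} := by
      intro c _
      by_cases hc : ∃ d : Circ F, d * d = c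
      · obtain ⟨d, rfl⟩ := hc
        have e : (⟨rotC (d * d), rotC_mem_OG (d * d)⟩ : ↥(OG (Fin 2) F)) =
            ⟨rotC d, rotC_mem_OG d⟩ * ⟨rotC d, rotC_mem_OG d⟩ :=
          Subtype.ext (map_mul rotC d d)
        rw [e, map_mul, hexp]
        exact Subgroup.one_mem _
      · obtain ⟨d, hd⟩ := nonsq_mul h2 c ρ hc hρ
        have hcd : c = d * d * ρ := by rw [hd, inv_mul_cancel_right]
        have e : (⟨rotC c, rotC_mem_OG c⟩ : ↥(OG (Fin 2) F)) =
            ⟨rotC d, rotC_mem_OG d⟩ * ⟨rotC d, rotC_mem_OG d⟩ * ⟨rotC ρ, rotC_mem_OG ρ⟩ := by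
          apply Subtype.ext
          show rotC c = rotC d * rotC d * rotC ρ
          rw [← map_mul, ← map_mul, ← hcd]
        rw [e, map_mul, map_mul, hexp, one_mul]
        exact Subgroup.subset_closure (Set.mem_insert _ _)
    refine ⟨?_, ?_, ?_⟩
    · rintro ⟨g, hg | hg⟩ hl
      · -- a rotation
        have hc : (⟨tau F, htD⟩ : ↥(dihSub T' (tau F) tau_mul_self hinvT)) * ⟨g, Or.inl hg⟩ *
            (⟨tau F, htD⟩ : ↥(dihSub T' (tau F) tau_mul_self hinvT))⁻¹ =
              (⟨g, Or.inl hg⟩ : ↥(dihSub T' (tau F) tau_mul_self hinvT))⁻¹ :=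
          Subtype.ext (hinvT g hg)
        rw [sq_eq_comm hc]
        exact Subgroup.commutator_mem_commutator hl (Subgroup.mem_top _)
      · -- a reflection
        have e : (⟨g, Or.inr hg⟩ : ↥(dihSub T' (tau F) tau_mul_self hinvT)) ^ 2 = 1 := by
          apply Subtype.ext
          show g ^ 2 = 1
          have h1 := hinvT _ hg
          rw [hyinv] at h1
          have e2 : g ^ 2 = (g * tau F) * (tau F * (g * tau F) * tau F) := by
            rw [pow_two]
            calc g * g = g * (tau F * tau F) * g * (tau F * tau F) := by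
                  rw [tau_mul_self, mul_one, mul_one]
              _ = (g * tau F) * (tau F * (g * tau F) * tau F) := by group
          rw [e2, h1, mul_inv_cancel]
        rw [e]
        exact Subgroup.one_mem _
    · intro hcard
      exact absurd (Fintype.card_fin 2) hcard
    · rintro ⟨g, hg | hg⟩
      · obtain ⟨c, hcP, rfl⟩ := (hmemT g).mp hg
        exact hrot c hcP
      · obtain ⟨c, hcP, hc⟩ := (hmemT _).mp hg
        have e : (⟨g, hφ ⟨g, Or.inr hg⟩⟩ : ↥(OG (Fin 2) F)) =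
            ⟨rotC c, rotC_mem_OG c⟩ * ⟨tau F, tau_mem_OG⟩ := by
          apply Subtype.ext
          show g = rotC c * tau F
          rw [hc, mul_assoc, tau_mul_self, mul_one]
        show Θ ⟨g, hφ ⟨g, Or.inr hg⟩⟩ ∈ _
        rw [e, map_mul]
        exact Subgroup.mul_mem _ (hrot c hcP)
          (Subgroup.subset_closure (Set.mem_insert_of_mem _ rfl))

end base

section prod

variable {F : Type u} [Field F]

theorem prod_inl {ι κ : Type} [Fintype ι] [DecidableEq ι] [Fintype κ] [DecidableEq κ]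
    {X Y : Type u} [Group X] [Group Y] (φ : X →* Matrix.GeneralLinearGroup ι F)
    (ψ : Y →* Matrix.GeneralLinearGroup κ F) (x : X) :
    prodHomGL φ ψ (x, 1) = emb (Function.Embedding.inl : ι ↪ ι ⊕ κ) (φ x) := by
  apply Units.ext
  ext (a | a) (b | b)
  · exact (emb_apply_apply (Function.Embedding.inl : ι ↪ ι ⊕ κ) (φ x) a b).symm
  · rw [emb_apply_right _ _ _ _ (fun a' => Sum.inl_ne_inr)]
    show (0 : Matrix ι κ F) a b = _
    simp
  · rw [emb_apply_left _ _ _ _ (fun a' => Sum.inl_ne_inr)]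
    show (0 : Matrix κ ι F) a b = _
    simp
  · rw [emb_apply_left _ _ _ _ (fun a' => Sum.inl_ne_inr)]
    show ((ψ 1 : Matrix.GeneralLinearGroup κ F) : Matrix κ κ F) a b = _
    rw [map_one, Units.val_one, Matrix.one_apply, Matrix.one_apply]
    simp

theorem prod_inr {ι κ : Type} [Fintype ι] [DecidableEq ι] [Fintype κ] [DecidableEq κ]
    {X Y : Type u} [Group X] [Group Y] (φ : X →* Matrix.GeneralLinearGroup ι F)
    (ψ : Y →* Matrix.GeneralLinearGroup κ F) (y : Y) :
    prodHomGL φ ψ (1, y) = emb (Function.Embedding.inr : κ ↪ ι ⊕ κ) (ψ y) := by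
  apply Units.ext
  ext (a | a) (b | b)
  · rw [emb_apply_left _ _ _ _ (fun a' => Sum.inr_ne_inl)]
    show ((φ 1 : Matrix.GeneralLinearGroup ι F) : Matrix ι ι F) a b = _
    rw [map_one, Units.val_one, Matrix.one_apply, Matrix.one_apply]
    simp
  · rw [emb_apply_left _ _ _ _ (fun a' => Sum.inr_ne_inl)]
    show (0 : Matrix ι κ F) a b = _
    simp
  · rw [emb_apply_right _ _ _ _ (fun a' => Sum.inr_ne_inl)]
    show (0 : Matrix κ ι F) a b = _
    simp
  · exact (emb_apply_apply (Function.Embedding.inr : κ ↪ ι ⊕ κ) (ψ y) a b).symm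

theorem prod_mem {ι κ : Type} [Fintype ι] [DecidableEq ι] [Fintype κ] [DecidableEq κ]
    {X Y : Type u} [Group X] [Group Y] (φ : X →* Matrix.GeneralLinearGroup ι F)
    (ψ : Y →* Matrix.GeneralLinearGroup κ F) (hφ : ∀ x, φ x ∈ OG ι F) (hψ : ∀ y, ψ y ∈ OG κ F)
    (z : X × Y) : prodHomGL φ ψ z ∈ OG (ι ⊕ κ) F := by
  obtain ⟨x, y⟩ := z
  have e : ((x, y) : X × Y) = (x, 1) * (1, y) := by
    apply Prod.ext <;> simp
  rw [e, map_mul, prod_inl, prod_inr]
  exact Subgroup.mul_mem _ (emb_mem_OG _ _ (hφ x)) (emb_mem_OG _ _ (hψ y))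

/-- The product step. -/
theorem inv_prod {ι κ : Type} [Fintype ι] [DecidableEq ι] [Fintype κ] [DecidableEq κ]
    {X Y : Type u} [Group X] [Group Y] (R₀ : Matrix.GeneralLinearGroup (Fin 2) F)
    (hR₀ : R₀ ∈ OG (Fin 2) F) (φ : X →* Matrix.GeneralLinearGroup ι F)
    (ψ : Y →* Matrix.GeneralLinearGroup κ F) (h1 : Inv R₀ φ) (h2 : Inv R₀ ψ) :
    Inv R₀ (prodHomGL φ ψ) := by
  obtain ⟨hφi, hφ, r₁, t₁, ht₁, hc₁, ⟨p₁, hp₁⟩, ⟨q₁, hq₁⟩, H₁⟩ := h1
  obtain ⟨hψi, hψ, r₂, t₂, ht₂, hc₂, ⟨p₂, hp₂⟩, ⟨q₂, hq₂⟩, H₂⟩ := h2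
  have hmem : ∀ z, prodHomGL φ ψ z ∈ OG (ι ⊕ κ) F := prod_mem φ ψ hφ hψ
  refine ⟨prodHomGL_injective φ ψ hφi hψi, hmem, (r₁, 1), (t₁, 1), ?_, ?_,
    ⟨p₁.trans Function.Embedding.inl, ?_⟩, ⟨q₁.trans Function.Embedding.inl, ?_⟩, ?_⟩
  · exact Prod.ext ht₁ (one_mul 1)
  · apply Prod.ext
    · exact hc₁
    · simp
  · rw [prod_inl, hp₁, emb_trans]
  · rw [prod_inl, hq₁, emb_trans]
  · intro A _ Θ hexp
    obtain ⟨hE₁, -, hv₁⟩ := H₁ A (Θ.comp (embO Function.Embedding.inl)) (fun g => hexp _)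
    obtain ⟨hE₂, -, hv₂⟩ := H₂ A (Θ.comp (embO Function.Embedding.inr)) (fun g => hexp _)
    have hχ : ∀ x y, chi Θ (prodHomGL φ ψ) hmem (x, y) =
        chi (Θ.comp (embO Function.Embedding.inl)) φ hφ x *
          chi (Θ.comp (embO Function.Embedding.inr)) ψ hψ y := by
      intro x y
      have e : ((x, y) : X × Y) = (x, 1) * (1, y) := by
        apply Prod.ext <;> simp
      rw [e, map_mul, chi_apply, chi_apply, chi_apply, chi_apply, MonoidHom.comp_apply,
        MonoidHom.comp_apply, embO_apply, embO_apply]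
      congr 1
      · exact theta_congr Θ (prod_inl φ ψ x) _ _
      · exact theta_congr Θ (prod_inr φ ψ y) _ _
    have hu : chi (Θ.comp (embO Function.Embedding.inl)) φ hφ r₁ =
        chi (Θ.comp (embO Function.Embedding.inr)) ψ hψ r₂ := by
      rw [chi_apply, chi_apply, MonoidHom.comp_apply, MonoidHom.comp_apply, embO_apply,
        embO_apply]
      have e1 : emb (Function.Embedding.inl : ι ↪ ι ⊕ κ) (φ r₁) =
          emb (p₁.trans Function.Embedding.inl) R₀ := by rw [hp₁, emb_trans]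
      have e2 : emb (Function.Embedding.inr : κ ↪ ι ⊕ κ) (ψ r₂) =
          emb (p₂.trans Function.Embedding.inr) R₀ := by rw [hp₂, emb_trans]
      exact ((theta_congr Θ e1 _ (emb_mem_OG _ _ hR₀)).trans
        (hom_emb_eq Θ _ _ R₀ hR₀)).trans (theta_congr Θ e2 _ (emb_mem_OG _ _ hR₀)).symm
    have hv : chi (Θ.comp (embO Function.Embedding.inl)) φ hφ t₁ =
        chi (Θ.comp (embO Function.Embedding.inr)) ψ hψ t₂ := by
      rw [chi_apply, chi_apply, MonoidHom.comp_apply, MonoidHom.comp_apply, embO_apply,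
        embO_apply]
      have e1 : emb (Function.Embedding.inl : ι ↪ ι ⊕ κ) (φ t₁) =
          emb (q₁.trans Function.Embedding.inl) (-1 : Matrix.GeneralLinearGroup (Fin 1) F) := by
        rw [hq₁, emb_trans]
      have e2 : emb (Function.Embedding.inr : κ ↪ ι ⊕ κ) (ψ t₂) =
          emb (q₂.trans Function.Embedding.inr) (-1 : Matrix.GeneralLinearGroup (Fin 1) F) := by
        rw [hq₂, emb_trans]
      exact ((theta_congr Θ e1 _ (emb_mem_OG _ _ negOne_mem_OG)).trans
        (hom_emb_eq Θ _ _ _ negOne_mem_OG)).trans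
          (theta_congr Θ e2 _ (emb_mem_OG _ _ negOne_mem_OG)).symm
    obtain ⟨hE, hRef⟩ := prodCore (chi (Θ.comp (embO Function.Embedding.inl)) φ hφ)
      (chi (Θ.comp (embO Function.Embedding.inr)) ψ hψ) (chi Θ (prodHomGL φ ψ) hmem) hχ
      (fun y => hexp _) r₁ t₁ r₂ t₂ ⟨ht₁, hc₁, hv₁⟩ ⟨ht₂, hc₂, hv₂⟩ hu hv hE₁ hE₂
    exact ⟨fun l hl => Subgroup.commutator_mono le_rfl le_top (hE l hl), fun _ => hE, hRef.2.2⟩

end prod


section wreath

variable {F : Type u} [Field F]

/-- The first block of the doubled index type. -/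
def q0 (ι : Type) : ι ↪ Multiplicative (ZMod 2) × ι :=
  ⟨fun i => (1, i), fun _ _ h => (Prod.mk.inj h).2⟩

theorem q0_apply (ι : Type) (i : ι) : q0 ι i = (1, i) := rfl

theorem dbl_base {ι : Type} [Fintype ι] [DecidableEq ι] {X : Type u} [Group X]
    (φ : X →* Matrix.GeneralLinearGroup ι F) (a : X) :
    dblHomGL (Q := Multiplicative (ZMod 2)) φ (baseHom (a, 1)) = emb (q0 ι) (φ a) := by
  apply Units.ext
  ext ⟨q, i⟩ ⟨q', k⟩
  have hL : ((dblHomGL (Q := Multiplicative (ZMod 2)) φ (baseHom (a, 1)) :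
      Matrix.GeneralLinearGroup (Multiplicative (ZMod 2) × ι) F) :
      Matrix (Multiplicative (ZMod 2) × ι) (Multiplicative (ZMod 2) × ι) F) (q, i) (q', k) =
      if q' = q then ((φ (if q = 1 then a else 1) : Matrix.GeneralLinearGroup ι F) :
        Matrix ι ι F) i k else 0 := by
    show BM (fun q => (baseHom ((a, 1) : X × X)).right⁻¹ * q)
      (fun q => (φ ((baseHom ((a, 1) : X × X)).left q) : Matrix ι ι F)) (q, i) (q', k) = _
    simp [BM, baseHom_apply]
  rw [hL]
  rcases c2_cases q with rfl | rfl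
  · rcases c2_cases q' with rfl | rfl
    · rw [if_pos rfl, if_pos rfl]
      exact (emb_apply_apply (q0 ι) (φ a) i k).symm
    · rw [if_neg c2_ne, emb_apply_right (q0 ι) (φ a) _ _
        (fun a' h => c2_ne (Prod.mk.inj h).1.symm), Matrix.one_apply, if_neg]
      intro h
      exact c2_ne (Prod.mk.inj h).1.symm
  · rw [if_neg c2_ne, map_one φ, Units.val_one, emb_apply_left (q0 ι) (φ a) _ _
      (fun a' h => c2_ne (Prod.mk.inj h).1.symm), Matrix.one_apply, Matrix.one_apply]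
    rcases c2_cases q' with rfl | rfl
    · rw [if_neg (fun h => c2_ne h.symm), if_neg]
      intro h
      exact c2_ne (Prod.mk.inj h).1
    · rw [if_pos rfl]
      by_cases hik : i = k
      · rw [if_pos hik, if_pos (by rw [hik])]
      · rw [if_neg hik, if_neg]
        intro h
        exact hik (Prod.mk.inj h).2

theorem dbl_inl {ι : Type} [Fintype ι] [DecidableEq ι] {X : Type u} [Group X]
    (φ : X →* Matrix.GeneralLinearGroup ι F) (s : Multiplicative (ZMod 2)) :
    dblHomGL φ (RegularWreathProduct.inl s : X ≀ᵣ Multiplicative (ZMod 2)) =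
      permGL F (Equiv.prodCongrLeft (fun _ : ι => Equiv.mulLeft s)) := by
  apply Units.ext
  ext ⟨q, i⟩ ⟨q', k⟩
  rw [permGL_val, Pm_apply]
  have hL : ((dblHomGL φ (RegularWreathProduct.inl s : X ≀ᵣ Multiplicative (ZMod 2)) :
      Matrix.GeneralLinearGroup (Multiplicative (ZMod 2) × ι) F) :
      Matrix (Multiplicative (ZMod 2) × ι) (Multiplicative (ZMod 2) × ι) F) (q, i) (q', k) =
      if q' = s⁻¹ * q then (1 : Matrix ι ι F) i k else 0 := by
    show BM (fun q => (RegularWreathProduct.inl s : X ≀ᵣ Multiplicative (ZMod 2)).right⁻¹ * q)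
      (fun q => (φ ((RegularWreathProduct.inl s : X ≀ᵣ Multiplicative (ZMod 2)).left q) :
        Matrix ι ι F)) (q, i) (q', k) = _
    simp [BM]
  rw [hL, Equiv.prodCongrLeft_apply, Matrix.one_apply]
  have e : Equiv.mulLeft s q' = s * q' := rfl
  rw [e]
  by_cases h1 : q' = s⁻¹ * q
  · rw [if_pos h1]
    by_cases hik : i = k
    · rw [if_pos hik, if_pos]
      rw [h1, hik, mul_inv_cancel_left]
    · rw [if_neg hik, if_neg]
      intro h
      exact hik (Prod.mk.inj h).2
  · rw [if_neg h1, if_neg]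
    intro h
    apply h1
    rw [(Prod.mk.inj h).1, inv_mul_cancel_left]

theorem sign_dbl {ι : Type} [Fintype ι] [DecidableEq ι] (hev : Even (Fintype.card ι))
    (s : Multiplicative (ZMod 2)) :
    Equiv.Perm.sign (Equiv.prodCongrLeft (fun _ : ι => Equiv.mulLeft s)) = 1 := by
  obtain ⟨k, hk⟩ := hev
  rw [Equiv.Perm.sign_prodCongrLeft, Finset.prod_const, Finset.card_univ, hk, ← two_mul, pow_mul,
    Int.units_sq, one_pow]

/-- The wreath step. -/
theorem inv_wreath {ι : Type} [Fintype ι] [DecidableEq ι] [Nonempty ι] {X : Type u} [Group X]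
    (R₀ : Matrix.GeneralLinearGroup (Fin 2) F) (φ : X →* Matrix.GeneralLinearGroup ι F)
    (h : Inv R₀ φ) (hev : Even (Fintype.card ι)) :
    Inv R₀ (dblHomGL (Q := Multiplicative (ZMod 2)) φ) := by
  obtain ⟨hφi, hφ, r, t, ht, hc, ⟨p, hp⟩, ⟨q, hq⟩, H⟩ := h
  have hmem : ∀ w, dblHomGL (Q := Multiplicative (ZMod 2)) φ w ∈
      OG (Multiplicative (ZMod 2) × ι) F := by
    intro w
    obtain ⟨x, y, s, rfl⟩ : ∃ x y s, w = baseHom (x, y) * RegularWreathProduct.inl s :=
      ⟨_, _, _, decomp w⟩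
    have e : ((x, y) : X × X) = (x, 1) * (1, y) := by
      apply Prod.ext <;> simp
    rw [e, map_mul, map_mul, map_mul, baseHom_swap, map_mul, map_mul, map_inv, dbl_base,
      dbl_base, dbl_inl, dbl_inl]
    exact Subgroup.mul_mem _ (Subgroup.mul_mem _ (emb_mem_OG _ _ (hφ x))
      (Subgroup.mul_mem _ (Subgroup.mul_mem _ (permGL_mem_OG _) (emb_mem_OG _ _ (hφ y)))
        (Subgroup.inv_mem _ (permGL_mem_OG _)))) (permGL_mem_OG _)
  refine ⟨dblHomGL_injective φ hφi, hmem, baseHom (r, 1), baseHom (t, 1), ?_, ?_,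
    ⟨p.trans (q0 ι), ?_⟩, ⟨q.trans (q0 ι), ?_⟩, ?_⟩
  · rw [← map_mul, Prod.mk_mul_mk, ht, mul_one]
    exact map_one _
  · rw [← map_inv, ← map_inv, ← map_mul, ← map_mul]
    congr 1
    apply Prod.ext
    · exact hc
    · simp
  · rw [dbl_base, hp, emb_trans]
  · rw [dbl_base, hq, emb_trans]
  · intro A _ Θ hexp
    have hs : ∀ s, chi Θ (dblHomGL (Q := Multiplicative (ZMod 2)) φ) hmem
        (RegularWreathProduct.inl s) = 1 := by
      intro s
      rw [chi_apply]
      exact (theta_congr Θ (dbl_inl φ s) _ (permGL_mem_OG _)).trans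
        (hom_perm_even Θ hexp _ (sign_dbl hev s))
    obtain ⟨hE₀, -, hv₀⟩ := H A (Θ.comp (embO (q0 ι))) (fun g => hexp _)
    have hχ₀ : ∀ x, chi (Θ.comp (embO (q0 ι))) φ hφ x =
        chi Θ (dblHomGL (Q := Multiplicative (ZMod 2)) φ) hmem (baseHom (x, 1)) := by
      intro x
      rw [chi_apply, chi_apply, MonoidHom.comp_apply, embO_apply]
      exact (theta_congr Θ (dbl_base φ x) _ _).symm
    obtain ⟨hE, hRef⟩ := wreathCore (chi Θ (dblHomGL (Q := Multiplicative (ZMod 2)) φ) hmem)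
      (fun w => hexp _) hs r t (chi (Θ.comp (embO (q0 ι))) φ hφ) hχ₀ ⟨ht, hc, hv₀⟩ hE₀
    exact ⟨fun l hl => Subgroup.commutator_mono le_rfl le_top (hE l hl), fun _ => hE, hRef.2.2⟩

end wreath

section tower

variable {F : Type u} [Field F] [Fintype F] [DecidableEq F]

theorem blocksO (R₀ : Matrix.GeneralLinearGroup (Fin 2) F) (a : ℕ)
    (D : Subgroup (Matrix.GeneralLinearGroup (Fin 2) F)) (hD : Nat.card ↥D = 2 ^ a)
    (hInv : Inv R₀ D.subtype) : ∀ j : ℕ,
    ∃ (X : Type u) (_ : Group X) (_ : Finite X) (ι : Type) (_ : Fintype ι) (_ : DecidableEq ι),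
      Nonempty ι ∧ IsPGroup 2 X ∧ Fintype.card ι = 2 ^ (j + 1) ∧
      2 ^ (Cfsg.Agent.Lib.Helper42.SpSyl.beta a j) ∣ Nat.card X ∧
      ∃ φ : X →* Matrix.GeneralLinearGroup ι F, Inv R₀ φ := by
  intro j
  induction j with
  | zero =>
    refine ⟨↥D, inferInstance, inferInstance, Fin 2, inferInstance, inferInstance,
      inferInstance, IsPGroup.of_card hD, by simp, ?_, D.subtype, hInv⟩
    rw [hD]
    exact dvd_refl _
  | succ j ih =>
    obtain ⟨X, hG, hfin, ι, hι1, hι2, hne, hp, hc, hd, φ, hφ⟩ := ih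
    refine ⟨X ≀ᵣ Multiplicative (ZMod 2), inferInstance, inferInstance,
      Multiplicative (ZMod 2) × ι, inferInstance, inferInstance, inferInstance, ?_, ?_, ?_,
      dblHomGL φ, inv_wreath R₀ φ hφ ⟨2 ^ j, by rw [hc]; ring⟩⟩
    · obtain ⟨k, hk⟩ := (IsPGroup.iff_card).mp hp
      apply IsPGroup.of_card (n := k * 2 + 1)
      rw [RegularWreathProduct.card, hk, Nat.card_eq_fintype_card, Fintype.card_multiplicative,
        ZMod.card]
      ring
    · rw [Fintype.card_prod, hc, Fintype.card_multiplicative, ZMod.card]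
      ring
    · rw [RegularWreathProduct.card, Nat.card_eq_fintype_card (α := Multiplicative (ZMod 2)),
        Fintype.card_multiplicative, ZMod.card]
      show 2 ^ (2 * Cfsg.Agent.Lib.Helper42.SpSyl.beta _ j + 1) ∣ _
      rw [pow_succ, pow_mul']
      exact Nat.mul_dvd_mul (pow_dvd_pow_of_dvd hd 2) (dvd_refl 2)

/-- The tower: a `2`-group of the right order inside the orthogonal group of `2^(j+1) n`
coordinates, with the invariant. -/
theorem towerO (R₀ : Matrix.GeneralLinearGroup (Fin 2) F) (hR₀ : R₀ ∈ OG (Fin 2) F) (a : ℕ)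
    (D : Subgroup (Matrix.GeneralLinearGroup (Fin 2) F)) (hD : Nat.card ↥D = 2 ^ a)
    (hInv : Inv R₀ D.subtype) : ∀ n : ℕ, 1 ≤ n → ∀ j : ℕ,
    ∃ (X : Type u) (_ : Group X) (_ : Finite X) (ι : Type) (_ : Fintype ι) (_ : DecidableEq ι),
      IsPGroup 2 X ∧ Fintype.card ι = 2 ^ (j + 1) * n ∧
      2 ^ (n * Cfsg.Agent.Lib.Helper42.SpSyl.beta a j + padicValNat 2 n.factorial) ∣
        Nat.card X ∧
      ∃ φ : X →* Matrix.GeneralLinearGroup ι F, Inv R₀ φ := by
  intro n
  induction n using Nat.strong_induction_on with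
  | _ n ih =>
  intro hn j
  rcases Nat.lt_or_ge n 2 with hlt | hge
  · have h1 : n = 1 := by omega
    subst h1
    obtain ⟨X, hG, hfin, ι, hι1, hι2, hne, hp, hc, hd, φ, hφ⟩ := blocksO R₀ a D hD hInv j
    refine ⟨X, hG, hfin, ι, hι1, hι2, hp, by rw [hc, mul_one], ?_, φ, hφ⟩
    simpa using hd
  · obtain ⟨X', hG', hfin', l', hl1', hl2', hp', hc', hd', φ', hφ'⟩ :=
      ih (n / 2) (Nat.div_lt_self (by omega) (by norm_num)) (by omega) (j + 1)
    rcases Nat.even_or_odd' n with ⟨m, rfl | rfl⟩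
    · have hm : 2 * m / 2 = m := by omega
      rw [hm] at hc' hd'
      refine ⟨X', hG', hfin', l', hl1', hl2', hp', ?_, ?_, φ', hφ'⟩
      · rw [hc']
        ring
      · have e : 2 * m * Cfsg.Agent.Lib.Helper42.SpSyl.beta a j +
            padicValNat 2 (2 * m).factorial =
            m * Cfsg.Agent.Lib.Helper42.SpSyl.beta a (j + 1) + padicValNat 2 m.factorial := by
          rw [padicValNat_factorial_mul]
          show _ = m * (2 * Cfsg.Agent.Lib.Helper42.SpSyl.beta _ j + 1) + _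
          ring
        rw [e]
        exact hd'
    · have hm : (2 * m + 1) / 2 = m := by omega
      rw [hm] at hc' hd'
      obtain ⟨Xb, hGb, hfinb, lb, hlb1, hlb2, hneb, hpb, hcb, hdb, φb, hφb⟩ :=
        blocksO R₀ a D hD hInv j
      refine ⟨X' × Xb, inferInstance, inferInstance, l' ⊕ lb, inferInstance, inferInstance,
        ?_, ?_, ?_, prodHomGL φ' φb, inv_prod R₀ hR₀ φ' φb hφ' hφb⟩
      · obtain ⟨k1, hk1⟩ := (IsPGroup.iff_card).mp hp'
        obtain ⟨k2, hk2⟩ := (IsPGroup.iff_card).mp hpb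
        exact IsPGroup.of_card (n := k1 + k2) (by rw [Nat.card_prod, hk1, hk2, pow_add])
      · rw [Fintype.card_sum, hc', hcb]
        ring
      · have e : (2 * m + 1) * Cfsg.Agent.Lib.Helper42.SpSyl.beta a j +
            padicValNat 2 (2 * m + 1).factorial =
            (m * Cfsg.Agent.Lib.Helper42.SpSyl.beta a (j + 1) + padicValNat 2 m.factorial) +
            Cfsg.Agent.Lib.Helper42.SpSyl.beta a j := by
          rw [padicValNat_factorial_mul_add m (by norm_num : 1 < 2), padicValNat_factorial_mul]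
          show _ = m * (2 * Cfsg.Agent.Lib.Helper42.SpSyl.beta _ j + 1) + _ + _
          ring
        rw [e, pow_add, Nat.card_prod]
        exact Nat.mul_dvd_mul hd' hdb

end tower

section basedata

variable {F : Type u} [Field F] [Fintype F]

/-- The base of the tower with its order. -/
theorem base_data (hodd : Odd (Fintype.card F)) (h2 : (2 : F) ≠ 0) :
    ∃ (R₀ : Matrix.GeneralLinearGroup (Fin 2) F)
      (D : Subgroup (Matrix.GeneralLinearGroup (Fin 2) F)), R₀ ∈ OG (Fin 2) F ∧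
      Nat.card ↥D =
        2 ^ (padicValNat 2 (Fintype.card F - 1) + padicValNat 2 (Fintype.card F + 1)) ∧
      Inv R₀ D.subtype := by
  obtain ⟨P⟩ : Nonempty (Sylow 2 (Circ F)) := inferInstance
  obtain ⟨ρ, hρP, hρ⟩ := exists_nonsq h2 P
  obtain ⟨D, hD, hInv⟩ := inv_base h2 P ρ hρP hρ
  refine ⟨rotC ρ, D, rotC_mem_OG ρ, ?_, hInv⟩
  rw [hD, P.card_eq_multiplicity, card_circ, ← Cfsg.Agent.Lib.Helper42.Circle.v2_circle h2 hodd,
    pow_succ']

end basedata

end Cfsg.Agent.Lib.Helper42.OTower
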