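import Mathlib
import Cfsg.Prelude.Def_Classical
import Cfsg.Agent.Lib.Helper42.OTower

/-!
# From the tower to Sylow `2`-subgroups of `Ω`

* `sylow_E_of_hom`: transfer of the property "squares lie in the derived subgroup" from the
  preimage of the commutator subgroup under an embedding of a `2`-group to the Sylow
  `2`-subgroups of the commutator subgroup.
* `conjGL`: conjugation of invertible matrices by a linear equivalence of coordinate spaces.
* `isoHom`: the orthogonal matrices inside the isometry group of a form equivalent to a multiple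
  of the sum of squares; `oddHom`: the same after `g ↦ diag(g, (det g)⁻¹)`.
* `final_odd`: the odd-dimensional case.
-/

set_option autoImplicit false
set_option linter.unusedSectionVars false

open scoped commutatorElement
open Matrix

namespace Cfsg.Agent.Lib.Helper42.OFinal

open Cfsg.Agent.Lib.Helper42.OEmb Cfsg.Agent.Lib.Helper42.ECore Cfsg.Agent.Lib.Helper42.OCirc
open Cfsg.Agent.Lib.Helper42.GLSyl Cfsg.Agent.Lib.Helper42.OTower Cfsg.Agent.Lib.Helper42.SylE

universe u

section sylow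

/-- Transfer to the Sylow `2`-subgroups of the commutator subgroup. -/
theorem sylow_E_of_hom {G : Type*} [Group G] [Finite G] {X : Type*} [Group X] [Finite X]
    (hX : IsPGroup 2 X) (f : X →* G) (hf : Function.Injective f)
    (hE : ∀ l ∈ (commutator G).comap f,
      l ^ 2 ∈ ⁅(commutator G).comap f, (commutator G).comap f⁆)
    (hcard : 2 ^ (Nat.card ↥(commutator G)).factorization 2 ≤
      Nat.card ↥((commutator G).comap f))
    (P : Sylow 2 ↥(commutator G)) : E ↥(P : Subgroup ↥(commutator G)) := by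
  obtain ⟨K, hK⟩ : ∃ K : Subgroup X, K = (commutator G).comap f := ⟨_, rfl⟩
  rw [← hK] at hE hcard
  have hKE : E ↥K := by
    intro x
    have h1 := hE x.1 x.2
    rw [← Subgroup.map_subtype_commutator] at h1
    obtain ⟨y, hy, hyx⟩ := h1
    have e : y = x ^ 2 := Subtype.ext hyx
    rw [← e]
    exact hy
  have hmem : ∀ x : ↥K, f x.1 ∈ commutator G := by
    intro x
    exact hK.le x.2
  obtain ⟨g, hg⟩ : ∃ g : ↥K →* ↥(commutator G), ∀ x, ((g x : ↥(commutator G)) : G) = f x.1 :=
    ⟨(f.comp K.subtype).codRestrict (commutator G) hmem, fun x => rfl⟩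
  have hginj : Function.Injective g := by
    intro a b hab
    apply Subtype.ext
    apply hf
    rw [← hg a, ← hg b, hab]
  have hKp : IsPGroup 2 ↥K := hX.to_subgroup K
  have hrange : IsPGroup 2 ↥g.range := by
    rw [MonoidHom.range_eq_map]
    exact (IsPGroup.of_equiv hKp (Subgroup.topEquiv).symm).map g
  obtain ⟨Q', hQ'⟩ := hrange.exists_le_sylow
  obtain ⟨g', hg'⟩ : ∃ g' : ↥K →* ↥(Q' : Subgroup ↥(commutator G)), ∀ x, (g' x).1 = g x :=
    ⟨g.codRestrict (Q' : Subgroup ↥(commutator G)) (fun w => hQ' ⟨w, rfl⟩), fun x => rfl⟩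
  have hg'inj : Function.Injective g' := by
    intro a b hab
    apply hginj
    rw [← hg' a, ← hg' b, hab]
  have hle : Nat.card ↥(Q' : Subgroup ↥(commutator G)) ≤ Nat.card ↥K := by
    rw [Q'.card_eq_multiplicity]
    exact hcard
  have hbij : Function.Bijective g' := hg'inj.bijective_of_nat_card_le hle
  exact E_of_mulEquiv (Sylow.equiv Q' P) (E_of_mulEquiv (MulEquiv.ofBijective g' hbij) hKE)

/-- The preimage of the commutator subgroup has index at most two when the image avoids a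
character that is not trivial. -/
theorem index_comap_le_two {G : Type*} [Group G] {A : Type*} [CommGroup A]
    (d : G →* A) (g₀ : G) (hg₀ : d g₀ ≠ 1) (h4 : (commutator G).index = 4) {X : Type*} [Group X]
    (f : X →* G) (hf : ∀ x, d (f x) = 1) : ((commutator G).comap f).index ≤ 2 := by
  have hle : commutator G ≤ d.ker := Abelianization.commutator_subset_ker d
  have hr : f.range ≤ d.ker := by
    rintro _ ⟨x, rfl⟩
    exact hf x
  have h1 := Subgroup.relIndex_mul_index hle
  rw [h4] at h1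
  have h2 : d.ker.index ≠ 1 := by
    rw [Ne, Subgroup.index_eq_one]
    intro h
    have : g₀ ∈ d.ker := by
      rw [h]
      exact Subgroup.mem_top _
    exact hg₀ this
  have h0 : d.ker.index ≠ 0 := by
    intro h
    rw [h] at h1
    omega
  have h3 : (commutator G).relIndex d.ker ≤ 2 := by
    by_contra hcon
    push Not at hcon
    have h5 : 2 ≤ d.ker.index := by omega
    nlinarith
  have h6 : (commutator G).relIndex d.ker ≠ 0 := by
    intro h
    rw [h] at h1
    omega
  rw [Subgroup.index_comap]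
  exact (Subgroup.relIndex_le_of_le_right hr h6).trans h3

end sylow

section conj

variable {F : Type*} [Field F] {κ N : Type*} [Fintype κ] [DecidableEq κ] [Fintype N]
  [DecidableEq N]

theorem conj_aux1 (E : (κ → F) ≃ₗ[F] (N → F)) :
    LinearMap.toMatrix' (E : (κ → F) →ₗ[F] (N → F)) *
      LinearMap.toMatrix' (E.symm : (N → F) →ₗ[F] (κ → F)) = 1 := by
  rw [← LinearMap.toMatrix'_comp]
  simp

theorem conj_aux2 (E : (κ → F) ≃ₗ[F] (N → F)) :
    LinearMap.toMatrix' (E.symm : (N → F) →ₗ[F] (κ → F)) *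
      LinearMap.toMatrix' (E : (κ → F) →ₗ[F] (N → F)) = 1 := by
  rw [← LinearMap.toMatrix'_comp]
  simp

/-- Conjugation of matrices by a linear equivalence of coordinate spaces. -/
noncomputable def conjMat (E : (κ → F) ≃ₗ[F] (N → F)) : Matrix κ κ F →* Matrix N N F where
  toFun M := LinearMap.toMatrix' (E : (κ → F) →ₗ[F] (N → F)) * M *
    LinearMap.toMatrix' (E.symm : (N → F) →ₗ[F] (κ → F))
  map_one' := by
    rw [Matrix.mul_one, conj_aux1]
  map_mul' A B := by
    have h := conj_aux2 E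
    calc LinearMap.toMatrix' (E : (κ → F) →ₗ[F] (N → F)) * (A * B) *
          LinearMap.toMatrix' (E.symm : (N → F) →ₗ[F] (κ → F))
        = LinearMap.toMatrix' (E : (κ → F) →ₗ[F] (N → F)) * A *
          (LinearMap.toMatrix' (E.symm : (N → F) →ₗ[F] (κ → F)) *
            LinearMap.toMatrix' (E : (κ → F) →ₗ[F] (N → F))) * B *
          LinearMap.toMatrix' (E.symm : (N → F) →ₗ[F] (κ → F)) := by
          rw [h, Matrix.mul_one]
          simp only [Matrix.mul_assoc]
      _ = LinearMap.toMatrix' (E : (κ → F) →ₗ[F] (N → F)) * A *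
          LinearMap.toMatrix' (E.symm : (N → F) →ₗ[F] (κ → F)) *
          (LinearMap.toMatrix' (E : (κ → F) →ₗ[F] (N → F)) * B *
          LinearMap.toMatrix' (E.symm : (N → F) →ₗ[F] (κ → F))) := by
          simp only [Matrix.mul_assoc]

theorem conjMat_apply (E : (κ → F) ≃ₗ[F] (N → F)) (M : Matrix κ κ F) :
    conjMat E M = LinearMap.toMatrix' (E : (κ → F) →ₗ[F] (N → F)) * M *
      LinearMap.toMatrix' (E.symm : (N → F) →ₗ[F] (κ → F)) := rfl

theorem conjMat_mulVec (E : (κ → F) ≃ₗ[F] (N → F)) (M : Matrix κ κ F) (u : N → F) :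
    conjMat E M *ᵥ u = E (M *ᵥ E.symm u) := by
  rw [conjMat_apply, ← Matrix.mulVec_mulVec, ← Matrix.mulVec_mulVec,
    LinearMap.toMatrix'_mulVec, LinearMap.toMatrix'_mulVec]
  rfl

theorem conjMat_det (E : (κ → F) ≃ₗ[F] (N → F)) (M : Matrix κ κ F) :
    (conjMat E M).det = M.det := by
  rw [conjMat_apply]
  exact Matrix.det_conj_of_mul_eq_one (conj_aux1 E) (conj_aux2 E)

theorem conjMat_injective (E : (κ → F) ≃ₗ[F] (N → F)) : Function.Injective (conjMat E) := by
  intro A B h
  have key : ∀ M : Matrix κ κ F, LinearMap.toMatrix' (E.symm : (N → F) →ₗ[F] (κ → F)) *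
      conjMat E M * LinearMap.toMatrix' (E : (κ → F) →ₗ[F] (N → F)) = M := by
    intro M
    rw [conjMat_apply]
    calc LinearMap.toMatrix' (E.symm : (N → F) →ₗ[F] (κ → F)) *
          (LinearMap.toMatrix' (E : (κ → F) →ₗ[F] (N → F)) * M *
            LinearMap.toMatrix' (E.symm : (N → F) →ₗ[F] (κ → F))) *
          LinearMap.toMatrix' (E : (κ → F) →ₗ[F] (N → F))
        = (LinearMap.toMatrix' (E.symm : (N → F) →ₗ[F] (κ → F)) *
          LinearMap.toMatrix' (E : (κ → F) →ₗ[F] (N → F))) * M *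
            (LinearMap.toMatrix' (E.symm : (N → F) →ₗ[F] (κ → F)) *
          LinearMap.toMatrix' (E : (κ → F) →ₗ[F] (N → F))) := by
          simp only [Matrix.mul_assoc]
      _ = M := by rw [conj_aux2, Matrix.one_mul, Matrix.mul_one]
  rw [← key A, ← key B, h]

/-- Conjugation of invertible matrices by a linear equivalence of coordinate spaces. -/
noncomputable def conjGL (E : (κ → F) ≃ₗ[F] (N → F)) :
    Matrix.GeneralLinearGroup κ F →* Matrix.GeneralLinearGroup N F :=
  Units.map (conjMat E)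

theorem conjGL_val (E : (κ → F) ≃ₗ[F] (N → F)) (g : Matrix.GeneralLinearGroup κ F) :
    ((conjGL E g : Matrix.GeneralLinearGroup N F) : Matrix N N F) =
      conjMat E (g : Matrix κ κ F) := rfl

theorem conjGL_injective (E : (κ → F) ≃ₗ[F] (N → F)) : Function.Injective (conjGL E) := by
  intro g h hgh
  apply Units.ext
  apply conjMat_injective E
  rw [← conjGL_val, ← conjGL_val, hgh]

theorem conjGL_det (E : (κ → F) ≃ₗ[F] (N → F)) (g : Matrix.GeneralLinearGroup κ F) :
    Matrix.GeneralLinearGroup.det (conjGL E g) = Matrix.GeneralLinearGroup.det g := by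
  apply Units.ext
  rw [Matrix.GeneralLinearGroup.val_det_apply, Matrix.GeneralLinearGroup.val_det_apply,
    conjGL_val, conjMat_det]

/-- Orthogonal matrices preserve the sum of squares. -/
theorem OG_sum_sq (g : Matrix.GeneralLinearGroup κ F) (hg : g ∈ OG κ F) (w : κ → F) :
    ∑ k, ((g : Matrix κ κ F) *ᵥ w) k ^ 2 = ∑ k, w k ^ 2 := by
  have hg' : (g : Matrix κ κ F)ᵀ * (g : Matrix κ κ F) = 1 := hg
  have h1 : ∀ v : κ → F, ∑ k, v k ^ 2 = v ⬝ᵥ v := by
    intro v
    simp [dotProduct, pow_two]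
  rw [h1, h1, Matrix.dotProduct_mulVec, ← Matrix.vecMul_transpose, Matrix.vecMul_vecMul, hg',
    Matrix.vecMul_one]

theorem det_sq_of_mem (g : Matrix.GeneralLinearGroup κ F) (hg : g ∈ OG κ F) :
    Matrix.GeneralLinearGroup.det g * Matrix.GeneralLinearGroup.det g = 1 := by
  have hg' : (g : Matrix κ κ F)ᵀ * (g : Matrix κ κ F) = 1 := hg
  apply Units.ext
  rw [Units.val_mul, Matrix.GeneralLinearGroup.val_det_apply, Units.val_one]
  have := congrArg Matrix.det hg'
  rw [Matrix.det_mul, Matrix.det_transpose, Matrix.det_one] at this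
  exact this

end conj

section iso

variable {F : Type u} [Field F] {κ N : Type} [Fintype κ] [DecidableEq κ] [Fintype N]
  [DecidableEq N]

theorem conj_mem_iso (E : (κ → F) ≃ₗ[F] (N → F)) (Q : (N → F) → F) (c : F)
    (hQ : ∀ w, Q (E w) = c * ∑ k, w k ^ 2) (g : Matrix.GeneralLinearGroup κ F)
    (hg : g ∈ OG κ F) : conjGL E g ∈ Cfsg.isometryGroup F Q := by
  intro u v
  show Q (((conjGL E g : Matrix.GeneralLinearGroup N F) : Matrix N N F) *ᵥ u) = Q u
  rw [conjGL_val, conjMat_mulVec, hQ, OG_sum_sq g hg, ← hQ, LinearEquiv.apply_symm_apply]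

/-- The orthogonal matrices inside the isometry group of a form equivalent to a multiple of the
sum of squares. -/
noncomputable def isoHom (E : (κ → F) ≃ₗ[F] (N → F)) (Q : (N → F) → F) (c : F)
    (hQ : ∀ w, Q (E w) = c * ∑ k, w k ^ 2) : ↥(OG κ F) →* ↥(Cfsg.isometryGroup F Q) :=
  ((conjGL E).comp (OG κ F).subtype).codRestrict (Cfsg.isometryGroup F Q)
    (fun g => conj_mem_iso E Q c hQ g.1 g.2)

theorem isoHom_val (E : (κ → F) ≃ₗ[F] (N → F)) (Q : (N → F) → F) (c : F)
    (hQ : ∀ w, Q (E w) = c * ∑ k, w k ^ 2) (g : ↥(OG κ F)) :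
    ((isoHom E Q c hQ g : ↥(Cfsg.isometryGroup F Q)) : Matrix.GeneralLinearGroup N F) =
      conjGL E g.1 := rfl

theorem isoHom_injective (E : (κ → F) ≃ₗ[F] (N → F)) (Q : (N → F) → F) (c : F)
    (hQ : ∀ w, Q (E w) = c * ∑ k, w k ^ 2) : Function.Injective (isoHom E Q c hQ) := by
  intro g h hgh
  apply Subtype.ext
  apply conjGL_injective E
  rw [← isoHom_val E Q c hQ, ← isoHom_val E Q c hQ, hgh]

end iso

section dext

variable {F : Type u} [Field F] {ι : Type} [Fintype ι] [DecidableEq ι]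

/-- The `1 × 1` block `(det g)⁻¹`. -/
noncomputable def delta : ↥(OG ι F) →* Matrix.GeneralLinearGroup (Fin 1) F :=
  ((Units.map (Matrix.scalar (Fin 1) : F →+* Matrix (Fin 1) (Fin 1) F).toMonoidHom).comp
    ((invMonoidHom : Fˣ →* Fˣ).comp Matrix.GeneralLinearGroup.det)).comp (OG ι F).subtype

theorem delta_val (g : ↥(OG ι F)) :
    ((delta g : Matrix.GeneralLinearGroup (Fin 1) F) : Matrix (Fin 1) (Fin 1) F) =
      Matrix.scalar (Fin 1) (((Matrix.GeneralLinearGroup.det g.1)⁻¹ : Fˣ) : F) := rfl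

theorem delta_mem (g : ↥(OG ι F)) : delta g ∈ OG (Fin 1) F := by
  show ((delta g : Matrix.GeneralLinearGroup (Fin 1) F) : Matrix (Fin 1) (Fin 1) F)ᵀ *
    ((delta g : Matrix.GeneralLinearGroup (Fin 1) F) : Matrix (Fin 1) (Fin 1) F) = 1
  have h := det_sq_of_mem g.1 g.2
  have h' : ((Matrix.GeneralLinearGroup.det g.1)⁻¹ : Fˣ) *
      ((Matrix.GeneralLinearGroup.det g.1)⁻¹ : Fˣ) = 1 := by
    rw [← mul_inv, h, inv_one]
  have h'' : (((Matrix.GeneralLinearGroup.det g.1)⁻¹ : Fˣ) : F) *
      (((Matrix.GeneralLinearGroup.det g.1)⁻¹ : Fˣ) : F) = 1 := by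
    rw [← Units.val_mul, h', Units.val_one]
  rw [delta_val, Matrix.scalar_apply, Matrix.diagonal_transpose, Matrix.diagonal_mul_diagonal]
  simp only [h'']
  exact Matrix.diagonal_one

/-- `g ↦ diag(g, (det g)⁻¹)` on orthogonal matrices. -/
noncomputable def dextO : ↥(OG ι F) →* ↥(OG (ι ⊕ Fin 1) F) :=
  ((prodHomGL (OG ι F).subtype delta).comp
    ((MonoidHom.id ↥(OG ι F)).prod (MonoidHom.id ↥(OG ι F)))).codRestrict (OG (ι ⊕ Fin 1) F)
    (fun _ => prod_mem (OG ι F).subtype delta (fun x => x.2) delta_mem _)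

theorem dextO_val (g : ↥(OG ι F)) :
    (((dextO g : ↥(OG (ι ⊕ Fin 1) F)) : Matrix.GeneralLinearGroup (ι ⊕ Fin 1) F) :
      Matrix (ι ⊕ Fin 1) (ι ⊕ Fin 1) F) =
      Matrix.fromBlocks (g.1 : Matrix ι ι F) 0 0
        (Matrix.scalar (Fin 1) (((Matrix.GeneralLinearGroup.det g.1)⁻¹ : Fˣ) : F)) := rfl

theorem dextO_injective : Function.Injective (dextO (F := F) (ι := ι)) := by
  intro g h hgh
  have h1 := congrArg (fun z : ↥(OG (ι ⊕ Fin 1) F) =>
    ((z : Matrix.GeneralLinearGroup (ι ⊕ Fin 1) F) : Matrix (ι ⊕ Fin 1) (ι ⊕ Fin 1) F)) hgh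
  simp only [dextO_val] at h1
  rw [Matrix.fromBlocks_inj] at h1
  exact Subtype.ext (Units.ext h1.1)

theorem dextO_det (g : ↥(OG ι F)) :
    Matrix.GeneralLinearGroup.det
      ((dextO g : ↥(OG (ι ⊕ Fin 1) F)) : Matrix.GeneralLinearGroup (ι ⊕ Fin 1) F) = 1 := by
  apply Units.ext
  rw [Matrix.GeneralLinearGroup.val_det_apply, dextO_val, Matrix.det_fromBlocks_zero₂₁,
    Matrix.scalar_apply, Matrix.det_diagonal, Finset.prod_const, Finset.card_univ,
    Fintype.card_fin, pow_one, ← Matrix.GeneralLinearGroup.val_det_apply, ← Units.val_mul,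
    mul_inv_cancel]

end dext

section final

variable {F : Type u} [Field F] [Fintype F]

/-- The odd-dimensional case: if `Q`, in dimension `2m+1`, is equivalent to a multiple of the
sum of squares, `Ω = O'` has index four and contains the squares, and `|O|` has the expected
`2`-part, then the Sylow `2`-subgroups of `Ω` have their squares in their derived subgroups. -/
theorem final_odd (hodd : Odd (Fintype.card F)) (h2 : (2 : F) ≠ 0)
    {N : Type} [Fintype N] [DecidableEq N] (Q : (N → F) → F) (m : ℕ) (hm : 2 ≤ m)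
    (hN : Fintype.card N = 2 * m + 1) (c : F)
    (hform : ∃ e : (N → F) ≃ₗ[F] (N → F), ∀ v, Q (e v) = ∑ j, c * v j ^ 2)
    (h4 : (commutator ↥(Cfsg.isometryGroup F Q)).index = 4)
    (hsq : ∀ g : ↥(Cfsg.isometryGroup F Q), g * g ∈ commutator ↥(Cfsg.isometryGroup F Q))
    (hcard : (Nat.card ↥(Cfsg.isometryGroup F Q)).factorization 2 =
      1 + (m * (padicValNat 2 (Fintype.card F - 1) + padicValNat 2 (Fintype.card F + 1)) +
        padicValNat 2 m.factorial))
    (P : Sylow 2 ↥(commutator ↥(Cfsg.isometryGroup F Q))) :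
    E ↥(P : Subgroup ↥(commutator ↥(Cfsg.isometryGroup F Q))) := by
  classical
  obtain ⟨R₀, D, hR₀, hD, hInvD⟩ := base_data hodd h2
  obtain ⟨X, hG, hfin, ι, hι1, hι2, hp, hc, hd, φ, hInv⟩ :=
    towerO R₀ hR₀ _ D hD hInvD m (by omega) 0
  have hcι : Fintype.card ι = 2 * m := by
    rw [hc]
    ring
  have hd' : 2 ^ (m * (padicValNat 2 (Fintype.card F - 1) +
      padicValNat 2 (Fintype.card F + 1)) + padicValNat 2 m.factorial) ∣ Nat.card X := hd
  obtain ⟨e'⟩ : Nonempty (N ≃ ι ⊕ Fin 1) :=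
    ⟨Fintype.equivOfCardEq (by rw [Fintype.card_sum, hcι, hN, Fintype.card_fin])⟩
  obtain ⟨e, he⟩ := hform
  obtain ⟨E', hE'⟩ : ∃ E' : (ι ⊕ Fin 1 → F) ≃ₗ[F] (N → F),
      ∀ w, Q (E' w) = c * ∑ k, w k ^ 2 := by
    refine ⟨(LinearEquiv.funCongrLeft F F e').trans e, fun w => ?_⟩
    show Q (e (LinearEquiv.funCongrLeft F F e' w)) = _
    rw [he, ← Finset.mul_sum]
    congr 1
    exact Equiv.sum_comp e' (fun k => w k ^ 2)
  obtain ⟨hφi, hφ, r, t, -, -, -, -, H⟩ := hInv
  obtain ⟨Ψ, hΨi, hΨd⟩ : ∃ Ψ : ↥(OG ι F) →* ↥(Cfsg.isometryGroup F Q), Function.Injective Ψ ∧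
      ∀ g, Matrix.GeneralLinearGroup.det
        ((Ψ g : ↥(Cfsg.isometryGroup F Q)) : Matrix.GeneralLinearGroup N F) = 1 := by
    refine ⟨(isoHom E' Q c hE').comp dextO,
      (isoHom_injective E' Q c hE').comp dextO_injective, fun g => ?_⟩
    show Matrix.GeneralLinearGroup.det (conjGL E' (dextO g).1) = 1
    rw [conjGL_det, dextO_det]
  obtain ⟨Θ, hΘ⟩ : ∃ Θ : ↥(OG ι F) →* Abelianization ↥(Cfsg.isometryGroup F Q),
      ∀ g, Θ g = Abelianization.of (Ψ g) := ⟨Abelianization.of.comp Ψ, fun g => rfl⟩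
  have hexp : ∀ g, Θ g * Θ g = 1 := by
    intro g
    rw [hΘ, ← map_mul, ← MonoidHom.mem_ker, Abelianization.ker_of]
    exact hsq _
  obtain ⟨-, hE2, -⟩ := H (Abelianization ↥(Cfsg.isometryGroup F Q)) Θ hexp
  have hE3 := hE2 (by rw [hcι]; omega)
  obtain ⟨f, hf⟩ : ∃ f : X →* ↥(Cfsg.isometryGroup F Q), ∀ x, f x = Ψ ⟨φ x, hφ x⟩ :=
    ⟨Ψ.comp (φ.codRestrict (OG ι F) hφ), fun x => rfl⟩
  have hfi : Function.Injective f := by
    intro x y hxy
    rw [hf, hf] at hxy
    exact hφi (congrArg Subtype.val (hΨi hxy))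
  have hker : (chi Θ φ hφ).ker = (commutator ↥(Cfsg.isometryGroup F Q)).comap f := by
    ext x
    rw [MonoidHom.mem_ker, Subgroup.mem_comap, chi_apply, hΘ, ← hf, ← MonoidHom.mem_ker,
      Abelianization.ker_of]
  rw [hker] at hE3
  apply sylow_E_of_hom hp f hfi hE3 ?_ P
  -- counting
  have hidx : ((commutator ↥(Cfsg.isometryGroup F Q)).comap f).index ≤ 2 := by
    obtain ⟨g₀, hg₀⟩ : ∃ g₀ : ↥(Cfsg.isometryGroup F Q), Matrix.GeneralLinearGroup.det
        (g₀ : Matrix.GeneralLinearGroup N F) ≠ 1 := by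
      have hmem : (-1 : Matrix.GeneralLinearGroup N F) ∈ Cfsg.isometryGroup F Q := by
        intro u v
        show Q (((-1 : Matrix.GeneralLinearGroup N F) : Matrix N N F) *ᵥ u) = Q u
        have e1 : ((-1 : Matrix.GeneralLinearGroup N F) : Matrix N N F) *ᵥ u =
            E' (-(E'.symm u)) := by
          rw [Units.val_neg, Units.val_one, Matrix.neg_mulVec, Matrix.one_mulVec, map_neg,
            LinearEquiv.apply_symm_apply]
        have e2 : Q u = Q (E' (E'.symm u)) := by rw [LinearEquiv.apply_symm_apply]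
        rw [e1, hE', e2, hE']
        congr 1
        apply Finset.sum_congr rfl
        intro k _
        rw [Pi.neg_apply, neg_sq]
      refine ⟨⟨-1, hmem⟩, ?_⟩
      intro h
      have h1 := congrArg Units.val h
      rw [Matrix.GeneralLinearGroup.val_det_apply, Units.val_one] at h1
      have h3 : (((⟨-1, hmem⟩ : ↥(Cfsg.isometryGroup F Q)) : Matrix.GeneralLinearGroup N F) :
          Matrix N N F) = -1 := rfl
      rw [h3, Matrix.det_neg, Matrix.det_one, mul_one, hN, pow_succ, pow_mul, neg_one_sq,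
        one_pow, one_mul] at h1
      apply h2
      linear_combination -h1
    exact index_comap_le_two
      (Matrix.GeneralLinearGroup.det.comp (Cfsg.isometryGroup F Q).subtype) g₀ hg₀ h4 f
      (fun x => by rw [hf]; exact hΨd _)
  have h5 := Subgroup.card_mul_index ((commutator ↥(Cfsg.isometryGroup F Q)).comap f)
  have h6 := Subgroup.card_mul_index (commutator ↥(Cfsg.isometryGroup F Q))
  rw [h4] at h6
  have h7 : (Nat.card ↥(commutator ↥(Cfsg.isometryGroup F Q))).factorization 2 + 2 =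
      1 + (m * (padicValNat 2 (Fintype.card F - 1) + padicValNat 2 (Fintype.card F + 1)) +
        padicValNat 2 m.factorial) := by
    rw [← hcard, ← h6, Nat.factorization_mul Nat.card_pos.ne' (by norm_num), Finsupp.add_apply]
    congr 1
    rw [Nat.factorization_def _ Nat.prime_two]
    exact (padicValNat.prime_pow (p := 2) 2).symm
  have h8 := Nat.le_of_dvd Nat.card_pos hd'
  have h9 : m * (padicValNat 2 (Fintype.card F - 1) + padicValNat 2 (Fintype.card F + 1)) +
      padicValNat 2 m.factorial =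
      (Nat.card ↥(commutator ↥(Cfsg.isometryGroup F Q))).factorization 2 + 1 := by omega
  rw [h9, pow_succ] at h8
  have h10 : 2 ^ (Nat.card ↥(commutator ↥(Cfsg.isometryGroup F Q))).factorization 2 * 2 ≤
      Nat.card ↥((commutator ↥(Cfsg.isometryGroup F Q)).comap f) * 2 := by
    calc _ ≤ Nat.card X := h8
      _ = Nat.card ↥((commutator ↥(Cfsg.isometryGroup F Q)).comap f) *
          ((commutator ↥(Cfsg.isometryGroup F Q)).comap f).index := h5.symm
      _ ≤ _ := Nat.mul_le_mul_left _ hidx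
  exact Nat.le_of_mul_le_mul_right h10 (by norm_num)

end final

end Cfsg.Agent.Lib.Helper42.OFinal
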