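import Mathlib
import Cfsg.Prelude.Def_Classical
import Cfsg.Agent.Lib.Helper37.OrthDiag

/-!
# The standard quadratic forms as multiples of sums of squares

* `form_const_odd`: `x₀² + Σ x_i y_i` is equivalent to `c · Σ x_j²` for some `c`
  (`q` odd).
-/

set_option autoImplicit false
set_option linter.unusedSectionVars false

namespace Cfsg.Agent.Lib.Helper42.OForm

open Cfsg.Agent.Lib.Helper37.RankTools Cfsg.Agent.Lib.Helper37.OrthLower
  Cfsg.Agent.Lib.Helper37.OrthDiag

/-- Coefficients of the diagonalised odd-dimensional form. -/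
def sOdd (F : Type*) [Field F] (n : ℕ) : Unit ⊕ (Fin n ⊕ Fin n) → F :=
  Sum.elim (fun _ => 1) (Sum.elim (fun _ => 1) (fun _ => -1))

/-- The change of variables diagonalising the hyperbolic planes. -/
def hypOdd (F : Type*) [Field F] (h2 : (2 : F) ≠ 0) (n : ℕ) :
    (Unit ⊕ (Fin n ⊕ Fin n) → F) ≃ₗ[F] (Unit ⊕ (Fin n ⊕ Fin n) → F) where
  toFun v := Sum.elim (fun u => v (Sum.inl u))
    (Sum.elim (fun i => v (Sum.inr (Sum.inl i)) + v (Sum.inr (Sum.inr i)))
      (fun i => v (Sum.inr (Sum.inl i)) - v (Sum.inr (Sum.inr i))))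
  map_add' v w := by
    funext j
    rcases j with u | i | i
    · simp
    · simp; ring
    · simp; ring
  map_smul' c v := by
    funext j
    rcases j with u | i | i
    · simp
    · simp; ring
    · simp; ring
  invFun w := Sum.elim (fun u => w (Sum.inl u))
    (Sum.elim (fun i => (w (Sum.inr (Sum.inl i)) + w (Sum.inr (Sum.inr i))) / 2)
      (fun i => (w (Sum.inr (Sum.inl i)) - w (Sum.inr (Sum.inr i))) / 2))
  left_inv v := by
    funext j
    rcases j with u | i | i
    · simp
    · simp; field_simp; ring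
    · simp; field_simp; ring
  right_inv w := by
    funext j
    rcases j with u | i | i
    · simp
    · simp; field_simp; ring
    · simp; field_simp; ring

theorem form_diag_odd (F : Type*) [Field F] (h2 : (2 : F) ≠ 0) (n : ℕ) :
    FormEquiv (Cfsg.quadFormOdd n F) (diagForm (sOdd F n)) := by
  refine ⟨hypOdd F h2 n, fun v => ?_⟩
  unfold Cfsg.quadFormOdd diagForm
  rw [Fintype.sum_sum_type, Fintype.sum_sum_type]
  simp only [hypOdd, sOdd, LinearEquiv.coe_mk, LinearMap.coe_mk, AddHom.coe_mk, Sum.elim_inl,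
    Sum.elim_inr, Finset.univ_unique, Finset.sum_singleton, one_mul]
  rw [← Finset.sum_add_distrib]
  congr 1
  apply Finset.sum_congr rfl
  intro i _
  ring

/-- The odd-dimensional standard form is a multiple of the sum of squares. -/
theorem form_const_odd {F : Type*} [Field F] [Fintype F] (hF : Odd (Fintype.card F)) (n : ℕ) :
    ∃ c : F, FormEquiv (Cfsg.quadFormOdd n F)
      (diagForm (fun _ : Unit ⊕ (Fin n ⊕ Fin n) => c)) := by
  have h2 := two_ne_zero_of_odd_card hF
  obtain ⟨α, β, hαβ⟩ := exists_sq_add_sq_eq_neg_one hF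
  have hd := form_diag_odd F h2 n
  rcases Nat.even_or_odd n with hev | hodd
  · -- flip the `-1` coordinates
    obtain ⟨T, hTdef⟩ : ∃ T : Finset (Unit ⊕ (Fin n ⊕ Fin n)),
        T = Finset.univ.image (fun i : Fin n => Sum.inr (Sum.inr i)) := ⟨_, rfl⟩
    have hT : T.card = 2 * (n / 2) := by
      rw [hTdef, Finset.card_image_of_injective _ (fun a b h => by simpa using h),
        Finset.card_univ, Fintype.card_fin]
      obtain ⟨k, hk⟩ := hev
      omega
    have hconst : ∀ a ∈ T, ∀ b ∈ T, sOdd F n a = sOdd F n b := by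
      intro a ha b hb
      rw [hTdef] at ha hb
      obtain ⟨i, -, rfl⟩ := Finset.mem_image.mp ha
      obtain ⟨j, -, rfl⟩ := Finset.mem_image.mp hb
      rfl
    have hflip := flip_even α β hαβ (n / 2) T hT (sOdd F n) hconst
    have heq : flipOn T (sOdd F n) = fun _ => (1 : F) := by
      funext j
      rw [hTdef]
      rcases j with u | i | i <;> simp [flipOn, sOdd]
    rw [heq] at hflip
    exact ⟨1, hd.trans hflip⟩
  · -- flip the `+1` coordinates
    obtain ⟨T, hTdef⟩ : ∃ T : Finset (Unit ⊕ (Fin n ⊕ Fin n)),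
        T = insert (Sum.inl ()) (Finset.univ.image (fun i : Fin n => Sum.inr (Sum.inl i))) :=
      ⟨_, rfl⟩
    have hT : T.card = 2 * ((n + 1) / 2) := by
      rw [hTdef, Finset.card_insert_of_notMem (by simp),
        Finset.card_image_of_injective _ (fun a b h => by simpa using h), Finset.card_univ,
        Fintype.card_fin]
      obtain ⟨k, hk⟩ := hodd
      omega
    have h1 : ∀ x ∈ T, sOdd F n x = 1 := by
      intro x hx
      rw [hTdef] at hx
      rcases Finset.mem_insert.mp hx with rfl | hx
      · rfl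
      · obtain ⟨i, -, rfl⟩ := Finset.mem_image.mp hx
        rfl
    have hconst : ∀ a ∈ T, ∀ b ∈ T, sOdd F n a = sOdd F n b := by
      intro a ha b hb
      rw [h1 a ha, h1 b hb]
    have hflip := flip_even α β hαβ ((n + 1) / 2) T hT (sOdd F n) hconst
    have heq : flipOn T (sOdd F n) = fun _ => (-1 : F) := by
      funext j
      rw [hTdef]
      rcases j with u | i | i <;> simp [flipOn, sOdd]
    rw [heq] at hflip
    exact ⟨-1, hd.trans hflip⟩

end Cfsg.Agent.Lib.Helper42.OForm
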