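import Mathlib

set_option autoImplicit false

namespace Cfsg.Agent.Lib.Helper42.PSLReindex

open Matrix

section
variable {κ ι : Type*} [Fintype κ] [DecidableEq κ] [Fintype ι] [DecidableEq ι]
variable (R : Type*) [CommRing R]

/-- reindexing the special linear group along a bijection of the index types -/
def slReindex (e : κ ≃ ι) : SpecialLinearGroup κ R ≃* SpecialLinearGroup ι R where
  toFun A := ⟨reindexAlgEquiv R R e A.1, by rw [det_reindexAlgEquiv]; exact A.2⟩
  invFun A := ⟨(reindexAlgEquiv R R e).symm A.1, by
    have := det_reindexAlgEquiv R R e ((reindexAlgEquiv R R e).symm A.1)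
    rw [AlgEquiv.apply_symm_apply] at this
    rw [← this]
    exact A.2⟩
  left_inv A := Subtype.ext (AlgEquiv.symm_apply_apply _ _)
  right_inv A := Subtype.ext (AlgEquiv.apply_symm_apply _ _)
  map_mul' A B := Subtype.ext (map_mul _ _ _)

lemma slReindex_coe (e : κ ≃ ι) (A : SpecialLinearGroup κ R) :
    (slReindex R e A : Matrix ι ι R) = reindexAlgEquiv R R e A.1 := rfl

end

lemma map_center {G H : Type*} [Group G] [Group H] (f : G ≃* H) :
    (Subgroup.center G).map (f : G →* H) = Subgroup.center H := by
  ext z
  rw [Subgroup.mem_map, Subgroup.mem_center_iff]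
  constructor
  · rintro ⟨x, hx, rfl⟩ g
    obtain ⟨g', rfl⟩ := f.surjective g
    rw [Subgroup.mem_center_iff] at hx
    show f g' * f x = f x * f g'
    rw [← map_mul, ← map_mul, hx g']
  · intro hz
    refine ⟨f.symm z, ?_, f.apply_symm_apply z⟩
    rw [Subgroup.mem_center_iff]
    intro g
    apply f.injective
    rw [map_mul, map_mul, f.apply_symm_apply]
    exact hz (f g)

section
variable {κ ι : Type*} [Fintype κ] [DecidableEq κ] [Fintype ι] [DecidableEq ι]
variable (R : Type*) [CommRing R]

/-- reindexing the projective special linear group along a bijection of the index types -/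
noncomputable def pslReindex (e : κ ≃ ι) :
    ProjectiveSpecialLinearGroup κ R ≃* ProjectiveSpecialLinearGroup ι R :=
  QuotientGroup.congr _ _ (slReindex R e) (map_center (slReindex R e))

end

/-- transport of an embedding with trivial centralizer along an isomorphism -/
lemma transport {G G' H : Type*} [Group G] [Group G'] [Group H] (Φ : G ≃* G') (φ₀ : H →* G)
    (hinj : Function.Injective φ₀) (hcent : Subgroup.centralizer (φ₀.range : Set G) = ⊥) :
    ∃ φ : H →* G', Function.Injective φ ∧ Subgroup.centralizer (φ.range : Set G') = ⊥ := by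
  refine ⟨Φ.toMonoidHom.comp φ₀, Φ.injective.comp hinj, ?_⟩
  rw [eq_bot_iff]
  intro x hx
  rw [Subgroup.mem_bot]
  have h1 : Φ.symm x ∈ Subgroup.centralizer (φ₀.range : Set G) := by
    rw [Subgroup.mem_centralizer_iff]
    rintro _ ⟨h, rfl⟩
    apply Φ.injective
    rw [map_mul, map_mul, Φ.apply_symm_apply]
    exact (Subgroup.mem_centralizer_iff.mp hx) (Φ (φ₀ h)) ⟨h, rfl⟩
  rw [hcent, Subgroup.mem_bot] at h1
  have := congrArg Φ h1
  rwa [Φ.apply_symm_apply, map_one] at this

end Cfsg.Agent.Lib.Helper42.PSLReindex
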