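import Mathlib
import Cfsg.Agent.Lib.Helper42.ReeDegStmt

/-!
# Minimal degree of a complex representation of the small Ree group: assembly (S2343)
-/

set_option autoImplicit false

namespace Cfsg.Agent.Lib.Helper42.ReeDegAsm

open Cfsg.Agent.Lib.Helper42.ReeDegStmt

universe u

/-- the degree bound from the axioms and the pieces -/
theorem deg_of_ax (pKer : KerP.{u}) (pEig : EigP.{u}) (pIndep : IndepP.{u}) (pTrz : TrzP.{u})
    (pK4 : K4P.{u}) (pOrb : OrbP.{u})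
    {G : Type u} [Group G] [Finite G] {Z A U H : Subgroup G} {t : G} {q : ℕ}
    (hax : RAx G Z A U H t q)
    (k : ℕ) (ρ : Representation ℂ G (Fin k → ℂ)) (hirr : ρ.IsIrreducible) (hk : 2 ≤ k) :
    q * (q - 1) + 1 ≤ k := by
  obtain ⟨z₀, hz₀Z, hz₀1⟩ := hax.uf.exZ
  have hz₀A : z₀ ∈ A := hax.uf.ZA hz₀Z
  have hρz : ρ z₀ ≠ 1 := pKer G hax.simple k ρ hirr hk z₀ hz₀1
  obtain ⟨μ₀, w₀, hw₀, heig₀, hμz⟩ := pEig G A hax.uf.commA k ρ z₀ hz₀A hρz
  -- `μ₀` is multiplicative and nonzero on `A`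
  have hmul : ∀ a ∈ A, ∀ b ∈ A, μ₀ (a * b) = μ₀ a * μ₀ b := by
    intro a ha b hb
    have h1 : ρ (a * b) w₀ = μ₀ (a * b) • w₀ := heig₀ _ (A.mul_mem ha hb)
    have h2 : ρ (a * b) w₀ = (μ₀ a * μ₀ b) • w₀ := by
      rw [map_mul, Module.End.mul_apply, heig₀ b hb, map_smul, heig₀ a ha, smul_smul, mul_comm]
    have h3 : (μ₀ (a * b) - μ₀ a * μ₀ b) • w₀ = 0 := by rw [sub_smul, ← h1, ← h2, sub_self]
    rcases smul_eq_zero.mp h3 with h | h
    · exact sub_eq_zero.mp h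
    · exact absurd h hw₀
  have hne : ∀ a ∈ A, μ₀ a ≠ 0 := by
    intro a ha h0
    have h1 : ρ a w₀ = 0 := by rw [heig₀ a ha, h0, zero_smul]
    have h2 : ρ (a⁻¹ * a) w₀ = 0 := by rw [map_mul, Module.End.mul_apply, h1, map_zero]
    rw [inv_mul_cancel, map_one] at h2
    exact hw₀ h2
  obtain ⟨g, hgA, hgZ, hdist⟩ := pOrb G Z A U H t q hax.uf hax.hf
  let μ : Fin (q * (q - 1)) → G → ℂ := fun j a => μ₀ ((g j)⁻¹ * a * g j)
  let w : Fin (q * (q - 1)) → (Fin k → ℂ) := fun j => ρ (g j) w₀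
  have hw : ∀ j, w j ≠ 0 := by
    intro j h0
    have h1 : ρ (g j) w₀ = 0 := h0
    have h2 : ρ ((g j)⁻¹ * g j) w₀ = 0 := by rw [map_mul, Module.End.mul_apply, h1, map_zero]
    rw [inv_mul_cancel, map_one] at h2
    exact hw₀ h2
  have heig : ∀ j, ∀ a ∈ A, ρ a (w j) = μ j a • w j := by
    intro j a ha
    show ρ a (ρ (g j) w₀) = μ₀ ((g j)⁻¹ * a * g j) • ρ (g j) w₀
    have e : a * g j = g j * ((g j)⁻¹ * a * g j) := by group
    rw [← Module.End.mul_apply, ← map_mul, e, map_mul, Module.End.mul_apply,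
      heig₀ _ (hgA j a ha).1, map_smul]
  have hli : LinearIndependent ℂ w :=
    pIndep G A k (q * (q - 1)) ρ μ w hw heig (hdist μ₀ hmul hne ⟨z₀, hz₀Z, hμz⟩)
  have hcard : q * (q - 1) ≤ k := by
    have := hli.fintype_card_le_finrank
    simpa using this
  by_contra hlt
  have hkq : k = q * (q - 1) := le_antisymm (Nat.lt_succ_iff.mp (not_le.mp hlt)) hcard
  subst hkq
  have ht1 : t ≠ 1 := by
    intro h
    have := hax.hf.tInv
    rw [h, orderOf_one] at this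
    omega
  have htinvH : t⁻¹ ∈ H := H.inv_mem hax.hf.tH
  have htinv1 : t⁻¹ ≠ 1 := by
    intro h
    exact ht1 (inv_eq_one.mp h)
  have htr : LinearMap.trace ℂ (Fin (q * (q - 1)) → ℂ) (ρ t) = 0 := by
    apply pTrz G A _ ρ μ w hli heig t
    · intro a ha
      have := hax.hf.normHA t⁻¹ htinvH a ha
      simpa using this
    · intro j
      have hz₁ : g j * z₀ * (g j)⁻¹ ∈ Z := (hgZ j z₀ hz₀Z).2
      obtain ⟨w', hw'Z, hw'⟩ := hax.hf.stabH t⁻¹ htinvH htinv1 _ hz₁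
      have hw'A : w' ∈ A := hax.uf.ZA hw'Z
      refine ⟨w', hw'A, ?_⟩
      have e1 : t⁻¹ * w' * t = (g j * z₀ * (g j)⁻¹) * w' := by
        rw [← hw', inv_inv]; group
      show μ₀ ((g j)⁻¹ * (t⁻¹ * w' * t) * g j) ≠ μ₀ ((g j)⁻¹ * w' * g j)
      rw [e1]
      have e2 : (g j)⁻¹ * (g j * z₀ * (g j)⁻¹ * w') * g j = z₀ * ((g j)⁻¹ * w' * g j) := by
        group
      rw [e2, hmul z₀ hz₀A _ (hgA j w' hw'A).1]
      intro h
      have hne' := hne _ (hgA j w' hw'A).1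
      apply hμz
      have h0 : (μ₀ z₀ - 1) * μ₀ ((g j)⁻¹ * w' * g j) = 0 := by
        rw [sub_mul, h, one_mul, sub_self]
      rcases mul_eq_zero.mp h0 with h' | h'
      · exact sub_eq_zero.mp h'
      · exact absurd h' hne'
  have hinv : ∀ s : G, orderOf s = 2 → LinearMap.trace ℂ (Fin (q * (q - 1)) → ℂ) (ρ s) = 0 := by
    intro s hs
    obtain ⟨x, rfl⟩ := hax.invConj s hs
    have e : ρ (x * t * x⁻¹) = ρ x * (ρ t * ρ x⁻¹) := by
      rw [mul_assoc, MonoidHom.map_mul, MonoidHom.map_mul]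
    have e2 : ρ t * ρ x⁻¹ * ρ x = ρ t := by
      rw [mul_assoc, ← MonoidHom.map_mul, inv_mul_cancel, MonoidHom.map_one, mul_one]
    rw [e, LinearMap.trace_mul_comm, e2]
    exact htr
  obtain ⟨a, b, ha, hb, hab, hcomm⟩ := hax.klein
  have ha2 : a * a = 1 := by
    have := pow_orderOf_eq_one a
    rwa [ha, pow_two] at this
  have hb2 : b * b = 1 := by
    have := pow_orderOf_eq_one b
    rwa [hb, pow_two] at this
  have habo : orderOf (a * b) = 2 := by
    apply orderOf_eq_prime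
    · rw [pow_two]
      calc a * b * (a * b) = a * (b * a) * b := by group
        _ = a * (a * b) * b := by rw [hcomm]
        _ = (a * a) * (b * b) := by group
        _ = 1 := by rw [ha2, hb2, one_mul]
    · intro h
      apply hab
      have h1 : a = b⁻¹ := eq_inv_of_mul_eq_one_left h
      have h2 : b⁻¹ = b := inv_eq_of_mul_eq_one_left hb2
      rw [h1, h2]
  have h4 := pK4 G _ ρ a b ha2 hb2 hcomm (hinv a ha) (hinv b hb) (hinv _ habo)
  have h5 := hax.mod4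
  rw [Nat.mod_eq_zero_of_dvd h4] at h5
  exact absurd h5 (by norm_num)

end Cfsg.Agent.Lib.Helper42.ReeDegAsm
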